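/-
Project T3 (S3253: centralisers of elements of order 3 are `3 × 3` or `3 × A₄`): structures and the steps of the proof as
propositions.
-/
import Cfsg.Agent.Even.Amb2
import Cfsg.Statements.S3253

set_option autoImplicit false
set_option linter.unusedSectionVars false
open Cfsg Subgroup CL.Even CL.Grp

namespace CL.T3

universe u

section
variable {G : Type u} [Group G]

/-- centraliser of an element -/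
abbrev C1 (x : G) : Subgroup G := centralizer ({x} : Set G)
/-- all squares are trivial -/
def El (H : Subgroup G) : Prop := ∀ a ∈ H, a * a = 1
/-- `O₂(C(x))` for `x` of order 3 -/
def V (x : G) : Subgroup G := closure {y | y * x = x * y ∧ y * y = 1}
/-- `T` is a Sylow 2-subgroup of `H` -/
abbrev Sy (T H : Subgroup G) : Prop := IsSylowIn 2 T H

theorem mem_C1 {x y : G} : y ∈ C1 x ↔ y * x = x * y := mem_centralizer_singleton_iff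

theorem El.comm {H : Subgroup G} (h : El H) {a b : G} (ha : a ∈ H) (hb : b ∈ H) : a * b = b * a := by
  have h1 := h a ha
  have h2 := h b hb
  have h3 := h _ (H.mul_mem ha hb)
  calc a * b = (a * a) * (a * b) * (b * b) := by rw [h1, h2]; group
    _ = a * (a * (a * b) * b) * b := by group
    _ = a * b := by rw [← mul_assoc a a b, h1, one_mul, h2]; group
    _ = b * a := by
      have : a * (a * b * (a * b)) * b = a * b := by rw [h3]; group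
      rw [← this]; simp only [← mul_assoc]; rw [h1, one_mul, mul_assoc (b * a), h2, mul_one]

theorem V_le_C1 (x : G) : V x ≤ C1 x := (closure_le _).2 fun _ h => mem_C1.2 h.1

theorem V_inv (x : G) : V x⁻¹ = V x := by
  unfold V; congr 1; ext y
  exact and_congr_left fun _ => ⟨fun h => (Commute.inv_right_iff.1 h).eq, fun h => (Commute.inv_right h).eq⟩

theorem V_conj (g x : G) : V (g * x * g⁻¹) = cj g (V x) := by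
  unfold V
  rw [MonoidHom.map_closure]
  congr 1; ext y
  constructor
  · rintro ⟨h1, h2⟩
    refine ⟨g⁻¹ * y * g, ⟨?_, ?_⟩, by simp [mul_assoc]⟩
    · calc g⁻¹ * y * g * x = g⁻¹ * (y * (g * x * g⁻¹)) * g := by group
        _ = x * (g⁻¹ * y * g) := by rw [h1]; group
    · calc g⁻¹ * y * g * (g⁻¹ * y * g) = g⁻¹ * (y * y) * g := by group
        _ = 1 := by rw [h2]; group
  · rintro ⟨z, ⟨h1, h2⟩, rfl⟩
    refine ⟨?_, ?_⟩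
    · show g * z * g⁻¹ * (g * x * g⁻¹) = g * x * g⁻¹ * (g * z * g⁻¹)
      calc _ = g * (z * x) * g⁻¹ := by group
        _ = _ := by rw [h1]; group
    · show g * z * g⁻¹ * (g * z * g⁻¹) = 1
      calc _ = g * (z * z) * g⁻¹ := by group
        _ = 1 := by rw [h2]; group
end

/-- The hypothesis of S3253. -/
def Hyp (G : Type u) [Group G] : Prop := ∀ s : G, orderOf s = 3 →
  Nonempty (↥(centralizer ({s} : Set G)) ≃* (Multiplicative (ZMod 3) × Multiplicative (ZMod 3))) ∨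
  Nonempty (↥(centralizer ({s} : Set G)) ≃* (Multiplicative (ZMod 3) × ↥(alternatingGroup (Fin 4))))

abbrev A6 := ↥(alternatingGroup (Fin 6))
def IsL34 (G : Type u) [Group G] : Prop := ∃ (F : Type) (_ : Field F) (_ : Fintype F), Fintype.card F = 4 ∧
  Nonempty (G ≃* Matrix.ProjectiveSpecialLinearGroup (Fin 3) F)

/-- The conclusion of S3253. -/
def Concl (G : Type u) [Group G] : Prop :=
  Nonempty (G ≃* ↥(alternatingGroup (Fin 6))) ∨ Nonempty (G ≃* ↥(alternatingGroup (Fin 7))) ∨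
    (∃ (F : Type) (_ : Field F) (_ : Fintype F), (Fintype.card F = 4 ∨ Fintype.card F = 7) ∧
      Nonempty (G ≃* Matrix.ProjectiveSpecialLinearGroup (Fin 3) F)) ∨
    (∃ (F : Type) (_ : Field F) (_ : Fintype F), Fintype.card F = 25 ∧ Nonempty (G ≃* Cfsg.PSU 3 F 5)) ∨
    Cfsg.Spor.IsoM22 G

/-- All centralisers of elements of order 3 are `3 × 3`. -/
def H9 (G : Type u) [Group G] : Prop := ∀ y : G, orderOf y = 3 → Nat.card (C1 y) = 9 ∧ ∀ g ∈ C1 y, g ^ 3 = 1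

/-- Local consequences of the hypothesis. -/
structure Loc (G : Type u) [Group G] : Prop where
  ex : ∃ s : G, orderOf s = 3
  mem : ∀ x : G, orderOf x = 3 → ∀ y, y ∈ V x ↔ y * x = x * y ∧ y * y = 1
  two : ∀ x : G, orderOf x = 3 → ∀ y k, y * x = x * y → y ^ 2 ^ k = 1 → y ∈ V x
  cV : ∀ x : G, orderOf x = 3 → V x ≠ ⊥ → Nat.card (V x) = 4
  cC : ∀ x : G, orderOf x = 3 → Nat.card (C1 x) = 9 * Nat.card (V x)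
  ex3 : ∀ x : G, orderOf x = 3 → ∃ y, orderOf y = 3 ∧ x * y = y * x ∧ y ∉ zpowers x
  cP : ∀ x y : G, orderOf x = 3 → orderOf y = 3 → x * y = y * x → y ∉ zpowers x →
    C1 x ⊓ C1 y = zpowers x ⊔ zpowers y
  not27 : ¬ 27 ∣ Nat.card G
  inv9 : ∀ t : G, orderOf t = 2 → ¬ 9 ∣ Nat.card (C1 t)
  ord : ∀ g : G, 3 ∣ orderOf g → orderOf g = 3 ∨ orderOf g = 6
  ab : ∀ A : Subgroup G, IsMulCommutative A → 3 ∣ Nat.card A → Nat.card A ≤ 12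

/-- The base frame: `P` Sylow 3, `i` inverts `P`, `f² = i`. -/
structure Bs (G : Type u) [Group G] where
  P : Subgroup G
  i : G
  f : G
  simp : IsSimpleGroup G
  nab : ¬ IsMulCommutative G
  loc : Loc G
  cP : Nat.card P = 9
  o3 : ∀ p ∈ P, p ≠ 1 → orderOf p = 3
  cm : ∀ p ∈ P, ∀ q ∈ P, p * q = q * p
  gen : ∀ p ∈ P, p ≠ 1 → ∀ q ∈ P, q ∉ zpowers p → zpowers p ⊔ zpowers q = P
  four : ∀ p ∈ P, p ≠ 1 → ∀ q ∈ P, q ∉ zpowers p → ∀ r ∈ P,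
    r ∈ zpowers p ∨ r ∈ zpowers q ∨ r ∈ zpowers (p * q) ∨ r ∈ zpowers (p * q⁻¹)
  cj3 : ∀ s : G, orderOf s = 3 → ∃ g : G, g * s * g⁻¹ ∈ P
  i2 : orderOf i = 2
  iinv : ∀ p ∈ P, i * p * i⁻¹ = p⁻¹
  fN : f ∈ 𝒩(P)
  ff : f * f = i
  fmov : ∀ p ∈ P, p ≠ 1 → f * p * f⁻¹ ∉ zpowers p
  nP : Nat.card 𝒩(P) = 36 ∨ Nat.card 𝒩(P) = 72
  fix : ∀ n ∈ 𝒩(P), ∀ x ∈ P, x ≠ 1 → n * x * n⁻¹ ∈ zpowers x → ∃ p ∈ P, n = p ∨ n = p * i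
  sq : ∀ n ∈ 𝒩(P), n * n ∈ P → ∃ p ∈ P, n = p ∨ n = p * i
  PV : ∀ x ∈ P, P ≤ 𝒩(V x)
  iV : ∀ x ∈ P, i ∈ 𝒩(V x)
  iC : ∀ x ∈ P, x ≠ 1 → V x ≠ ⊥ → Nat.card (V x ⊓ C1 i : Subgroup G) = 2

abbrev All (p : ∀ (G : Type u) [Group G] [Finite G], Prop) : Prop := ∀ (G : Type u) [Group G] [Finite G], p G

/-! ### Set-up -/
def LocS : Prop := All.{u} fun G _ _ => (Hyp G → (∃ s : G, orderOf s = 3) → Loc G) ∧
  (H9 G → (∃ s : G, orderOf s = 3) → Loc G) ∧ (Loc G → (∀ s : G, orderOf s = 3 → V s = ⊥) → H9 G)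
def BsS : Prop := All.{u} fun G _ _ => IsSimpleGroup G → ¬ IsMulCommutative G → Loc G → Nonempty (Bs G)
/-- `P`-invariant `3'`-subgroups -/
def GenS : Prop := All.{u} fun G _ _ => ∀ (B : Bs G) (H : Subgroup G), B.P ≤ 𝒩(H) → ¬ 3 ∣ Nat.card H →
  IsPGroup 2 H ∧ (∀ x ∈ B.P, x ≠ 1 → V x ≤ H ∨ V x ⊓ H = ⊥) ∧
  ∀ K : Subgroup G, (∀ x ∈ B.P, x ≠ 1 → V x ≤ H → V x ≤ K) → H ≤ K
/-- centraliser and normaliser of `V x` -/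
def CvS : Prop := All.{u} fun G _ _ => ∀ (B : Bs G), ∀ x ∈ B.P, x ≠ 1 → V x ≠ ⊥ → ∃ Q : Subgroup G,
  IsPGroup 2 Q ∧ Q ≤ 𝒞(V x) ∧ Nat.card 𝒞(V x) = 3 * Nat.card Q ∧ 𝒩(V x) ≤ 𝒩(Q) ∧
  (∀ g ∈ 𝒞(V x), ∀ k : ℕ, g ^ 2 ^ k = 1 → g ∈ Q) ∧ Nat.card 𝒩(V x) = 6 * Nat.card 𝒞(V x) ∧
  𝒞(V x) = Q ⊔ zpowers x
/-- 3-solvable overgroups of `P` -/
def L3S : Prop := All.{u} fun G _ _ => ∀ (B : Bs G) (X : Subgroup G), B.P ≤ X →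
  (Group.IsSolvable X ∨ (B.i ∈ X ∧ ∀ n ∈ X, n ∈ 𝒩(B.P) → ∃ p ∈ B.P, n = p ∨ n = p * B.i)) →
  ∃ O : Subgroup G, O ≤ X ∧ X ≤ 𝒩(O) ∧ IsPGroup 2 O ∧ (∀ x ∈ B.P, x ≠ 1 → V x ≤ X → V x ≤ O) ∧
    ∀ g ∈ X, ∃ o ∈ O, ∃ n ∈ X, n ∈ 𝒩(B.P) ∧ g = o * n

/-! ### Filters -/
def FL2S : Prop := All.{u} fun G _ _ => Loc G → ∀ (F : Type) [Field F] [Fintype F],
  Nonempty (G ≃* Matrix.ProjectiveSpecialLinearGroup (Fin 2) F) → Nonempty (G ≃* A6)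
def FL3S : Prop := All.{u} fun G _ _ => Loc G → ∀ (F : Type) [Field F] [Fintype F],
  Nonempty (G ≃* Matrix.ProjectiveSpecialLinearGroup (Fin 3) F) → Fintype.card F = 4 ∨ Fintype.card F = 7
def FU3S : Prop := All.{u} fun G _ _ => Loc G → ∀ (F : Type) [Field F] [Fintype F] (q : ℕ), Fintype.card F = q ^ 2 →
  3 ≤ q → Nonempty (G ≃* Cfsg.PSU 3 F q) → q = 5
def F1S : Prop := All.{u} fun G _ _ => IsSimpleGroup G → ¬ IsMulCommutative G → H9 G → 3 ∣ Nat.card G →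
  Nonempty (G ≃* A6) ∨ IsL34 G
def K1S : Prop := All.{u} fun G _ _ => ∀ (B : Bs G), ∀ x ∈ B.P, x ≠ 1 → V x ≠ ⊥ → Nat.card 𝒞(V x) = 12 → Concl G
def F14S : Prop := All.{u} fun G _ _ => IsSimpleGroup G → ¬ IsMulCommutative G → Loc G → SectionalPRankLE 2 4 G →
  (∀ t : G, IsTwoCentralInvolution t → Group.IsSolvable (C1 t)) →
  ∀ E : Subgroup G, IsPGroup 2 E → E ≠ ⊥ → 𝒞(E) ≤ E → ¬ Group.IsSolvable 𝒩(E) → Concl G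
def F15S : Prop := All.{u} fun G _ _ => IsSimpleGroup G → ¬ IsMulCommutative G → Loc G → SectionalPRankLE 2 4 G →
  ∀ t : G, orderOf t = 2 → IsPConstrained 2 (C1 t) → Group.IsSolvable (C1 t)
def FT3S : Prop := All.{u} fun K _ _ => IsSimpleGroup K → ¬ IsMulCommutative K → ∀ x : K, orderOf x = 3 →
  Nat.card (C1 x) = 3 → ¬ 16 ∣ Nat.card K
def X32S : Prop := All.{u} fun K _ _ => IsSimpleGroup K → ¬ IsMulCommutative K → ∀ (s : K) (Q : Subgroup K),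
  orderOf s = 2 → s ∈ Q → Nat.card Q = 32 → Q ≤ C1 s → C1 s ≤ 𝒩(Q) → (∀ a ∈ Q, a * a ∈ zpowers s) →
  (∀ a ∈ Q, (∀ b ∈ Q, a * b = b * a) → a ∈ zpowers s) → C1 s ⊓ 𝒞(Q) ≤ Q →
  (∀ U : Subgroup K, IsPGroup 2 U → U ≤ C1 s → C1 s ≤ 𝒩(U) → U ≤ Q) → 9 ∣ Nat.card K
def SzS : Prop := All.{u} fun K _ _ => IsSimpleGroup K → ¬ IsMulCommutative K → ¬ 3 ∣ Nat.card K →
  64 ∣ Nat.card K ∧ (¬ 128 ∣ Nat.card K → ∀ T : Subgroup K, IsPGroup 2 T → Nat.card {t // t ∈ T ∧ t * t = 1} ≤ 8)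
def A6S : Prop := (∀ s t : A6, orderOf s = 2 → orderOf t = 2 → ∃ g, g * s * g⁻¹ = t) ∧
  (∀ B : Subgroup A6, El B → Nat.card B ≤ 4) ∧ (∀ S : Subgroup A6, Nat.card S ≠ 40) ∧
  (∀ g : A6, g = 1 ∨ ∃ n : ℕ, orderOf (g ^ n) = 2 ∨ orderOf (g ^ n) = 3 ∨ orderOf (g ^ n) = 5) ∧
  ¬ Group.IsSolvable A6 ∧ Nat.card A6 = 360 ∧
  ∀ S : Subgroup A6, Nat.card S = 24 → ∃ D K : Subgroup A6, K ≤ D ∧ D ≤ S ∧ Nat.card K = 4 ∧ Nat.card D = 8 ∧ El K ∧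
    S ≤ 𝒩(K) ∧ (∃ s ∈ D, ∃ t ∈ K, s * t ≠ t * s) ∧ (∃ s ∈ D, s ∉ K ∧ s * s = 1) ∧
    ∀ x ∈ S, orderOf x = 3 → ∀ k ∈ K, k * x = x * k → k = 1
def L4S : Prop := All.{u} fun Y _ _ => IsL34 Y → (∀ s t : Y, orderOf s = 2 → orderOf t = 2 → ∃ g, g * s * g⁻¹ = t) ∧
  ∀ E : Subgroup Y, IsPGroup 2 E → ∃ j₁ ∈ 𝒞(E), ∃ j₂ ∈ 𝒞(E), orderOf j₁ = 2 ∧ orderOf j₂ = 2 ∧ j₁ ≠ j₂ ∧ j₁ * j₂ = j₂ * j₁

/-! ### General lemmas -/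
def G0S : Prop := All.{u} fun G _ _ => ∀ R M : Subgroup G, El R → R ≤ M →
  (∀ g : G, cj g R ≤ 𝒩(R) → cj g R = R) → (∃ g t : G, t ∈ cj g R ∧ t ∈ M ∧ t ∉ R) → M ≤ 𝒩(R) →
  ∃ (g t : G) (B : Subgroup G), t ∈ cj g R ∧ t ∈ M ∧ t ∉ R ∧ B ≤ R ∧ B ≤ 𝒩(cj g R) ∧
    Nat.card R * Nat.card (B ⊓ cj g R : Subgroup G) ≤ Nat.card B * Nat.card (R ⊓ C1 t : Subgroup G)
/-- hypotheses of the strong closure lemma -/
structure GH {G : Type u} [Group G] (R M : Subgroup G) : Prop where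
  el : El R
  RM : R ≤ M
  MN : M ≤ 𝒩(R)
  idx : M.relIndex 𝒩(R) ∣ 2
  free : ∀ t ∈ M, t ∉ R → t * t = 1 → Nat.card (R ⊓ C1 t : Subgroup G) ^ 2 = Nat.card R
  rank : ∀ B : Subgroup G, B ≤ 𝒩(R) → El B → Nat.card B ^ 2 < Nat.card R * Nat.card (B ⊓ R : Subgroup G) ^ 2
  nt : ∀ t ∈ 𝒩(R), t ∉ M → t * t = 1 → 4 * Nat.card (R ⊓ C1 t : Subgroup G) ≤ Nat.card R
def G1S : Prop := All.{u} fun G _ _ => ∀ R M : Subgroup G, GH R M →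
  (∀ g : G, cj g R ≤ 𝒩(R) → cj g R = R) ∧ ∀ g t : G, t ∈ cj g R → t ∈ 𝒩(R) → t ∈ R
def GS : Prop := All.{u} fun G _ _ => IsSimpleGroup G → ¬ IsMulCommutative G → ∀ (R M : Subgroup G) (i : G), GH R M →
  R ≠ ⊥ → i ∈ M → i ∉ R → i * i = 1 → i ∉ 𝒞(R) → False
def HS : Prop := All.{u} fun G _ _ => IsSimpleGroup G → ¬ IsMulCommutative G → ∀ (T R Z : Subgroup G) (i a : G),
  Sy T ⊤ → ¬ T ≤ 𝒞(T) → R ≤ T → Z ≤ R → Z ≤ 𝒞(R) → El Z → Z ≠ ⊥ → 𝒩(R) ≤ 𝒩(Z) → (∀ g : G, cj g R ≤ T → cj g R = R) →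
  (∀ t ∈ R, t ∉ Z → t * t = 1 → ∃ E : Subgroup G, E ≤ T ⊓ C1 t ∧ ∀ h : G, cj h E ≤ T → h ∈ 𝒩(R)) →
  (∀ t ∈ T, t ∉ R → t * t = 1 → ∃ g : G, g * i * g⁻¹ = t) → i ∈ T → i ∉ R → i * i = 1 →
  a ∈ R → a ∉ Z → a * a = 1 → a * i = i * a → False
def OdS : Prop := All.{u} fun G _ _ => ∀ (T A B : Subgroup G), Sy T ⊤ → A ≤ T → T ≤ 𝒩(A) → T ≤ 𝒩(B) →
  (∀ g : G, cj g A ≤ T → cj g A = A ∨ cj g A = B) → ∀ g : G, cj g A ≤ T → cj g A = A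
def RkS : Prop := All.{u} fun G _ _ => ∀ (T A : Subgroup G), Sy T ⊤ → A ≤ T → El A → Nat.card A = 8 →
  T ⊓ 𝒞(A) ≤ A → SectionalPRankLE 2 4 G
/-- the radical and a simple chief factor of a non-solvable `H` -/
structure Rd {G : Type u} [Group G] (H T : Subgroup G) (z : G) where
  L : Subgroup G
  N : Subgroup G
  K : Type u
  [gK : Group K]
  [fK : Finite K]
  φ : N →* K
  sur : Function.Surjective φ
  ker : ∀ n : N, φ n = 1 ↔ (n : G) ∈ L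
  simp : IsSimpleGroup K
  nab : ¬ IsMulCommutative K
  LN : L ≤ N
  NH : N ≤ H
  nL : H ≤ 𝒩(L)
  nN : H ≤ 𝒩(N)
  sol : Group.IsSolvable L
  mx : ∀ X : Subgroup G, X ≤ H → H ≤ 𝒩(X) → Group.IsSolvable X → X ≤ L
  zL : z ∈ L
  L3 : ¬ 3 ∣ Nat.card L
  K9 : ¬ 9 ∣ Nat.card K
  N3 : ∀ x ∈ H, orderOf x = 3 → x ∈ N
  ns : ¬ Group.IsSolvable (H ⊓ 𝒩(T ⊓ L) : Subgroup G)
  sL : Sy (T ⊓ L) L
  sN : Sy (T ⊓ N) N
  c4 : 4 * Nat.card (T ⊓ L : Subgroup G) ≤ Nat.card (T ⊓ N : Subgroup G)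
  cK : Nat.card (T ⊓ N : Subgroup G) ∣ Nat.card K * Nat.card (T ⊓ L : Subgroup G)
def RdS : Prop := All.{u} fun G _ _ => ∀ (T : Subgroup G) (z : G), orderOf z = 2 → z ∈ T → Sy T (C1 z) →
  Nat.card T = 128 → 16 < Nat.card {t // t ∈ T ∧ t * t ∈ zpowers z} → ¬ 9 ∣ Nat.card (C1 z) →
  ¬ Group.IsSolvable (C1 z) → Nonempty (Rd (C1 z) T z)
def ConS : Prop := All.{u} fun G _ _ => ∀ (H T : Subgroup G) (z : G) (D : Rd H T z), Sy T H → El (T ⊓ D.L) →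
  H ⊓ 𝒞(T ⊓ D.L) ≤ T ⊓ D.L → IsPConstrained 2 H
def Mb1S : Prop := All.{u} fun Y _ _ => H9 Y → ∀ (P : Subgroup Y) (i : Y), Nat.card P = 9 → i ∉ P →
  (∀ p ∈ P, i * p * i⁻¹ = p⁻¹) → P.Normal ∨
  (∃ N : Subgroup Y, N.Normal ∧ N.index ∣ 2 ∧ P ≤ N ∧ i ∈ N ∧ IsSimpleGroup N ∧ ¬ IsMulCommutative N ∧
    (Nat.card (𝒩(P) ⊓ N : Subgroup Y) = 36 ∨ (N = ⊤ ∧ Nat.card 𝒩(P) = 72)))
def MbS : Prop := All.{u} fun Y _ _ => H9 Y → ∀ (P : Subgroup Y) (i : Y), Nat.card P = 9 → i ∉ P →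
  (∀ p ∈ P, i * p * i⁻¹ = p⁻¹) → P.Normal ∨
  (∃ N : Subgroup Y, N.Normal ∧ N.index ∣ 2 ∧ P ≤ N ∧ i ∈ N ∧ Nat.card (𝒩(P) ⊓ N : Subgroup Y) = 36 ∧ Nonempty (N ≃* A6)) ∨
  (Nat.card 𝒩(P) = 72 ∧ IsL34 Y)
def Q8S : Prop := All.{u} fun G _ _ => ∀ (R E : Subgroup G) (i j a : G), El R → Nat.card R = 256 → Nat.card E = 8 →
  E ≤ 𝒩(R) → i ∈ E → orderOf i = 2 → (∀ e ∈ E, e * e = 1 → e = 1 ∨ e = i) → a ∈ R →
  (∀ K : Subgroup G, (∀ e ∈ E, e * a * e⁻¹ ∈ K) → R ≤ K) → j ∈ 𝒩(R) → j * j ∈ 𝒞(R) →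
  (∀ e ∈ E, j * e * j⁻¹ * e⁻¹ ∈ 𝒞(R)) → Nat.card (R ⊓ C1 j : Subgroup G) = 16 →
  Nat.card (R ⊓ C1 (i * j) : Subgroup G) = 16 → False

/-! ### Abelian `R` -/
structure RA (G : Type u) [Group G] extends Bs G where
  R : Subgroup G
  el : El R
  c16 : 16 ≤ Nat.card R
  CR : 𝒞(R) = R
  PN : P ≤ 𝒩(R)
  iN : i ∈ 𝒩(R)
  mx : ∀ z ∈ P, z ≠ 1 → V z ≤ 𝒩(R) → V z ≤ R
  fr : Nat.card (R ⊓ C1 i : Subgroup G) ^ 2 = Nat.card R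
def RA.O1 {G : Type u} [Group G] (A : RA G) : Prop := ∀ m ∈ 𝒩(A.R), ∀ p ∈ A.P, m * p * m⁻¹ ∈ A.R ⊔ A.P
def RA.O2 {G : Type u} [Group G] (A : RA G) : Prop := ∃ M : Subgroup G, M ≤ 𝒩(A.R) ∧ A.R ≤ M ∧ A.P ≤ M ∧ A.i ∈ M ∧
  M.relIndex 𝒩(A.R) ∣ 2 ∧ Nat.card (𝒩(A.P) ⊓ M : Subgroup G) = 36 ∧
  ∃ φ : M →* A6, Function.Surjective φ ∧ ∀ m : M, φ m = 1 ↔ (m : G) ∈ A.R
def RA.O3 {G : Type u} [Group G] (A : RA G) : Prop := 𝒩(A.P) ≤ 𝒩(A.R) ∧ Nat.card 𝒩(A.P) = 72 ∧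
  ∃ (Y : Type u) (_ : Group Y) (_ : Finite Y) (φ : 𝒩(A.R) →* Y), IsL34 Y ∧ Function.Surjective φ ∧
    ∀ m : 𝒩(A.R), φ m = 1 ↔ (m : G) ∈ A.R
def QS : Prop := All.{u} fun G _ _ => ∀ A : RA G, A.O1 ∨ A.O2 ∨ A.O3
def Ra1S : Prop := All.{u} fun G _ _ => ∀ A : RA G, ¬ A.O1

end CL.T3
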