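/-
Project T3 (S3253), part 2: the case frames.
-/
import Cfsg.Agent.T3.Defs

set_option autoImplicit false
set_option linter.unusedSectionVars false
open Cfsg Subgroup CL.Even CL.Grp

namespace CL.T3

universe u

/-- `y` is a neighbour of `x`. -/
def Bs.Nb {G : Type u} [Group G] (B : Bs G) (x y : G) : Prop := y ∈ B.P ∧ y ∉ zpowers x ∧ V y ≠ ⊥ ∧ V y ≤ 𝒞(V x)
def DegS : Prop := All.{u} fun G _ _ => ∀ (B : Bs G), ∀ x ∈ B.P, x ≠ 1 → V x ≠ ⊥ →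
  ((∀ y, ¬ B.Nb x y) → Nat.card 𝒞(V x) = 12) ∧
  (∀ y, B.Nb x y → (∀ z, B.Nb x z → z ∈ zpowers y) → Nat.card 𝒞(V x) = 48) ∧
  (∀ y w, B.Nb x y → B.Nb x w → w ∉ zpowers y → (∀ z, B.Nb x z → z ∈ zpowers y ∨ z ∈ zpowers w) →
    Nat.card 𝒞(V x) = 192)

/-! ### Case A -/
structure CA0 (G : Type u) [Group G] extends Bs G where
  x : G
  y : G
  hx : x ∈ P
  x1 : x ≠ 1
  hy : y ∈ P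
  yx : y ∉ zpowers x
  Vx : V x ≠ ⊥
  Vy : V y ≠ ⊥
  xy : V y ≤ 𝒞(V x)
  c48 : ∀ z : G, orderOf z = 3 → V z ≠ ⊥ → Nat.card 𝒞(V z) = 48

structure CA1 (G : Type u) [Group G] extends RA G where
  x : G
  y : G
  hx : x ∈ P
  x1 : x ≠ 1
  hy : y ∈ P
  yx : y ∉ zpowers x
  Vx : V x ≠ ⊥
  Vy : V y ≠ ⊥
  c48 : ∀ z : G, orderOf z = 3 → V z ≠ ⊥ → Nat.card 𝒞(V z) = 48
  RE : R = V x ⊔ V y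
  cR : Nat.card R = 16
  only : ∀ z ∈ P, z ≠ 1 → V z ≠ ⊥ → V z ≤ R → z ∈ zpowers x ∨ z ∈ zpowers y
  Cx : ∀ g ∈ 𝒞(V x), ∀ k : ℕ, g ^ 2 ^ k = 1 → g ∈ R
  Cy : ∀ g ∈ 𝒞(V y), ∀ k : ℕ, g ^ 2 ^ k = 1 → g ∈ R
  Nx : Nat.card 𝒩(V x) = 288
  Ny : Nat.card 𝒩(V y) = 288

/-- `N(E)/E ≅ A₆` -/
structure FA (G : Type u) [Group G] where
  E : Subgroup G
  T : Subgroup G
  Q : Subgroup G
  z : G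
  x : G
  y : G
  simp : IsSimpleGroup G
  nab : ¬ IsMulCommutative G
  loc : Loc G
  cE : Nat.card E = 16
  eE : El E
  CE : 𝒞(E) = E
  ns : ¬ Group.IsSolvable 𝒩(E)
  sT : Sy T 𝒩(E)
  cT : Nat.card T = 128
  EQ : E ≤ Q
  QT : Q ≤ T
  cQ : Nat.card Q = 64
  zE : z ∈ E
  z1 : z ≠ 1
  Tz : T ≤ C1 z
  cS : Nat.card (C1 z ⊓ 𝒩(E) : Subgroup G) = 384
  nQ : C1 z ⊓ 𝒩(E) ≤ 𝒩(Q)
  sqQ : ∀ q ∈ Q, q * q ∈ E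
  x3 : orderOf x = 3
  xz : x ∈ C1 z
  xE : x ∈ 𝒩(E)
  y3 : orderOf y = 3
  xy : x * y = y * x
  yx : y ∉ zpowers x
  EV : E = V x ⊔ V y
  Vx : V x ≠ ⊥
  Vy : V y ≠ ⊥
  xQ : ∀ q ∈ Q, x * q * x⁻¹ * q⁻¹ ∈ E → q ∈ E
  nab2 : ∃ s ∈ T, ∃ t ∈ Q, s * t * s⁻¹ * t⁻¹ ∉ E
  out : ∃ s ∈ T, s ∉ Q ∧ s * s = 1
  free : ∀ t ∈ 𝒩(E), t ∉ E → t * t ∈ E →
    Nat.card (E ⊓ C1 t : Subgroup G) = 4 ∧ ∃ e ∈ E, (e * t) * (e * t) = 1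
  c48 : ∀ w : G, orderOf w = 3 → V w ≠ ⊥ → Nat.card 𝒞(V w) = 48
  Cx : ∀ g ∈ 𝒞(V x), ∀ k : ℕ, g ^ 2 ^ k = 1 → g ∈ E
  Nx : Nat.card 𝒩(V x) = 288

/-- `E₀ = [E,Q]` and the extraspecial group `W` -/
structure FW (G : Type u) [Group G] extends FA G where
  E0 : Subgroup G
  W : Subgroup G
  cE0 : Nat.card E0 = 8
  E0E : E0 ≤ E
  zE0 : z ∈ E0
  yE0 : V y ≤ E0
  xE0 : ∀ v ∈ V x, v ∈ E0 → v ∈ zpowers z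
  nE0 : C1 z ⊓ 𝒩(E) ≤ 𝒩(E0)
  cW : Nat.card W = 32
  WQ : W ≤ Q
  WE : W ⊓ E = E0
  nW : C1 z ⊓ 𝒩(E) ≤ 𝒩(W)
  sqW : ∀ a ∈ W, a * a ∈ zpowers z
  cmW : ∀ a ∈ W, ∀ b ∈ W, a * b * a⁻¹ * b⁻¹ ∈ zpowers z
  invQ : ∀ t ∈ Q, t ∉ E → t * t = 1 → t ∈ W
  cin : ∀ t ∈ Q, t ∉ E → E ⊓ C1 t ≤ E0
  CQ : E ⊓ 𝒞(Q) = zpowers z
  fpf : ∀ a ∈ W, x * a * x⁻¹ * a⁻¹ ∈ zpowers z → a ∈ zpowers z
  gen0 : ∀ K : Subgroup G, (∀ e ∈ E, ∀ q ∈ Q, e * q * e⁻¹ * q⁻¹ ∈ K) → E0 ≤ K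
  two0 : ∀ s ∈ Q, ∀ t ∈ Q, s ∉ E → t ∉ E → s * t ∉ E → E0 ≤ (E ⊓ C1 s) ⊔ (E ⊓ C1 t)
  c20 : Nat.card {a // a ∈ W ∧ a * a = 1} = 20

def A1S : Prop := All.{u} fun G _ _ => CA0 G → Nonempty (CA1 G)
def A0S : Prop := All.{u} fun G _ _ => ∀ A : CA1 G, ¬ A.toRA.O3 ∧ (A.toRA.O2 → Nonempty (FA G))
def AwS : Prop := All.{u} fun G _ _ => FA G → Nonempty (FW G)
def AeS : Prop := All.{u} fun G _ _ => ∀ (A : FW G) (F : Subgroup G), F ≤ A.T → El F → Nat.card F = 16 → F ≠ A.E →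
  Nat.card (F ⊓ A.E : Subgroup G) = 4 ∧ F ⊓ A.E ≤ A.E0 ∧ Nat.card (F ⊓ A.Q : Subgroup G) = 8 ∧ F ⊓ A.Q ≤ A.W ∧
  (∀ s ∈ A.T, s ∉ A.Q → s * s = 1 → s ∈ F) ∧ (∀ t ∈ F, t ∉ A.E → A.E ⊓ C1 t = F ⊓ A.E) ∧
  ∀ F' : Subgroup G, F' ≤ A.T → El F' → Nat.card F' = 16 → F' ≠ A.E → F' = F
def A2S : Prop := All.{u} fun G _ _ => ∀ A : FW G, Sy A.T ⊤
structure A3F {G : Type u} [Group G] (A : FW G) : Prop where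
  wc : ∀ g : G, cj g A.E ≤ A.T → cj g A.E = A.E
  rk : SectionalPRankLE 2 4 G
  c16 : ∀ u ∈ A.T, u * u = 1 → 16 ≤ Nat.card (A.T ⊓ C1 u : Subgroup G)
  ZT : A.T ⊓ 𝒞(A.T) ≤ zpowers A.z
  cnt : 16 < Nat.card {t // t ∈ A.T ∧ t * t ∈ zpowers A.z}
def A3S : Prop := All.{u} fun G _ _ => ∀ A : FW G, Sy A.T ⊤ → A3F A
def A4F {G : Type u} [Group G] (A : FW G) (D : Rd (C1 A.z) A.T A.z) : Prop :=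
  A.T ⊓ D.L ≤ A.Q ∧ C1 A.z ⊓ 𝒩(A.E) ≤ 𝒩(A.T ⊓ D.L) ∧ A.W ≤ D.N
def A4aS : Prop := All.{u} fun G _ _ => ∀ (A : FW G) (D : Rd (C1 A.z) A.T A.z), A4F A D
def A4bS : Prop := All.{u} fun G _ _ => ∀ A : FW G,
  Group.IsSolvable (C1 A.z ⊓ 𝒩(A.E0) : Subgroup G) ∧ Group.IsSolvable (C1 A.z ⊓ 𝒩(A.W) : Subgroup G)
def A4cS : Prop := All.{u} fun G _ _ => ∀ (A : FW G) (D : Rd (C1 A.z) A.T A.z), A3F A → A4F A D →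
  ¬ A.T ⊓ D.L ⊓ A.W ≤ zpowers A.z
def A4dS : Prop := All.{u} fun G _ _ => ∀ (A : FW G) (D : Rd (C1 A.z) A.T A.z), A4F A D →
  A.T ⊓ D.L ⊓ A.W ≤ zpowers A.z

/-! ### Case B -/
structure CB (G : Type u) [Group G] extends Bs G where
  x : G
  y : G
  w : G
  hx : x ∈ P
  x1 : x ≠ 1
  hy : y ∈ P
  hw : w ∈ P
  yx : y ∉ zpowers x
  wx : w ∉ zpowers x
  wy : w ∉ zpowers y
  Vx : V x ≠ ⊥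
  Vy : V y ≠ ⊥
  Vw : V w ≠ ⊥
  xy : V y ≤ 𝒞(V x)
  xw : V w ≤ 𝒞(V x)
  yw : ¬ V w ≤ 𝒞(V y)
  c192 : Nat.card 𝒞(V x) = 192
  mx : ∀ z ∈ P, z ≠ 1 → V z ≠ ⊥ → Nat.card 𝒞(V z) ≤ 192

section
variable {G : Type u} [Group G]
def CB.E2 (B : CB G) : Subgroup G := V B.x ⊔ V B.y
def CB.E3 (B : CB G) : Subgroup G := V B.x ⊔ V B.w
def CB.R (B : CB G) : Subgroup G := B.E2 ⊔ B.E3
def CB.T (B : CB G) : Subgroup G := B.R ⊔ zpowers B.i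

structure B1F (B : CB G) : Prop where
  cR : Nat.card B.R = 64
  cE2 : Nat.card B.E2 = 16
  cE3 : Nat.card B.E3 = 16
  el2 : El B.E2
  el3 : El B.E3
  C2 : 𝒞(B.E2) = B.E2
  C3 : 𝒞(B.E3) = B.E3
  inf : B.E2 ⊓ B.E3 = V B.x
  RC : B.R ≤ 𝒞(V B.x)
  cmR : ∀ a ∈ B.R, ∀ b ∈ B.R, a * b * a⁻¹ * b⁻¹ ∈ V B.x
  sqR : ∀ a ∈ B.R, a * a ∈ V B.x
  dec : ∀ r ∈ B.R, ∃ v ∈ V B.x, ∃ a ∈ V B.y, ∃ b ∈ V B.w, r = v * a * b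
  cent : ∀ a ∈ B.R, a ∉ V B.x → Nat.card (B.R ⊓ C1 a : Subgroup G) = 16
  invR : ∀ a ∈ B.R, a * a = 1 → a ∈ B.E2 ∨ a ∈ B.E3
  nc : ∀ a ∈ B.E2, a ∉ V B.x → ∀ b ∈ B.E3, b ∉ V B.x → a * b ≠ b * a
  RQ : ∀ g ∈ 𝒞(V B.x), ∀ k : ℕ, g ^ 2 ^ k = 1 → g ∈ B.R
  cN : Nat.card 𝒩(V B.x) = 1152
  NR : 𝒩(B.R) = 𝒩(V B.x)
  fp : ∀ r ∈ B.R, B.x * r * B.x⁻¹ * r⁻¹ ∈ V B.x → r ∈ V B.x

structure B2F (B : CB G) (a b z : G) : Prop where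
  ha : a ∈ V B.y
  a1 : a ≠ 1
  ai : a * B.i = B.i * a
  hb : b ∈ V B.w
  b1 : b ≠ 1
  bi : b * B.i = B.i * b
  hz : z ∈ V B.x
  z1 : z ≠ 1
  zi : z * B.i = B.i * z
  iR : B.i ∉ B.R
  cT : Nat.card B.T = 128
  memT : ∀ t ∈ B.T, t ∈ B.R ∨ t * B.i ∈ B.R
  T2 : B.T ≤ 𝒩(B.E2)
  T3 : B.T ≤ 𝒩(B.E3)
  c8 : Nat.card (B.R ⊓ C1 B.i : Subgroup G) = 8
  invT : ∀ t ∈ B.T, t ∉ B.R → t * t = 1 → ∃ r ∈ B.R, r * B.i * r⁻¹ = t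
  two : ∀ F : Subgroup G, F ≤ B.T → El F → Nat.card F = 16 → F = B.E2 ∨ F = B.E3

structure B3F (B : CB G) (z : G) : Prop where
  sT : Sy B.T ⊤
  wc2 : ∀ g : G, cj g B.E2 ≤ B.T → cj g B.E2 = B.E2
  wc3 : ∀ g : G, cj g B.E3 ≤ B.T → cj g B.E3 = B.E3
  wcR : ∀ g : G, cj g B.R ≤ B.T → cj g B.R = B.R
  ZT : B.T ⊓ 𝒞(B.T) ≤ zpowers z
  Tz : B.T ≤ C1 z
  rk : SectionalPRankLE 2 4 G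
  cnt : 16 < Nat.card {t // t ∈ B.T ∧ t * t ∈ zpowers z}
  cS : Nat.card (C1 z ⊓ 𝒩(V B.x) : Subgroup G) = 384
end

def B1S : Prop := All.{u} fun G _ _ => ∀ B : CB G, B1F B
def B2S : Prop := All.{u} fun G _ _ => ∀ B : CB G, B1F B → ∃ a b z, B2F B a b z
def B3S : Prop := All.{u} fun G _ _ => ∀ (B : CB G) (a b z : G), B1F B → B2F B a b z → B3F B z
def BnS : Prop := All.{u} fun G _ _ => ∀ (B : CB G) (a b z : G), B1F B → B2F B a b z → B3F B z →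
  ¬ Group.IsSolvable 𝒩(B.E2) ∨ ¬ Group.IsSolvable 𝒩(B.E3)
def B4F {G : Type u} [Group G] (B : CB G) (z : G) (D : Rd (C1 z) B.T z) : Prop :=
  B.T ⊓ D.L ≤ B.R ∧ C1 z ⊓ 𝒩(V B.x) ≤ 𝒩(B.T ⊓ D.L) ∧ B.R ≤ D.N ∧ (B.T ⊓ D.L ≤ zpowers z ∨ V B.x ≤ B.T ⊓ D.L)
def B4S : Prop := All.{u} fun G _ _ => ∀ (B : CB G) (a b z : G) (D : Rd (C1 z) B.T z), B1F B → B2F B a b z → B3F B z →
  B4F B z D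
def Bc1S : Prop := All.{u} fun G _ _ => ∀ (B : CB G) (a b z : G) (D : Rd (C1 z) B.T z), B1F B → B2F B a b z → B3F B z →
  B4F B z D → ¬ B.T ⊓ D.L ≤ zpowers z
def Bc2S : Prop := All.{u} fun G _ _ => ∀ (B : CB G) (a b z : G) (D : Rd (C1 z) B.T z), B1F B → B2F B a b z → B3F B z →
  B4F B z D → V B.x ≤ B.T ⊓ D.L → B.T ⊓ D.L = B.E2 ∨ B.T ⊓ D.L = B.E3

/-! ### Case C -/
structure CC (G : Type u) [Group G] extends Bs G where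
  x : G
  y : G
  hx : x ∈ P
  x1 : x ≠ 1
  yf : y = f * x * f⁻¹
  nt : ∀ z ∈ P, z ≠ 1 → V z ≠ ⊥
  cx : ∀ z ∈ P, z ≠ 1 → V z ≤ 𝒞(V x)
  cy : ∀ z ∈ P, z ≠ 1 → V z ≤ 𝒞(V y)
  uw : ¬ V (x * y⁻¹) ≤ 𝒞(V (x * y))

section
variable {G : Type u} [Group G]
def CC.Z (C : CC G) : Subgroup G := V C.x ⊔ V C.y
def CC.E3 (C : CC G) : Subgroup G := C.Z ⊔ V (C.x * C.y)
def CC.E4 (C : CC G) : Subgroup G := C.Z ⊔ V (C.x * C.y⁻¹)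
def CC.R (C : CC G) : Subgroup G := C.E3 ⊔ C.E4
def CC.T (C : CC G) : Subgroup G := C.R ⊔ zpowers C.f

structure C1F (C : CC G) : Prop where
  cZ : Nat.card C.Z = 16
  cE3 : Nat.card C.E3 = 64
  cE4 : Nat.card C.E4 = 64
  cR : Nat.card C.R = 256
  el3 : El C.E3
  el4 : El C.E4
  RC : C.R ≤ 𝒞(C.Z)
  cmR : ∀ a ∈ C.R, ∀ b ∈ C.R, a * b * a⁻¹ * b⁻¹ ∈ C.Z
  dec : ∀ r ∈ C.R, ∃ v ∈ C.Z, ∃ a ∈ V (C.x * C.y), ∃ b ∈ V (C.x * C.y⁻¹), r = v * a * b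
  uZ : V (C.x * C.y) ⊓ C.E4 = ⊥
  wZ : V (C.x * C.y⁻¹) ⊓ C.E3 = ⊥
  invR : ∀ a ∈ C.R, a * a = 1 → a ∈ C.E3 ∨ a ∈ C.E4
  nc : ∀ a ∈ C.E3, a ∉ C.Z → ∀ b ∈ C.E4, b ∉ C.Z → a * b ≠ b * a
  NZ : 𝒩(C.R) ≤ 𝒩(C.Z)
  f3 : cj C.f C.E3 = C.E4
  f4 : cj C.f C.E4 = C.E3
  cZi : Nat.card (C.Z ⊓ C1 C.i : Subgroup G) = 4
  allV : ∀ z ∈ C.P, z ≠ 1 → V z ≤ C.R
structure C2F (C : CC G) : Prop where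
  N3 : 𝒩(C.E3) ≤ 𝒩(C.R)
  N4 : 𝒩(C.E4) ≤ 𝒩(C.R)
  cT : Nat.card C.T = 1024
  sT : Sy C.T 𝒩(C.R)
  iR : C.i ∉ C.R
  memT : ∀ t ∈ C.T, t * t ∈ C.R → t ∈ C.R ∨ t * C.i ∈ C.R
structure C3F (C : CC G) : Prop where
  invT : ∀ t ∈ C.T, t ∉ C.R → t * t = 1 → ∃ r ∈ C.R, r * C.i * r⁻¹ = t
  two : ∀ F : Subgroup G, F ≤ C.T → El F → Nat.card F = 64 → F = C.E3 ∨ F = C.E4
end
def C1S : Prop := All.{u} fun G _ _ => ∀ C : CC G, C1F C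
def C2S : Prop := All.{u} fun G _ _ => ∀ C : CC G, C1F C → C2F C
def C3S : Prop := All.{u} fun G _ _ => ∀ C : CC G, C1F C → C2F C → C3F C
def C4S : Prop := All.{u} fun G _ _ => ∀ C : CC G, C1F C → C2F C → C3F C → False

/-! ### Case D -/
structure CD (G : Type u) [Group G] extends Bs G where
  nt : ∀ z ∈ P, z ≠ 1 → V z ≠ ⊥
  cm4 : ∀ z ∈ P, z ≠ 1 → ∀ w ∈ P, w ≠ 1 → V w ≤ 𝒞(V z)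
structure CD1 (G : Type u) [Group G] extends RA G where
  nt : ∀ z ∈ P, z ≠ 1 → V z ≠ ⊥
  cR : Nat.card R = 256
  allV : ∀ z ∈ P, z ≠ 1 → V z ≤ R
  genR : ∀ K : Subgroup G, (∀ z ∈ P, z ≠ 1 → V z ≤ K) → R ≤ K
def D1S : Prop := All.{u} fun G _ _ => CD G → Nonempty (CD1 G)
def D2S : Prop := All.{u} fun G _ _ => ∀ D : CD1 G, ¬ D.toRA.O2
def D3S : Prop := All.{u} fun G _ _ => ∀ D : CD1 G, ¬ D.toRA.O3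

def GrS : Prop := All.{u} fun G _ _ => ∀ (B : Bs G), (∃ s : G, orderOf s = 3 ∧ V s ≠ ⊥) →
  (∃ x ∈ B.P, x ≠ 1 ∧ V x ≠ ⊥ ∧ Nat.card 𝒞(V x) = 12) ∨ Nonempty (CA0 G) ∨ Nonempty (CB G) ∨ Nonempty (CC G) ∨
    Nonempty (CD G)

end CL.T3
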