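/-
Project T3 (S3253), job Gen (helper60): `P`-invariant `3'`-subgroups; centraliser and normaliser of `V x`.
-/
import Cfsg.Agent.T3.Defs
import Cfsg.Agent.Grp.Coprime2

set_option autoImplicit false
set_option linter.unusedSectionVars false
open Cfsg Subgroup CL.Even CL.Grp

namespace CL.T3

universe u

namespace Genx

variable {G : Type u} [Group G] [Finite G]

/-- Burnside's transfer theorem -/
theorem compl {p : ℕ} [Fact p.Prime] {Z D : Subgroup G} (hZ : IsSylowIn p Z D)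
    (h : ∀ g ∈ D, g ∈ 𝒩(Z) → g ∈ 𝒞(Z)) :
    ∃ K ≤ D, D ≤ 𝒩(K) ∧ ¬ p ∣ Nat.card K ∧ Nat.card K * Nat.card Z = Nat.card D := by
  have hP : normalizer ((hZ.toSylow : Subgroup D) : Set D) ≤ centralizer ((hZ.toSylow : Subgroup D) : Set D) :=
    fun g hg => by
      have h1 : (g : G) ∈ normalizer (Z : Set G) := mem_normalizer_iff.2 fun x =>
        ⟨fun hx => (mem_normalizer_iff.1 hg ⟨x, hZ.le hx⟩).1 hx, fun hx => by
          have hxH : x ∈ D := by
            simpa [mul_assoc] using D.mul_mem (D.mul_mem (D.inv_mem g.2) (hZ.le hx)) g.2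
          exact (mem_normalizer_iff.1 hg ⟨x, hxH⟩).2 hx⟩
      exact fun x hx => Subtype.ext (h g g.2 h1 x hx)
  have c := MonoidHom.ker_transferSylow_isComplement' hZ.toSylow hP
  refine ⟨(MonoidHom.transferSylow hZ.toSylow hP).ker.map D.subtype, map_subtype_le _,
    (normal_subgroupOf_iff_le_normalizer (map_subtype_le _)).1 ?_, ?_, ?_⟩
  · rw [subgroupOf, comap_map_eq_self_of_injective (subtype_injective _)]
    infer_instance
  · rw [card_map_of_injective (subtype_injective _)]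
    exact MonoidHom.not_dvd_card_ker_transferSylow _ hP
  · rw [card_map_of_injective (subtype_injective _), ← c.card_mul_card,
      ← Nat.card_congr (subgroupOfEquivOfLe hZ.le).toEquiv]
    rfl

theorem aut_dvd {X : Type*} [Group X] [Finite X] (h : Nat.card X ≤ 4) : Nat.card (MulAut X) ∣ 6 := by
  classical
  have := Fintype.ofFinite X
  let φ : MulAut X →* Equiv.Perm {x : X // x ≠ 1} :=
    MonoidHom.mk' (fun α => Equiv.Perm.subtypePerm α.toEquiv fun x => by simp) fun _ _ => rfl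
  refine (card_dvd_of_injective φ ((injective_iff_map_eq_one φ).2 fun α e => MulEquiv.ext fun x => ?_)).trans ?_
  · by_cases hx : x = 1
    · simp [hx]
    · exact congrArg Subtype.val (Equiv.congr_fun e ⟨x, hx⟩)
  · rw [Nat.card_eq_fintype_card, Fintype.card_perm, Fintype.card_subtype_compl, Fintype.card_subtype_eq]
    exact Nat.factorial_dvd_factorial (n := 3) (by rw [Nat.card_eq_fintype_card] at h; omega)

theorem six {W : Subgroup G} (h4 : Nat.card W = 4) {a b : G} (ha : a ∈ 𝒩(W)) (hb : b ∈ 𝒩(W)) (a2 : a ^ 2 = 1)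
    (b3 : b ^ 3 = 1) (ac : a ∉ 𝒞(W)) (bc : b ∉ 𝒞(W)) : Nat.card 𝒩(W) = 6 * Nat.card 𝒞(W) := by
  let φ := W.normalizerMonoidHom
  have hk : φ.ker = 𝒞(W).subgroupOf 𝒩(W) := W.normalizerMonoidHom_ker
  have h1 : Nat.card φ.ker * Nat.card φ.range = Nat.card 𝒩(W) := by rw [← φ.ker.card_mul_index, index_ker]
  have h2 : Nat.card φ.ker = Nat.card 𝒞(W) := by
    rw [hk]; exact Nat.card_congr (subgroupOfEquivOfLe (cent_le_norm W)).toEquiv
  have h3 : Nat.card φ.range ∣ 6 := (card_subgroup_dvd_card _).trans (aut_dvd h4.le)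
  have k : ∀ (p : ℕ) (g : G) (hg : g ∈ 𝒩(W)), p.Prime → g ^ p = 1 → g ∉ 𝒞(W) → p ∣ Nat.card φ.range :=
    fun p g hg hp e hc => by
      have := Fact.mk hp
      have o : orderOf (φ ⟨g, hg⟩) = p := orderOf_eq_prime
        (by rw [← map_pow, show (⟨g, hg⟩ : 𝒩(W)) ^ p = 1 from Subtype.ext e, map_one])
        fun e' => hc (mem_subgroupOf.1 (hk.le e'))
      exact o ▸ φ.range.orderOf_dvd_natCard ⟨⟨g, hg⟩, rfl⟩
  have h5 : Nat.card φ.range = 6 := Nat.dvd_antisymm h3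
    (Nat.Coprime.mul_dvd_of_dvd_of_dvd (m := 2) (n := 3) (by norm_num) (k 2 a ha Nat.prime_two a2 ac)
      (k 3 b hb Nat.prime_three b3 bc))
  rw [← h1, h2, h5, mul_comm]

theorem cV_dvd (L : Loc G) {x : G} (hx : orderOf x = 3) : Nat.card (V x) ∣ 4 := by
  by_cases h : V x = ⊥
  · rw [h, card_bot]; exact one_dvd _
  · rw [L.cV x hx h]

theorem pow9 (L : Loc G) {x g : G} (hx : orderOf x = 3) (hg : g ∈ C1 x) : g ^ 9 ∈ V x := by
  refine L.two x hx _ 2 (mem_C1.1 (pow_mem hg 9)) ?_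
  rw [← pow_mul, ← orderOf_dvd_iff_pow_eq_one]
  refine (Subgroup.orderOf_dvd_natCard _ hg).trans ?_
  rw [L.cC x hx]
  exact Nat.mul_dvd_mul_left 9 (cV_dvd L hx)

theorem mem_V (L : Loc G) {x g : G} (hx : orderOf x = 3) (hg : g ∈ C1 x) (h3 : ¬ 3 ∣ orderOf g) : g ∈ V x :=
  mem_of_pow_mem_of_coprime (n := 3 ^ 2)
    (Nat.Coprime.pow_right 2 ((Nat.Prime.coprime_iff_not_dvd Nat.prime_three).2 h3).symm) (pow9 L hx hg)

theorem nofix (L : Loc G) {x y w : G} (hx : orderOf x = 3) (hy : orderOf y = 3) (hc : x * y = y * x)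
    (hn : y ∉ zpowers x) (hw : w ∈ V x) (e : w * y = y * w) : w = 1 := by
  have h1 : w ∈ zpowers x ⊔ zpowers y := (L.cP x y hx hy hc hn).le ⟨V_le_C1 x hw, mem_C1.2 e⟩
  have px : IsPGroup 3 (zpowers x) := isPGroup_zpowers (k := 1) (by rw [pow_one, ← hx, pow_orderOf_eq_one])
  have py : IsPGroup 3 (zpowers y) := isPGroup_zpowers (k := 1) (by rw [pow_one, ← hy, pow_orderOf_eq_one])
  have hn : zpowers x ≤ 𝒩(zpowers y) := zpowers_le.2 (cent_le_norm _ fun z hz => by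
    obtain ⟨k, rfl⟩ := mem_zpowers_iff.1 hz
    exact ((show Commute x y from hc).symm.zpow_left k).eq)
  refine eq_one_of_coprime_of_mem (isPGroup_sup px py hn) ?_ h1
  have : orderOf w ∣ 2 := orderOf_dvd_of_pow_eq_one (by rw [pow_two]; exact ((L.mem x hx w).1 hw).2)
  exact Nat.Coprime.coprime_dvd_left this (by norm_num)

theorem ex_y (B : Bs G) {x : G} (hx : x ∈ B.P) (x1 : x ≠ 1) : ∃ y ∈ B.P, y ∉ zpowers x := by
  by_contra h
  push Not at h
  have := card_le_of_le (show B.P ≤ zpowers x from h)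
  rw [B.cP, Nat.card_zpowers, B.o3 x hx x1] at this
  omega

theorem gen (B : Bs G) {H M : Subgroup G} (hN : B.P ≤ 𝒩(H)) (h3 : ¬ 3 ∣ Nat.card H)
    (h : ∀ a ∈ B.P, a ≠ 1 → V a ⊓ H ≤ M) : H ≤ M := by
  have : IsMulCommutative B.P := ⟨⟨fun a b => Subtype.ext (B.cm a a.2 b b.2)⟩⟩
  refine le_of_forall_centralizer_le (A := B.P) (fun hc => ?_) hN ?_ fun a ha a1 g hg => h a ha a1 ⟨?_, hg.1⟩
  · obtain ⟨g, hg⟩ := IsCyclic.exists_ofOrder_eq_natCard (α := B.P)
    rw [B.cP, ← orderOf_coe] at hg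
    by_cases e : (g : G) = 1
    · rw [e, orderOf_one] at hg; omega
    · rw [B.o3 g g.2 e] at hg; omega
  · rw [B.cP]
    exact Nat.Coprime.pow_left 2 ((Nat.Prime.coprime_iff_not_dvd Nat.prime_three).2 h3)
  · exact mem_V B.loc (B.o3 a ha a1) hg.2 fun e => h3 (e.trans (Subgroup.orderOf_dvd_natCard _ hg.1))

end Genx

open Genx

theorem genS : GenS.{u} := by
  intro G _ _ B H hN h3
  have k2 : ∀ x ∈ B.P, x ≠ 1 → V x ≤ H ∨ V x ⊓ H = ⊥ := fun x hx x1 => by
    have ox := B.o3 x hx x1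
    by_contra hh
    push Not at hh
    obtain ⟨⟨w, hw⟩, w1⟩ := ne_bot_iff_exists_ne_one.1 hh.2
    obtain ⟨y, hy, yx⟩ := ex_y B hx x1
    have y1 : y ≠ 1 := fun e => yx (e ▸ one_mem _)
    have d : Nat.card (V x ⊓ H : Subgroup G) ∣ 2 ^ 2 := (card_dvd_of_le inf_le_left).trans (cV_dvd B.loc ox)
    obtain ⟨k, hk, e⟩ := (Nat.dvd_prime_pow Nat.prime_two).1 d
    interval_cases k
    · exact hh.2 (card_eq_one.1 e)
    · obtain ⟨z, -, hz⟩ := (Nat.card_eq_two_iff' (1 : (V x ⊓ H : Subgroup G))).1 e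
      have m : y * w * y⁻¹ ∈ V x ⊓ H := ⟨conj_mem (B.PV x hx hy) hw.1, conj_mem (hN hy) hw.2⟩
      have e1 : (⟨_, m⟩ : (V x ⊓ H : Subgroup G)) = ⟨w, hw⟩ :=
        (hz _ fun e => w1 (Subtype.ext (by simpa using congrArg Subtype.val e))).trans (hz _ w1).symm
      refine w1 (Subtype.ext (nofix B.loc ox (B.o3 y hy y1) (B.cm x hx y hy) yx hw.1 ?_))
      exact (mul_inv_eq_iff_eq_mul.1 (congrArg Subtype.val e1)).symm
    · refine hh.1 (le_trans (eq_of_le_of_card_ge inf_le_left ?_).ge inf_le_right)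
      rw [e]; exact Nat.le_of_dvd (by norm_num) (cV_dvd B.loc ox)
  refine ⟨?_, k2, fun K hK => gen B hN h3 fun a ha a1 => ?_⟩
  · have := Fact.mk Nat.prime_two
    refine isPGroup_of_coprime fun x hx ho => by_contra fun x1 => ?_
    obtain ⟨p, hp, hd⟩ := Nat.exists_prime_and_dvd (fun e => x1 (orderOf_eq_one_iff.1 e))
    have := Fact.mk hp
    have : IsMulCommutative B.P := ⟨⟨fun a b => Subtype.ext (B.cm a a.2 b b.2)⟩⟩
    obtain ⟨S, hS, hSN⟩ := exists_isSylowIn_le_normalizer p hN (by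
      rw [B.cP]
      exact Nat.Coprime.pow_left 2 ((Nat.Prime.coprime_iff_not_dvd Nat.prime_three).2 h3))
      (.inl (Group.isSolvable_of_comm fun a b => Subtype.ext (B.cm a a.2 b b.2)))
    have hb : S ≤ ⊥ := gen B hSN (fun e => h3 (e.trans (card_dvd_of_le hS.le))) fun a ha a1 g hg => by
      refine mem_bot.2 (eq_one_of_coprime_of_mem hS.isPGroup ?_ hg.2)
      have : orderOf g ∣ 2 :=
        orderOf_dvd_of_pow_eq_one (by rw [pow_two]; exact ((B.loc.mem a (B.o3 a ha a1) g).1 hg.1).2)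
      exact Nat.Coprime.coprime_dvd_left this (Nat.Coprime.coprime_dvd_left hd ho).symm
    refine hS.not_dvd ?_
    rw [le_bot_iff.1 hb, relIndex_bot_left]
    exact hd.trans (Subgroup.orderOf_dvd_natCard _ hx)
  · rcases k2 a ha a1 with h | h
    · exact inf_le_left.trans (hK a ha a1 h)
    · exact h.le.trans bot_le

theorem cvS (hG : GenS.{u}) : CvS.{u} := by
  intro G _ _ B x hx x1 hV
  classical
  have := Fact.mk Nat.prime_three
  have L := B.loc
  have ox := B.o3 x hx x1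
  have x3 : x ^ 3 = 1 := by rw [← ox, pow_orderOf_eq_one]
  have c4 := L.cV x ox hV
  have el : El (V x) := fun a ha => ((L.mem x ox a).1 ha).2
  have VC : V x ≤ 𝒞(V x) := fun a ha b hb => el.comm hb ha
  have xC : x ∈ 𝒞(V x) := fun b hb => mem_C1.1 (V_le_C1 x hb)
  have i2 : B.i ^ 2 = 1 := by rw [← B.i2, pow_orderOf_eq_one]
  have iC : B.i ∉ 𝒞(V x) := fun h => by
    have := B.iC x hx x1 hV
    rw [inf_eq_left.2 fun a ha => mem_C1.2 (h a ha), c4] at this
    omega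
  have nc : ∀ y, orderOf y = 3 → x * y = y * x → y ∉ zpowers x → y ∉ 𝒞(V x) := fun y oy hc hn h =>
    hV (le_bot_iff.1 fun w hw => mem_bot.2 (nofix L ox oy hc hn hw (h w hw)))
  have key : ∀ n ∈ 𝒞(V x), n ∈ 𝒩(zpowers x) → x * n = n * x := fun n hn hN => by
    obtain ⟨k, hk, e⟩ := (mem_zpowers_iff_mem_range_orderOf.1 (conj_mem hN (mem_zpowers x))) |> Finset.mem_image.1
    rw [ox, Finset.mem_range] at hk
    interval_cases k
    · exact absurd (by simpa using e.symm) x1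
    · exact (mul_inv_eq_iff_eq_mul.1 ((pow_one x).symm.trans e).symm).symm
    · exfalso
      have e1 : n * x * n⁻¹ = x⁻¹ := by
        rw [← e, eq_inv_iff_mul_eq_one, ← pow_succ, x3]
      have m : B.i * n ∈ C1 x := mem_C1.2 (by
        have := B.iinv _ (B.P.inv_mem hx)
        rw [inv_inv, ← e1] at this
        calc B.i * n * x = B.i * (n * x * n⁻¹) * B.i⁻¹ * (B.i * n) := by group
          _ = _ := by rw [this])
      obtain ⟨k', hk', e2⟩ := exists_mul_pow_eq (norm_le_norm_cent _ (B.iV x hx)) hn 9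
      have h9 := VC (pow9 L ox m)
      rw [e2, show 9 = 2 * 4 + 1 from rfl, pow_succ, pow_mul, i2, one_pow, one_mul] at h9
      exact iC ((mul_mem_cancel_right hk').1 h9)
  have px : IsPGroup 3 (zpowers x) := isPGroup_zpowers (k := 1) (by rw [pow_one, x3])
  have hS : IsSylowIn 3 (zpowers x) 𝒞(V x) := isSylowIn_of_maximal (zpowers_le.2 xC) px fun U hU h1 h2 => by
    by_contra hne
    obtain ⟨y, hy, yx⟩ := SetLike.exists_of_lt (lt_inf_normalizer_of_isPGroup hU (lt_of_le_of_ne h1 (Ne.symm hne)))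
    refine nc y ?_ (key y (h2 hy.1) hy.2) yx (h2 hy.1)
    obtain ⟨k, hk⟩ := isPGroup_iff_forall.1 hU y hy.1
    obtain ⟨j, -, hj⟩ := (Nat.dvd_prime_pow Nat.prime_three).1 (orderOf_dvd_of_pow_eq_one hk)
    have j0 : j ≠ 0 := fun e => yx (by
      rw [e, pow_zero, orderOf_eq_one_iff] at hj
      exact hj ▸ one_mem _)
    refine (L.ord y (hj ▸ dvd_pow_self 3 j0)).resolve_right fun e => ?_
    have : 2 ∣ 3 ^ j := by rw [← hj, e]; norm_num
    exact absurd (Nat.prime_two.dvd_of_dvd_pow this) (by norm_num)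
  obtain ⟨Q, QC, CN, Q3, cQ⟩ := compl hS fun g hg hN z hz => by
    obtain ⟨k, rfl⟩ := mem_zpowers_iff.1 hz
    exact ((show Commute x g from key g hg hN).zpow_left k).eq
  rw [Nat.card_zpowers, ox] at cQ
  have mem : ∀ g ∈ 𝒞(V x), (orderOf g).Coprime 3 → g ∈ Q := fun g hg ho => by
    have : (Q.subgroupOf 𝒞(V x)).Normal := (normal_subgroupOf_iff_le_normalizer QC).2 CN
    have h1 := (Q.subgroupOf 𝒞(V x)).card_mul_index
    rw [Nat.card_congr (subgroupOfEquivOfLe QC).toEquiv, ← cQ] at h1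
    have h2 := (Q.subgroupOf 𝒞(V x)).pow_index_mem ⟨g, hg⟩
    rw [Nat.eq_of_mul_eq_mul_left Nat.card_pos h1] at h2
    exact mem_of_pow_mem_of_coprime ho h2
  have NQ : 𝒩(V x) ≤ 𝒩(Q) := le_norm_of_cj_le fun n hn g hg => by
    obtain ⟨q, hq, rfl⟩ := hg
    refine mem _ (conj_mem (norm_le_norm_cent _ hn) (QC hq)) ?_
    rw [MulEquiv.coe_toMonoidHom, MulEquiv.orderOf_eq]
    exact ((Nat.Prime.coprime_iff_not_dvd Nat.prime_three).2 fun e => Q3 (e.trans (Subgroup.orderOf_dvd_natCard _ hq))).symm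
  obtain ⟨y, hy, yx⟩ := ex_y B hx x1
  have oy := B.o3 y hy fun e => yx (e ▸ one_mem _)
  refine ⟨Q, (hG G B Q ((B.PV x hx).trans NQ) Q3).1, QC, by rw [← cQ, mul_comm], NQ, fun g hg k e => mem g hg ?_,
    six c4 (B.iV x hx) (B.PV x hx hy) i2 (by rw [← oy, pow_orderOf_eq_one]) iC (nc y oy (B.cm x hx y hy) yx),
    (eq_of_le_of_card_ge (sup_le QC (zpowers_le.2 xC)) ?_).symm⟩
  · exact Nat.Coprime.coprime_dvd_left (orderOf_dvd_of_pow_eq_one e) (Nat.Coprime.pow_left k (by norm_num))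
  · rw [← cQ]
    refine Nat.le_of_dvd Nat.card_pos (Nat.Coprime.mul_dvd_of_dvd_of_dvd
      ((Nat.Prime.coprime_iff_not_dvd Nat.prime_three).2 Q3).symm (card_dvd_of_le le_sup_left) ?_)
    rw [← ox, ← Nat.card_zpowers]
    exact card_dvd_of_le le_sup_right

end CL.T3
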