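/-
Project T3: the normaliser of the abelian subgroup `R`.
-/
import Cfsg.Agent.T3.Defs

set_option autoImplicit false
set_option linter.unusedSectionVars false
open Cfsg Subgroup CL.Even CL.Grp

namespace CL.T3

universe u

namespace Qx

variable {G : Type u} [Group G] [Finite G]

theorem norm_of {H : Subgroup G} {g : G} (h : ∀ x ∈ H, g * x * g⁻¹ ∈ H) : g ∈ 𝒩(H) :=
  mem_norm_of_cj_le (by rintro _ ⟨x, hx, rfl⟩; exact h x hx)

section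
variable (B : Bs G)

theorem cube {p : G} (hp : p ∈ B.P) : p ^ 3 = 1 := by
  by_cases h : p = 1
  · rw [h, one_pow]
  · rw [← B.o3 p hp h, pow_orderOf_eq_one]

theorem one_of_sq {p : G} (hp : p ∈ B.P) (h : p * p = 1) : p = 1 := by
  have := cube B hp
  rwa [pow_succ, pow_two, h, one_mul] at this

theorem ii : B.i * B.i = 1 := by rw [← pow_two, ← B.i2, pow_orderOf_eq_one]

theorem i1 : B.i ≠ 1 := fun h => by simpa [h] using B.i2

theorem iP : B.i ∉ B.P := fun h => i1 B (one_of_sq B h (ii B))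

theorem iN : B.i ∈ 𝒩(B.P) := norm_of fun p hp => by rw [B.iinv p hp]; exact inv_mem hp

theorem ex2 {x : G} (hx : x ∈ B.P) (h1 : x ≠ 1) : ∃ y ∈ B.P, y ∉ zpowers x ∧ C1 x ⊓ C1 y = B.P := by
  have hy := conj_mem B.fN hx
  have h2 := B.fmov x hx h1
  refine ⟨_, hy, h2, ?_⟩
  rw [B.loc.cP x _ (B.o3 x hx h1) (B.o3 _ hy fun e => h2 (e ▸ one_mem _)) (B.cm _ hx _ hy) h2, B.gen x hx h1 _ hy h2]

theorem cent {g : G} (h : ∀ p ∈ B.P, g * p = p * g) : g ∈ B.P := by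
  have : B.P ≠ ⊥ := fun e => by simpa [e] using B.cP
  obtain ⟨⟨x, hx⟩, h1⟩ := (ne_bot_iff_exists_ne_one).1 this
  obtain ⟨y, hy, -, e⟩ := ex2 B hx fun e => h1 (Subtype.ext e)
  exact e ▸ ⟨mem_C1.2 (h x hx), mem_C1.2 (h y hy)⟩

theorem syl {K : Subgroup G} (h : B.P ≤ K) : IsSylowIn 3 B.P K := by
  refine IsSylowIn.of_le ⟨le_top, IsPGroup.of_card (n := 2) B.cP, fun hd => B.loc.not27 ?_⟩ h le_top
  rw [relIndex_top_right] at hd
  rw [← B.P.card_mul_index, B.cP]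
  exact Nat.mul_dvd_mul_left 9 hd

theorem dec {x : G} (hx : x ∈ B.P) (h1 : x ≠ 1) {n : G} (hn : n ∈ C1 x) : ∃ v ∈ V x, ∃ p ∈ B.P, n = v * p := by
  have ho := B.o3 x hx h1
  let F : B.P × V x → C1 x := fun a => ⟨a.2 * a.1, mul_mem (V_le_C1 x a.2.2) (mem_C1.2 (B.cm _ a.1.2 _ hx))⟩
  have hF : Function.Injective F := by
    rintro ⟨p, v⟩ ⟨p', v'⟩ e
    have e1 : (v : G) * p = v' * p' := congrArg Subtype.val e
    have e2 : (v' : G)⁻¹ * v = p' * (p : G)⁻¹ := by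
      calc (v' : G)⁻¹ * v = (v' : G)⁻¹ * (v * p) * (p : G)⁻¹ := by group
        _ = _ := by rw [e1]; group
    have e3 := one_of_sq B (mul_mem p'.2 (inv_mem p.2)) (e2 ▸ ((B.loc.mem x ho _).1 (mul_mem (inv_mem v'.2) v.2)).2)
    exact Prod.ext (Subtype.ext (mul_inv_eq_one.1 e3).symm) (Subtype.ext (inv_mul_eq_one.1 (e2.trans e3)).symm)
  obtain ⟨⟨p, v⟩, e⟩ := (hF.bijective_of_nat_card_le (by rw [Nat.card_prod, B.cP, B.loc.cC x ho])).2 ⟨n, hn⟩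
  exact ⟨v, v.2, p, p.2, (congrArg Subtype.val e).symm⟩

end

variable (A : RA G)

theorem RN {r : G} (hr : r ∈ A.R) (hn : r ∈ 𝒩(A.P)) : r = 1 := by
  refine one_of_sq A.toBs (cent A.toBs fun p hp => ?_) (A.el r hr)
  have h1 : r * p * r⁻¹ * p⁻¹ ∈ A.P := mul_mem (conj_mem hn hp) (inv_mem hp)
  have h2 : r * p * r⁻¹ * p⁻¹ ∈ A.R := by
    simpa [mul_assoc] using mul_mem hr (conj_mem (A.PN hp) (inv_mem hr))
  have := one_of_sq A.toBs h1 (A.el _ h2)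
  rwa [mul_inv_eq_one, mul_inv_eq_iff_eq_mul] at this

theorem frat {m : G} (h : ∀ p ∈ A.P, m * p * m⁻¹ ∈ A.R ⊔ A.P) : ∃ r ∈ A.R, ∃ n ∈ 𝒩(A.P), m = r * n := by
  have := Fact.mk Nat.prime_three
  have hS := syl A.toBs (le_sup_right : A.P ≤ A.R ⊔ A.P)
  obtain ⟨g, hg, e⟩ := syl_conj_le hS (isPGroup_cj hS.isPGroup m) (by rintro _ ⟨p, hp, rfl⟩; exact h p hp)
  rw [← cj_mul] at e
  obtain ⟨r, hr, p, hp, e'⟩ := (mem_sup_nl A.PN).1 (inv_mem hg)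
  refine ⟨r, hr, p * (g * m), mul_mem (le_normalizer hp) (mem_norm_of_cj_le e), ?_⟩
  rw [← mul_assoc, e']; group

theorem outer (h : A.O1) {t : G} (ht : t ∈ 𝒩(A.R)) (h1 : t ∉ A.R) (h2 : t * t = 1) :
    ∃ r ∈ A.R, ∃ p ∈ A.P, t = r * (p * A.i) := by
  obtain ⟨r, hr, n, hn, rfl⟩ := frat A (h t ht)
  have n1 : n ∈ 𝒩(A.R) := (mul_mem_cancel_left (le_normalizer hr)).1 ht
  have n2 : n * n = 1 := by
    refine RN A ?_ (mul_mem hn hn)
    have : n * n = (r * (n * r * n⁻¹))⁻¹ * (r * n * (r * n)) := by group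
    rw [this, h2, mul_one]
    exact inv_mem (mul_mem hr (conj_mem n1 hr))
  obtain ⟨p, hp, rfl | rfl⟩ := A.sq n hn (n2 ▸ one_mem _)
  · exact absurd (by rw [one_of_sq A.toBs hp n2, mul_one]; exact hr) h1
  · exact ⟨r, hr, p, hp, rfl⟩

theorem Vle {x : G} (hx : x ∈ A.P) (h1 : x ≠ 1) {v : G} (hv : v ∈ V x) (hm : v ∈ 𝒩(A.R)) : v ∈ A.R := by
  by_cases v1 : v = 1
  · exact v1 ▸ one_mem _
  have ho := A.o3 x hx h1
  have c4 := A.loc.cV x ho fun e => v1 (by rwa [e, mem_bot] at hv)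
  obtain ⟨y, hy, -, e⟩ := ex2 A.toBs hx h1
  have hw : y * v * y⁻¹ ∈ V x ⊓ 𝒩(A.R) :=
    mem_inf.2 ⟨conj_mem (A.PV x hx hy) hv, mul_mem (mul_mem (A.PN hy) hm) (inv_mem (A.PN hy))⟩
  have w1 : y * v * y⁻¹ ≠ 1 := by simpa using v1
  have wv : y * v * y⁻¹ ≠ v := fun e' => v1 (one_of_sq A.toBs
    (e ▸ ⟨V_le_C1 x hv, mem_C1.2 (mul_inv_eq_iff_eq_mul.1 e').symm⟩) ((A.loc.mem x ho v).1 hv).2)
  have c3 : 3 ≤ Nat.card (V x ⊓ 𝒩(A.R) : Subgroup G) := by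
    have : ({1, v, y * v * y⁻¹} : Set G).ncard = 3 := Set.ncard_eq_three.2 ⟨_, _, _, Ne.symm v1, w1.symm, wv.symm, rfl⟩
    rw [← this]
    refine Set.ncard_le_ncard (t := ((V x ⊓ 𝒩(A.R) : Subgroup G) : Set G)) ?_ (Set.toFinite _)
    rintro _ (rfl | rfl | rfl)
    exacts [one_mem _, ⟨hv, hm⟩, hw]
  have d := card_dvd_of_le (inf_le_left : V x ⊓ 𝒩(A.R) ≤ V x)
  rw [c4] at d
  have c : 4 ≤ Nat.card (V x ⊓ 𝒩(A.R) : Subgroup G) := by
    rcases c3.lt_or_eq with k | k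
    · exact k
    · rw [← k] at d; norm_num at d
  have e' := eq_of_le_of_card_ge (inf_le_left : V x ⊓ 𝒩(A.R) ≤ V x) (c4 ▸ c)
  exact A.mx x hx h1 (e' ▸ inf_le_right) hv

/-- an element centralising `x` modulo `R` lies in `R P` -/
theorem cmod {x : G} (hx : x ∈ A.P) (h1 : x ≠ 1) {m : G} (hm : m ∈ 𝒩(A.R)) (h : m * x * m⁻¹ * x⁻¹ ∈ A.R) :
    ∃ r ∈ A.R, ∃ p ∈ A.P, m = r * p := by
  obtain ⟨r, hr, e⟩ : ∃ r ∈ A.R, m * x * m⁻¹ = r * x := ⟨_, h, by group⟩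
  have x3 := cube A.toBs hx
  have hb : x * r * x⁻¹ ∈ A.R := conj_mem (A.PN hx) hr
  have e3 : r * (x * r * x⁻¹) * (x * (x * r * x⁻¹) * x⁻¹) = 1 := by
    calc _ = (r * x) ^ 3 * (x ^ 3)⁻¹ := by simp only [pow_succ, pow_zero]; group
      _ = 1 := by rw [← e, conj_pow, x3]; group
  obtain ⟨s, hs, e4⟩ : ∃ s ∈ A.R, s * x * s⁻¹ = r * x := by
    refine ⟨_, hb, ?_⟩
    rw [← eq_inv_of_mul_eq_one_left (A.el _ hb)]
    calc _ = r⁻¹ * (r * (x * r * x⁻¹) * (x * (x * r * x⁻¹) * x⁻¹)) * x := by group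
      _ = r * x := by rw [e3, mul_one, ← eq_inv_of_mul_eq_one_left (A.el _ hr)]
  have hc : s⁻¹ * m ∈ C1 x := mem_C1.2 (by
    calc s⁻¹ * m * x = s⁻¹ * (m * x * m⁻¹) * m := by group
      _ = _ := by rw [e, ← e4]; group)
  obtain ⟨v, hv, p, hp, e5⟩ := dec A.toBs hx h1 hc
  have hvm : v ∈ 𝒩(A.R) := (mul_mem_cancel_right (A.PN hp)).1 (e5 ▸ mul_mem (inv_mem (le_normalizer hs)) hm)
  exact ⟨s * v, mul_mem hs (Vle A hx h1 hv hvm), p, hp, by rw [mul_assoc, ← e5]; group⟩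

variable {Y : Type u} [Group Y] [Finite Y] (φ : 𝒩(A.R) →* Y)

/-- the image of `K` -/
abbrev im (K : Subgroup G) : Subgroup Y := (K.subgroupOf 𝒩(A.R)).map φ

variable {A φ}

theorem card_im (hk : ∀ m, φ m = 1 ↔ (m : G) ∈ A.R) {K : Subgroup G} (h1 : K ≤ 𝒩(A.R)) (h2 : K ≤ 𝒩(A.P)) :
    Nat.card (im A φ K) = Nat.card K := by
  refine (Nat.card_congr (Equiv.ofBijective
    (fun k : K => (⟨φ ⟨k, h1 k.2⟩, ⟨k, h1 k.2⟩, k.2, rfl⟩ : im A φ K)) ⟨fun a b e => ?_, ?_⟩)).symm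
  · have e1 : φ ⟨a, h1 a.2⟩ = φ ⟨b, h1 b.2⟩ := congrArg Subtype.val e
    rw [← mul_inv_eq_one, ← map_inv, ← map_mul, hk] at e1
    exact Subtype.ext (mul_inv_eq_one.1 (RN A e1 (h2 (mul_mem a.2 (inv_mem b.2)))))
  · rintro ⟨_, m, hm, rfl⟩
    exact ⟨⟨m, hm⟩, rfl⟩

theorem sup_of (hk : ∀ m, φ m = 1 ↔ (m : G) ∈ A.R) {m : 𝒩(A.R)} (h : φ m ∈ im A φ A.P) : (m : G) ∈ A.R ⊔ A.P := by
  obtain ⟨p, hp, e⟩ := h
  rw [eq_comm, ← mul_inv_eq_one, ← map_inv, ← map_mul, hk] at e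
  exact (mul_mem_cancel_right (inv_mem (mem_sup_right (show (p : G) ∈ A.P from hp)))).1
    (mem_sup_left (show (m : G) * (p : G)⁻¹ ∈ A.R from e))

theorem eq_of (hk : ∀ m, φ m = 1 ↔ (m : G) ∈ A.R) {m n : 𝒩(A.R)} {r : G} (hr : r ∈ A.R) (e : (m : G) = r * n) :
    φ m = φ n := by
  rw [← mul_inv_eq_one, ← map_inv, ← map_mul, hk]
  simpa [e] using hr

theorem norm_im (hs : Function.Surjective φ) (hk : ∀ m, φ m = 1 ↔ (m : G) ∈ A.R) :
    𝒩(im A φ A.P) = im A φ (𝒩(A.P) ⊓ 𝒩(A.R)) := by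
  refine le_antisymm (fun y hy => ?_) ?_
  · obtain ⟨m, rfl⟩ := hs y
    obtain ⟨r, hr, n, hn, e⟩ := frat A (m := m) fun p hp =>
      sup_of hk (m := m * ⟨p, A.PN hp⟩ * m⁻¹) (by
        rw [map_mul, map_mul, map_inv]; exact conj_mem hy ⟨_, hp, rfl⟩)
    have n1 : n ∈ 𝒩(A.R) := (mul_mem_cancel_left (le_normalizer hr)).1 (e ▸ m.2)
    exact ⟨⟨n, n1⟩, ⟨hn, n1⟩, (eq_of hk hr e).symm⟩
  · rintro _ ⟨n, hn, rfl⟩
    refine norm_of ?_
    rintro _ ⟨p, hp, rfl⟩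
    exact ⟨n * p * n⁻¹, conj_mem (G := G) (H := A.P) hn.1 hp, by rw [map_mul, map_mul, map_inv]⟩

theorem h9 (hs : Function.Surjective φ) (hk : ∀ m, φ m = 1 ↔ (m : G) ∈ A.R) : H9 Y := by
  have := Fact.mk Nat.prime_three
  have key : ∀ x : 𝒩(A.R), (x : G) ∈ A.P → φ x ≠ 1 → C1 (φ x) = im A φ A.P := fun x hx h1 => by
    refine le_antisymm (fun y hy => ?_) ?_
    · obtain ⟨m, rfl⟩ := hs y
      obtain ⟨r, hr, p, hp, e⟩ := cmod A hx (fun e => h1 ((hk x).2 (e ▸ one_mem _))) m.2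
        ((hk (m * x * m⁻¹ * x⁻¹)).1 (by
          rw [map_mul, map_mul, map_mul, map_inv, map_inv, mem_C1.1 hy]; group))
      exact ⟨⟨p, A.PN hp⟩, hp, (eq_of hk hr e).symm⟩
    · rintro _ ⟨p, hp, rfl⟩
      rw [mem_C1, ← map_mul, ← map_mul]
      exact congrArg φ (Subtype.ext (A.cm _ hp _ hx))
  intro y hy
  obtain ⟨m, rfl⟩ := hs y
  have y3 : φ m ^ 3 = 1 := hy ▸ pow_orderOf_eq_one _
  have m6 : (m : G) ^ 3 * (m : G) ^ 3 = 1 := A.el _ ((hk (m ^ 3)).1 (by rw [map_pow, y3]))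
  have x3 : ((m : G) ^ 4) ^ 3 ^ 1 = 1 := by
    calc _ = ((m : G) ^ 3 * (m : G) ^ 3) ^ 2 := by group
      _ = 1 := by rw [m6, one_pow]
  obtain ⟨g, hg, e⟩ := syl_conj_le (syl A.toBs A.PN) (isPGroup_zpowers x3) (zpowers_le.2 (pow_mem m.2 4))
  have e1 : φ (⟨g, hg⟩ * m ^ 4 * ⟨g, hg⟩⁻¹) = φ ⟨g, hg⟩ * φ m * (φ ⟨g, hg⟩)⁻¹ := by
    rw [map_mul, map_mul, map_inv, map_pow, pow_succ, y3, one_mul]
  have e2 := key (⟨g, hg⟩ * m ^ 4 * ⟨g, hg⟩⁻¹) (e (conj_mem_cj g (mem_zpowers _))) (by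
    rw [e1]; intro k; simp [show φ m = 1 by simpa using k] at hy)
  rw [e1] at e2
  have e3 : C1 (φ m) = cj (φ ⟨g, hg⟩)⁻¹ (im A φ A.P) := by
    ext z
    rw [mem_cj, ← e2, mem_C1, mem_C1]
    generalize φ ⟨g, hg⟩ = c
    constructor
    · intro k
      calc _ = c * (z * φ m) * c⁻¹ := by group
        _ = _ := by rw [k]; group
    · intro k
      calc _ = c⁻¹ * (c⁻¹⁻¹ * z * c⁻¹ * (c * φ m * c⁻¹)) * c := by group
        _ = _ := by rw [k]; group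
  rw [e3, card_cj, card_im hk A.PN le_normalizer]
  refine ⟨A.cP, ?_⟩
  rintro _ ⟨_, ⟨p, hp, rfl⟩, rfl⟩
  rw [← map_pow, ← map_pow, show p ^ 3 = 1 from Subtype.ext (cube A.toBs hp), map_one, map_one]

end Qx

open Qx in
theorem ra1S (hG : GS.{u}) : Ra1S.{u} := by
  intro G _ _ A h
  have iR : A.i ∉ A.R := fun k => i1 A.toBs (RN A k (iN A.toBs))
  refine hG G A.simp A.nab A.R 𝒩(A.R) A.i ⟨A.el, le_normalizer, le_rfl, by simp, ?_, ?_, fun t h1 h2 => absurd h1 h2⟩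
    (fun e => by simpa [e] using A.c16) A.iN iR (ii A.toBs) (by rwa [A.CR])
  · intro t ht h1 h2
    obtain ⟨r, hr, p, hp, rfl⟩ := outer A h ht h1 h2
    have e : p * A.i = p⁻¹ * A.i * p := by
      have e1 := A.iinv p hp
      have e2 := cube A.toBs hp
      calc p * A.i = p ^ 3 * (p⁻¹ * p⁻¹ * A.i) := by simp only [pow_succ, pow_zero]; group
        _ = p⁻¹ * (A.i * p * A.i⁻¹) * A.i := by rw [e1, e2]; group
        _ = _ := by group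
    rw [← A.fr, ← card_cj p⁻¹ (A.R ⊓ C1 A.i)]
    congr 3
    ext z
    rw [mem_cj, inv_inv, mem_inf, mem_inf, ← mem_normalizer_iff.1 (A.PN hp) z]
    refine and_congr_right fun hz => ?_
    rw [mem_C1, mem_C1, ← mul_assoc z, A.el.comm hz hr, mul_assoc r, mul_assoc r, mul_right_inj, e]
    constructor
    · intro k
      calc _ = p * (z * (p⁻¹ * A.i * p)) * p⁻¹ := by group
        _ = _ := by rw [k]; group
    · intro k
      calc _ = p⁻¹ * (p * z * p⁻¹ * A.i) * p := by group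
        _ = _ := by rw [k]; group
  · intro B hB eB
    have d : A.R.relIndex B ∣ 2 := by
      by_cases k : B ≤ A.R
      · rw [relIndex_eq_one.2 k]; exact one_dvd _
      obtain ⟨a, ha, a1⟩ := SetLike.not_le_iff_exists.1 k
      refine relIndex_dvd_two_iff.2 ⟨a, ha, fun b hb => ?_⟩
      by_contra k'
      rw [not_or] at k'
      obtain ⟨r, hr, p, hp, e⟩ := outer A h (hB ha) a1 (eB a ha)
      obtain ⟨r', hr', p', hp', e'⟩ := outer A h (hB hb) k'.2 (eB b hb)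
      obtain ⟨s, hs, q, hq, e''⟩ := outer A h (hB (mul_mem hb ha)) k'.1 (eB _ (mul_mem hb ha))
      have n1 : ∀ p ∈ A.P, p * A.i ∈ 𝒩(A.P) := fun p hp => mul_mem (le_normalizer hp) (iN A.toBs)
      have k1 : q * A.i * (p' * A.i * (p * A.i))⁻¹ = 1 := by
        refine RN A ?_ (mul_mem (n1 q hq) (inv_mem (mul_mem (n1 p' hp') (n1 p hp))))
        have : q * A.i * (p' * A.i * (p * A.i))⁻¹ = s⁻¹ * (r' * (p' * A.i * r * (p' * A.i)⁻¹)) := by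
          calc _ = s⁻¹ * (s * (q * A.i)) * (p' * A.i * (p * A.i))⁻¹ := by group
            _ = _ := by rw [← e'', e', e]; group
        rw [this]
        exact mul_mem (inv_mem hs) (mul_mem hr' (conj_mem (mul_mem (A.PN hp') A.iN) hr))
      refine iP A.toBs ((mul_mem_cancel_left hq).1 ?_)
      rw [mul_inv_eq_one.1 k1, show p' * A.i * (p * A.i) = p' * (A.i * p * A.i⁻¹) * (A.i * A.i) by group, ii, mul_one,
        A.iinv p hp]
      exact mul_mem hp' (inv_mem hp)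
    have e := card_mul_index ((B ⊓ A.R).subgroupOf B)
    rw [Nat.card_congr (subgroupOfEquivOfLe (inf_le_left : B ⊓ A.R ≤ B)).toEquiv,
      show ((B ⊓ A.R).subgroupOf B).index = A.R.relIndex B by rw [inf_comm]; exact inf_relIndex_right A.R B] at e
    have d2 := Nat.le_of_dvd two_pos d
    have c := A.c16
    have c0 : 0 < Nat.card (B ⊓ A.R : Subgroup G) := Nat.card_pos
    rw [← e, mul_pow, mul_comm]
    exact Nat.mul_lt_mul_of_pos_right (by nlinarith) (pow_pos c0 2)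

open Qx in
theorem qS (hM : MbS.{u}) : QS.{u} := by
  intro G _ _ A
  let φ := QuotientGroup.mk' (A.R.subgroupOf 𝒩(A.R))
  have hs : Function.Surjective φ := QuotientGroup.mk'_surjective _
  have hk : ∀ m, φ m = 1 ↔ (m : G) ∈ A.R := fun m => QuotientGroup.eq_one_iff m
  rcases hM _ (h9 hs hk) (im A φ A.P) (φ ⟨A.i, A.iN⟩) ((card_im hk A.PN le_normalizer).trans A.cP) (by
      rintro ⟨p, hp, e⟩
      rw [← mul_inv_eq_one, ← map_inv, ← map_mul, hk] at e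
      have e' : (p : G) = A.i := mul_inv_eq_one.1 (RN A e (mul_mem (le_normalizer hp) (inv_mem (iN A.toBs))))
      exact iP A.toBs (e' ▸ hp)) (by
      rintro _ ⟨p, hp, rfl⟩
      rw [← map_inv, ← map_inv, ← map_mul, ← map_mul]
      exact congrArg φ (Subtype.ext (A.iinv _ hp))) with h | ⟨N, -, h1, h2, h3, h4, ⟨e⟩⟩ | ⟨h1, h2⟩
  · refine Or.inl fun m hm p hp => sup_of hk (m := ⟨m, hm⟩ * ⟨p, A.PN hp⟩ * ⟨m, hm⟩⁻¹) ?_
    rw [map_mul, map_mul, map_inv]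
    exact h.conj_mem _ ⟨_, hp, rfl⟩ _
  · have hle : (N.comap φ).map 𝒩(A.R).subtype ≤ 𝒩(A.R) := map_subtype_le _
    have hm : ∀ m : 𝒩(A.R), (m : G) ∈ (N.comap φ).map 𝒩(A.R).subtype ↔ φ m ∈ N := fun m =>
      mem_map_iff_mem (f := 𝒩(A.R).subtype) 𝒩(A.R).subtype_injective
    refine Or.inr (Or.inl ⟨_, hle, fun r hr => (hm ⟨r, le_normalizer hr⟩).2 (((hk ⟨r, le_normalizer hr⟩).2 hr).symm ▸ one_mem _),
      fun p hp => (hm ⟨p, A.PN hp⟩).2 (h2 ⟨_, hp, rfl⟩), (hm ⟨_, A.iN⟩).2 h3, ?_, ?_,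
      e.toMonoidHom.comp ((φ.comp (inclusion hle)).codRestrict N fun m => (hm ⟨m, hle m.2⟩).1 m.2), ?_, fun m => ?_⟩)
    · rwa [relIndex, subgroupOf, comap_map_eq_self_of_injective 𝒩(A.R).subtype_injective, index_comap_of_surjective _ hs]
    · rw [← card_im hk (inf_le_right.trans hle) inf_le_left, ← h4, norm_im hs hk]
      congr 2
      refine le_antisymm ?_ ?_
      · rintro _ ⟨n, hn, rfl⟩
        exact ⟨⟨n, ⟨hn.1, n.2⟩, rfl⟩, (hm n).1 hn.2⟩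
      · rintro _ ⟨⟨n, hn, rfl⟩, k⟩
        exact ⟨n, ⟨hn.1, (hm n).2 k⟩, rfl⟩
    · refine e.surjective.comp fun y => ?_
      obtain ⟨m, k⟩ := hs y
      exact ⟨⟨m, (hm m).2 (k ▸ y.2)⟩, Subtype.ext k⟩
    · rw [← hk ⟨m, hle m.2⟩]
      exact e.map_eq_one_iff.trans Subtype.ext_iff
  · rw [norm_im hs hk, card_im hk inf_le_right inf_le_left] at h1
    have k := card_le_of_le (inf_le_left : 𝒩(A.P) ⊓ 𝒩(A.R) ≤ 𝒩(A.P))
    have c : Nat.card 𝒩(A.P) = 72 := A.nP.resolve_left (by omega)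
    have e := eq_of_le_of_card_ge (inf_le_left : 𝒩(A.P) ⊓ 𝒩(A.R) ≤ 𝒩(A.P)) (by omega)
    exact Or.inr (Or.inr ⟨e ▸ inf_le_right, c, _, _, inferInstance, φ, h2, hs, hk⟩)

end CL.T3
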