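/-
Project T3: case A, the frame `N(E)/E ≅ A₆`.
-/
import Cfsg.Agent.T3.Defs2
import Cfsg.Agent.T3.Gen
import Cfsg.Agent.T3.Q

set_option autoImplicit false
set_option linter.unusedSectionVars false
open Cfsg Subgroup CL.Even CL.Grp

namespace CL.T3

universe u

namespace A0x

variable {G : Type u} [Group G] [Finite G]

theorem zp {a y : G} (h : a ∈ zpowers y) (ha : orderOf a = 3) (hy : orderOf y = 3) : zpowers a = zpowers y :=
  eq_of_le_of_card_ge (zpowers_le.2 h) (by rw [Nat.card_zpowers, Nat.card_zpowers, ha, hy])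

theorem V_eq {a y : G} (h : zpowers a = zpowers y) : V a = V y := by
  have k : ∀ {a y : G}, a ∈ zpowers y → ∀ w, w * y = y * w → w * a = a * w := by
    rintro _ y ⟨n, rfl⟩ w e
    exact (Commute.zpow_right e n).eq
  unfold V; congr 1; ext w
  exact and_congr_left fun _ => ⟨k (h ▸ mem_zpowers y) w, k (h ▸ mem_zpowers a) w⟩

theorem idx3 (D : Subgroup A6) (c : Nat.card A6 = 360) (h : D.index = 3) : False := by
  have : IsSimpleGroup A6 := alternatingGroup.isSimpleGroup (α := Fin 6) (by simp)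
  rcases IsSimpleGroup.eq_bot_or_eq_top_of_normal D.normalCore inferInstance with k | k
  · rw [normalCore_eq_ker, MonoidHom.ker_eq_bot_iff] at k
    have := Nat.card_le_card_of_injective _ k
    rw [c, Nat.card_perm, ← index_eq_card, h] at this
    exact absurd this (by decide)
  · have := D.normalCore_le
    rw [k, top_le_iff] at this
    simp [this] at h

/-- the orbit of a non-trivial element of `E` -/
theorem orb {E : Subgroup G} {z : G} (hz : z ∈ E) (z1 : z ≠ 1) : (C1 z).relIndex 𝒩(E) < Nat.card E := by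
  let _ : MulAction 𝒩(E) G := MulAction.compHom G ((MulAut.conj (G := G)).comp 𝒩(E).subtype)
  have e : (C1 z).subgroupOf 𝒩(E) = MulAction.stabilizer 𝒩(E) z := by
    ext g
    exact mem_C1.trans (mul_inv_eq_iff_eq_mul (a := (g : G) * z)).symm
  rw [relIndex, e, MulAction.index_stabilizer]
  change _ < (E : Set G).ncard
  refine Set.ncard_lt_ncard ⟨?_, fun k => ?_⟩
  · rintro _ ⟨g, rfl⟩
    exact conj_mem g.2 hz
  · obtain ⟨g, r⟩ := k E.one_mem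
    exact z1 (conj_eq_one_iff.1 r)

variable (A : CA1 G)

theorem y1 : A.y ≠ 1 := fun e => A.yx (e ▸ one_mem _)

theorem c36 : Nat.card (𝒩(A.P) ⊓ 𝒩(A.R) : Subgroup G) ≤ 36 := by
  have alt : ∀ n ∈ 𝒩(A.P) ⊓ 𝒩(A.R), n * A.x * n⁻¹ ∈ zpowers A.x ∨ n * A.x * n⁻¹ ∈ zpowers A.y := fun n hn =>
    A.only _ (conj_mem hn.1 A.hx) (fun e => A.x1 (conj_eq_one_iff.1 e)) (by rw [V_conj, Ne, cj_eq_bot]; exact A.Vx)
      (by rw [V_conj]; exact cj_le_of_le (A.RE ▸ le_sup_left) hn.2)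
  obtain ⟨n₀, h0⟩ : ∃ n₀ : G, ∀ n ∈ 𝒩(A.P) ⊓ 𝒩(A.R), ∃ c : Bool, ∃ p ∈ A.P,
      n = cond c n₀ 1 * p ∨ n = cond c n₀ 1 * (p * A.i) := by
    by_cases k : ∃ n ∈ 𝒩(A.P) ⊓ 𝒩(A.R), n * A.x * n⁻¹ ∈ zpowers A.y
    · obtain ⟨n₀, hn₀, k⟩ := k
      refine ⟨n₀, fun n hn => ?_⟩
      rcases alt n hn with r | r
      · exact ⟨false, by simpa using A.fix n hn.1 _ A.hx A.x1 r⟩
      · rw [← zp k (A.o3 _ (conj_mem hn₀.1 A.hx) fun e => A.x1 (conj_eq_one_iff.1 e)) (A.o3 _ A.hy (y1 A))] at r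
        obtain ⟨j, r⟩ := r
        obtain ⟨p, hp, e⟩ := A.fix (n₀⁻¹ * n) (mul_mem (inv_mem hn₀.1) hn.1) _ A.hx A.x1 ⟨j, by
          simp only [conj_zpow] at r
          change A.x ^ j = _
          calc _ = n₀⁻¹ * (n₀ * A.x ^ j * n₀⁻¹) * n₀ := by group
            _ = _ := by rw [r]; group⟩
        exact ⟨true, p, hp, e.imp (fun e => by rw [← e]; simp) fun e => by rw [← e]; simp⟩
    · exact ⟨1, fun n hn => ⟨false, by
        simpa using A.fix n hn.1 _ A.hx A.x1 ((alt n hn).resolve_right fun r => k ⟨n, hn, r⟩)⟩⟩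
  have : ∀ n : (𝒩(A.P) ⊓ 𝒩(A.R) : Subgroup G), ∃ t : Bool × Bool × A.P,
      (n : G) = cond t.1 n₀ 1 * (t.2.2 * cond t.2.1 A.i 1) := fun n => by
    obtain ⟨c, p, hp, e | e⟩ := h0 n n.2
    exacts [⟨⟨c, false, p, hp⟩, by simpa using e⟩, ⟨⟨c, true, p, hp⟩, e⟩]
  choose f hf using this
  have := Nat.card_le_card_of_injective f fun a b e => Subtype.ext (by rw [hf a, hf b, e])
  simpa [Nat.card_prod, A.cP] using this

theorem top {M : Subgroup G} (h1 : M ≤ 𝒩(A.R)) (hP : A.P ≤ M) (hi : M.relIndex 𝒩(A.R) ∣ 2)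
    (hc : Nat.card (𝒩(A.P) ⊓ M : Subgroup G) = 36) : M = 𝒩(A.R) := le_antisymm h1 fun h hh => by
  have nm : (M.subgroupOf 𝒩(A.R)).Normal := ((Nat.dvd_prime Nat.prime_two).1 hi).elim normal_of_index_eq_one
    normal_of_index_eq_two
  obtain ⟨a, ha, n, hn, rfl⟩ := frattini_mul (Qx.syl A.toBs hP) h1 (normal_subgroupOf_iff_le_normalizer h1 |>.1 nm) hh
  exact mul_mem ((eq_of_le_of_card_ge (inf_le_inf_left _ h1) (hc ▸ c36 A)).ge ⟨ha.2, ha.1⟩).2 hn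

/-- a partner of an element of `P` fixing a non-trivial element of `E` -/
theorem partner {p z : G} (hp : p ∈ A.P) (p1 : p ≠ 1) (hz : z ∈ A.R) (z1 : z ≠ 1) (c : z * p = p * z) :
    ∃ q ∈ A.P, q ∉ zpowers p ∧ A.R = V p ⊔ V q ∧ V p ≠ ⊥ ∧ V q ≠ ⊥ ∧
      (∀ g ∈ 𝒞(V p), ∀ k : ℕ, g ^ 2 ^ k = 1 → g ∈ A.R) ∧ Nat.card 𝒩(V p) = 288 := by
  have o := A.o3 p hp p1
  have zV : z ∈ V p := (A.loc.mem p o z).2 ⟨c, A.el z hz⟩
  have nb : V p ≠ ⊥ := fun e => z1 (mem_bot.1 (e ▸ zV))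
  have le : V p ≤ A.R := ((genS G A.toBs A.R A.PN (by rw [A.cR]; decide)).2.1 p hp p1).resolve_right fun e =>
    z1 (mem_bot.1 (e ▸ ⟨zV, hz⟩))
  rcases A.only p hp p1 nb le with r | r
  · have e := zp r o (A.o3 _ A.hx A.x1)
    rw [V_eq e, e]
    exact ⟨A.y, A.hy, A.yx, A.RE, A.Vx, A.Vy, A.Cx, A.Nx⟩
  · have e := zp r o (A.o3 _ A.hy (y1 A))
    rw [V_eq e, e]
    exact ⟨A.x, A.hx, fun m => A.yx (zp m (A.o3 _ A.hx A.x1) (A.o3 _ A.hy (y1 A)) ▸ mem_zpowers _),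
      A.RE.trans (sup_comm _ _), A.Vy, A.Vx, A.Cy, A.Ny⟩

variable {A} (φ : 𝒩(A.R) →* A6)

/-- the preimage of a subgroup of `A₆` -/
def pre (D : Subgroup A6) : Subgroup G := (D.comap φ).map 𝒩(A.R).subtype

variable {φ}

theorem mem_pre {D : Subgroup A6} {g : 𝒩(A.R)} : (g : G) ∈ pre φ D ↔ φ g ∈ D :=
  mem_map_iff_mem 𝒩(A.R).subtype_injective

theorem pre_le (D : Subgroup A6) : pre φ D ≤ 𝒩(A.R) := map_subtype_le _

theorem pre_mono {D D' : Subgroup A6} (h : D ≤ D') : pre φ D ≤ pre φ D' := map_mono (comap_mono h)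

variable (hs : Function.Surjective φ) (hk : ∀ m, φ m = 1 ↔ (m : G) ∈ A.R) (c6 : Nat.card A6 = 360)
include hk

theorem le_pre (D : Subgroup A6) : A.R ≤ pre φ D := fun e he =>
  (mem_pre (g := ⟨e, le_normalizer he⟩)).2 (by rw [(hk _).2 he]; exact one_mem _)

theorem eq_pre {S : Subgroup G} (h1 : A.R ≤ S) (h2 : S ≤ 𝒩(A.R)) : pre φ ((S.subgroupOf 𝒩(A.R)).map φ) = S := by
  rw [pre, comap_map_eq_self (f := φ) (fun m hm => h1 ((hk m).1 hm)), map_subgroupOf_eq_of_le h2]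

include hs c6

theorem cM : Nat.card 𝒩(A.R) = 5760 := by
  have e : φ.ker = A.R.subgroupOf _ := Subgroup.ext hk
  rw [← φ.ker.card_mul_index, index_ker, MonoidHom.range_eq_top.2 hs, card_top, c6, e,
    Nat.card_congr (subgroupOfEquivOfLe le_normalizer).toEquiv, A.cR]

theorem card_pre (D : Subgroup A6) : Nat.card (pre φ D) = 16 * Nat.card D := by
  have h1 := (D.comap φ).card_mul_index
  have h2 := D.card_mul_index
  rw [cM hs hk c6, index_comap_of_surjective _ hs] at h1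
  rw [pre, card_map_of_injective 𝒩(A.R).subtype_injective]
  refine Nat.eq_of_mul_eq_mul_right (Nat.pos_of_ne_zero D.index_ne_zero_of_finite) ?_
  rw [h1, mul_assoc, h2, c6]
  norm_num

omit c6 in
theorem free (h1 : ∀ s t : A6, orderOf s = 2 → orderOf t = 2 → ∃ g, g * s * g⁻¹ = t) {t : G} (ht : t ∈ 𝒩(A.R))
    (n : t ∉ A.R) (t2 : t * t ∈ A.R) : Nat.card (A.R ⊓ C1 t : Subgroup G) = 4 ∧ ∃ e ∈ A.R, (e * t) * (e * t) = 1 := by
  have o : ∀ s : 𝒩(A.R), (s : G) ∉ A.R → (s : G) * s ∈ A.R → orderOf (φ s) = 2 := fun s a b =>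
    orderOf_eq_prime (by rw [pow_two, ← map_mul]; exact (hk _).2 b) fun e => a ((hk _).1 e)
  have ii := Qx.ii A.toBs
  obtain ⟨g, e⟩ := h1 _ _ (o ⟨A.i, A.iN⟩ (fun m => Qx.i1 A.toBs (Qx.RN A.toRA m (Qx.iN A.toBs)))
    (by change A.i * A.i ∈ _; rw [ii]; exact one_mem _)) (o ⟨t, ht⟩ n t2)
  obtain ⟨m, rfl⟩ := hs g
  have he : (m : G) * A.i * (m : G)⁻¹ * t⁻¹ ∈ A.R :=
    (hk (m * ⟨A.i, A.iN⟩ * m⁻¹ * (⟨t, ht⟩ : 𝒩(A.R))⁻¹)).1 (by rw [map_mul, map_mul, map_mul, map_inv, map_inv, e, mul_inv_cancel])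
  refine ⟨?_, _, he, by rw [inv_mul_cancel_right, conj_mul, ii, mul_one, mul_inv_cancel]⟩
  have e2 : A.R ⊓ C1 t = cj (m : G) (A.R ⊓ C1 A.i) := by
    rw [cj_inf, cj_eq m.2]
    ext r
    rw [mem_inf, mem_inf, mem_cj, mem_C1, mem_C1]
    refine and_congr_right fun hr => ?_
    have k := A.el.comm hr he
    constructor <;> intro c
    · calc _ = (m : G)⁻¹ * (r * ((m : G) * A.i * (m : G)⁻¹ * t⁻¹) * t) * m := by group
        _ = _ := by rw [k, mul_assoc _ r t, c]; group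
    · refine mul_left_cancel (a := (m : G) * A.i * (m : G)⁻¹ * t⁻¹) ?_
      rw [← mul_assoc, ← k]
      calc _ = m * ((m : G)⁻¹ * r * m * A.i) * (m : G)⁻¹ := by group
        _ = _ := by rw [c]; group
  have := A.fr
  rw [A.cR] at this
  rw [e2, card_cj]
  exact (Nat.pow_left_injective two_ne_zero) (this.trans (by norm_num : 16 = 4 ^ 2))

theorem exz (h40 : ∀ S : Subgroup A6, Nat.card S ≠ 40) :
    ∃ z ∈ A.R, z ≠ 1 ∧ Nat.card (C1 z ⊓ 𝒩(A.R) : Subgroup G) = 384 := by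
  obtain ⟨T, hT⟩ := exists_isSylowIn 2 𝒩(A.R)
  obtain ⟨⟨z, hz, zT⟩, z1⟩ := ne_bot_iff_exists_ne_one.1 (inf_cent_ne_bot (IsPGroup.of_card (n := 4) A.cR) hT.isPGroup
    hT.le fun e => by have := A.cR; simp [e] at this)
  replace z1 : z ≠ 1 := fun e => z1 (Subtype.ext e)
  refine ⟨z, hz, z1, ?_⟩
  have h1 := orb hz z1
  have h2 := hT.not_dvd_relIndex_of_le (K := C1 z ⊓ 𝒩(A.R)) (le_inf (fun t ht => mem_C1.2 (zT t ht)) hT.le) inf_le_right
  have h3 := ((C1 z ⊓ 𝒩(A.R)).subgroupOf 𝒩(A.R)).card_mul_index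
  have h4 : ¬ 9 ∣ Nat.card (C1 z ⊓ 𝒩(A.R) : Subgroup G) := fun d =>
    A.loc.inv9 z (orderOf_eq_prime (by rw [pow_two, A.el z hz]) z1) (d.trans (card_dvd_of_le inf_le_left))
  have h5 := card_pre hs hk c6 (((C1 z ⊓ 𝒩(A.R)).subgroupOf 𝒩(A.R)).map φ)
  have h6 := h40 (((C1 z ⊓ 𝒩(A.R)).subgroupOf 𝒩(A.R)).map φ)
  have h7 := idx3 (((C1 z ⊓ 𝒩(A.R)).subgroupOf 𝒩(A.R)).map φ) c6
  have h8 := (((C1 z ⊓ 𝒩(A.R)).subgroupOf 𝒩(A.R)).map φ).card_mul_index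
  rw [eq_pre hk (le_inf (fun e he => mem_C1.2 (A.el.comm he hz)) le_normalizer) inf_le_right] at h5
  rw [Nat.card_congr (subgroupOfEquivOfLe inf_le_right).toEquiv, cM hs hk c6, ← relIndex] at h3
  rw [← inf_relIndex_right, A.cR] at h1
  rw [c6] at h8
  generalize (C1 z ⊓ 𝒩(A.R)).relIndex 𝒩(A.R) = r at h1 h2 h3
  generalize Nat.card (((C1 z ⊓ 𝒩(A.R)).subgroupOf 𝒩(A.R)).map φ) = d at h5 h6 h8
  interval_cases r <;> try omega
  obtain rfl : d = 120 := by omega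
  exact (h7 (by omega)).elim

end A0x

open A0x

theorem a0S (h6 : A6S) : A0S.{u} := by
  intro G _ _ A
  refine ⟨fun h => ?_, ?_⟩
  · have := c36 A
    rw [inf_eq_left.2 h.1, h.2.1] at this
    omega
  rintro ⟨M, h1, -, hP, -, hi, hc, φ, hs, hk⟩
  obtain rfl := top A h1 hP hi hc
  obtain ⟨a1, -, a3, -, a5, c6, a7⟩ := h6
  obtain ⟨z, hz, z1, cS⟩ := exz hs hk c6 a3
  have eS := eq_pre (S := C1 z ⊓ 𝒩(A.R)) hk (le_inf (fun e he => mem_C1.2 (A.el.comm he hz)) le_normalizer) inf_le_right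
  generalize ((C1 z ⊓ 𝒩(A.R)).subgroupOf 𝒩(A.R)).map φ = S at eS
  obtain ⟨D, K, KD, DS, cK, cD, eK, nK, ⟨s, hs1, t, ht1, st⟩, ⟨s', hs2, s2, s3⟩, fp⟩ := a7 S (by
    have := card_pre hs hk c6 S
    rw [eS, cS] at this
    omega)
  have cT : Nat.card (pre φ D) = 128 := by rw [card_pre hs hk c6, cD]
  obtain ⟨⟨x, hx⟩, x3⟩ := exists_prime_orderOf_dvd_card' (G := (C1 z ⊓ 𝒩(A.R) : Subgroup G)) 3 (by rw [cS]; decide)
  replace x3 : orderOf x = 3 := (orderOf_mk x hx).symm.trans x3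
  have x1 : x ≠ 1 := fun e => by simp [e] at x3
  have xc : x ^ 3 = 1 := x3 ▸ pow_orderOf_eq_one x
  obtain ⟨m, hm, k⟩ := syl_conj_le (Qx.syl A.toBs A.PN) (isPGroup_zpowers (k := 1) xc) (zpowers_le.2 hx.2)
  have hp := k (conj_mem_cj m (mem_zpowers x))
  obtain ⟨q, hq, q1, q2, q3, q4, q5, q6⟩ := partner A hp (fun e => x1 (conj_eq_one_iff.1 e)) (conj_mem hm hz)
    (fun e => z1 (conj_eq_one_iff.1 e)) (by rw [conj_mul, conj_mul, mem_C1.1 hx.1])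
  obtain ⟨y, rfl⟩ : ∃ y, q = m * y * m⁻¹ := ⟨m⁻¹ * q * m, by group⟩
  rw [V_conj] at q2 q3 q4 q5 q6
  rw [V_conj, ← Subgroup.map_sup] at q2
  have fr := fun t => free (t := t) hs hk a1
  refine ⟨{
    E := A.R, T := pre φ D, Q := pre φ K, z := z, x := x, y := y, simp := A.simp, nab := A.nab, loc := A.loc
    cE := A.cR, eE := A.el, CE := A.CR, ns := fun h => a5 (Group.isSolvable_of_surjective hs)
    sT := ⟨pre_le D, IsPGroup.of_card (n := 7) cT, ?_⟩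
    cT := cT, EQ := le_pre hk K, QT := pre_mono KD, cQ := by rw [card_pre hs hk c6, cK]
    zE := hz, z1 := z1, Tz := (pre_mono DS).trans (eS.le.trans inf_le_left), cS := cS
    nQ := fun g hg => Qx.norm_of fun a ha => ?_
    sqQ := fun a ha => ?_
    x3 := x3, xz := hx.1, xE := hx.2
    y3 := ?_, xy := ?_, yx := ?_
    EV := cj_inj.1 ((cj_eq hm).trans q2)
    Vx := fun e => q3 (cj_eq_bot.2 e), Vy := fun e => q4 (cj_eq_bot.2 e)
    xQ := fun a ha e => ?_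
    nab2 := ?_, out := ?_, free := fr, c48 := A.c48
    Cx := fun g hg j e => ?_
    Nx := by rwa [← cj_norm, card_cj] at q6 }⟩
  · have := ((pre φ D).subgroupOf 𝒩(A.R)).card_mul_index
    rw [Nat.card_congr (subgroupOfEquivOfLe (pre_le D)).toEquiv, cT, cM hs hk c6, ← relIndex] at this
    omega
  · exact (mem_pre (g := ⟨g, hg.2⟩ * ⟨a, pre_le K ha⟩ * (⟨g, hg.2⟩ : 𝒩(A.R))⁻¹)).2 (by
      rw [map_mul, map_mul, map_inv]
      exact conj_mem (nK (mem_pre.1 (eS.ge hg))) (mem_pre.1 ha))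
  · exact (hk (⟨a, pre_le K ha⟩ * ⟨a, pre_le K ha⟩)).1 (by rw [map_mul]; exact eK _ (mem_pre.1 ha))
  · rw [← (MulAut.conj m).orderOf_eq y]
    exact A.o3 (m * y * m⁻¹) hq fun e => q1 (by rw [e]; exact one_mem _)
  · have := A.cm _ hp _ hq
    rwa [conj_mul, conj_mul, mul_left_inj, mul_right_inj] at this
  · rintro ⟨j, rfl⟩
    exact q1 ⟨j, conj_zpow⟩
  · refine (hk ⟨a, pre_le K ha⟩).1 (fp (φ ⟨x, hx.2⟩) (mem_pre.1 (eS.ge hx)) (orderOf_eq_prime ?_ fun r => ?_) _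
      (mem_pre.1 ha) ?_)
    · rw [← map_pow, show (⟨x, hx.2⟩ : 𝒩(A.R)) ^ 3 = 1 from Subtype.ext xc, map_one]
    · have := A.el x ((hk _).1 r)
      rw [pow_succ, pow_two, this, one_mul] at xc
      exact x1 xc
    · have := (hk (⟨x, hx.2⟩ * ⟨a, pre_le K ha⟩ * (⟨x, hx.2⟩ : 𝒩(A.R))⁻¹ * (⟨a, pre_le K ha⟩ : 𝒩(A.R))⁻¹)).2 e
      rw [map_mul, map_mul, map_mul, map_inv, map_inv, mul_inv_eq_one, mul_inv_eq_iff_eq_mul] at this
      exact this.symm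
  · obtain ⟨a, rfl⟩ := hs s
    obtain ⟨b, rfl⟩ := hs t
    refine ⟨a, mem_pre.2 hs1, b, mem_pre.2 ht1, fun e => st ?_⟩
    have := (hk (a * b * a⁻¹ * b⁻¹)).2 e
    rwa [map_mul, map_mul, map_mul, map_inv, map_inv, mul_inv_eq_one, mul_inv_eq_iff_eq_mul] at this
  · obtain ⟨a, rfl⟩ := hs s'
    have n : (a : G) ∉ pre φ K := fun r => s2 (mem_pre.1 r)
    obtain ⟨-, e, he, r⟩ := fr a a.2 (fun r => n (le_pre hk K r)) ((hk (a * a)).1 (by rw [map_mul, s3]))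
    exact ⟨_, mul_mem (le_pre hk D he) (mem_pre.2 hs2), fun r => n ((mul_mem_cancel_left (le_pre hk K he)).1 r), r⟩
  · have := conj_mem' hm (q5 (m * g * m⁻¹) (cj_cent m _ ▸ conj_mem_cj m hg) j (by rw [conj_pow, e, mul_one, mul_inv_cancel]))
    simpa [mul_assoc] using this

end CL.T3
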