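/-
Project T3 (S3253), job A1: the abelian groups `R` of the cases A and D.
-/
import Cfsg.Agent.T3.Defs2

set_option autoImplicit false
set_option linter.unusedSectionVars false
open Cfsg Subgroup CL.Even CL.Grp

namespace CL.T3

universe u

namespace A1j

variable {G : Type u} [Group G] {A B R : Subgroup G} {g s t : G}

theorem zp3 (hs : orderOf s = 3) (ht : t ∈ zpowers s) : t = 1 ∨ t = s ∨ t = s⁻¹ := by
  obtain ⟨n, rfl⟩ := mem_zpowers_iff.1 ht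
  have h3 : s ^ (3 : ℤ) = 1 := by
    have := pow_orderOf_eq_one s
    rw [hs] at this
    exact_mod_cast this
  obtain ⟨k, rfl | rfl | rfl⟩ : ∃ k : ℤ, n = 3 * k ∨ n = 3 * k + 1 ∨ n = 3 * k - 1 := by
    have : n % 3 = 0 ∨ n % 3 = 1 ∨ n % 3 = 2 := by omega
    rcases this with h | h | h
    exacts [⟨n / 3, by omega⟩, ⟨n / 3, by omega⟩, ⟨n / 3 + 1, by omega⟩]
  · simp [zpow_mul, h3]
  · simp [zpow_add, zpow_mul, h3]
  · simp [zpow_sub, zpow_mul, h3]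

theorem zp_symm (hs : orderOf s = 3) (ht : t ∈ zpowers s) (h1 : t ≠ 1) : s ∈ zpowers t := by
  obtain h | rfl | rfl := zp3 hs ht
  exacts [absurd h h1, mem_zpowers _, by rw [zpowers_inv]; exact mem_zpowers _]

theorem V_zp (hs : orderOf s = 3) (ht : t ∈ zpowers s) (h1 : t ≠ 1) : V t = V s := by
  obtain h | rfl | rfl := zp3 hs ht
  exacts [absurd h h1, rfl, V_inv _]

theorem El.le_cent (h : El A) : A ≤ 𝒞(A) := fun _ ha _ hb => h.comm hb ha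

theorem El.isP (h : El A) : IsPGroup 2 A := fun a => ⟨1, Subtype.ext (by simpa [sq] using h a a.2)⟩

theorem el_sup (hA : El A) (hB : El B) (h : B ≤ 𝒞(A)) : El (A ⊔ B) := fun r hr => by
  obtain ⟨a, ha, b, hb, rfl⟩ := (mem_sup_nl (h.trans (cent_le_norm A))).1 hr
  rw [mul_assoc, ← mul_assoc b, ← comm_of_mem (h hb) ha, mul_assoc, hB b hb, mul_one, hA a ha]

theorem inf_sup (h0 : A ⊓ B = ⊥) (h : B ≤ 𝒩(A)) (hA : g ∈ 𝒩(A)) (hB : g ∈ 𝒩(B)) :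
    (A ⊔ B) ⊓ C1 g = (A ⊓ C1 g) ⊔ (B ⊓ C1 g) := by
  refine le_antisymm (fun r hr => ?_) (sup_le (inf_le_inf_right _ le_sup_left) (inf_le_inf_right _ le_sup_right))
  obtain ⟨a, ha, b, hb, rfl⟩ := (mem_sup_nl h).1 hr.1
  have e : a * b * g = g * (a * b) := mem_C1.1 hr.2
  have e1 : a⁻¹ * (g * a * g⁻¹) = b * (g * b * g⁻¹)⁻¹ := by
    calc _ = a⁻¹ * (g * (a * b)) * b⁻¹ * g⁻¹ := by group
      _ = _ := by rw [← e]; group
  have e2 : a⁻¹ * (g * a * g⁻¹) = 1 := mem_bot.1 (h0 ▸ mem_inf.2 ⟨mul_mem (inv_mem ha) (conj_mem hA ha),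
    e1 ▸ mul_mem hb (inv_mem (conj_mem hB hb))⟩)
  refine mul_mem_sup (mem_inf.2 ⟨ha, mem_C1.2 ?_⟩) (mem_inf.2 ⟨hb, mem_C1.2 ?_⟩)
  · rw [inv_mul_eq_one] at e2
    exact eq_mul_inv_iff_mul_eq.1 e2
  · rw [e1, mul_inv_eq_one] at e2
    exact eq_mul_inv_iff_mul_eq.1 e2

variable [Finite G]

theorem card_sup (h0 : A ⊓ B = ⊥) (h : B ≤ 𝒩(A)) : Nat.card (A ⊔ B : Subgroup G) = Nat.card A * Nat.card B := by
  have := card_sup_mul_card_inf h
  rwa [inf_comm, h0, card_bot, mul_one, sup_comm, mul_comm] at this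

theorem card_fix (h0 : A ⊓ B = ⊥) (h : B ≤ 𝒞(A)) (hA : g ∈ 𝒩(A)) (hB : g ∈ 𝒩(B)) :
    Nat.card ((A ⊔ B) ⊓ C1 g : Subgroup G) = Nat.card (A ⊓ C1 g : Subgroup G) * Nat.card (B ⊓ C1 g : Subgroup G) := by
  rw [inf_sup h0 (h.trans (cent_le_norm A)) hA hB]
  exact card_sup (le_bot_iff.1 (h0 ▸ inf_le_inf inf_le_left inf_le_left))
    (inf_le_left.trans (h.trans ((cent_mono inf_le_left).trans (cent_le_norm _))))

theorem elV (h : Loc G) (hs : orderOf s = 3) : El (V s) := fun a ha => ((h.mem s hs a).1 ha).2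

theorem cent3 (h : Loc G) (hR : El R) (hc : 4 < Nat.card R) : ¬ 3 ∣ Nat.card 𝒞(R) := fun k => by
  have : Fact (Nat.Prime 3) := ⟨Nat.prime_three⟩
  obtain ⟨⟨s, hs⟩, h3⟩ := exists_prime_orderOf_dvd_card' 3 k
  rw [← orderOf_coe] at h3
  have hle : R ≤ V s := fun r hr => (h.mem s h3 r).2 ⟨comm_of_mem hs hr, hR r hr⟩
  have := card_le_of_le hle
  rw [h.cV s h3 fun e => by rw [e, card_bot] at this; omega] at this
  omega

theorem fpf (B : Bs G) (hs : s ∈ B.P) (s1 : s ≠ 1) (ht : t ∈ B.P) (hn : t ∉ zpowers s) : V s ⊓ C1 t = ⊥ := by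
  have t1 : t ≠ 1 := fun e => hn (e ▸ one_mem _)
  refine le_bot_iff.1 fun v hv => mem_bot.2 (by_contra fun v1 => ?_)
  have h1 : v ∈ C1 s ⊓ C1 t := mem_inf.2 ⟨V_le_C1 s hv.1, hv.2⟩
  rw [B.loc.cP s t (B.o3 s hs s1) (B.o3 t ht t1) (B.cm s hs t ht) hn, B.gen s hs s1 t ht hn] at h1
  have := orderOf_dvd_of_pow_eq_one (show v ^ 2 = 1 by rw [sq]; exact elV B.loc (B.o3 s hs s1) v hv.1)
  rw [B.o3 v h1 v1] at this
  omega

theorem disj (h : A ⊓ C1 t = ⊥) : A ⊓ V t = ⊥ := le_bot_iff.1 (h ▸ inf_le_inf_left _ (V_le_C1 t))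

end A1j

open A1j

theorem a1S (hG : GenS.{u}) (hC : CvS.{u}) : A1S.{u} := by
  intro G _ _ A
  have : Fact (Nat.Prime 2) := ⟨Nat.prime_two⟩
  have y1 : A.y ≠ 1 := fun e => A.yx (e ▸ one_mem _)
  have x3 := A.o3 _ A.hx A.x1
  have y3 := A.o3 _ A.hy y1
  have ex := elV A.loc x3
  have ey := elV A.loc y3
  have d0 : V A.x ⊓ V A.y = ⊥ := disj (fpf A.toBs A.hx A.x1 A.hy A.yx)
  have xyN := A.xy.trans (cent_le_norm _)
  set R : Subgroup G := V A.x ⊔ V A.y with hR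
  have el : El R := el_sup ex ey A.xy
  have cR : Nat.card R = 16 := by rw [card_sup d0 xyN, A.loc.cV _ x3 A.Vx, A.loc.cV _ y3 A.Vy]
  have PN : A.P ≤ 𝒩(R) := le_norm_sup (A.PV _ A.hx) (A.PV _ A.hy)
  have key : ∀ s ∈ A.P, s ≠ 1 → V s ≠ ⊥ → V s ≤ R →
      (∀ g ∈ 𝒞(V s), ∀ k : ℕ, g ^ 2 ^ k = 1 → g ∈ R) ∧ Nat.card 𝒩(V s) = 288 := fun s hs s1 hV hle => by
    obtain ⟨Q, -, -, h3, -, h5, h6, -⟩ := hC G A.toBs s hs s1 hV
    rw [A.c48 s (A.o3 s hs s1) hV] at h3 h6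
    have : R = Q := eq_of_le_of_card_ge
      (fun r hr => h5 r (cent_mono hle (El.le_cent el hr)) 1 (by rw [pow_one, sq, el r hr])) (by omega)
    exact ⟨this ▸ h5, h6⟩
  obtain ⟨Cx, Nx⟩ := key _ A.hx A.x1 A.Vx le_sup_left
  obtain ⟨Cy, Ny⟩ := key _ A.hy y1 A.Vy le_sup_right
  have free : ∀ z ∈ A.P, z ∉ zpowers A.x → z ∉ zpowers A.y → R ⊓ V z = ⊥ := fun z hz h1 h2 => disj (by
    rw [inf_sup d0 xyN (A.PV _ A.hx hz) (A.PV _ A.hy hz), fpf A.toBs A.hx A.x1 hz h1, fpf A.toBs A.hy y1 hz h2,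
      bot_sup_eq])
  refine ⟨{ A with
    R := R, el := el, c16 := cR.ge, PN := PN, RE := rfl, cR := cR, Cx := Cx, Cy := Cy, Nx := Nx, Ny := Ny
    CR := le_antisymm (fun g hg => ?_) (El.le_cent el)
    iN := le_norm_sup (zpowers_le.2 (A.iV _ A.hx)) (zpowers_le.2 (A.iV _ A.hy)) (mem_zpowers _)
    mx := fun z hz z1 hN => by_contra fun hn => ?_
    fr := ?_
    only := fun z hz z1 hV hle => by_contra fun hn => ?_ }⟩
  · obtain ⟨k, hk⟩ := (hG G A.toBs 𝒞(R) (le_norm_cent PN) (cent3 A.loc el (by omega))).1 ⟨g, hg⟩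
    exact Cx g (cent_mono le_sup_left hg) k (congrArg Subtype.val hk)
  · have hV : V z ≠ ⊥ := fun e => hn (e ▸ bot_le)
    have z3 := A.o3 z hz z1
    have cU : Nat.card (R ⊔ V z : Subgroup G) = 64 := by
      rw [card_sup (free z hz (fun e => hn (V_zp x3 e z1 ▸ le_sup_left)) fun e => hn (V_zp y3 e z1 ▸ le_sup_right)) hN,
        cR, A.loc.cV z z3 hV]
    have pU : IsPGroup 2 (R ⊔ V z : Subgroup G) := isPGroup_sup' (El.isP el) (El.isP (elV A.loc z3)) hN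
    have nU : A.P ≤ 𝒩(R ⊔ V z) := le_norm_sup PN (A.PV z hz)
    refine inf_cent_ne_bot pU pU le_normalizer (fun e => by rw [e, card_bot] at cU; omega) (le_bot_iff.1
      ((hG G A.toBs _ (le_norm_inf nU (le_norm_cent nU)) fun k => ?_).2.2 ⊥ fun s hs s1 hle => ?_))
    · have := k.trans (card_dvd_of_le inf_le_left)
      rw [cU] at this
      omega
    · by_contra hs0
      have := card_le_of_le (le_centralizer_iff.1 (hle.trans inf_le_right))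
      rw [cU, A.c48 s (A.o3 s hs s1) fun e => hs0 e.le] at this
      omega
  · rw [card_fix d0 A.xy (A.iV _ A.hx) (A.iV _ A.hy), A.iC _ A.hx A.x1 A.Vx, A.iC _ A.hy y1 A.Vy, cR]; rfl
  · push Not at hn
    exact hV (le_bot_iff.1 (free z hz hn.1 hn.2 ▸ le_inf hle le_rfl))

theorem d1S (hG : GenS.{u}) : D1S.{u} := by
  intro G _ _ D
  obtain ⟨x, hx, x1⟩ : ∃ x ∈ D.P, x ≠ 1 := by
    by_contra h
    push Not at h
    have := D.cP
    rw [(eq_bot_iff_forall _).2 h, card_bot] at this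
    omega
  obtain ⟨y, hy, yx⟩ : ∃ y ∈ D.P, y ∉ zpowers x := ⟨_, conj_mem D.fN hx, D.fmov x hx x1⟩
  have y1 : y ≠ 1 := fun e => yx (e ▸ one_mem _)
  have x3 := D.o3 _ hx x1
  have y3 := D.o3 _ hy y1
  have xy : x ∉ zpowers y := fun e => yx (zp_symm y3 e x1)
  have hu : x * y ∈ D.P := mul_mem hx hy
  have hw : x * y⁻¹ ∈ D.P := mul_mem hx (inv_mem hy)
  have ux : x * y ∉ zpowers x := fun e => yx ((mul_mem_cancel_left (mem_zpowers x)).1 e)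
  have uy : x * y ∉ zpowers y := fun e => xy ((mul_mem_cancel_right (mem_zpowers y)).1 e)
  have wx : x * y⁻¹ ∉ zpowers x := fun e => yx (inv_mem_iff.1 ((mul_mem_cancel_left (mem_zpowers x)).1 e))
  have wy : x * y⁻¹ ∉ zpowers y := fun e => xy ((mul_mem_cancel_right (inv_mem (mem_zpowers y))).1 e)
  have u1 : x * y ≠ 1 := fun e => ux (e ▸ one_mem _)
  have w1 : x * y⁻¹ ≠ 1 := fun e => wx (e ▸ one_mem _)
  have u3 := D.o3 _ hu u1
  have w3 := D.o3 _ hw w1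
  have wu : x * y⁻¹ ∉ zpowers (x * y) := fun e => by
    have h1 := mul_mem (mem_zpowers (x * y)) (inv_mem e)
    rw [mul_inv_rev, inv_inv, mul_assoc, ← mul_assoc y, D.cm x hx _ (mul_mem (mul_mem hy hy) (inv_mem hx)),
      inv_mul_cancel_right] at h1
    have h2 : y * y = y⁻¹ := by
      rw [eq_inv_iff_mul_eq_one, ← pow_three', ← y3, pow_orderOf_eq_one]
    exact uy (zp_symm u3 (inv_mem_iff.1 (h2 ▸ h1)) y1)
  have c1 : V y ≤ 𝒞(V x) := D.cm4 _ hx x1 _ hy y1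
  have c2 : V (x * y) ≤ 𝒞(V x ⊔ V y) := cent_sup (V x) _ ▸ le_inf (D.cm4 _ hx x1 _ hu u1) (D.cm4 _ hy y1 _ hu u1)
  have c3 : V (x * y⁻¹) ≤ 𝒞(V x ⊔ V y ⊔ V (x * y)) := by
    rw [cent_sup, cent_sup]
    exact le_inf (le_inf (D.cm4 _ hx x1 _ hw w1) (D.cm4 _ hy y1 _ hw w1)) (D.cm4 _ hu u1 _ hw w1)
  have n1 := c1.trans (cent_le_norm _)
  have n2 := c2.trans (cent_le_norm _)
  have P2 : D.P ≤ 𝒩(V x ⊔ V y) := le_norm_sup (D.PV _ hx) (D.PV _ hy)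
  have P3 := le_norm_sup P2 (D.PV _ hu)
  have i2 : zpowers D.i ≤ 𝒩(V x ⊔ V y) := le_norm_sup (zpowers_le.2 (D.iV _ hx)) (zpowers_le.2 (D.iV _ hy))
  have i3 := le_norm_sup i2 (zpowers_le.2 (D.iV _ hu))
  have d1 : V x ⊓ V y = ⊥ := disj (fpf D.toBs hx x1 hy yx)
  have f2 : ∀ z ∈ D.P, z ∉ zpowers x → z ∉ zpowers y → (V x ⊔ V y) ⊓ C1 z = ⊥ := fun z hz h1 h2 => by
    rw [inf_sup d1 n1 (D.PV _ hx hz) (D.PV _ hy hz), fpf D.toBs hx x1 hz h1, fpf D.toBs hy y1 hz h2, bot_sup_eq]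
  have d2 := disj (f2 _ hu ux uy)
  have d3 : (V x ⊔ V y ⊔ V (x * y)) ⊓ V (x * y⁻¹) = ⊥ := disj (by
    rw [inf_sup d2 n2 (P2 hw) (D.PV _ hu hw), f2 _ hw wx wy, fpf D.toBs hu u1 hw wu, bot_sup_eq])
  set R : Subgroup G := V x ⊔ V y ⊔ V (x * y) ⊔ V (x * y⁻¹) with hR
  have el : El R := el_sup (el_sup (el_sup (elV D.loc x3) (elV D.loc y3) c1) (elV D.loc u3) c2) (elV D.loc w3) c3
  have cR : Nat.card R = 256 := by
    rw [card_sup d3 (c3.trans (cent_le_norm _)), card_sup d2 n2, card_sup d1 n1, D.loc.cV _ x3 (D.nt _ hx x1),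
      D.loc.cV _ y3 (D.nt _ hy y1), D.loc.cV _ u3 (D.nt _ hu u1), D.loc.cV _ w3 (D.nt _ hw w1)]
  have PN : D.P ≤ 𝒩(R) := le_norm_sup P3 (D.PV _ hw)
  have allV : ∀ z ∈ D.P, z ≠ 1 → V z ≤ R := fun z hz z1 => by
    obtain e | e | e | e := D.four x hx x1 y hy yx z hz
    · exact V_zp x3 e z1 ▸ le_sup_of_le_left (le_sup_of_le_left le_sup_left)
    · exact V_zp y3 e z1 ▸ le_sup_of_le_left (le_sup_of_le_left le_sup_right)
    · exact V_zp u3 e z1 ▸ le_sup_of_le_left le_sup_right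
    · exact V_zp w3 e z1 ▸ le_sup_right
  refine ⟨{ D with
    R := R, el := el, c16 := by omega, PN := PN, cR := cR, allV := allV
    CR := le_antisymm ((hG G D.toBs 𝒞(R) (le_norm_cent PN) (cent3 D.loc el (by omega))).2.2 R
      fun z hz z1 _ => allV z hz z1) (El.le_cent el)
    iN := le_norm_sup i3 (zpowers_le.2 (D.iV _ hw)) (mem_zpowers _)
    mx := fun z hz z1 _ => allV z hz z1
    fr := ?_
    genR := fun K h => sup_le (sup_le (sup_le (h _ hx x1) (h _ hy y1)) (h _ hu u1)) (h _ hw w1) }⟩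
  rw [card_fix d3 c3 (i3 (mem_zpowers _)) (D.iV _ hw), card_fix d2 c2 (i2 (mem_zpowers _)) (D.iV _ hu),
    card_fix d1 c1 (D.iV _ hx) (D.iV _ hy), D.iC _ hx x1 (D.nt _ hx x1), D.iC _ hy y1 (D.nt _ hy y1),
    D.iC _ hu u1 (D.nt _ hu u1), D.iC _ hw w1 (D.nt _ hw w1), cR]; rfl

end CL.T3
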