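/-
Project T3 (S3253), step A2: in case A the group `T` is a Sylow 2-subgroup of `G`.
-/
import Cfsg.Agent.T3.Defs2

set_option autoImplicit false
set_option linter.unusedSectionVars false
open Cfsg Subgroup CL.Even CL.Grp

namespace CL.T3

universe u

namespace A2x

variable {G : Type u} [Group G] [Finite G]

theorem relIdx {A B : Subgroup G} {n : ℕ} (hc : Nat.card B = n * Nat.card (A ⊓ B : Subgroup G)) :
    (A.subgroupOf B).index = n := by
  have h1 := (A.subgroupOf B).card_mul_index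
  have h2 : Nat.card (A.subgroupOf B) = Nat.card (A ⊓ B : Subgroup G) := by
    rw [← inf_subgroupOf_right]
    exact Nat.card_congr (subgroupOfEquivOfLe inf_le_right).toEquiv
  rw [h2, hc, mul_comm n] at h1
  exact Nat.eq_of_mul_eq_mul_left Nat.card_pos h1

theorem idx2 {A B : Subgroup G} (hc : Nat.card B = 2 * Nat.card (A ⊓ B : Subgroup G)) {a b : G}
    (ha : a ∈ B) (hb : b ∈ B) (ha' : a ∉ A) (hb' : b ∉ A) : a * b ∈ A := by
  have h := (mul_mem_iff_of_index_two (relIdx hc) (a := ⟨a, ha⟩) (b := ⟨b, hb⟩)).2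
    (by simp [mem_subgroupOf, ha', hb'])
  simpa [mem_subgroupOf] using h

theorem four {A B : Subgroup G} (hc : Nat.card B = 4 * Nat.card (A ⊓ B : Subgroup G)) {a b c q : G}
    (ha : a ∈ B) (hb : b ∈ B) (hcB : c ∈ B) (hq : q ∈ B) (ha' : a ∉ A) (hb' : b ∉ A) (hc' : c ∉ A)
    (hab : a⁻¹ * b ∉ A) (hac : a⁻¹ * c ∉ A) (hbc : b⁻¹ * c ∉ A) :
    q ∈ A ∨ a⁻¹ * q ∈ A ∨ b⁻¹ * q ∈ A ∨ c⁻¹ * q ∈ A := by
  by_contra hn
  simp only [not_or] at hn
  obtain ⟨h1, h2, h3, h4⟩ := hn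
  let v : Fin 5 → B := ![1, ⟨a, ha⟩, ⟨b, hb⟩, ⟨c, hcB⟩, ⟨q, hq⟩]
  have hv : ∀ i j : Fin 5, i < j → ((v i : G))⁻¹ * (v j : G) ∉ A := by
    intro i j hij
    fin_cases i <;> fin_cases j <;> simp_all [v]
  let f : Fin 5 → B ⧸ A.subgroupOf B := fun i => QuotientGroup.mk (v i)
  have hf : Function.Injective f := by
    intro i j hij
    have h := QuotientGroup.eq.1 hij
    have h' := QuotientGroup.eq.1 hij.symm
    rw [mem_subgroupOf] at h h'
    rcases lt_trichotomy i j with h0 | h0 | h0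
    · exact absurd (by simpa using h) (hv i j h0)
    · exact h0
    · exact absurd (by simpa using h') (hv j i h0)
  have h5 := Nat.card_le_card_of_injective f hf
  have h4' : Nat.card (B ⧸ A.subgroupOf B) = 4 := relIdx hc
  rw [h4'] at h5
  simp at h5

theorem swap {A : Subgroup G} {a b : G} (ha : a ∈ 𝒩(A)) (h : a⁻¹ * b ∈ A) : b * a⁻¹ ∈ A := by
  have := conj_mem ha h
  rwa [show a * (a⁻¹ * b) * a⁻¹ = b * a⁻¹ by group] at this

/-- three cosets permuted by an element of order 3 -/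
theorem tri {A B : Subgroup G} {x t : G} (x3 : x ^ 3 = 1) (xA : x ∈ 𝒩(A)) (xB : x ∈ 𝒩(B)) (BA : B ≤ 𝒩(A))
    (fp : ∀ q ∈ B, x * q * x⁻¹ * q⁻¹ ∈ A → q ∈ A) (hc : Nat.card B = 4 * Nat.card (A ⊓ B : Subgroup G))
    (ht : t ∈ B) (ht' : t ∉ A) :
    (x * t * x⁻¹ ∈ B ∧ x⁻¹ * t * x ∈ B) ∧ (x * t * x⁻¹ ∉ A ∧ x⁻¹ * t * x ∉ A) ∧
    (t⁻¹ * (x * t * x⁻¹) ∉ A ∧ t⁻¹ * (x⁻¹ * t * x) ∉ A ∧ (x * t * x⁻¹)⁻¹ * (x⁻¹ * t * x) ∉ A) ∧
    ∀ q ∈ B, q ∈ A ∨ t⁻¹ * q ∈ A ∨ (x * t * x⁻¹)⁻¹ * q ∈ A ∨ (x⁻¹ * t * x)⁻¹ * q ∈ A := by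
  have b2 : x * t * x⁻¹ ∈ B := conj_mem xB ht
  have b3 : x⁻¹ * t * x ∈ B := conj_mem' xB ht
  have a2 : x * t * x⁻¹ ∉ A := fun h => ht' (by
    have := conj_mem' xA h
    rwa [show x⁻¹ * (x * t * x⁻¹) * x = t by group] at this)
  have a3 : x⁻¹ * t * x ∉ A := fun h => ht' (by
    have := conj_mem xA h
    rwa [show x * (x⁻¹ * t * x) * x⁻¹ = t by group] at this)
  have xx : x * x = x⁻¹ := by
    rw [eq_inv_iff_mul_eq_one, ← x3, pow_succ, pow_two]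
  have c12 : t⁻¹ * (x * t * x⁻¹) ∉ A := fun h => ht' (fp t ht (swap (BA ht) h))
  have c13 : t⁻¹ * (x⁻¹ * t * x) ∉ A := fun h => a3 (fp _ b3 (by
    have := A.inv_mem (swap (BA ht) h)
    rwa [show (x⁻¹ * t * x * t⁻¹)⁻¹ = x * (x⁻¹ * t * x) * x⁻¹ * (x⁻¹ * t * x)⁻¹ by group] at this))
  have c23 : (x * t * x⁻¹)⁻¹ * (x⁻¹ * t * x) ∉ A := fun h => a2 (fp _ b2 (by
    have := swap (BA b2) h
    have e : x * (x * t * x⁻¹) * x⁻¹ = x⁻¹ * t * x := by
      calc x * (x * t * x⁻¹) * x⁻¹ = (x * x) * t * (x * x)⁻¹ := by group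
        _ = _ := by rw [xx, inv_inv]
    rwa [e]))
  exact ⟨⟨b2, b3⟩, ⟨a2, a3⟩, ⟨c12, c13, c23⟩, fun q hq => four hc ht b2 b3 hq ht' a2 a3 c12 c13 c23⟩

theorem zp2 {z a : G} (hz : z * z = 1) (h : a ∈ zpowers z) : a = 1 ∨ a = z := by
  obtain ⟨k, rfl⟩ := mem_zpowers_iff.1 h
  have h2 : z ^ (2 : ℤ) = 1 := by rw [zpow_two, hz]
  rcases Int.even_or_odd' k with ⟨m, rfl | rfl⟩
  · left; rw [zpow_mul, h2, one_zpow]
  · right; rw [zpow_add, zpow_mul, h2, one_zpow, one_mul, zpow_one]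

theorem orb_dvd (L : Subgroup G) (u : G) : {a | ∃ l ∈ L, l * u * l⁻¹ = a}.ncard ∣ Nat.card L := by
  letI : MulAction L G := MulAction.compHom G ((MulAut.conj : G →* MulAut G).comp L.subtype)
  have h : {a | ∃ l ∈ L, l * u * l⁻¹ = a} = MulAction.orbit L u := by
    ext a
    constructor
    · rintro ⟨l, hl, rfl⟩
      exact ⟨⟨l, hl⟩, rfl⟩
    · rintro ⟨⟨l, hl⟩, rfl⟩
      exact ⟨l, hl, rfl⟩
  rw [h, ← MulAction.index_stabilizer]
  exact index_dvd_card _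

theorem el_cj {E : Subgroup G} (h : El E) (g : G) : El (cj g E) := fun a ha => by
  have := h _ (mem_cj.1 ha)
  calc a * a = g * ((g⁻¹ * a * g) * (g⁻¹ * a * g)) * g⁻¹ := by group
    _ = 1 := by rw [this]; group

theorem sq_cj {a : G} (g : G) (h : a * a = 1) : g * a * g⁻¹ * (g * a * g⁻¹) = 1 := by
  calc _ = g * (a * a) * g⁻¹ := by group
    _ = 1 := by rw [h]; group

theorem inv_self {a : G} (h : a * a = 1) : a⁻¹ = a := inv_eq_of_mul_eq_one_right h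

theorem main (he : AeS.{u}) (A : FW G) {g : G} (gT : g ∈ 𝒩(A.T)) (gE : g ∉ 𝒩(A.E)) : False := by
  have TE : A.T ≤ 𝒩(A.E) := A.sT.le
  have ET : A.E ≤ A.T := A.EQ.trans A.QT
  have WT : A.W ≤ A.T := A.WQ.trans A.QT
  have TS : A.T ≤ C1 A.z ⊓ 𝒩(A.E) := le_inf A.Tz TE
  have xS : A.x ∈ C1 A.z ⊓ 𝒩(A.E) := ⟨A.xz, A.xE⟩
  have x3 : A.x ^ 3 = 1 := by rw [← A.x3]; exact pow_orderOf_eq_one _
  have zz : A.z * A.z = 1 := A.eE _ A.zE
  have z2 : orderOf A.z = 2 := orderOf_eq_prime (by rw [pow_two, zz]) A.z1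
  have cz : Nat.card (zpowers A.z) = 2 := by rw [Nat.card_zpowers, z2]
  have E0W : A.E0 ≤ A.W := by rw [← A.WE]; exact inf_le_left
  have WE0 : ∀ a ∈ A.W, a ∈ A.E → a ∈ A.E0 := fun a h1 h2 => by rw [← A.WE]; exact ⟨h1, h2⟩
  -- the second elementary subgroup
  obtain ⟨F, hF⟩ : ∃ F : Subgroup G, F = cj g A.E := ⟨_, rfl⟩
  have FT : F ≤ A.T := hF ▸ cj_le_of_le ET gT
  have eF : El F := hF ▸ el_cj A.eE g
  have cF : Nat.card F = 16 := by rw [hF, card_cj, A.cE]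
  have FE : F ≠ A.E := fun h => gE (cj_eq_iff_mem.1 (hF ▸ h))
  obtain ⟨c4, FE0, c8, FW', outF, cenF, uniq⟩ := he G A F FT eF cF FE
  have gF : cj g F = A.E := by
    by_contra h
    have := uniq (cj g F) (cj_le_of_le FT gT) (el_cj eF g) (by rw [card_cj, cF]) h
    exact FE (cj_inj.1 (this.trans hF))
  -- `g` centralises `z`
  have gz : g ∈ C1 A.z := by
    have h1 : g * A.z * g⁻¹ ∈ 𝒞(A.T) := by
      refine conj_mem (norm_le_norm_cent _ gT) ?_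
      rw [mem_centralizer_iff]
      exact fun t ht => mem_C1.1 (A.Tz ht)
    have h2 : g * A.z * g⁻¹ ∈ zpowers A.z := by
      rw [← A.CQ]
      refine ⟨?_, cent_mono A.QT h1⟩
      have := cent_mono ET h1
      rwa [A.CE] at this
    rcases zp2 zz h2 with h | h
    · exact absurd (by simpa using h) A.z1
    · rw [mem_C1]
      exact mul_inv_eq_iff_eq_mul.1 h
  -- an involution of `F ⊓ Q` outside `E`
  obtain ⟨t, ⟨tF, tQ⟩, tE⟩ : ∃ t, t ∈ F ⊓ A.Q ∧ t ∉ A.E := by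
    by_contra h
    push Not at h
    have h1 : F ⊓ A.Q ≤ F ⊓ A.E := fun a ha => ⟨ha.1, h a ha⟩
    have := card_le_of_le h1
    omega
  have tt : t * t = 1 := eF t tF
  have tW : t ∈ A.W := FW' ⟨tF, tQ⟩
  obtain ⟨⟨q2, q3⟩, ⟨e2, e3⟩, ⟨c12, c13, c23⟩, cos⟩ := tri (A := A.E) (B := A.Q) (t := t) x3 A.xE (A.nQ xS)
    (A.QT.trans TE) A.xQ (by rw [inf_eq_left.2 A.EQ, A.cQ, A.cE]) tQ tE
  obtain ⟨t2, ht2⟩ : ∃ s, s = A.x * t * A.x⁻¹ := ⟨_, rfl⟩
  obtain ⟨t3, ht3⟩ : ∃ s, s = A.x⁻¹ * t * A.x := ⟨_, rfl⟩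
  have s2 : t2 * t2 = 1 := ht2 ▸ sq_cj _ tt
  have s3 : t3 * t3 = 1 := by
    have := sq_cj A.x⁻¹ tt
    rwa [inv_inv, ← ht3] at this
  rw [← ht2] at q2 e2 c12 c23 cos
  rw [← ht3] at q3 e3 c13 c23 cos
  have w2 : t2 ∈ A.W := A.invQ _ q2 e2 s2
  have w3 : t3 ∈ A.W := A.invQ _ q3 e3 s3
  -- `g` normalises `W`
  have gW : g ∈ 𝒩(A.W) := by
    obtain ⟨K, hK⟩ : ∃ K : Subgroup G, K = closure {a | a ∈ A.T ∧ a * a = 1 ∧ a ∉ A.E ∧ a ∉ F} := ⟨_, rfl⟩
    have KW : K ≤ A.W := by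
      rw [hK, closure_le]
      rintro a ⟨h1, h2, h3, h4⟩
      refine A.invQ a ?_ h3 h2
      by_contra h
      exact h4 (outF a h1 h h2)
    have gK : g ∈ 𝒩(K) := by
      refine mem_norm_of_cj_le (cj_le_iff.2 ?_)
      conv_lhs => rw [hK]
      rw [closure_le]
      rintro a ⟨h1, h2, h3, h4⟩
      refine mem_cj.2 ?_
      rw [inv_inv, hK]
      refine subset_closure ⟨conj_mem gT h1, sq_cj g h2, fun h => h4 ?_, fun h => h3 ?_⟩
      · rw [← gF, mem_cj] at h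
        rwa [show g⁻¹ * (g * a * g⁻¹) * g = a by group] at h
      · rw [hF, mem_cj] at h
        rwa [show g⁻¹ * (g * a * g⁻¹) * g = a by group] at h
    have key : ∀ s ∈ A.Q, s ∉ A.E → s * s = 1 → t⁻¹ * s ∉ A.E → ∀ e ∈ A.E ⊓ C1 s, s * e ∈ K := by
      intro s sQ sE ss ts e ⟨eE, es⟩
      have hE : s * e ∉ A.E := fun h => sE (by simpa using A.E.mul_mem h (A.E.inv_mem eE))
      rw [hK]
      refine subset_closure ⟨A.QT (A.Q.mul_mem sQ (A.EQ eE)), ?_, hE, fun h => ts ?_⟩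
      · have h1 := mem_C1.1 es
        calc s * e * (s * e) = s * (e * s) * e := by group
          _ = (s * s) * (e * e) := by rw [h1]; group
          _ = 1 := by rw [ss, A.eE e eE, one_mul]
      · have h1 : t * (s * e) ∈ A.E := by
          refine idx2 (B := F ⊓ A.Q) ?_ ⟨tF, tQ⟩ ⟨h, A.Q.mul_mem sQ (A.EQ eE)⟩ tE hE
          have : A.E ⊓ (F ⊓ A.Q) = F ⊓ A.E := by
            refine le_antisymm (fun a ha => ⟨ha.2.1, ha.1⟩) (fun a ha => ⟨ha.2, ha.1, A.EQ ha.2⟩)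
          rw [this, c8, c4]
        rw [inv_self tt]
        simpa [mul_assoc] using A.E.mul_mem h1 (A.E.inv_mem eE)
    have k2 : t2 ∈ K := by simpa using key t2 q2 e2 s2 c12 1 (one_mem _)
    have k3 : t3 ∈ K := by simpa using key t3 q3 e3 s3 c13 1 (one_mem _)
    have c23' : t2 * t3 ∉ A.E := by rwa [inv_self s2] at c23
    have E0K : A.E0 ≤ K := by
      refine (A.two0 t2 q2 t3 q3 e2 e3 c23').trans (sup_le (fun e he' => ?_) (fun e he' => ?_))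
      · simpa using K.mul_mem (K.inv_mem k2) (key t2 q2 e2 s2 c12 e he')
      · simpa using K.mul_mem (K.inv_mem k3) (key t3 q3 e3 s3 c13 e he')
    have k1 : t ∈ K := by
      rcases cos _ (A.Q.mul_mem q2 q3) with h | h | h | h
      · exact absurd h c23'
      · have h1 := E0K (WE0 _ (A.W.mul_mem (A.W.inv_mem tW) (A.W.mul_mem w2 w3)) h)
        have h2 := K.inv_mem (K.mul_mem h1 (K.inv_mem (K.mul_mem k2 k3)))
        rwa [show (t⁻¹ * (t2 * t3) * (t2 * t3)⁻¹)⁻¹ = t by group] at h2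
      · exact absurd (by simpa using h) e3
      · refine absurd ?_ e2
        have := conj_mem (TE (A.QT q3)) h
        rwa [show t3 * (t3⁻¹ * (t2 * t3)) * t3⁻¹ = t2 by group] at this
    have fin : ∀ s ∈ K, ∀ w ∈ A.W, s⁻¹ * w ∈ A.E → w ∈ K := fun s hs w hw h => by
      simpa using K.mul_mem hs (E0K (WE0 _ (A.W.mul_mem (A.W.inv_mem (KW hs)) hw) h))
    have WK : A.W ≤ K := fun w hw => by
      rcases cos w (A.WQ hw) with h | h | h | h
      · exact E0K (WE0 w hw h)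
      · exact fin t k1 w hw h
      · exact fin t2 k2 w hw h
      · exact fin t3 k3 w hw h
    rwa [← le_antisymm KW WK]
  -- the orbit
  obtain ⟨L, hL⟩ : ∃ L : Subgroup G, L = 𝒩(A.W) ⊓ C1 A.z := ⟨_, rfl⟩
  have gL : g ∈ L := hL ▸ ⟨gW, gz⟩
  have xL : A.x ∈ L := hL ▸ ⟨A.nW xS, A.xz⟩
  have WL : A.W ≤ L := hL ▸ le_inf le_normalizer (WT.trans A.Tz)
  have Lz : ∀ l ∈ C1 A.z, l ∈ 𝒩(zpowers A.z) := fun l hl => by
    refine cent_le_norm _ ?_
    rw [mem_centralizer_iff]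
    rintro _ ⟨k, rfl⟩
    exact ((Commute.zpow_right (mem_C1.1 hl) k).eq).symm
  obtain ⟨u0, ⟨u0F, u0E⟩, u0z⟩ : ∃ u, u ∈ F ⊓ A.E ∧ u ∉ zpowers A.z := by
    by_contra h
    push Not at h
    have := card_le_of_le (show F ⊓ A.E ≤ zpowers A.z from h)
    omega
  have u00 : u0 ∈ A.E0 := FE0 ⟨u0F, u0E⟩
  obtain ⟨R, hR⟩ : ∃ R : G → Prop, R = fun a => ∃ l ∈ L, l * u0 * l⁻¹ = a := ⟨_, rfl⟩
  have R0 : R u0 := hR ▸ ⟨1, one_mem _, by simp⟩
  have Rc : ∀ l ∈ L, ∀ a, R a → R (l * a * l⁻¹) := by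
    rw [hR]
    rintro l hl _ ⟨m, hm, rfl⟩
    exact ⟨l * m, L.mul_mem hl hm, by group⟩
  have Rc' : ∀ l ∈ L, ∀ a, R (l⁻¹ * a * l) → R a := fun l hl a h => by
    have := Rc l hl _ h
    rwa [show l * (l⁻¹ * a * l) * l⁻¹ = a by group] at this
  have Rz : ∀ u ∈ A.E0, u ∉ zpowers A.z → R u → ∀ a, u⁻¹ * a ∈ zpowers A.z → R a := by
    intro u hu uz Ru a ha
    rcases zp2 zz ha with h | h
    · rwa [← inv_mul_eq_one.1 h]
    have ha' : a = u * A.z := by rw [← h]; group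
    by_contra hn
    have cW : ∀ w ∈ A.W, w * u = u * w := fun w hw => by
      rcases zp2 zz (A.cmW w hw u (E0W hu)) with h1 | h1
      · calc w * u = w * u * w⁻¹ * u⁻¹ * (u * w) := by group
          _ = u * w := by rw [h1, one_mul]
      · refine absurd ?_ hn
        have h2 : w * u * w⁻¹ = a := by
          rw [ha', ← A.eE.comm A.zE (A.E0E hu), ← h1]; group
        exact h2 ▸ Rc w (WL hw) u Ru
    have cE : ∀ e ∈ A.E, e * u = u * e := fun e he' => A.eE.comm he' (A.E0E hu)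
    have cs : ∀ s ∈ A.W, ∀ q, s⁻¹ * q ∈ A.E → q * u = u * q := fun s hs q h1 => by
      calc q * u = s * (s⁻¹ * q * u) := by group
        _ = (s * u) * (s⁻¹ * q) := by rw [cE _ h1]; group
        _ = u * q := by rw [cW s hs]; group
    refine uz ?_
    rw [← A.CQ]
    refine ⟨A.E0E hu, mem_centralizer_iff.2 fun q hq => ?_⟩
    rcases cos q hq with h1 | h1 | h1 | h1
    · exact cE q h1
    · exact cs t tW q h1
    · exact cs t2 w2 q h1
    · exact cs t3 w3 q h1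
  have RE0 : ∀ u ∈ A.E0, u ∉ zpowers A.z → R u := by
    obtain ⟨⟨b2, b3⟩, ⟨a2, a3⟩, -, cs⟩ := tri (A := zpowers A.z) (B := A.E0) (t := u0) x3 (Lz _ A.xz) (A.nE0 xS)
      (fun a ha => Lz a (A.Tz (ET (A.E0E ha)))) (fun q hq => A.fpf q (E0W hq))
      (by rw [inf_eq_left.2 ((zpowers_le).2 A.zE0), A.cE0, cz]) u00 u0z
    intro u hu uz
    rcases cs u hu with h | h | h | h
    · exact absurd h uz
    · exact Rz u0 u00 u0z R0 u h
    · exact Rz _ b2 a2 (Rc _ xL _ R0) u h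
    · refine Rz _ b3 a3 ?_ u h
      have := Rc _ (L.inv_mem xL) _ R0
      rwa [inv_inv] at this
  have zE' : zpowers A.z ≤ A.E := (zpowers_le).2 A.zE
  have R1 : ∀ a ∈ A.W, a * a = 1 → a ∉ A.E → t⁻¹ * a ∈ A.E → R a := by
    intro a aW aa aE h
    have ee := A.eE _ h
    have h1 : t⁻¹ * a ∈ F ⊓ A.E := by
      rw [← cenF t tF tE]
      refine ⟨h, mem_C1.2 ?_⟩
      rw [inv_self tt] at ee ⊢
      calc t * a * t = (t * a * (t * a)) * a⁻¹ := by group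
        _ = a := by rw [ee, one_mul, inv_self aa]
        _ = t * (t * a) := by rw [← mul_assoc, tt, one_mul]
    have aF : a ∈ F := by simpa using F.mul_mem tF h1.1
    refine Rc' g gL a (RE0 _ (WE0 _ (conj_mem' gW aW) (mem_cj.1 (hF ▸ aF))) fun h2 => aE (zE' ?_))
    have := conj_mem (Lz g gz) h2
    rwa [show g * (g⁻¹ * a * g) * g⁻¹ = a by group] at this
  have Rall : ∀ a ∈ A.W, a * a = 1 → a ∉ zpowers A.z → R a := by
    intro a aW aa az
    by_cases aE : a ∈ A.E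
    · exact RE0 a (WE0 a aW aE) az
    have cjx : ∀ y ∈ C1 A.z ⊓ 𝒩(A.E), y ∈ L → (y * t * y⁻¹)⁻¹ * a ∈ A.E → R a := fun y hy yL h => by
      refine Rc' y yL a (R1 _ (conj_mem' (A.nW hy) aW) ?_ (fun h1 => aE ?_) ?_)
      · have := sq_cj y⁻¹ aa
        rwa [inv_inv] at this
      · have := conj_mem hy.2 h1
        rwa [show y * (y⁻¹ * a * y) * y⁻¹ = a by group] at this
      · have := conj_mem' hy.2 h
        rwa [show y⁻¹ * ((y * t * y⁻¹)⁻¹ * a) * y = t⁻¹ * (y⁻¹ * a * y) by group] at this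
    rcases cos a (A.WQ aW) with h | h | h | h
    · exact absurd h aE
    · exact R1 a aW aa aE h
    · exact cjx A.x xS xL (ht2 ▸ h)
    · refine cjx A.x⁻¹ (inv_mem xS) (inv_mem xL) ?_
      rw [inv_inv]
      exact ht3 ▸ h
  have hS : {a | ∃ l ∈ L, l * u0 * l⁻¹ = a} = {a | a ∈ A.W ∧ a * a = 1} \ {1, A.z} := by
    ext a
    constructor
    · rintro ⟨l, hl, rfl⟩
      rw [hL] at hl
      refine ⟨⟨conj_mem hl.1 (E0W u00), sq_cj l (A.eE _ u0E)⟩, fun h => u0z ?_⟩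
      have h1 : l * u0 * l⁻¹ ∈ zpowers A.z := by
        rcases h with h | h
        · rw [h]; exact one_mem _
        · rw [Set.mem_singleton_iff.1 h]; exact mem_zpowers _
      have := conj_mem' (Lz l hl.2) h1
      rwa [show l⁻¹ * (l * u0 * l⁻¹) * l = u0 by group] at this
    · rintro ⟨⟨h1, h2⟩, h3⟩
      have := Rall a h1 h2 fun h => h3 (zp2 zz h)
      rwa [hR] at this
  have hd := orb_dvd L u0
  have h20 : {a | a ∈ A.W ∧ a * a = 1}.ncard = 20 := by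
    rw [← A.c20]; exact (Nat.card_coe_set_eq _).symm
  have hsub : ({1, A.z} : Set G) ⊆ {a | a ∈ A.W ∧ a * a = 1} := by
    rintro a (rfl | rfl)
    · exact ⟨one_mem _, one_mul _⟩
    · exact ⟨E0W A.zE0, zz⟩
  rw [hS, Set.ncard_diff hsub, h20, Set.ncard_pair A.z1.symm] at hd
  refine A.loc.inv9 A.z z2 ?_
  have h9 : Nat.card L ∣ Nat.card (C1 A.z) := card_dvd_of_le (hL ▸ inf_le_right)
  exact (Dvd.dvd.trans (by norm_num) hd).trans h9

end A2x

theorem a2S (he : AeS.{u}) : A2S.{u} := by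
  intro G _ _ A
  refine isSylowIn_of_maximal le_top A.sT.isPGroup fun U hU hTU _ => ?_
  by_contra hne
  have hlt : A.T < U := lt_of_le_of_ne hTU (Ne.symm hne)
  obtain ⟨g, ⟨gU, gT⟩, gn⟩ := SetLike.exists_of_lt (lt_inf_normalizer_of_isPGroup hU hlt)
  refine A2x.main he A gT fun gE => gn ?_
  have h := A.sT.eq_of_le (U := U ⊓ 𝒩(A.E)) (hU.to_le inf_le_left) (le_inf hTU A.sT.le) inf_le_right
  rw [← h]
  exact ⟨gU, gE⟩

end CL.T3
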