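/-
Project T3 (S3253), case A: the Sylow 2-subgroup, and the radical of the centraliser of the central involution.
-/
import Cfsg.Agent.T3.Defs2

set_option autoImplicit false
set_option linter.unusedSectionVars false
open Cfsg Subgroup CL.Even CL.Grp

namespace CL.T3

universe u

namespace A3

variable {G : Type u} [Group G]

/-- elements of `T` that centralise `u` modulo `E` -/
def Nm (T E : Subgroup G) (u : G) (h : T ≤ 𝒩(E)) : Subgroup G where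
  carrier := {s | s ∈ T ∧ s * u * s⁻¹ * u⁻¹ ∈ E}
  one_mem' := ⟨T.one_mem, by simp⟩
  mul_mem' := fun {a b} ha hb => ⟨T.mul_mem ha.1 hb.1, by
    have := E.mul_mem (conj_mem (h ha.1) hb.2) ha.2
    convert this using 1; group⟩
  inv_mem' := fun {a} ha => ⟨T.inv_mem ha.1, by
    have := conj_mem' (h ha.1) (E.inv_mem ha.2)
    convert this using 1; group⟩

theorem mem_Nm {T E : Subgroup G} {u s : G} {h : T ≤ 𝒩(E)} : s ∈ Nm T E u h ↔ s ∈ T ∧ s * u * s⁻¹ * u⁻¹ ∈ E := Iff.rfl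

theorem el_cj {H : Subgroup G} (h : El H) (g : G) : El (cj g H) := fun a ha => by
  have := h _ (mem_cj.1 ha)
  calc a * a = g * (g⁻¹ * a * g * (g⁻¹ * a * g)) * g⁻¹ := by group
    _ = 1 := by rw [this]; group

variable [Finite G]

theorem mul_mem_two {Q T : Subgroup G} (h : Q ≤ T) (hc : Nat.card T = 2 * Nat.card Q) {a b : G} (ha : a ∈ T) (hb : b ∈ T)
    (a0 : a ∉ Q) (b0 : b ∉ Q) : a * b ∈ Q := by
  have i1 : (Q.subgroupOf T).index = 2 := by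
    have := (Q.subgroupOf T).card_mul_index
    rw [Nat.card_congr (subgroupOfEquivOfLe h).toEquiv, hc, mul_comm] at this
    exact Nat.eq_of_mul_eq_mul_right Nat.card_pos this
  exact (mul_mem_iff_of_index_two i1 (a := ⟨a, ha⟩) (b := ⟨b, hb⟩)).2 (iff_of_false a0 b0)

theorem le_of_two {Q T K : Subgroup G} (h : Q ≤ T) (hc : Nat.card T = 2 * Nat.card Q) (hK : Q ≤ K) {s : G} (hs : s ∈ T)
    (sK : s ∈ K) (s0 : s ∉ Q) : T ≤ K := fun a ha => by
  by_cases a0 : a ∈ Q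
  · exact hK a0
  · simpa using K.mul_mem (hK (mul_mem_two h hc ha hs a0 s0)) (K.inv_mem sK)

theorem two_le {H K : Subgroup G} (h : H ≤ K) {s : G} (hs : s ∈ K) (s0 : s ∉ H) : 2 * Nat.card H ≤ Nat.card K := by
  obtain ⟨m, hm⟩ := card_dvd_of_le h
  have hp : 0 < Nat.card K := Nat.card_pos
  rcases m with _ | _ | m
  · omega
  · exact absurd ((eq_of_le_of_card_ge h (by omega)).symm ▸ hs) s0
  · rw [hm]; nlinarith

theorem idx_le {N B : Subgroup G} {u : G} (h : ∀ s ∈ N, s * u * s⁻¹ * u⁻¹ ∈ B) :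
    Nat.card N ≤ Nat.card (N ⊓ C1 u : Subgroup G) * Nat.card B := by
  rw [← ((C1 u).subgroupOf N).card_mul_index, ← inf_subgroupOf_left,
    Nat.card_congr (subgroupOfEquivOfLe inf_le_left).toEquiv, inf_subgroupOf_left]
  refine Nat.mul_le_mul_left _ (Nat.card_le_card_of_injective
    (fun q : N ⧸ (C1 u).subgroupOf N => (⟨_, h _ q.out.2⟩ : B)) fun a b e => ?_)
  have e' : (a.out : G) * u * (a.out : G)⁻¹ = b.out * u * (b.out : G)⁻¹ := by simpa using e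
  rw [← a.out_eq, ← b.out_eq]
  refine QuotientGroup.eq.2 (mem_C1.2 ?_)
  calc (a.out : G)⁻¹ * b.out * u = (a.out : G)⁻¹ * (b.out * u * (b.out : G)⁻¹) * b.out := by group
    _ = u * ((a.out : G)⁻¹ * b.out) := by rw [← e']; group

theorem mem_sup_inv {B : Subgroup G} {t : G} (ht : t * t = 1) (hn : t ∈ 𝒩(B)) {a : G} (ha : a ∈ B ⊔ zpowers t) :
    a ∈ B ∨ a * t ∈ B := by
  obtain ⟨b, hb, y, hy, rfl⟩ := (mem_sup_nl (zpowers_le.2 hn)).1 ha
  obtain ⟨k, rfl⟩ := mem_zpowers_iff.1 hy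
  have h2 : t ^ (2 : ℤ) = 1 := by rw [zpow_two, ht]
  rcases Int.even_or_odd' k with ⟨j, rfl | rfl⟩
  · left; rwa [zpow_mul, h2, one_zpow, mul_one]
  · right; rwa [zpow_add, zpow_mul, h2, one_zpow, one_mul, zpow_one, mul_assoc, ht, mul_one]

theorem card_sup_inv {B : Subgroup G} {t : G} (ht : t * t = 1) (hn : t ∈ 𝒩(B)) (t0 : t ∉ B) :
    Nat.card (B ⊔ zpowers t : Subgroup G) = 2 * Nat.card B := by
  have i1 : (B.subgroupOf (B ⊔ zpowers t)).index = 2 := by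
    refine index_eq_two_iff.2 ⟨⟨t, mem_sup_right (mem_zpowers t)⟩, fun b => ?_⟩
    simp only [mem_subgroupOf, Subgroup.coe_mul]
    rcases mem_sup_inv ht hn b.2 with h | h
    · exact Or.inr ⟨h, fun h' => t0 (by simpa using B.mul_mem (B.inv_mem h) h')⟩
    · exact Or.inl ⟨h, fun h' => t0 (by simpa using B.mul_mem (B.inv_mem h') h)⟩
  rw [← (B.subgroupOf (B ⊔ zpowers t)).card_mul_index, i1, Nat.card_congr (subgroupOfEquivOfLe le_sup_left).toEquiv,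
    mul_comm]

section
variable (A : FW G)

theorem TN : A.T ≤ 𝒩(A.E) := A.sT.1
theorem TS : A.T ≤ C1 A.z ⊓ 𝒩(A.E) := le_inf A.Tz (TN A)
theorem QN : A.Q ≤ 𝒩(A.E) := A.QT.trans (TN A)
theorem TQ : A.T ≤ 𝒩(A.Q) := (TS A).trans A.nQ
theorem cTQ : Nat.card A.T = 2 * Nat.card A.Q := by rw [A.cT, A.cQ]

theorem cmQ {a b : G} (ha : a ∈ A.Q) (hb : b ∈ A.Q) : a * b * a⁻¹ * b⁻¹ ∈ A.E := by
  have := A.E.mul_mem (A.E.mul_mem (A.sqQ _ (A.Q.mul_mem ha hb))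
    (conj_mem' (QN A hb) (A.sqQ _ (A.Q.inv_mem ha)))) (A.sqQ _ (A.Q.inv_mem hb))
  convert this using 1; group

theorem E_le_Nm {H : Subgroup G} (h : H ≤ 𝒩(A.E)) (hE : A.E ≤ H) {u : G} (hu : u ∈ 𝒩(A.E)) : A.E ≤ Nm H A.E u h :=
  fun e he => ⟨hE he, by
    have := A.E.mul_mem he (conj_mem hu (A.E.inv_mem he))
    convert this using 1; group⟩

theorem wc (he : AeS.{u}) (ho : OdS.{u}) (hT : Sy A.T ⊤) (g : G) (hg : cj g A.E ≤ A.T) : cj g A.E = A.E := by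
  by_contra hne
  have key : ∀ F' : Subgroup G, F' ≤ A.T → El F' → Nat.card F' = 16 → F' ≠ A.E → F' = cj g A.E :=
    (he G A _ hg (el_cj A.eE g) ((card_cj _ _).trans A.cE) hne).2.2.2.2.2.2
  refine hne (ho G A.T A.E (cj g A.E) hT (A.EQ.trans A.QT) (TN A) (fun t ht => cj_eq_iff_mem.1 ?_) (fun k hk => ?_) g hg)
  · refine key _ (cj_le_of_mem hg ht) (el_cj (el_cj A.eE g) t) (by rw [card_cj, card_cj, A.cE]) fun e => hne ?_
    exact cj_inj.1 (e.trans (cj_eq (TN A ht)).symm)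
  · by_cases e : cj k A.E = A.E
    · exact Or.inl e
    · exact Or.inr (key _ hk (el_cj A.eE k) ((card_cj _ _).trans A.cE) e)

theorem rk (hr : RkS.{u}) (hT : Sy A.T ⊤) : SectionalPRankLE 2 4 G := by
  obtain ⟨s, hs, t₀, ht₀, hst₀⟩ := A.nab2
  have n0 : ∀ t ∈ A.Q, s * t * s⁻¹ * t⁻¹ ∉ A.E → t ∉ A.E := fun t _ h ht =>
    h (A.E.mul_mem (conj_mem (TN A hs) ht) (A.E.inv_mem ht))
  obtain ⟨-, e, he, htt⟩ := A.free t₀ (QN A ht₀) (n0 _ ht₀ hst₀) (A.sqQ _ ht₀)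
  have ht : e * t₀ ∈ A.Q := A.Q.mul_mem (A.EQ he) ht₀
  have hst : s * (e * t₀) * s⁻¹ * (e * t₀)⁻¹ ∉ A.E := fun h => hst₀ (by
    have := A.E.mul_mem (A.E.mul_mem (A.E.inv_mem (conj_mem (TN A hs) he)) h) he
    convert this using 1; group)
  generalize e * t₀ = t at ht hst htt
  have t0 := n0 t ht hst
  have c4 := (A.free t (QN A ht) t0 (A.sqQ _ ht)).1
  have tC : t ∈ 𝒞(A.E ⊓ C1 t) := fun b hb => mem_C1.1 hb.2
  have tN := cent_le_norm _ tC
  refine hr G A.T ((A.E ⊓ C1 t) ⊔ zpowers t) hT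
    (sup_le (inf_le_left.trans (A.EQ.trans A.QT)) (zpowers_le.2 (A.QT ht))) (fun a ha => ?_)
    (by rw [card_sup_inv htt tN fun h => t0 h.1, c4]) fun c hc => ?_
  · rcases mem_sup_inv htt tN ha with h | h
    · exact A.eE _ h.1
    · have h1 := A.eE _ h.1
      have h2 := mem_C1.1 h.2
      have h3 : a * t = t * a := by
        calc a * t = t * (t * (a * t)) := by rw [← mul_assoc, htt, one_mul]
          _ = t * a := by rw [← h2, mul_assoc, htt, mul_one]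
      calc a * a = a * (t * t) * a := by rw [htt, mul_one]
        _ = a * t * (t * a) := by group
        _ = 1 := by rw [← h3, h1]
  · have ct : t * c = c * t := comm_of_mem hc.2 (mem_sup_right (mem_zpowers t))
    have cQ : c ∈ A.Q := by
      by_contra c0
      exact hst (le_of_two (K := Nm A.T A.E t (TN A)) A.QT (cTQ A) (fun q hq => ⟨A.QT hq, cmQ A hq ht⟩) hc.1
        ⟨hc.1, by rw [← ct]; simp⟩ c0 hs).2
    by_cases c0 : c ∈ A.E
    · exact mem_sup_left ⟨c0, mem_C1.2 ct.symm⟩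
    by_cases c1 : c * t ∈ A.E
    · have h1 : c * t ∈ (A.E ⊓ C1 t) ⊔ zpowers t :=
        mem_sup_left ⟨c1, mem_C1.2 (by rw [← mul_assoc, ct])⟩
      simpa using Subgroup.mul_mem _ h1 (Subgroup.inv_mem _ (mem_sup_right (mem_zpowers t)))
    exfalso
    have h1 : A.E ⊓ C1 t = A.E ⊓ C1 c := eq_of_le_of_card_ge
      (fun b hb => ⟨hb.1, mem_C1.2 (comm_of_mem hc.2 (mem_sup_left hb))⟩)
      (by rw [c4, (A.free c (QN A cQ) c0 (A.sqQ _ cQ)).1])
    have h2 := card_le_of_le (A.two0 c cQ t ht c0 t0 c1)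
    rw [← h1, sup_idem, c4, A.cE0] at h2
    omega

theorem c16 (u : G) (hu : u ∈ A.T) (huu : u * u = 1) : 16 ≤ Nat.card (A.T ⊓ C1 u : Subgroup G) := by
  by_cases u0 : u ∈ A.E
  · rw [← A.cE]
    exact card_le_of_le fun e he => ⟨A.QT (A.EQ he), mem_C1.2 (A.eE.comm he u0)⟩
  have ui : u⁻¹ = u := inv_eq_of_mul_eq_one_right huu
  have c4 := (A.free u (TN A hu) u0 (huu ▸ A.E.one_mem)).1
  have h1 : 64 ≤ Nat.card (Nm A.T A.E u (TN A)) := by
    by_cases uQ : u ∈ A.Q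
    · rw [← A.cQ]
      exact card_le_of_le fun q hq => ⟨A.QT hq, cmQ A hq uQ⟩
    obtain ⟨w, hw, w0⟩ : ∃ w ∈ Nm A.T A.E u (TN A) ⊓ A.Q, w ∉ A.E := by
      obtain ⟨q, hq, q0⟩ : ∃ q ∈ A.Q, q ∉ A.E := by
        by_contra hn
        push Not at hn
        have := card_le_of_le (show A.Q ≤ A.E from hn)
        rw [A.cQ, A.cE] at this
        omega
      by_cases h : q * u * q⁻¹ * u⁻¹ ∈ A.E
      · exact ⟨q, ⟨⟨A.QT hq, h⟩, hq⟩, q0⟩
      · have hw : q * u * q⁻¹ * u⁻¹ ∈ A.Q := by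
          have := A.Q.mul_mem hq (conj_mem (TQ A hu) (A.Q.inv_mem hq))
          convert this using 1; group
        refine ⟨_, ⟨⟨A.QT hw, ?_⟩, hw⟩, h⟩
        have := A.sqQ _ hw
        convert this using 1
        calc q * u * q⁻¹ * u⁻¹ * u * (q * u * q⁻¹ * u⁻¹)⁻¹ * u⁻¹
            = q * u * q⁻¹ * u * (q * u⁻¹ * q⁻¹ * u⁻¹) := by group
          _ = _ := by rw [ui]
    have a1 := two_le (le_inf (E_le_Nm A (TN A) (A.EQ.trans A.QT) (TN A hu)) A.EQ) hw w0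
    have a2 := two_le (H := Nm A.T A.E u (TN A) ⊓ A.Q) inf_le_left (s := u) ⟨hu, by simp⟩ fun h => uQ h.2
    rw [A.cE] at a1
    omega
  have h2 := idx_le (N := Nm A.T A.E u (TN A)) (B := A.E ⊓ C1 u) (u := u) fun s hs => ⟨hs.2, mem_C1.2 (by
    have a1 := A.eE _ hs.2
    have a2 : s * u * s⁻¹ * u⁻¹ = (s * u * s⁻¹ * u⁻¹)⁻¹ := eq_inv_of_mul_eq_one_left a1
    calc s * u * s⁻¹ * u⁻¹ * u = (u * u) * s * u * s⁻¹ := by rw [huu]; group
      _ = (u * u) * s * u⁻¹ * s⁻¹ := by rw [ui]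
      _ = u * (s * u * s⁻¹ * u⁻¹)⁻¹ := by group
      _ = _ := by rw [← a2])⟩
  have h3 : Nat.card (Nm A.T A.E u (TN A) ⊓ C1 u : Subgroup G) ≤ Nat.card (A.T ⊓ C1 u : Subgroup G) :=
    card_le_of_le (inf_le_inf_right _ fun s hs => hs.1)
  rw [c4] at h2
  omega

/-- `x` does not normalise `T` -/
theorem x_not_norm : A.x ∉ 𝒩(A.T) := fun hx => by
  obtain ⟨s, hs, t, ht, hst⟩ := A.nab2
  have s0 : s ∉ A.Q := fun h => hst (cmQ A h ht)
  have hw : s * t * s⁻¹ * t⁻¹ ∈ A.Q := A.Q.mul_mem (conj_mem (TQ A hs) ht) (A.Q.inv_mem ht)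
  have xQ : A.x ∈ 𝒩(A.Q) := A.nQ ⟨A.xz, A.xE⟩
  have h1 : s * (s * t * s⁻¹ * t⁻¹) * s⁻¹ * (s * t * s⁻¹ * t⁻¹)⁻¹ ∈ A.E := by
    have := A.E.mul_mem (cmQ A (mul_mem_two A.QT (cTQ A) hs hs s0 s0) ht) (A.sqQ _ (A.Q.inv_mem hw))
    convert this using 1; group
  have t0 : t ∉ Nm A.Q A.E s (QN A) := fun h => hst (by
    have := A.E.inv_mem h.2
    convert this using 1; group)
  generalize s * t * s⁻¹ * t⁻¹ = w at hw h1 hst
  have h2 : A.T ≤ Nm A.T A.E w (TN A) :=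
    le_of_two A.QT (cTQ A) (fun q hq => ⟨A.QT hq, cmQ A hq hw⟩) hs ⟨hs, h1⟩ s0
  have w1 : w ∈ Nm A.Q A.E s (QN A) := ⟨hw, by
    have := A.E.inv_mem h1
    convert this using 1; group⟩
  have w2 : A.x * w * A.x⁻¹ ∈ Nm A.Q A.E s (QN A) := ⟨conj_mem xQ hw, by
    have := conj_mem A.xE (A.E.inv_mem (h2 (conj_mem' hx hs)).2)
    convert this using 1; group⟩
  have hE := E_le_Nm A (QN A) A.EQ (TN A hs)
  have a1 := two_le hE w1 hst
  have a2 := two_le (H := Nm A.Q A.E s (QN A)) (fun q hq => hq.1) ht t0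
  rw [A.cQ] at a2
  refine hst (A.xQ w hw (mul_mem_two hE (by rw [A.cE] at a1 ⊢; omega) w2 (Subgroup.inv_mem _ w1) (fun h => hst ?_)
    fun h => hst (by simpa using h)))
  simpa [mul_assoc] using conj_mem' A.xE h

end

end A3

open A3 in
theorem a3S (he : AeS.{u}) (ho : OdS.{u}) (hr : RkS.{u}) : A3S.{u} := fun G _ _ A hT =>
  { wc := wc A he ho hT
    rk := rk A hr hT
    c16 := c16 A
    ZT := fun c hc => A.CQ.le ⟨A.CE.le (cent_mono (A.EQ.trans A.QT) hc.2), cent_mono A.QT hc.2⟩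
    cnt := by
      have := Nat.card_le_card_of_injective
        (fun a : A.W => (⟨a, A.QT (A.WQ a.2), A.sqW a a.2⟩ : {t // t ∈ A.T ∧ t * t ∈ zpowers A.z}))
        fun a b e => Subtype.ext (by simpa using e)
      rw [A.cW] at this
      omega }

open A3 in
theorem a4aS : A4aS.{u} := by
  intro G _ _ A D
  haveI : Fact (Nat.Prime 2) := ⟨Nat.prime_two⟩
  have hS : Sy A.T (C1 A.z ⊓ 𝒩(A.E)) := A.sT.of_le (TS A) inf_le_right
  have hn : C1 A.z ⊓ 𝒩(A.E) ≤ 𝒩(C1 A.z ⊓ 𝒩(A.E) ⊓ D.L) :=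
    le_norm_inf (le_norm_of_le le_rfl) (inf_le_left.trans D.nL)
  have h2 : IsPGroup 2 (C1 A.z ⊓ 𝒩(A.E) ⊓ D.L : Subgroup G) := by
    have a1 : Nat.card (C1 A.z ⊓ 𝒩(A.E) ⊓ D.L : Subgroup G) ∣ 2 ^ 7 * 3 := by
      rw [show 2 ^ 7 * 3 = 384 by norm_num, ← A.cS]; exact card_dvd_of_le inf_le_left
    have a2 : (Nat.card (C1 A.z ⊓ 𝒩(A.E) ⊓ D.L : Subgroup G)).Coprime 3 :=
      ((Nat.Prime.coprime_iff_not_dvd Nat.prime_three).2 fun h => D.L3 (h.trans (card_dvd_of_le inf_le_right))).symm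
    obtain ⟨k, -, hk⟩ := (Nat.dvd_prime_pow Nat.prime_two).1 (a2.dvd_of_dvd_mul_right a1)
    exact IsPGroup.of_card hk
  have hU : A.T ⊓ D.L = C1 A.z ⊓ 𝒩(A.E) ⊓ D.L :=
    le_antisymm (inf_le_inf_right _ (TS A))
      (le_inf (hS.le_of_normalized h2 inf_le_left hn) inf_le_right)
  have xS : A.x ∈ C1 A.z ⊓ 𝒩(A.E) := ⟨A.xz, A.xE⟩
  refine ⟨fun s hs => ?_, hU ▸ hn, fun a ha => ?_⟩
  · by_contra s0
    refine x_not_norm A ?_
    have e : A.T = (A.T ⊓ D.L) ⊔ A.Q :=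
      le_antisymm (le_of_two A.QT (cTQ A) le_sup_right hs.1 (mem_sup_left hs) s0) (sup_le inf_le_left A.QT)
    have := le_norm_sup (hU ▸ hn : C1 A.z ⊓ 𝒩(A.E) ≤ 𝒩(A.T ⊓ D.L)) A.nQ xS
    rwa [← e] at this
  · have xN : A.x ∈ D.N := D.N3 _ A.xz A.x3
    have zN : zpowers A.z ≤ D.N := zpowers_le.2 (D.LN D.zL)
    have aN : a ∈ 𝒩(D.N) := D.nN (A.Tz (A.QT (A.WQ ha)))
    have x3 : A.x * A.x * A.x = 1 := by rw [← pow_three', ← A.x3, pow_orderOf_eq_one]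
    have hb : a * A.x * a * A.x * a * A.x ∈ A.W := by
      have a1 := conj_mem (A.nW xS) ha
      have := A.W.mul_mem (A.W.mul_mem ha a1) (conj_mem (A.nW xS) a1)
      convert this using 1
      calc a * A.x * a * A.x * a * A.x = a * A.x * a * A.x * a * (A.x * A.x * A.x) * A.x⁻¹ * A.x⁻¹ := by group
        _ = _ := by rw [x3]; group
    have h1 : a * A.x * a * A.x * a * A.x ∈ D.N := by
      refine zN (A.fpf _ hb ?_)
      have := A.cmW _ (A.W.inv_mem ha) _ hb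
      convert this using 1; group
    have a1 := conj_mem aN xN
    have a2 := conj_mem aN a1
    have a3 := conj_mem aN a2
    have := D.N.mul_mem (D.N.mul_mem (D.N.inv_mem (D.N.mul_mem (D.N.mul_mem a1 a2) a3)) h1)
      (D.N.inv_mem (zN (A.sqW a ha)))
    convert this using 1; group

end CL.T3
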