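/-
Project T3 (S3253): the steps `A4b` and `A4d`.
-/
import Cfsg.Agent.T3.Defs2
import Cfsg.Agent.Char.Burnside

set_option autoImplicit false
set_option linter.unusedSectionVars false
open Cfsg Subgroup CL.Even CL.Grp

namespace CL.T3

universe u

namespace A4bJ

variable {G : Type u} [Group G] [Finite G]

/-- counting modulo `p` under conjugation by an element of order `p` -/
theorem cnt {p : ℕ} (hp : p.Prime) {g : G} (hg : orderOf g = p) (q : G → Prop) (hq : ∀ a, q a → q (g * a * g⁻¹)) :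
    Nat.card {a // q a} ≡ Nat.card {a // q a ∧ a ∈ C1 g} [MOD p] := by
  classical
  have := Fact.mk hp
  have := Fintype.ofFinite {a // q a}
  let f : Function.End {a // q a} := fun a => ⟨_, hq a.1 a.2⟩
  have h1 : ∀ (k : ℕ) a, ((f ^ k) a).1 = g ^ k * a.1 * (g ^ k)⁻¹ := fun k => by
    induction k with
    | zero => intro a; simp; rfl
    | succ k ih =>
      intro a
      rw [pow_succ', pow_succ']
      change g * ((f ^ k) a).1 * g⁻¹ = _
      rw [ih]; group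
  have h2 := Equiv.Perm.card_fixedPoints_modEq (f := f) (p := p) (n := 1) (funext fun a => Subtype.ext (by
    rw [h1, pow_one, ← hg, pow_orderOf_eq_one, one_mul, inv_one, mul_one]; rfl))
  rw [← Nat.card_eq_fintype_card, ← Nat.card_eq_fintype_card] at h2
  refine h2.trans (congrArg (· % p) (Nat.card_congr ⟨fun a => ⟨a.1.1, a.1.2, mem_C1.2
    (mul_inv_eq_iff_eq_mul.1 (congrArg Subtype.val a.2)).symm⟩, fun a => ⟨⟨a.1, a.2.1⟩, Subtype.ext
    (mul_inv_eq_iff_eq_mul.2 (mem_C1.1 a.2.2).symm)⟩, fun _ => rfl, fun _ => rfl⟩))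

theorem cntH {p : ℕ} (hp : p.Prime) {g : G} (hg : orderOf g = p) {H : Subgroup G} (h : g ∈ 𝒩(H)) :
    Nat.card H ≡ Nat.card ↥(H ⊓ C1 g) [MOD p] := cnt hp hg (· ∈ H) fun _ => CL.Even.conj_mem h

theorem solv {H : Subgroup G} (h : ∀ g ∈ H, (orderOf g).Prime → 5 ≤ orderOf g → False) : Group.IsSolvable H :=
  CL.Char.isSolvable_of_two_primes Nat.prime_two Nat.prime_three fun r hr hd => by
    have := Fact.mk hr
    obtain ⟨g, hg⟩ := exists_prime_orderOf_dvd_card' r hd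
    rw [← orderOf_coe] at hg
    by_contra k
    exact h g g.2 (hg ▸ hr) (hg ▸ hr.five_le_of_ne_two_of_ne_three (not_or.1 k).1 (not_or.1 k).2)

theorem card_lt {H K : Subgroup G} (h : H < K) : Nat.card H < Nat.card K :=
  not_le.1 fun e => h.ne (eq_of_le_of_card_ge h.le e)

theorem dvd_cases {n k : ℕ} (h : n ∣ 2 ^ k) : ∃ i ≤ k, n = 2 ^ i := (Nat.dvd_prime_pow Nat.prime_two).1 h

theorem prime_small {p n : ℕ} (hp : p.Prime) (h5 : 5 ≤ p) (a b : ℕ) (h : p ∣ n) (e : n = 2 ^ a * 3 ^ b) : False := by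
  rcases (Nat.Prime.dvd_mul hp).1 (e ▸ h) with k | k <;> have := Nat.le_of_dvd (by decide) (hp.dvd_of_dvd_pow k) <;> omega

variable (A : FW G)

theorem E0W : A.E0 ≤ A.W := A.WE.ge.trans inf_le_left

theorem cz : Nat.card (zpowers A.z) = 2 := by
  have := Fact.mk Nat.prime_two
  rw [Nat.card_zpowers, orderOf_eq_prime (by rw [sq, A.eE _ A.zE]) A.z1]

theorem two_dvd {X : Subgroup G} (h : A.z ∈ X) : 2 ∣ Nat.card X := cz A ▸ card_dvd_of_le (zpowers_le.2 h)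

theorem not_cent {g : G} (hp : (orderOf g).Prime) (h5 : 5 ≤ orderOf g) (h : A.E0 ≤ C1 g) : False :=
  prime_small hp h5 4 1 (orderOf_dvd_natCard 𝒞(V A.y) fun _ hv => mem_C1.1 (h (A.yE0 hv))) (A.c48 _ A.y3 A.Vy)

theorem fix_eq {X : Subgroup G} (hX : X ≤ A.W) (hz : A.z ∈ X) : X ⊓ C1 A.x = zpowers A.z :=
  le_antisymm (fun a ha => A.fpf a (hX ha.1) (by rw [← mem_C1.1 ha.2]; simp))
    (zpowers_le.2 ⟨hz, mem_C1.2 (mem_C1.1 A.xz).symm⟩)

theorem cnt2 {X : Subgroup G} (hX : X ≤ A.W) (hz : A.z ∈ X) (hx : A.x ∈ 𝒩(X)) : Nat.card X % 3 = 2 := by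
  have := cntH Nat.prime_three A.x3 hx
  rwa [fix_eq A hX hz, cz] at this

end A4bJ

open A4bJ

theorem a4bS : A4bS.{u} := by
  intro G _ _ A
  refine ⟨solv fun g hg hp h5 => ?_, solv fun g hg hp h5 => ?_⟩
  · have h1 := (Nat.modEq_iff_dvd' (card_le_of_le inf_le_left)).1 (cntH hp rfl hg.2).symm
    have h2 := two_dvd A (X := A.E0 ⊓ C1 g) ⟨A.zE0, mem_C1.2 (mem_C1.1 hg.1).symm⟩
    obtain ⟨i, hi, e⟩ := dvd_cases (k := 3) (A.cE0 ▸ card_dvd_of_le (inf_le_left : A.E0 ⊓ C1 g ≤ _))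
    rw [A.cE0, e] at h1
    rw [e] at h2
    interval_cases i
    · omega
    · exact prime_small hp h5 1 1 h1 rfl
    · exact prime_small hp h5 2 0 h1 rfl
    · exact not_cent A hp h5 ((eq_of_le_of_card_ge inf_le_left (by rw [e, A.cE0]; rfl)).ge.trans inf_le_right)
  · have h1 := (Nat.modEq_iff_dvd' (card_le_of_le inf_le_left)).1 (cntH hp rfl hg.2).symm
    have h2 := two_dvd A (X := A.W ⊓ C1 g) ⟨E0W A A.zE0, mem_C1.2 (mem_C1.1 hg.1).symm⟩
    obtain ⟨i, hi, e⟩ := dvd_cases (k := 5) (A.cW ▸ card_dvd_of_le (inf_le_left : A.W ⊓ C1 g ≤ _))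
    have h3 := cnt hp rfl (fun a => a ∈ A.W ∧ a * a = 1) fun a ha =>
      ⟨CL.Even.conj_mem hg.2 ha.1, by rw [conj_mul, ha.2, mul_one, mul_inv_cancel]⟩
    have h4 : Nat.card {a // (a ∈ A.W ∧ a * a = 1) ∧ a ∈ C1 g} ≤ Nat.card ↥(A.W ⊓ C1 g) :=
      Nat.card_le_card_of_injective (fun a => ⟨a.1, a.2.1.1, a.2.2⟩) fun a b k => Subtype.ext (Subtype.mk.inj k)
    have h6 : 0 < Nat.card {a // (a ∈ A.W ∧ a * a = 1) ∧ a ∈ C1 g} :=
      Nat.card_pos_iff.2 ⟨⟨⟨1, ⟨one_mem _, one_mul 1⟩, one_mem _⟩⟩, inferInstance⟩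
    rw [A.c20] at h3
    rw [A.cW, e] at h1
    rw [e] at h2 h4
    interval_cases i
    · omega
    · rcases (Nat.Prime.dvd_mul hp).1 (show _ ∣ 6 * 5 from h1) with k | k
      · exact prime_small hp h5 1 1 k rfl
      · rw [(Nat.prime_dvd_prime_iff_eq hp Nat.prime_five).1 k, Nat.ModEq] at h3
        omega
    · rcases (Nat.Prime.dvd_mul hp).1 (show _ ∣ 4 * 7 from h1) with k | k
      · exact prime_small hp h5 2 0 k rfl
      · rw [(Nat.prime_dvd_prime_iff_eq hp Nat.prime_seven).1 k, Nat.ModEq] at h3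
        omega
    · exact prime_small hp h5 3 1 h1 rfl
    · exact prime_small hp h5 4 0 h1 rfl
    · exact not_cent A hp h5 ((E0W A).trans
        ((eq_of_le_of_card_ge inf_le_left (by rw [e, A.cW]; rfl)).ge.trans inf_le_right))

theorem a4dS (hb : A4bS.{u}) : A4dS.{u} := by
  intro G _ _ A D ⟨hQ, hS, _⟩
  obtain ⟨b1, b2⟩ := hb G A
  have ns := D.ns
  have c4 := D.c4.trans ((card_le_of_le inf_le_left).trans A.cT.le)
  have zU : A.z ∈ A.T ⊓ D.L := ⟨A.QT (A.EQ A.zE), D.zL⟩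
  generalize A.T ⊓ D.L = U at *
  by_contra hn
  have xS : A.x ∈ C1 A.z ⊓ 𝒩(A.E) := ⟨A.xz, A.xE⟩
  have n0 := le_norm_inf hS A.nW
  have z0 : A.z ∈ U ⊓ A.W := ⟨zU, E0W A A.zE0⟩
  have m0 := cnt2 A inf_le_right z0 (n0 xS)
  obtain ⟨i, hi, e⟩ := dvd_cases (k := 5) (A.cW ▸ card_dvd_of_le (inf_le_right : U ⊓ A.W ≤ _))
  obtain ⟨j, hj, eU⟩ := dvd_cases (k := 6) (A.cQ ▸ card_dvd_of_le hQ)
  have c0 : i = 1 ∨ i = 3 ∨ i = 5 := by rw [e] at m0; interval_cases i <;> simp_all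
  rcases c0 with rfl | rfl | rfl
  · exact hn (eq_of_le_of_card_ge (zpowers_le.2 z0) (by rw [e, cz]; rfl)).ge
  · have z1 : A.z ∈ U ⊓ A.W ⊓ A.E0 := ⟨z0, A.zE0⟩
    have m1 := cnt2 A (inf_le_left.trans inf_le_right) z1 (le_norm_inf n0 A.nE0 xS)
    obtain ⟨k, hk, e1⟩ := dvd_cases (k := 3) (A.cE0 ▸ card_dvd_of_le (inf_le_right : U ⊓ A.W ⊓ A.E0 ≤ _))
    have c1 : k = 1 ∨ k = 3 := by rw [e1] at m1; interval_cases k <;> simp_all
    rcases c1 with rfl | rfl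
    · have h1 : U ⊓ A.W ⊓ A.E = zpowers A.z := by
        rw [← inf_idem A.W, ← inf_assoc, inf_assoc _ A.W, A.WE]
        exact (eq_of_le_of_card_ge (zpowers_le.2 z1) (by rw [e1, cz]; rfl)).symm
      have hN : U ⊓ A.W ≤ 𝒩(A.E) := inf_le_right.trans (A.WQ.trans (A.QT.trans A.sT.le))
      have h2 := card_sup_mul_card_inf hN
      rw [h1, cz, e, A.cE] at h2
      have h3 : U ⊓ A.W ⊔ A.E = A.Q := eq_of_le_of_card_ge (sup_le (inf_le_right.trans A.WQ) A.EQ) (by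
        rw [A.cQ]; omega)
      have h4 := card_le_of_le (A.gen0 (zpowers A.z) fun a ha q hq => by
        obtain ⟨w, hw, b, hb, rfl⟩ := (mem_sup_nr hN).1 (h3.ge hq)
        rw [show a * (w * b) * a⁻¹ * (w * b)⁻¹ = a * w * (b * a⁻¹) * b⁻¹ * w⁻¹ by group, A.eE.comm hb (inv_mem ha),
          show a * w * (a⁻¹ * b) * b⁻¹ * w⁻¹ = a * w * a⁻¹ * w⁻¹ by group, ← h1]
        refine mem_inf.2 ⟨(U ⊓ A.W).mul_mem (CL.Even.conj_mem (n0 ⟨mem_C1.2 (A.eE.comm ha A.zE), le_normalizer ha⟩) hw)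
          ((U ⊓ A.W).inv_mem hw), ?_⟩
        simpa only [mul_assoc] using mul_mem ha (CL.Even.conj_mem (hN hw) (inv_mem ha)))
      rw [A.cE0, cz] at h4
      omega
    · have h1 : U ⊓ A.W = A.E0 := (eq_of_le_of_card_ge inf_le_left (by rw [e, e1])).symm.trans
        (eq_of_le_of_card_ge inf_le_right (by rw [A.cE0, e1]; rfl))
      have h2 := card_inf_mul_relIndex A.W U
      have h3 := card_mul_relIndex A.WQ
      have h4 : A.W.relIndex U ≤ A.W.relIndex A.Q := relIndex_le_of_le_right hQ FiniteIndex.index_ne_zero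
      have h5 : A.E0 ≤ U := h1.ge.trans inf_le_left
      rw [inf_comm, e] at h2
      rw [A.cW, A.cQ] at h3
      by_cases h6 : U = A.E0
      · exact ns (h6 ▸ b1)
      have h7 := card_lt (lt_of_le_of_ne h5 (Ne.symm h6))
      have h8 : Nat.card U = 16 := by
        rw [A.cE0] at h7
        rw [eU] at h2 h7 ⊢
        interval_cases j <;> omega
      have h9 : ¬ U ⊓ C1 A.x ≤ A.E0 := fun k => by
        have := cntH Nat.prime_three A.x3 (hS xS)
        rw [h8, le_antisymm (le_inf k inf_le_right) (inf_le_inf_right _ h5), fix_eq A (E0W A) A.zE0, cz] at this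
        exact absurd this (by decide)
      obtain ⟨v, hv, hv'⟩ := SetLike.not_le_iff_exists.1 h9
      obtain ⟨l, hl⟩ := isPGroup_iff_forall.1 A.sT.isPGroup v (A.QT (hQ hv.1))
      have hE : v ∈ A.E := A.EV.ge (mem_sup_left (A.loc.two _ A.x3 v l (mem_C1.1 hv.2) hl))
      have h10 := card_lt (lt_of_le_of_ne (le_inf h5 A.E0E) fun k => hv' (k.ge ⟨hv.1, hE⟩))
      obtain ⟨l', hl', e2⟩ := dvd_cases (k := 4) (h8 ▸ card_dvd_of_le (inf_le_left : U ⊓ A.E ≤ _))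
      have h11 : Nat.card ↥(U ⊓ A.E) = 16 := by
        rw [A.cE0] at h10
        rw [e2] at h10 ⊢
        interval_cases l' <;> omega
      have h12 : U = A.E := (eq_of_le_of_card_ge inf_le_left (by rw [h8, h11])).symm.trans
        (eq_of_le_of_card_ge inf_le_right (by rw [A.cE, h11]))
      exact ns (h12 ▸ solv fun g hg hp h5 => prime_small hp h5 7 1 (orderOf_dvd_natCard _ hg) A.cS)
  · have h1 : A.W ≤ U := (eq_of_le_of_card_ge inf_le_right (by rw [e, A.cW]; rfl)).ge.trans inf_le_left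
    have h2 := card_le_of_le h1
    refine ns (eq_of_le_of_card_ge h1 ?_ ▸ b2)
    rw [A.cW] at h2 ⊢
    rw [eU] at h2 c4 ⊢
    interval_cases j <;> omega

end CL.T3
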