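/-
Project T3 (S3253): step A4c.
-/
import Cfsg.Agent.T3.Defs2
import Cfsg.Agent.S0111

set_option autoImplicit false
set_option linter.unusedSectionVars false
set_option linter.style.haveILetI false
open Cfsg Subgroup CL.Even CL.Grp

namespace CL.T3

universe u

namespace A4c
variable {G : Type u} [Group G] [Finite G]

theorem relIdx {W Q : Subgroup G} (h : W ≤ Q) : Nat.card W * W.relIndex Q = Nat.card Q := by
  have h1 := Subgroup.card_mul_index (W.subgroupOf Q)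
  rwa [Nat.card_congr (subgroupOfEquivOfLe h).toEquiv] at h1

theorem idx2 {W Q : Subgroup G} (h : W ≤ Q) (hc : Nat.card Q = 2 * Nat.card W) {a b : G} (ha : a ∈ Q) (hb : b ∈ Q)
    (ha' : a ∉ W) (hb' : b ∉ W) : a * b ∈ W := by
  have hi : (W.subgroupOf Q).index = 2 := by
    have h1 := relIdx h
    have hp : 0 < Nat.card W := Nat.card_pos
    rw [hc, mul_comm 2] at h1
    exact Nat.eq_of_mul_eq_mul_left hp h1
  have := (Subgroup.mul_mem_iff_of_index_two hi (a := ⟨a, ha⟩) (b := ⟨b, hb⟩)).2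
    (by simp [mem_subgroupOf, ha', hb'])
  simpa [mem_subgroupOf] using this

theorem four {A Y : Subgroup G} (hA : Nat.card A = 4) (hY : Y ≤ A) {z v : G} (hz : orderOf z = 2) (hzY : z ∈ Y)
    (hv : v ∈ Y) (hvz : v ∉ zpowers z) : Y = A := by
  have h1 : Nat.card Y ∣ 4 := hA ▸ card_dvd_of_le hY
  have h2 : zpowers z ≤ Y := (zpowers_le).2 hzY
  have h3 : Nat.card (zpowers z) = 2 := by rw [Nat.card_zpowers, hz]
  have h4 : 2 ∣ Nat.card Y := h3 ▸ card_dvd_of_le h2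
  have h5 : Nat.card Y ≠ 2 := fun h => hvz (by rw [eq_of_le_of_card_ge h2 (by omega)]; exact hv)
  apply eq_of_le_of_card_ge hY
  have h6 := Nat.le_of_dvd (by norm_num) h1
  have h7 : 0 < Nat.card Y := Nat.card_pos
  omega

theorem syl3 {H : Subgroup G} {x : G} (hx : orderOf x = 3) (hH : x ∈ H) (h9 : ¬ 9 ∣ Nat.card H) :
    IsSylowIn 3 (zpowers x) H := by
  have h1 : zpowers x ≤ H := zpowers_le.2 hH
  refine ⟨h1, isPGroup_zpowers (k := 1) (by rw [pow_one, ← hx, pow_orderOf_eq_one]), fun h => h9 ?_⟩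
  rw [← relIdx h1, Nat.card_zpowers, hx]
  exact mul_dvd_mul_left 3 h

theorem zp2 {z a : G} (hz : z * z = 1) (ha : a ∈ zpowers z) : a = 1 ∨ a = z := by
  obtain ⟨k, rfl⟩ := mem_zpowers_iff.1 ha
  have h2 : z ^ (2 : ℤ) = 1 := by rw [zpow_two, hz]
  rcases Int.even_or_odd' k with ⟨m, rfl | rfl⟩
  · left; rw [zpow_mul, h2, one_zpow]
  · right; rw [zpow_add, zpow_mul, h2, one_zpow, one_mul, zpow_one]

variable (A : FW G)

theorem zz : A.z * A.z = 1 := A.eE _ A.zE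

theorem oz : orderOf A.z = 2 := orderOf_eq_prime (by rw [pow_two, zz]) A.z1

theorem TS : A.T ≤ C1 A.z ⊓ 𝒩(A.E) := le_inf A.Tz A.sT.le

theorem xS : A.x ∈ C1 A.z ⊓ 𝒩(A.E) := ⟨A.xz, A.xE⟩

theorem zV : A.z ∈ V A.x := (A.loc.mem _ A.x3 _).2 ⟨(mem_C1.1 A.xz).symm, zz A⟩

theorem VE : V A.x ≤ A.E := A.EV ▸ le_sup_left

theorem cV : Nat.card (V A.x) = 4 := A.loc.cV _ A.x3 A.Vx

theorem T7 {t : G} (ht : t ∈ A.T) : t ^ 2 ^ 7 = 1 := by
  have := pow_card_eq_one' (G := A.T) (x := ⟨t, ht⟩)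
  rw [A.cT] at this
  exact congrArg Subtype.val this

theorem x3 : A.x ^ 3 = 1 := by rw [← A.x3, pow_orderOf_eq_one]

/-- `T ∩ L = ⟨z⟩` -/
theorem Uz (D : Rd (C1 A.z) A.T A.z) (h4 : A4F A D) (hU : A.T ⊓ D.L ⊓ A.W ≤ zpowers A.z) :
    A.T ⊓ D.L ≤ zpowers A.z := by
  obtain ⟨hQ, hN, -⟩ := h4
  have hV : A.T ⊓ D.L ≤ V A.x := by
    intro u hu
    have h1 : A.x * u * A.x⁻¹ ∈ A.T ⊓ D.L := conj_mem (hN (xS A)) hu
    have h2 : A.x * u * A.x⁻¹ * u⁻¹ ∈ A.W := by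
      by_cases hW : u ∈ A.W
      · exact A.W.mul_mem (conj_mem (A.nW (xS A)) hW) (A.W.inv_mem hW)
      · refine idx2 A.WQ (by rw [A.cQ, A.cW]) (hQ h1) (A.Q.inv_mem (hQ hu)) (fun h => hW ?_)
          (fun h => hW (by simpa using h))
        have := conj_mem' (A.nW (xS A)) h
        simpa [mul_assoc] using this
    have h3 := hU ⟨(A.T ⊓ D.L).mul_mem h1 ((A.T ⊓ D.L).inv_mem hu), h2⟩
    refine A.loc.two _ A.x3 u 7 ?_ (T7 A hu.1)
    rcases zp2 (zz A) h3 with h | h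
    · have : A.x * u * A.x⁻¹ = u := mul_inv_eq_one.1 h
      calc u * A.x = (A.x * u * A.x⁻¹) * A.x := by rw [this]
        _ = A.x * u := by group
    · exfalso
      have e1 : A.x * u * A.x⁻¹ = A.z * u := by rw [← h]; group
      have ez : A.x * A.z * A.x⁻¹ = A.z := by rw [mem_C1.1 A.xz]; group
      have e2 : A.x * (A.x * u * A.x⁻¹) * A.x⁻¹ = u := by
        rw [e1]
        calc A.x * (A.z * u) * A.x⁻¹ = (A.x * A.z * A.x⁻¹) * (A.x * u * A.x⁻¹) := by group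
          _ = u := by rw [ez, e1, ← mul_assoc, zz, one_mul]
      have e3 : A.x ^ 3 * u * (A.x ^ 3)⁻¹ = A.z * u := by
        calc A.x ^ 3 * u * (A.x ^ 3)⁻¹ = A.x * (A.x * (A.x * u * A.x⁻¹) * A.x⁻¹) * A.x⁻¹ := by
              simp only [pow_succ, pow_zero]; group
          _ = A.z * u := by rw [e2, e1]
      rw [x3] at e3
      apply A.z1
      have : A.z * u = 1 * u := by rw [← e3]; group
      exact mul_right_cancel this
  intro u hu
  by_contra hz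
  have hE := four (cV A) hV (oz A) ⟨A.QT (A.EQ A.zE), D.zL⟩ hu hz
  have h1 : A.T ≤ 𝒩(V A.x) := hE ▸ (TS A).trans hN
  have h2 := card_dvd_of_le h1
  rw [A.cT, A.Nx] at h2
  omega

theorem case1 (h3 : FT3S.{u}) (D : Rd (C1 A.z) A.T A.z) (hW : A.W ≤ D.N) (hU : A.T ⊓ D.L ≤ zpowers A.z)
    (hv : ∀ v ∈ V A.x, v ∈ D.N → v ∈ zpowers A.z) : False := by
  letI := D.gK
  haveI := D.fK
  have h9 := A.loc.inv9 _ (oz A)
  have hxN : A.x ∈ D.N := D.N3 _ A.xz A.x3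
  have hL3 : ∀ l ∈ D.L, l ^ 3 = 1 → l = 1 := by
    intro l hl h
    by_contra h1
    apply D.L3
    rw [← orderOf_eq_prime h h1]
    exact orderOf_dvd_natCard _ hl
  set xb : D.N := ⟨A.x, hxN⟩ with hxb
  have hφx1 : D.φ xb ≠ 1 := fun h => by
    have : A.x = 1 := hL3 _ ((D.ker xb).1 h) (x3 A)
    have h3 := A.x3
    rw [this, orderOf_one] at h3
    omega
  have hφx3 : orderOf (D.φ xb) = 3 := by
    refine orderOf_eq_prime ?_ hφx1
    rw [← map_pow]
    have : xb ^ 3 = 1 := Subtype.ext (x3 A)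
    rw [this, map_one]
  have hS : IsSylowIn 3 (zpowers A.x) (C1 A.z) := syl3 A.x3 A.xz h9
  -- elements of `N` centralising `x`
  have hc : ∀ c : D.N, (c : G) * A.x = A.x * c → D.φ c ∈ zpowers (D.φ xb) := by
    intro c hcx
    have h36 : (c : G) ^ 36 = 1 := by
      have := pow_card_eq_one' (G := C1 A.x) (x := ⟨c, mem_C1.2 hcx⟩)
      rw [A.loc.cC _ A.x3, cV] at this
      exact congrArg Subtype.val this
    have hcm : Commute (c : G) A.x := hcx
    have h1 : (c : G) ^ 9 ∈ D.L := by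
      have : (c : G) ^ 9 ∈ V A.x :=
        A.loc.two _ A.x3 _ 2 (hcm.pow_left 9).eq (by rw [← pow_mul]; exact h36)
      exact zpowers_le.2 D.zL (hv _ this (D.N.pow_mem c.2 9))
    have h2 : (c : G) ^ 4 ∈ zpowers A.x := by
      have hp : IsPGroup 3 (zpowers A.x ⊔ zpowers ((c : G) ^ 4) : Subgroup G) := by
        refine isPGroup_sup hS.isPGroup (isPGroup_zpowers (k := 2) (by rw [← pow_mul]; exact h36)) ?_
        refine le_trans ?_ (cent_le_norm _)
        rw [zpowers_le, mem_centralizer_iff]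
        rintro _ ⟨k, rfl⟩
        exact ((hcm.pow_left 4).zpow_left k).eq
      have := hS.eq_of_le hp le_sup_left (sup_le hS.le (zpowers_le.2 (pow_mem (D.NH c.2) 4)))
      rw [← this]
      exact mem_sup_right (mem_zpowers _)
    obtain ⟨k, hk⟩ := mem_zpowers_iff.1 h2
    have h4 : c ^ 4 = xb ^ k := Subtype.ext (by simp [hxb, hk])
    have h5 : D.φ (c ^ 9) = 1 := (D.ker _).2 h1
    have h6 : D.φ c = D.φ (c ^ 9) * (D.φ (c ^ 4) ^ 2)⁻¹ := by
      rw [map_pow, map_pow, ← pow_mul]; group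
    rw [h6, h5, one_mul, h4, map_zpow]
    exact inv_mem (pow_mem (zpow_mem (mem_zpowers _) k) 2)
  have hC : C1 (D.φ xb) = zpowers (D.φ xb) := by
    refine le_antisymm ?_ (zpowers_le.2 (mem_C1.2 rfl))
    intro kb hk
    obtain ⟨k, rfl⟩ := D.sur kb
    have hk' := mem_C1.1 hk
    have h1 : (k : G) * A.x * (k : G)⁻¹ * A.x⁻¹ ∈ D.L := by
      refine (D.ker (k * xb * k⁻¹ * xb⁻¹)).1 ?_
      simp only [map_mul, map_inv]
      rw [hk']; group
    have hxL : zpowers A.x ≤ 𝒩(D.L) := zpowers_le.2 (D.nL A.xz)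
    have hM : zpowers A.x ⊔ D.L ≤ C1 A.z := sup_le hS.le (D.LN.trans D.NH)
    have hS' := hS.of_le le_sup_left hM
    have hy : (k : G) * A.x * (k : G)⁻¹ ∈ zpowers A.x ⊔ D.L := by
      have : (k : G) * A.x * (k : G)⁻¹ = ((k : G) * A.x * (k : G)⁻¹ * A.x⁻¹) * A.x := by group
      rw [this]
      exact mul_mem (mem_sup_right h1) (mem_sup_left (mem_zpowers _))
    have hy3 : ((k : G) * A.x * (k : G)⁻¹) ^ 3 ^ 1 = 1 := by rw [pow_one, conj_pow, x3]; group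
    obtain ⟨m, hm, hml⟩ := syl_conj_le hS' (isPGroup_zpowers hy3) (zpowers_le.2 hy)
    obtain ⟨a, ha, l, hl, rfl⟩ := (mem_sup_nr hxL).1 hm
    have h2 := hml (conj_mem_cj (a * l) (mem_zpowers _))
    have h3 : l * ((k : G) * A.x * (k : G)⁻¹) * l⁻¹ ∈ zpowers A.x := by
      have := mul_mem (mul_mem (inv_mem ha) h2) ha
      simpa [mul_assoc] using this
    have h4 : l * ((k : G) * A.x * (k : G)⁻¹) * l⁻¹ * A.x⁻¹ ∈ D.L := by
      have : l * ((k : G) * A.x * (k : G)⁻¹) * l⁻¹ * A.x⁻¹ =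
          l * ((k : G) * A.x * (k : G)⁻¹ * A.x⁻¹) * (A.x * l⁻¹ * A.x⁻¹) := by group
      rw [this]
      exact mul_mem (mul_mem hl h1) (conj_mem (D.nL A.xz) (inv_mem hl))
    have h5 : l * ((k : G) * A.x * (k : G)⁻¹) * l⁻¹ * A.x⁻¹ = 1 := by
      refine hL3 _ h4 ?_
      obtain ⟨j, hj⟩ := mem_zpowers_iff.1 (mul_mem h3 (inv_mem (mem_zpowers A.x)))
      rw [← hj, ← zpow_natCast, ← zpow_mul, mul_comm, zpow_mul, zpow_natCast, x3, one_zpow]
    have h6 := hc (⟨l, D.LN hl⟩ * k) (by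
      have := mul_inv_eq_one.1 h5
      show l * k * A.x = A.x * (l * k)
      calc l * k * A.x = (l * ((k : G) * A.x * (k : G)⁻¹) * l⁻¹) * (l * k) := by group
        _ = _ := by rw [this])
    rwa [map_mul, (D.ker ⟨l, D.LN hl⟩).2 hl, one_mul] at h6
  apply h3 D.K D.simp D.nab _ hφx3 (by rw [hC, Nat.card_zpowers, hφx3])
  have h1 : Nat.card A.W ∣ Nat.card (A.T ⊓ D.N : Subgroup G) := card_dvd_of_le (le_inf (A.WQ.trans A.QT) hW)
  have h2 : Nat.card (A.T ⊓ D.L : Subgroup G) ∣ 2 := by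
    have := card_dvd_of_le hU
    rwa [Nat.card_zpowers, oz] at this
  have h4 := (h1.trans D.cK).trans (mul_dvd_mul_left _ h2)
  rw [A.cW] at h4
  omega

/-- `N` has no normal subgroup of index 2 -/
theorem noidx (D : Rd (C1 A.z) A.T A.z) (hW : A.W ≤ D.N) (hU : A.T ⊓ D.L ≤ zpowers A.z) (M : Subgroup D.N)
    (hM : M.Normal) (h2 : M.index = 2) : False := by
  letI := D.gK
  haveI := D.fK
  have hsq : ∀ n ∈ D.N, n * n ∈ M.map D.N.subtype := fun n hn =>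
    ⟨_, Subgroup.mul_self_mem_of_index_two h2 ⟨n, hn⟩, rfl⟩
  have hz : A.z ∈ M.map D.N.subtype := by
    by_contra hz
    have h1 : ∀ a ∈ A.W, a * a = 1 := fun a ha =>
      (zp2 (zz A) (A.sqW a ha)).resolve_right fun h => hz (by have := hsq a (hW ha); rwa [h] at this)
    have h20 := A.c20
    have : Nat.card {a // a ∈ A.W ∧ a * a = 1} = Nat.card A.W :=
      Nat.card_congr (Equiv.subtypeEquivRight fun a => ⟨fun h => h.1, fun h => ⟨h, h1 a h⟩⟩)
    rw [this, A.cW] at h20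
    omega
  have hL : D.L ≤ M.map D.N.subtype := by
    refine le_of_syl_of_res D.sL (hU.trans (zpowers_le.2 hz)) (res_le_of fun l hl ho => ?_)
    exact mem_of_pow_mem_of_coprime ho (by rw [pow_two]; exact hsq l (D.LN hl))
  have hL' : ∀ n : D.N, D.φ n = 1 → n ∈ M := fun n hn => by
    obtain ⟨m, hm, e⟩ := hL ((D.ker n).1 hn)
    rwa [← Subtype.ext e]
  haveI := D.simp
  rcases (hM.map D.φ D.sur).eq_bot_or_eq_top with h | h
  · apply D.nab
    have he : El (⊤ : Subgroup D.K) := by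
      intro a _
      obtain ⟨n, rfl⟩ := D.sur a
      rw [← map_mul, ← mem_bot, ← h]
      exact mem_map_of_mem _ (Subgroup.mul_self_mem_of_index_two h2 n)
    exact ⟨⟨fun a b => he.comm (mem_top a) (mem_top b)⟩⟩
  · have : M = ⊤ := by
      rw [eq_top_iff]
      intro n _
      obtain ⟨m, hm, e⟩ : D.φ n ∈ M.map D.φ := h ▸ mem_top _
      have := hL' (n * m⁻¹) (by rw [map_mul, map_inv, e, mul_inv_cancel])
      simpa using M.mul_mem this hm
    rw [this, index_top] at h2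
    omega

theorem case2 (D : Rd (C1 A.z) A.T A.z) (h3 : A3F A) (hW : A.W ≤ D.N) (hU : A.T ⊓ D.L ≤ zpowers A.z)
    {v : G} (hv : v ∈ V A.x) (hvN : v ∈ D.N) (hvz : v ∉ zpowers A.z) : False := by
  obtain ⟨s, hsT, hsQ, hss⟩ := A.out
  have hvE := VE A hv
  have hvT : v ∈ A.T := A.QT (A.EQ hvE)
  have hv0 : v ∉ A.E0 := fun h => hvz (A.xE0 v hv h)
  have hsW : zpowers s ≤ 𝒩(A.W) := zpowers_le.2 (A.nW (TS A hsT))
  set T1 := A.W ⊔ zpowers s with hT1
  have h1T : T1 ≤ A.T := sup_le (A.WQ.trans A.QT) (zpowers_le.2 hsT)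
  have h1Q : ∀ t ∈ T1, t ∈ A.Q → t ∈ A.W := by
    intro t ht hQ
    obtain ⟨a, ha, b, hb, rfl⟩ := (mem_sup_nl hsW).1 ht
    rcases zp2 hss hb with rfl | rfl
    · simpa using ha
    · exact absurd ((A.Q.mul_mem_cancel_left (A.WQ ha)).1 hQ) hsQ
  have h1E : ∀ t ∈ T1, t ∈ A.E → t ∈ A.E0 := fun t ht hE => A.WE ▸ ⟨h1Q t ht (A.EQ hE), hE⟩
  have hv1 : v ∉ T1 := fun h => hv0 (h1E v h hvE)
  have hc1 : Nat.card A.T = 2 * Nat.card T1 := by
    have a1 : Nat.card T1 ∣ 128 := A.cT ▸ card_dvd_of_le h1T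
    have a2 : 32 ∣ Nat.card T1 := A.cW ▸ card_dvd_of_le (le_sup_left : A.W ≤ T1)
    have a3 : Nat.card T1 ≠ 128 := fun h =>
      hv1 (by rw [eq_of_le_of_card_ge h1T (by rw [A.cT, h])]; exact hvT)
    have a4 : Nat.card T1 ≠ 32 := fun h => hsQ (A.WQ (by
      rw [eq_of_le_of_card_ge (le_sup_left : A.W ≤ T1) (by rw [A.cW, h])]
      exact mem_sup_right (mem_zpowers s)))
    obtain ⟨j, hj⟩ := a2
    rw [hj] at a1 a3 a4
    have a5 : j ∣ 4 := Nat.dvd_of_mul_dvd_mul_left (by norm_num : 0 < 32) a1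
    have a6 := Nat.le_of_dvd (by norm_num) a5
    rw [A.cT, hj]
    interval_cases j <;> simp_all
  have hv2 : v * v = 1 := A.eE v hvE
  have hov : orderOf (⟨v, hvN⟩ : D.N) = 2 := by
    refine orderOf_eq_prime (Subtype.ext (by simpa [pow_two] using hv2)) fun h => hvz ?_
    have : v = 1 := congrArg Subtype.val h
    rw [this]; exact one_mem _
  have hP : ∀ n : D.N, n ∈ (D.sN.toSylow : Subgroup D.N) ↔ (n : G) ∈ A.T := fun n => by
    rw [D.sN.coe_toSylow, mem_subgroupOf]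
    exact ⟨fun h => h.1, fun h => ⟨h, n.2⟩⟩
  have hi : (T1.subgroupOf D.N).relIndex (D.sN.toSylow : Subgroup D.N) = 2 := by
    unfold relIndex
    rw [index_eq_two_iff]
    refine ⟨⟨⟨v, hvN⟩, (hP _).2 hvT⟩, fun b => ?_⟩
    simp only [mem_subgroupOf, coe_mul]
    by_cases hb : ((b : D.N) : G) ∈ T1
    · exact Or.inr ⟨hb, fun h => hv1 ((T1.mul_mem_cancel_left hb).1 h)⟩
    · exact Or.inl ⟨idx2 h1T hc1 ((hP _).1 b.2) hvT hb hv1, hb⟩
  rcases Cfsg.Agent.S0111.result D.sN.toSylow (T1.subgroupOf D.N) (fun n hn => (hP n).2 (h1T hn)) hi ⟨v, hvN⟩ hov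
    ((hP _).2 hvT) hv1 with ⟨M, hM, h2, -⟩ | ⟨n, hn⟩
  · exact noidx A D hW hU M hM h2
  have hu : (n : G) * v * (n : G)⁻¹ ∈ T1 := hn
  have hnz : (n : G) * A.z = A.z * n := mem_C1.1 (D.NH n.2)
  have hle : A.T ⊓ C1 ((n : G) * v * (n : G)⁻¹) ≤ cj (n : G) A.E := by
    rintro t ⟨htT, htu⟩
    rw [mem_cj]
    refine A.Cx _ ?_ 7 ?_
    · have e := four (cV A) (inf_le_left : V A.x ⊓ C1 ((n : G)⁻¹ * t * n) ≤ _) (oz A) ⟨zV A, mem_C1.2 ?_⟩
        ⟨hv, mem_C1.2 ?_⟩ hvz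
      · rw [mem_centralizer_iff]
        intro a ha
        have : a ∈ V A.x ⊓ C1 ((n : G)⁻¹ * t * n) := e.symm ▸ ha
        exact mem_C1.1 this.2
      · have ht := mem_C1.1 (A.Tz htT)
        calc A.z * ((n : G)⁻¹ * t * n) = (n : G)⁻¹ * ((n * A.z) * (n : G)⁻¹ * t) * n := by group
          _ = (n : G)⁻¹ * (A.z * t) * n := by rw [hnz]; group
          _ = (n : G)⁻¹ * t * (A.z * n) := by rw [← ht]; group
          _ = _ := by rw [← hnz]; group
      · have ht := mem_C1.1 htu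
        calc v * ((n : G)⁻¹ * t * n) = (n : G)⁻¹ * (((n : G) * v * (n : G)⁻¹) * t) * n := by group
          _ = _ := by rw [← ht]; group
    · have := conj_pow (a := (n : G)⁻¹) (b := t) (i := 2 ^ 7)
      rw [inv_inv] at this
      rw [this, T7 A htT]; group
  have hcard := h3.c16 _ (h1T hu) (by
    calc (n : G) * v * (n : G)⁻¹ * ((n : G) * v * (n : G)⁻¹) = n * (v * v) * (n : G)⁻¹ := by group
      _ = 1 := by rw [hv2]; group)
  have heq := eq_of_le_of_card_ge hle (by rw [card_cj, A.cE]; exact hcard)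
  have hnE : (n : G) ∈ 𝒩(A.E) := cj_eq_iff_mem.1 (h3.wc n (heq ▸ inf_le_left))
  have h0 := h1E _ hu (conj_mem hnE hvE)
  have := conj_mem' (A.nE0 ⟨D.NH n.2, hnE⟩) h0
  exact hv0 (by simpa [mul_assoc] using this)

end A4c

theorem a4cS (h3 : FT3S.{u}) : A4cS.{u} := by
  intro G _ _ A D hA h4 hU
  have hU' := A4c.Uz A D h4 hU
  by_cases hv : ∀ v ∈ V A.x, v ∈ D.N → v ∈ zpowers A.z
  · exact A4c.case1 A h3 D h4.2.2 hU' hv
  · push Not at hv
    obtain ⟨v, h1, h2, h3'⟩ := hv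
    exact A4c.case2 A D hA h4.2.2 hU' h1 h2 h3'

end CL.T3
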