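/-
Project T3 (S3253): facts about `A₆` and `L₃(4)`.
-/
import Cfsg.Agent.T3.Defs
import Cfsg.Agent.S5057
import Cfsg.Agent.S0820
import Cfsg.Agent.S1012
import Cfsg.Agent.Fus.Heis

set_option autoImplicit false
set_option synthInstance.maxSize 1024
set_option linter.unusedSectionVars false
open Cfsg Subgroup CL.Even CL.Grp

namespace CL.T3

universe u

namespace A6x

open Equiv

theorem c360 : Nat.card A6 = 360 := by rw [nat_card_alternatingGroup]; simp; rfl

theorem simple : IsSimpleGroup A6 := alternatingGroup.isSimpleGroup (α := Fin 6) (by simp)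

theorem el (B : Subgroup A6) (h : El B) : Nat.card B ≤ 4 := by
  have hB : IsPGroup 2 B := fun b => ⟨1, Subtype.ext (by simpa [pow_two] using h b b.2)⟩
  obtain ⟨n, hn⟩ := IsPGroup.iff_card.1 hB
  have d := card_subgroup_dvd_card B
  have i := B.card_mul_index
  rw [hn, c360] at d i
  have n3 : n ≤ 3 := by
    by_contra k
    exact absurd ((pow_dvd_pow 2 (show 4 ≤ n by omega)).trans d) (by decide)
  by_contra k
  obtain rfl : n = 3 := by
    rw [hn] at k
    interval_cases n <;> omega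
  let g : A6 := ⟨swap 0 1 * swap 1 2 * swap 2 3 * swap 4 5, Perm.mem_alternatingGroup.2 (by decide)⟩
  obtain ⟨x, -, hx⟩ := syl_conj_le (isSylowIn_top (hB.toSylow (by omega)))
    (isPGroup_zpowers (x := g) (k := 2) (by decide)) le_top
  have := h _ (hx (conj_mem_cj x (mem_zpowers g)))
  rw [conj_mul, conj_eq_one_iff] at this
  exact absurd this (by decide)

theorem nrm {G : Type*} [Group G] [Finite G] (P : Sylow 5 G) {m : ℕ} (hm : m = 8 ∨ m = 9)
    (h : 𝒩((P : Subgroup G)).index ∣ m) : (P : Subgroup G).Normal := by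
  have := Fact.mk Nat.prime_five
  have h1 : Nat.card (Sylow 5 G) % 5 = 1 := card_sylow_modEq_one 5 G
  have h2 : Nat.card (Sylow 5 G) = 𝒩((P : Subgroup G)).index := P.card_eq_index_normalizer
  rw [h2] at h1
  have h3 := Nat.le_of_dvd (by omega) h
  refine normalizer_eq_top_iff.1 (index_eq_one.1 ?_)
  generalize 𝒩((P : Subgroup G)).index = k at *
  rcases hm with rfl | rfl <;> interval_cases k <;> omega

theorem n40 (S : Subgroup A6) : Nat.card S ≠ 40 := fun h => by
  have := Fact.mk Nat.prime_five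
  obtain ⟨Q⟩ : Nonempty (Sylow 5 S) := inferInstance
  have cQ : Nat.card Q = 5 := by rw [Q.card_eq_multiplicity, h]; decide +kernel
  have iQ := (Q : Subgroup S).card_mul_index
  rw [cQ, h] at iQ
  have nQ := nrm Q (.inl rfl) ((index_dvd_of_le le_normalizer).trans (by omega : _ = 8).dvd)
  have cP : Nat.card ((Q : Subgroup S).map S.subtype) = 5 := (card_map_of_injective S.subtype_injective).trans cQ
  have iP := ((Q : Subgroup S).map S.subtype).card_mul_index
  have iS := S.card_mul_index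
  rw [cP, c360] at iP
  rw [h, c360] at iS
  have l : S ≤ 𝒩((Q : Subgroup S).map S.subtype) := fun s hs => mem_normalizer_fintype (by
    rintro _ ⟨q, hq, rfl⟩
    exact ⟨_, nQ.conj_mem q hq ⟨s, hs⟩, rfl⟩)
  have nP := nrm ((Q.2.map S.subtype).toSylow (by omega)) (.inr rfl)
    ((index_dvd_of_le l).trans (by omega : _ = 9).dvd)
  have := simple
  rcases nP.eq_bot_or_eq_top with k | k
  · rw [show (Q : Subgroup S).map S.subtype = ⊥ from k, card_bot] at cP
    omega
  · rw [show (Q : Subgroup S).map S.subtype = ⊤ from k, card_top, c360] at cP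
    omega

/-- the Klein four-group in `S₄` -/
def K0 : Subgroup (Perm (Fin 4)) where
  carrier := {g | g * g = 1 ∧ Perm.sign g = 1}
  one_mem' := by decide
  mul_mem' := fun {a b} => (by decide +kernel : ∀ a b : Perm (Fin 4), a * a = 1 ∧ Perm.sign a = 1 →
    b * b = 1 ∧ Perm.sign b = 1 → a * b * (a * b) = 1 ∧ Perm.sign (a * b) = 1) a b
  inv_mem' := fun {a} ha => by rwa [inv_eq_of_mul_eq_one_right ha.1]

instance : DecidablePred (· ∈ K0) := fun g => inferInstanceAs (Decidable (g * g = 1 ∧ Perm.sign g = 1))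

/-- a dihedral subgroup of `S₄` -/
def D0 : Subgroup (Perm (Fin 4)) := centralizer {swap 0 1 * swap 2 3}

instance : DecidablePred (· ∈ D0) := fun _ => decidable_of_iff _ mem_centralizer_singleton_iff.symm

theorem s24 (S : Subgroup A6) (h : Nat.card S = 24) : ∃ D K : Subgroup A6, K ≤ D ∧ D ≤ S ∧ Nat.card K = 4 ∧
    Nat.card D = 8 ∧ El K ∧ S ≤ 𝒩(K) ∧ (∃ s ∈ D, ∃ t ∈ K, s * t ≠ t * s) ∧ (∃ s ∈ D, s ∉ K ∧ s * s = 1) ∧
    ∀ x ∈ S, orderOf x = 3 → ∀ k ∈ K, k * x = x * k → k = 1 := by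
  obtain ⟨e⟩ := Cfsg.Agent.S1012.result h fun g k => by
    have := Cfsg.Agent.S5057.order_mem g.1
    rw [orderOf_coe, k] at this
    exact absurd this (by decide)
  let f : Perm (Fin 4) →* A6 := S.subtype.comp e.symm.toMonoidHom
  have hf : Function.Injective f := S.subtype_injective.comp e.symm.injective
  have su : ∀ x ∈ S, ∃ g, f g = x := fun x hx => ⟨e ⟨x, hx⟩, by simp [f]⟩
  refine ⟨D0.map f, K0.map f, map_mono (fun g => by revert g; decide +kernel), ?_, ?_, ?_, ?_, fun x hx => ?_,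
    ⟨_, mem_map_of_mem f (x := swap 0 1) (by decide), _, mem_map_of_mem f (x := swap 0 2 * swap 1 3) (by decide),
      fun k => absurd (hf ((map_mul f _ _).trans (k.trans (map_mul f _ _).symm))) (by decide)⟩,
    ⟨_, mem_map_of_mem f (x := swap 0 1) (by decide), fun k => absurd ((mem_map_iff_mem hf).1 k) (by decide),
      by rw [← map_mul, swap_mul_self, map_one]⟩, fun x hx o => ?_⟩
  · rintro _ ⟨g, -, rfl⟩
    exact (e.symm g).2
  · rw [card_map_of_injective hf, Nat.card_eq_fintype_card]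
    decide +kernel
  · rw [card_map_of_injective hf, Nat.card_eq_fintype_card]
    decide +kernel
  · rintro _ ⟨g, hg, rfl⟩
    rw [← map_mul, hg.1, map_one]
  · obtain ⟨g, rfl⟩ := su x hx
    refine mem_normalizer_fintype ?_
    rintro _ ⟨k, hk, rfl⟩
    exact ⟨g * k * g⁻¹, (by decide +kernel : ∀ g : Perm (Fin 4), ∀ k ∈ K0, g * k * g⁻¹ ∈ K0) g k hk, by simp⟩
  · obtain ⟨g, rfl⟩ := su x hx
    rintro _ ⟨k, hk, rfl⟩ c
    rw [orderOf_injective f hf, orderOf_eq_prime_iff] at o
    rw [(by decide +kernel : ∀ k ∈ K0, ∀ g : Perm (Fin 4), g ^ 3 = 1 ∧ g ≠ 1 ∧ k * g = g * k → k = 1) k hk g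
      ⟨o.1, o.2, hf (by simpa only [map_mul] using c)⟩, map_one]

end A6x

open A6x in
theorem a6S : A6S := by
  refine ⟨fun s t hs ht => (Cfsg.Agent.S5057.conj hs ht).imp fun _ => Eq.symm, el, n40, fun g => ?_, fun k => ?_, c360,
    s24⟩
  · have := Cfsg.Agent.S5057.order_mem g
    simp only [List.mem_cons, List.not_mem_nil, or_false] at this
    rcases this with k | k | k | k | k
    · exact .inl (orderOf_eq_one_iff.1 k)
    · exact .inr ⟨1, by simp [k]⟩
    · exact .inr ⟨1, by simp [k]⟩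
    · exact .inr ⟨2, .inl (by rw [orderOf_pow, k]; rfl)⟩
    · exact .inr ⟨1, by simp [k]⟩
  · have := simple
    have c := IsSimpleGroup.comm_iff_isSolvable.2 k
      ⟨Equiv.swap 0 1 * Equiv.swap 1 2, Equiv.Perm.mem_alternatingGroup.2 (by decide)⟩
      ⟨Equiv.swap 1 2 * Equiv.swap 2 3, Equiv.Perm.mem_alternatingGroup.2 (by decide)⟩
    exact absurd c (by decide)

open CL.Fus CL.GLn Matrix in
theorem l4S : L4S.{u} := by
  rintro Y _ _ ⟨F, _, _, hF, ⟨e⟩⟩
  refine ⟨fun s t hs ht => ?_, fun E hE => ?_⟩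
  · obtain ⟨g, hg⟩ := isConj_iff.1 (Cfsg.Agent.S0820.result hF (e s) (e t) ((e.orderOf_eq s).trans hs)
      ((e.orderOf_eq t).trans ht))
    exact ⟨e.symm g, e.injective (by simpa using hg)⟩
  have h2 := (CL.Cls.exists_omega_of_card_four hF).1
  have : CharP F 2 := CharTwo.of_one_ne_zero_of_two_eq_zero one_ne_zero h2
  let ψ : SpecialLinearGroup (Fin 3) F →* Y := e.symm.toMonoidHom.comp (QuotientGroup.mk' _)
  have hS := syl_map ψ (isSylowIn_top ((isPGroup_utSL (n := Fin 3) (F := F) 2).toSylow (not_dvd_index_utSL 2)))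
  rw [map_top_of_surjective ψ (e.symm.surjective.comp (QuotientGroup.mk'_surjective _))] at hS
  obtain ⟨g, -, hg⟩ := syl_conj_le hS hE le_top
  let φ : utSL (Fin 3) F →* Y := (MulAut.conj g⁻¹).toMonoidHom.comp (ψ.comp (utSL (Fin 3) F).subtype)
  have hφ : Function.Injective φ := fun a b h => Subtype.ext (psl_mk_injective_of_unipotent
    (isNilpotent_of_mem_utSL a.2) (isNilpotent_of_mem_utSL b.2) (e.symm.injective ((MulAut.conj g⁻¹).injective h)))
  have c : ∀ c : F, φ (ut3 0 0 c) ∈ 𝒞(E) := fun c => mem_centralizer_iff.2 fun x hx => by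
    obtain ⟨s, hs, k⟩ := hg (conj_mem_cj g hx)
    obtain ⟨a, b, d, l⟩ := exists_ut3 ⟨s, hs⟩
    have : x = φ (ut3 a b d) := by rw [← l]; simp [φ, k, mul_assoc]
    rw [this, ← map_mul, ← map_mul, ut3_mul, ut3_mul]
    simp [add_comm]
  have one : (ut3 0 0 0 : utSL (Fin 3) F) = 1 := by simpa using (ut3_mul (0 : F) 0 0 0 0 0).symm
  have o : ∀ c : F, c ≠ 0 → orderOf (φ (ut3 0 0 c)) = 2 := fun c hc => by
    rw [orderOf_injective φ hφ]
    refine orderOf_eq_prime ?_ fun k => hc (ut3_inj.1 (k.trans one.symm)).2.2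
    rw [pow_two, ut3_mul, ← one]
    simp [← two_mul, h2]
  obtain ⟨w, w0, w1⟩ : ∃ w : F, w ≠ 0 ∧ w ≠ 1 := by
    classical
    obtain ⟨w, -, hw⟩ := Finset.exists_mem_notMem_of_card_lt_card (s := {0, 1}) (t := (Finset.univ : Finset F))
      (Finset.card_le_two.trans_lt (by simp [hF]))
    exact ⟨w, by simpa using hw⟩
  refine ⟨_, c w, _, c 1, o w w0, o 1 one_ne_zero, fun k => w1 (ut3_inj.1 (hφ k)).2.2, ?_⟩
  rw [← map_mul, ← map_mul, ut3_mul, ut3_mul]
  simp [add_comm]

end CL.T3
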