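/-
Project T3 (S3253): the second elementary abelian subgroup of order 16 in `T` (job T3-Ae, helper76).
-/
import Cfsg.Agent.T3.Defs2

set_option autoImplicit false
set_option linter.unusedSectionVars false
open Cfsg Subgroup CL.Even CL.Grp

namespace CL.T3

universe u

namespace Aex

variable {G : Type u} [Group G]

/-- elements of `N(E)` commuting with `f` modulo `E` -/
def Cm (E : Subgroup G) (f : G) : Subgroup G where
  carrier := {g | g ∈ 𝒩(E) ∧ g * f * g⁻¹ * f⁻¹ ∈ E}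
  one_mem' := ⟨one_mem _, by simp⟩
  mul_mem' := by
    rintro g h ⟨hg, hg'⟩ ⟨hh, hh'⟩
    refine ⟨mul_mem hg hh, ?_⟩
    have : g * h * f * (g * h)⁻¹ * f⁻¹ = (g * (h * f * h⁻¹ * f⁻¹) * g⁻¹) * (g * f * g⁻¹ * f⁻¹) := by group
    rw [this]
    exact E.mul_mem (conj_mem hg hh') hg'
  inv_mem' := by
    rintro g ⟨hg, hg'⟩
    refine ⟨inv_mem hg, ?_⟩
    have : g⁻¹ * f * g⁻¹⁻¹ * f⁻¹ = g⁻¹ * (g * f * g⁻¹ * f⁻¹)⁻¹ * g := by group
    rw [this]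
    exact conj_mem' hg (E.inv_mem hg')

theorem mem_Cm {E : Subgroup G} {f g : G} : g ∈ Cm E f ↔ g ∈ 𝒩(E) ∧ g * f * g⁻¹ * f⁻¹ ∈ E := Iff.rfl

theorem Cm_symm {E : Subgroup G} {f g : G} (h : g ∈ Cm E f) (hf : f ∈ 𝒩(E)) : f ∈ Cm E g := by
  refine ⟨hf, ?_⟩
  have : f * g * f⁻¹ * g⁻¹ = (g * f * g⁻¹ * f⁻¹)⁻¹ := by group
  rw [this]
  exact E.inv_mem h.2

theorem le_Cm {E : Subgroup G} {f : G} (hf : f ∈ 𝒩(E)) : E ≤ Cm E f := by
  intro e he
  refine ⟨le_normalizer he, ?_⟩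
  have : e * f * e⁻¹ * f⁻¹ = e * (f * e⁻¹ * f⁻¹) := by group
  rw [this]
  exact E.mul_mem he (conj_mem hf (E.inv_mem he))

variable [Finite G]

theorem eq_card {M X : Subgroup G} (h : M ≤ X) (hc : Nat.card X ≤ Nat.card M) : M = X :=
  Subgroup.eq_of_le_of_card_ge h hc

/-- a subgroup of index 2 is maximal -/
theorem idx2 {M T K : Subgroup G} (hMT : M ≤ T) (hc : Nat.card T = 2 * Nat.card M) (hMK : M ≤ K) {q : G}
    (hqK : q ∈ K) (hqT : q ∈ T) (hqM : q ∉ M) : T ≤ K := by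
  have h1 : M ≤ K ⊓ T := le_inf hMK hMT
  obtain ⟨k, hk⟩ := card_dvd_of_le h1
  have h2 : Nat.card (K ⊓ T : Subgroup G) ∣ Nat.card T := card_dvd_of_le inf_le_right
  have hpos : 0 < Nat.card M := Nat.card_pos
  rw [hk, hc, mul_comm 2] at h2
  have h3 : k ∣ 2 := Nat.dvd_of_mul_dvd_mul_left hpos h2
  rcases (Nat.dvd_prime Nat.prime_two).1 h3 with rfl | rfl
  · have := eq_card h1 (by omega)
    exact absurd (this ▸ (show q ∈ K ⊓ T from ⟨hqK, hqT⟩)) hqM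
  · have := eq_card (inf_le_right : K ⊓ T ≤ T) (by omega)
    exact this ▸ inf_le_left

theorem mul_mem2 {Q T : Subgroup G} (hQT : Q ≤ T) (hc : Nat.card T = 2 * Nat.card Q) {a b : G} (ha : a ∈ T)
    (hb : b ∈ T) (ha' : a ∉ Q) (hb' : b ∉ Q) : a * b ∈ Q := by
  have hi : (Q.subgroupOf T).index = 2 := by
    have h1 := (Q.subgroupOf T).card_mul_index
    have h2 : Nat.card (Q.subgroupOf T) = Nat.card Q := Nat.card_congr (subgroupOfEquivOfLe hQT).toEquiv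
    have hpos : 0 < Nat.card Q := Nat.card_pos
    rw [h2, hc, mul_comm 2] at h1
    exact Nat.eq_of_mul_eq_mul_left hpos h1
  have := (mul_mem_iff_of_index_two hi (a := ⟨a, ha⟩) (b := ⟨b, hb⟩)).2 (by
    simp only [mem_subgroupOf]
    exact ⟨fun h => absurd h ha', fun h => absurd h hb'⟩)
  exact mem_subgroupOf.1 this

theorem main (A : FW G) (F : Subgroup G) (hFT : F ≤ A.T) (hF : El F) (cF : Nat.card F = 16) (hne : F ≠ A.E) :
    Nat.card (F ⊓ A.E : Subgroup G) = 4 ∧ F ⊓ A.E ≤ A.E0 ∧ Nat.card (F ⊓ A.Q : Subgroup G) = 8 ∧ F ⊓ A.Q ≤ A.W ∧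
    (∀ s ∈ A.T, s ∉ A.Q → s * s = 1 → s ∈ F) ∧ (∀ t ∈ F, t ∉ A.E → A.E ⊓ C1 t = F ⊓ A.E) ∧
    ∃ f ∈ F, f ∉ A.Q := by
  have hTN : A.T ≤ 𝒩(A.E) := A.sT.le
  have hTQ : A.T ≤ 𝒩(A.Q) := (le_inf A.Tz hTN).trans A.nQ
  have hET : A.E ≤ A.T := A.EQ.trans A.QT
  have hFN : F ≤ 𝒩(A.E) := hFT.trans hTN
  have cE := A.cE
  have cT := A.cT
  have cQ := A.cQ
  -- `F ⊔ E` centralises each `f ∈ F` modulo `E`
  have hMC : ∀ f ∈ F, F ⊔ A.E ≤ Cm A.E f := by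
    intro f hf
    refine sup_le (fun g hg => ⟨hFN hg, ?_⟩) (le_Cm (hFN hf))
    rw [hF.comm hg hf]; simp
  have hQC : ∀ t ∈ A.Q, A.Q ≤ Cm A.E t := by
    intro t ht a ha
    refine ⟨hTN (A.QT ha), ?_⟩
    have : a * t * a⁻¹ * t⁻¹ = (a * a) * ((a⁻¹ * t) * (a⁻¹ * t)) * (t⁻¹ * t⁻¹) := by group
    rw [this]
    exact A.E.mul_mem (A.E.mul_mem (A.sqQ a ha) (A.sqQ _ (A.Q.mul_mem (A.Q.inv_mem ha) ht)))
      (A.sqQ _ (A.Q.inv_mem ht))
  have hnab : ¬ ∀ t ∈ A.Q, A.T ≤ Cm A.E t := by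
    intro h
    obtain ⟨s, hs, t, ht, hst⟩ := A.nab2
    exact hst (h t ht hs).2
  have hle : ∀ t ∈ F, F ⊓ A.E ≤ A.E ⊓ C1 t := fun t ht g hg => ⟨hg.2, mem_C1.2 (hF.comm hg.1 ht)⟩
  have hfree : ∀ t ∈ F, t ∉ A.E → Nat.card (A.E ⊓ C1 t : Subgroup G) = 4 := fun t ht ht' =>
    (A.free t (hFN ht) ht' (by rw [hF t ht]; exact one_mem _)).1
  obtain ⟨t0, ht0, ht0'⟩ : ∃ t ∈ F, t ∉ A.E := by
    by_contra h
    push Not at h
    exact hne (eq_card h (by omega))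
  have hM := card_sup_mul_card_inf (H := F) (K := A.E) hFN
  have hMT : F ⊔ A.E ≤ A.T := sup_le hFT hET
  have hMne : ¬ A.T ≤ F ⊔ A.E := by
    intro h
    refine hnab fun t ht => h.trans (sup_le (fun f hf => ?_) (le_Cm (hTN (A.QT ht))))
    exact Cm_symm (hMC f hf (h (A.QT ht))) (hFN hf)
  have h4 : Nat.card (F ⊓ A.E : Subgroup G) ≤ 4 := by
    rw [← hfree t0 ht0 ht0']; exact card_le_of_le (hle t0 ht0)
  have hMd : Nat.card (F ⊔ A.E : Subgroup G) ∣ 128 := cT ▸ card_dvd_of_le hMT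
  have hM128 : Nat.card (F ⊔ A.E : Subgroup G) ≠ 128 := fun h => hMne (eq_card hMT (by omega)).ge
  have cM : Nat.card (F ⊔ A.E : Subgroup G) = 64 ∧ Nat.card (F ⊓ A.E : Subgroup G) = 4 := by
    rw [cF, cE] at hM
    have hle128 := Nat.le_of_dvd (by norm_num) hMd
    generalize Nat.card (F ⊔ A.E : Subgroup G) = m at *
    generalize Nat.card (F ⊓ A.E : Subgroup G) = n at *
    interval_cases n <;> omega
  obtain ⟨cM, cI⟩ := cM
  have heq : ∀ t ∈ F, t ∉ A.E → A.E ⊓ C1 t = F ⊓ A.E := fun t ht ht' =>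
    (eq_card (hle t ht) (by rw [hfree t ht ht', cI])).symm
  -- `F` is not inside `Q`
  obtain ⟨f, hf, hfQ⟩ : ∃ f ∈ F, f ∉ A.Q := by
    by_contra h
    push Not at h
    have hMQ : F ⊔ A.E = A.Q := eq_card (sup_le h A.EQ) (by omega)
    have h1 : F ⊓ A.E ≤ zpowers A.z := by
      rw [← A.CQ, ← hMQ, cent_sup]
      intro g hg
      refine ⟨hg.2, fun a ha => hF.comm ha hg.1, fun a ha => A.eE.comm ha hg.2⟩
    have h2 := card_le_of_le h1
    have h3 : orderOf A.z ≤ 2 := orderOf_le_of_pow_eq_one (by norm_num) (by rw [pow_two]; exact A.eE _ A.zE)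
    rw [Nat.card_zpowers] at h2
    omega
  have hFQ : F ⊔ A.Q = A.T :=
    le_antisymm (sup_le hFT A.QT)
      (idx2 A.QT (by omega) le_sup_right ((le_sup_left : F ≤ F ⊔ A.Q) hf) (hFT hf) hfQ)
  have c8 : Nat.card (F ⊓ A.Q : Subgroup G) = 8 := by
    have := card_sup_mul_card_inf (H := F) (K := A.Q) (hFT.trans hTQ)
    rw [hFQ, cT, cF, cQ] at this
    omega
  obtain ⟨t, ht, htE⟩ : ∃ t ∈ F ⊓ A.Q, t ∉ A.E := by
    by_contra h
    push Not at h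
    have := card_le_of_le (show F ⊓ A.Q ≤ F ⊓ A.E from fun g hg => ⟨hg.1, h g hg⟩)
    omega
  have hE0 : F ⊓ A.E ≤ A.E0 := by rw [← heq t ht.1 htE]; exact A.cin t ht.2 htE
  refine ⟨cI, hE0, c8, fun g hg => ?_, fun s hs hsQ hss => ?_, heq, f, hf, hfQ⟩
  · by_cases hgE : g ∈ A.E
    · have : g ∈ A.W ⊓ A.E := A.WE ▸ hE0 ⟨hg.1, hgE⟩
      exact this.1
    · exact A.invQ g hg.2 hgE (hF g hg.1)
  · have hsM : s ∈ F ⊔ A.E := by
      by_contra hsM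
      have hq : s * f ∈ A.Q := mul_mem2 A.QT (by omega) hs (hFT hf) hsQ hfQ
      have hqM : s * f ∉ F ⊔ A.E := fun h => hsM (by
        have := (F ⊔ A.E).mul_mem h ((F ⊔ A.E).inv_mem ((le_sup_left : F ≤ F ⊔ A.E) hf))
        simpa using this)
      have hqC : s * f ∈ Cm A.E f := by
        refine ⟨hTN (A.QT hq), ?_⟩
        have h1 : s⁻¹ = s := inv_eq_of_mul_eq_one_right hss
        have h2 : f⁻¹ = f := inv_eq_of_mul_eq_one_right (hF f hf)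
        have : s * f * f * (s * f)⁻¹ * f⁻¹ = (s * f) * (s⁻¹ * f⁻¹) := by group
        rw [this, h1, h2]
        exact A.sqQ _ hq
      have hTf : A.T ≤ Cm A.E f := idx2 hMT (by omega) (hMC f hf) hqC (A.QT hq) hqM
      refine hnab fun t ht => idx2 A.QT (by omega) (hQC t ht) ?_ (hFT hf) hfQ
      exact Cm_symm (hTf (A.QT ht)) (hFN hf)
    obtain ⟨a, ha, e, he, rfl⟩ := (mem_sup_nr hFN).1 hsM
    have haE : a ∉ A.E := fun h => hsQ (A.EQ (A.E.mul_mem h he))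
    have hc : e ∈ A.E ⊓ C1 a := by
      refine ⟨he, mem_C1.2 ?_⟩
      have h1 : (a * e)⁻¹ = a * e := inv_eq_of_mul_eq_one_right hss
      have h2 : a⁻¹ = a := inv_eq_of_mul_eq_one_right (hF a ha)
      have h3 : e⁻¹ = e := inv_eq_of_mul_eq_one_right (A.eE e he)
      rw [← h1, mul_inv_rev, h2, h3]
    rw [heq a ha haE] at hc
    exact F.mul_mem ha hc.1

end Aex

theorem aeS : AeS.{u} := by
  intro G _ _ A F hFT hF cF hne
  obtain ⟨h1, h2, h3, h4, h5, h6, -⟩ := Aex.main A F hFT hF cF hne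
  refine ⟨h1, h2, h3, h4, h5, h6, fun F' hFT' hF' cF' hne' => ?_⟩
  obtain ⟨-, -, -, -, -, -, f, hf, hfQ⟩ := Aex.main A F' hFT' hF' cF' hne'
  refine Aex.eq_card (fun g hg => ?_) (by omega)
  by_cases hgQ : g ∈ A.Q
  · have hm : g * f ∈ F' := F'.mul_mem hg hf
    have hn : g * f ∉ A.Q := fun h => hfQ (by simpa using A.Q.mul_mem (A.Q.inv_mem hgQ) h)
    have := F.mul_mem (h5 _ (hFT' hm) hn (hF' _ hm)) (F.inv_mem (h5 f (hFT' hf) hfQ (hF' f hf)))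
    simpa using this
  · exact h5 g (hFT' hg) hgQ (hF' g hg)

end CL.T3
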