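/-
Project T3 (S3253): the assembly.
-/
import Cfsg.Agent.T3.Defs2
import Cfsg.Agent.Grp.SylowIn

set_option autoImplicit false
set_option linter.unusedSectionVars false
open Cfsg Subgroup CL.Even CL.Grp

namespace CL.T3

universe u

namespace Asm
variable {G : Type u} [Group G] [Finite G]

theorem solv_conj {t z g : G} (h : g * t * g⁻¹ = z) (hz : Group.IsSolvable (C1 z)) : Group.IsSolvable (C1 t) := by
  have e : C1 t = cj g⁻¹ (C1 z) := by
    ext y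
    rw [mem_cj, mem_C1, mem_C1, ← h]
    constructor
    · intro hy
      calc g⁻¹⁻¹ * y * g⁻¹ * (g * t * g⁻¹) = g * (y * t) * g⁻¹ := by group
        _ = g * t * g⁻¹ * (g⁻¹⁻¹ * y * g⁻¹) := by rw [hy]; group
    · intro hy
      calc y * t = g⁻¹ * (g⁻¹⁻¹ * y * g⁻¹ * (g * t * g⁻¹)) * g := by group
        _ = t * y := by rw [hy]; group
  rw [e]
  exact solvable_of_surjective (f := ((MulAut.conj g⁻¹).toMonoidHom.subgroupMap (C1 z)))
    (MonoidHom.subgroupMap_surjective _ _)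

/-- every 2-central involution is conjugate to the generator of `Z(T)` -/
theorem central {T : Subgroup G} {z : G} (hT : Sy T ⊤) (hz : z * z = 1) (hZ : T ⊓ 𝒞(T) ≤ zpowers z)
    (hs : Group.IsSolvable (C1 z)) (t : G) (ht : IsTwoCentralInvolution t) : Group.IsSolvable (C1 t) := by
  obtain ⟨h2, P, htP, hc⟩ := ht
  haveI : Fact (Nat.Prime 2) := ⟨Nat.prime_two⟩
  obtain ⟨g, -, hg⟩ := syl_conj_le hT P.isPGroup' (le_top : (P : Subgroup G) ≤ ⊤)
  have hcard : cj g (P : Subgroup G) = T := by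
    have h1 : IsSylowIn 2 (P : Subgroup G) ⊤ := ⟨le_top, P.isPGroup', by
      rw [relIndex_top_right]; exact P.not_dvd_index⟩
    have h2' := syl_cj h1 g
    rw [cj_top] at h2'
    exact (h2'.eq_of_le hT.isPGroup hg le_top).symm
  have m1 : g * t * g⁻¹ ∈ T ⊓ 𝒞(T) := by
    refine mem_inf.2 ⟨hg (conj_mem_cj g htP), ?_⟩
    rw [mem_centralizer_iff]
    intro y hy
    replace hy : y ∈ T := hy
    rw [← hcard] at hy
    have := hc _ (mem_cj.1 hy)
    calc y * (g * t * g⁻¹) = g * (g⁻¹ * y * g * t) * g⁻¹ := by group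
      _ = g * t * g⁻¹ * y := by rw [this]; group
  obtain ⟨k, hk⟩ := mem_zpowers_iff.1 (hZ m1)
  have hz2 : z ^ (2 : ℤ) = 1 := by rw [zpow_two]; exact hz
  have : g * t * g⁻¹ = z := by
    rcases Int.even_or_odd' k with ⟨m, rfl | rfl⟩
    · exfalso
      rw [zpow_mul, hz2, one_zpow] at hk
      have : t = 1 := by
        calc t = g⁻¹ * (g * t * g⁻¹) * g := by group
          _ = 1 := by rw [← hk]; group
      rw [this, orderOf_one] at h2; omega
    · rw [zpow_add, zpow_mul, hz2, one_zpow, one_mul, zpow_one] at hk; exact hk.symm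
  exact solv_conj this hs

theorem sy_cent {T : Subgroup G} {z : G} (hT : Sy T ⊤) (h : T ≤ C1 z) : Sy T (C1 z) := by
  haveI : Fact (Nat.Prime 2) := ⟨Nat.prime_two⟩
  refine ⟨h, hT.isPGroup, fun hd => hT.2.2 (hd.trans ?_)⟩
  exact ⟨_, (relIndex_mul_relIndex T (C1 z) ⊤ h le_top).symm⟩

theorem el_isP {H : Subgroup G} (h : El H) : IsPGroup 2 H :=
  isPGroup_iff_forall.2 fun x hx => ⟨1, by rw [pow_one, pow_two]; exact h x hx⟩

theorem ne_bot_of_card {H : Subgroup G} (h : Nat.card H = 16) : H ≠ ⊥ := by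
  rintro rfl; simp at h
end Asm
open Asm

structure Steps : Prop where
  loc : LocS.{u}
  bs : BsS.{u}
  f1 : F1S.{u}
  k1 : K1S.{u}
  f14 : F14S.{u}
  f15 : F15S.{u}
  rd : RdS.{u}
  con : ConS.{u}
  q : QS.{u}
  ra1 : Ra1S.{u}
  a1 : A1S.{u}
  a0 : A0S.{u}
  aw : AwS.{u}
  a2 : A2S.{u}
  a3 : A3S.{u}
  a4a : A4aS.{u}
  a4c : A4cS.{u}
  a4d : A4dS.{u}
  b1 : B1S.{u}
  b2 : B2S.{u}
  b3 : B3S.{u}
  bn : BnS.{u}
  b4 : B4S.{u}
  bc1 : Bc1S.{u}
  bc2 : Bc2S.{u}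
  c1 : C1S.{u}
  c2 : C2S.{u}
  c3 : C3S.{u}
  c4 : C4S.{u}
  d1 : D1S.{u}
  d2 : D2S.{u}
  d3 : D3S.{u}
  gr : GrS.{u}

variable {G : Type u} [Group G] [Finite G]

theorem Steps.caseA (h : Steps.{u}) (A : CA0 G) : Concl G := by
  obtain ⟨A1⟩ := h.a1 G A
  rcases h.q G A1.toRA with h1 | h2 | h3
  · exact (h.ra1 G _ h1).elim
  · obtain ⟨F⟩ := (h.a0 G A1).2 h2
    obtain ⟨W⟩ := h.aw G F
    have hT := h.a2 G W
    have h3 := h.a3 G W hT
    have zz : W.z * W.z = 1 := W.eE _ W.zE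
    have z2 : orderOf W.z = 2 := orderOf_eq_prime (by rw [pow_two]; exact zz) W.z1
    have hs : Group.IsSolvable (C1 W.z) := by
      by_contra hn
      obtain ⟨D⟩ := h.rd G W.T W.z z2 (W.QT (W.EQ W.zE)) (sy_cent hT W.Tz) W.cT h3.cnt (W.loc.inv9 _ z2) hn
      have h4 := h.a4a G W D
      exact h.a4c G W D h3 h4 (h.a4d G W D h4)
    exact h.f14 G W.simp W.nab W.loc h3.rk (central hT zz h3.ZT hs) W.E (el_isP W.eE) (ne_bot_of_card W.cE)
      W.CE.le W.ns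
  · exact ((h.a0 G A1).1 h3).elim

theorem Steps.caseB (h : Steps.{u}) (B : CB G) : Concl G := by
  have h1 := h.b1 G B
  obtain ⟨a, b, z, h2⟩ := h.b2 G B h1
  have h3 := h.b3 G B a b z h1 h2
  have zE : z ∈ B.E2 := (le_sup_left : V B.x ≤ B.E2) h2.hz
  have zz : z * z = 1 := h1.el2 _ zE
  have z2 : orderOf z = 2 := orderOf_eq_prime (by rw [pow_two]; exact zz) h2.z1
  have zT : z ∈ B.T := (le_sup_left : B.R ≤ B.T) ((le_sup_left : B.E2 ≤ B.R) zE)
  have hs : Group.IsSolvable (C1 z) := by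
    by_contra hn
    obtain ⟨D⟩ := h.rd G B.T z z2 zT (sy_cent h3.sT h3.Tz) h2.cT h3.cnt (B.loc.inv9 _ z2) hn
    have h4 := h.b4 G B a b z D h1 h2 h3
    rcases h4.2.2.2 with h5 | h5
    · exact h.bc1 G B a b z D h1 h2 h3 h4 h5
    · refine hn (h.f15 G B.simp B.nab B.loc h3.rk z z2 (h.con G _ _ _ D (sy_cent h3.sT h3.Tz) ?_ ?_))
      · rcases h.bc2 G B a b z D h1 h2 h3 h4 h5 with e | e <;> rw [e]
        exacts [h1.el2, h1.el3]
      · rcases h.bc2 G B a b z D h1 h2 h3 h4 h5 with e | e <;> rw [e]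
        exacts [inf_le_right.trans h1.C2.le, inf_le_right.trans h1.C3.le]
  rcases h.bn G B a b z h1 h2 h3 with hn | hn
  · exact h.f14 G B.simp B.nab B.loc h3.rk (central h3.sT zz h3.ZT hs) B.E2 (el_isP h1.el2) (ne_bot_of_card h1.cE2)
      h1.C2.le hn
  · exact h.f14 G B.simp B.nab B.loc h3.rk (central h3.sT zz h3.ZT hs) B.E3 (el_isP h1.el3) (ne_bot_of_card h1.cE3)
      h1.C3.le hn

theorem Steps.main (h : Steps.{u}) [hs : IsSimpleGroup G] (hG : ¬ IsMulCommutative G) (h3 : ∃ s : G, orderOf s = 3)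
    (hh : Hyp G) : Concl G := by
  have hl := (h.loc G).1 hh h3
  by_cases hV : ∀ s : G, orderOf s = 3 → V s = ⊥
  · obtain ⟨s, hs3⟩ := h3
    rcases h.f1 G hs hG ((h.loc G).2.2 hl hV) (hs3 ▸ orderOf_dvd_natCard s) with h1 | ⟨F, _, _, h1, h2⟩
    · exact .inl h1
    · exact .inr (.inr (.inl ⟨F, _, _, .inl h1, h2⟩))
  · push Not at hV
    obtain ⟨B⟩ := h.bs G hs hG hl
    rcases h.gr G B hV with ⟨x, hx, x1, hx2, hc⟩ | ⟨⟨A⟩⟩ | ⟨⟨A⟩⟩ | ⟨⟨A⟩⟩ | ⟨⟨A⟩⟩
    · exact h.k1 G B x hx x1 hx2 hc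
    · exact h.caseA A
    · exact h.caseB A
    · have h1 := h.c1 G A
      have h2 := h.c2 G A h1
      exact (h.c4 G A h1 h2 (h.c3 G A h1 h2)).elim
    · obtain ⟨D⟩ := h.d1 G A
      rcases h.q G D.toRA with h1 | h2 | h3
      · exact (h.ra1 G _ h1).elim
      · exact (h.d2 G D h2).elim
      · exact (h.d3 G D h3).elim

end CL.T3
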