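/-
Project T3 (S3253), case A: the subgroups `E₀ = [E,Q]` and `W`.
-/
import Cfsg.Agent.T3.Defs2

set_option autoImplicit false
set_option linter.unusedSectionVars false
open Cfsg Subgroup CL.Even CL.Grp
open scoped commutatorElement

namespace CL.T3

universe u

namespace Awx

variable {G : Type u} [Group G] [Finite G]

theorem idx2 {K H : Subgroup G} (hK : K ≤ H) (hc : Nat.card H = 2 * Nat.card K) {a b : G} (ha : a ∈ H)
    (hb : b ∈ H) (h1 : a ∉ K) (h2 : b ∉ K) : a * b ∈ K := by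
  have hi : (K.subgroupOf H).index = 2 := by
    have := (K.subgroupOf H).index_mul_card
    rw [card_subgroupOf_of_le hK, hc] at this
    exact Nat.eq_of_mul_eq_mul_right Nat.card_pos this
  exact (mul_mem_iff_of_index_two hi (a := ⟨a, ha⟩) (b := ⟨b, hb⟩)).2 (by simp [mem_subgroupOf, h1, h2])

theorem four4 {K : Type*} [Group K] (hc : Nat.card K = 4) {a b : K} (ha : a ≠ 1) (hb : b ≠ 1) (hab : a * b ≠ 1)
    (h2 : a * a = 1) (c : K) : c = 1 ∨ c = a ∨ c = b ∨ c = a * b := by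
  classical
  haveI : Finite K := Nat.finite_of_card_ne_zero (by omega)
  haveI := Fintype.ofFinite K
  have h3 : a ≠ b := fun e => hab (e ▸ h2)
  have : ({1, a, b, a * b} : Finset K) = Finset.univ := Finset.eq_univ_of_card _ (by
    rw [← Nat.card_eq_fintype_card, hc, Finset.card_insert_of_notMem, Finset.card_insert_of_notMem,
      Finset.card_pair] <;> simp [ha, hb, h3, ha.symm, hb.symm, hab.symm])
  have h4 := Finset.mem_univ c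
  rw [← this] at h4
  simpa using h4

theorem cm_of_sq {H K : Subgroup G} (hn : H ≤ 𝒩(K)) (h : ∀ a ∈ H, a * a ∈ K) {a b : G} (ha : a ∈ H) (hb : b ∈ H) :
    a * b * a⁻¹ * b⁻¹ ∈ K := by
  rw [show a * b * a⁻¹ * b⁻¹ = a * b * (a * b) * (b⁻¹ * (a⁻¹ * a⁻¹) * b) * (b⁻¹ * b⁻¹) by group]
  exact mul_mem (mul_mem (h _ (mul_mem ha hb)) (conj_mem' (hn hb) (h _ (inv_mem ha)))) (h _ (inv_mem hb))

theorem dih {a b : G} (h1 : b * (a * a) = a * a * b) (h2 : b * b * a = a * (b * b)) (h3 : a * a * (a * a) = 1)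
    (h4 : b * b * (b * b) = 1) : b * a * (b * a) * (a * b * (a * b)) = 1 :=
  calc b * a * (b * a) * (a * b * (a * b)) = b * a * (b * (a * a)) * (b * a * b) := by group
    _ = b * a * (a * a) * (b * b * a) * b := by rw [h1]; group
    _ = b * (a * a * (a * a)) * (b * b * b) := by rw [h2]; group
    _ = b * b * (b * b) := by rw [h3]; group
    _ = 1 := h4

variable (A : FA G) {a b c e q s t : G}

theorem QN : A.Q ≤ 𝒩(A.E) := A.QT.trans A.sT.le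
theorem Qz : A.Q ≤ C1 A.z := A.QT.trans A.Tz
theorem QS' : A.Q ≤ C1 A.z ⊓ 𝒩(A.E) := le_inf (Qz A) (QN A)
theorem z2 : A.z * A.z = 1 := A.eE _ A.zE
theorem oz : orderOf A.z = 2 := orderOf_eq_prime (by rw [sq]; exact z2 A) A.z1
theorem cz : Nat.card (zpowers A.z) = 2 := by rw [Nat.card_zpowers, oz]
theorem zE : zpowers A.z ≤ A.E := zpowers_le.2 A.zE

theorem memz : a ∈ zpowers A.z ↔ a = 1 ∨ a = A.z := by
  classical
  rw [mem_zpowers_iff_mem_range_orderOf, oz]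
  simp [Finset.range_add_one, eq_comm, or_comm]

theorem zcomm (ha : a ∈ zpowers A.z) (hq : q ∈ C1 A.z) : q * a = a * q := by
  rcases (memz A).1 ha with rfl | rfl
  · simp
  · exact mem_C1.1 hq

theorem nz : C1 A.z ≤ 𝒩(zpowers A.z) := le_norm_of_cj_le fun g hg => by
  rintro _ ⟨a, ha, rfl⟩
  change g * a * g⁻¹ ∈ _
  rwa [zcomm A ha hg, mul_inv_cancel_right]

theorem ab (ha : a ∈ A.E) (hb : b ∈ A.E) : a * b = b * a := A.eE.comm ha hb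
theorem invE (ha : a ∈ A.E) : a⁻¹ = a := inv_eq_of_mul_eq_one_right (A.eE a ha)

theorem normE {H K : Subgroup G} (hH : H ≤ A.E) (hK : K ≤ A.E) : H ≤ 𝒩(K) :=
  le_trans (fun _ h => mem_centralizer_iff.2 fun _ k => ab A (hK k) (hH h)) (cent_le_norm K)

theorem cmE (he : e ∈ A.E) (hq : q ∈ A.Q) : ⁅e, q⁆ ∈ A.E := by
  rw [show ⁅e, q⁆ = e * (q * e⁻¹ * q⁻¹) by simp only [commutatorElement_def]; group]
  exact mul_mem he (conj_mem (QN A hq) (inv_mem he))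

theorem cm_mul (ha : a ∈ A.E) (hb : b ∈ A.E) (hq : q ∈ A.Q) : ⁅a * b, q⁆ = ⁅a, q⁆ * ⁅b, q⁆ := by
  calc ⁅a * b, q⁆ = a * ⁅b, q⁆ * a⁻¹ * ⁅a, q⁆ := by simp only [commutatorElement_def]; group
    _ = _ := by rw [ab A ha (cmE A hb hq), mul_inv_cancel_right, ab A (cmE A hb hq) (cmE A ha hq)]

theorem cm_one (ha : a ∈ A.E) (hb : b ∈ A.E) : ⁅a, b⁆ = 1 := commutatorElement_eq_one_iff_mul_comm.2 (ab A ha hb)

theorem cm_mem (he : e ∈ A.E) (ht : t ∈ A.Q) : ⁅e, t⁆ ∈ A.E ⊓ C1 t := by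
  refine ⟨cmE A he ht, mem_C1.2 ?_⟩
  have h1 := ab A (A.sqQ t ht) he
  have h2 := ab A he (conj_mem (QN A ht) he)
  rw [commutatorElement_def, invE A he]
  calc e * t * e * t⁻¹ * t = (e * (t * e * t⁻¹)) * t := by group
    _ = t * e * t⁻¹ * (e * (t * t)) * t⁻¹ := by rw [h2]; group
    _ = _ := by rw [← h1]; group

theorem cC (ht : t ∈ A.Q) (hE : t ∉ A.E) : Nat.card (A.E ⊓ C1 t : Subgroup G) = 4 :=
  (A.free t (QN A ht) hE (A.sqQ t ht)).1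

theorem img (ht : t ∈ A.Q) (hE : t ∉ A.E) (hc : c ∈ A.E ⊓ C1 t) : ∃ e ∈ A.E, ⁅e, t⁆ = c := by
  let δ : A.E →* G := MonoidHom.mk' (fun e => ⁅(e : G), t⁆) fun a b => cm_mul A a.2 b.2 ht
  have hk : δ.ker = (A.E ⊓ C1 t).subgroupOf A.E := Subgroup.ext fun e => by
    rw [MonoidHom.mem_ker, mem_subgroupOf, mem_inf, mem_C1, ← commutatorElement_eq_one_iff_mul_comm]
    exact (and_iff_right e.2).symm
  have h1 := δ.ker.index_mul_card
  rw [index_ker, hk, card_subgroupOf_of_le inf_le_left, cC A ht hE, A.cE] at h1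
  have h2 : δ.range ≤ A.E ⊓ C1 t := by rintro _ ⟨e, rfl⟩; exact cm_mem A e.2 ht
  obtain ⟨e, he⟩ := (eq_of_le_of_card_ge h2 (by rw [cC A ht hE]; omega)).ge hc
  exact ⟨e, e.2, he⟩

theorem four (hs : s ∈ A.Q) (ht : t ∈ A.Q) (h1 : s ∉ A.E) (h2 : t ∉ A.E) (h3 : s * t ∉ A.E) (hq : q ∈ A.Q) :
    q ∈ A.E ∨ s⁻¹ * q ∈ A.E ∨ t⁻¹ * q ∈ A.E ∨ (s * t)⁻¹ * q ∈ A.E := by
  haveI : (A.E.subgroupOf A.Q).Normal := normal_subgroupOf_of_le_normalizer (QN A)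
  have hc : Nat.card (A.Q ⧸ A.E.subgroupOf A.Q) = 4 := by
    have := (A.E.subgroupOf A.Q).index_mul_card
    rw [card_subgroupOf_of_le A.EQ, A.cE, A.cQ, index] at this
    omega
  have k : ∀ a : A.Q, (a : A.Q ⧸ A.E.subgroupOf A.Q) = 1 ↔ (a : G) ∈ A.E := fun a => by
    rw [QuotientGroup.eq_one_iff, mem_subgroupOf]
  have k' : ∀ a b : A.Q, (b : A.Q ⧸ A.E.subgroupOf A.Q) = a → (a : G)⁻¹ * b ∈ A.E := fun a b e =>
    mem_subgroupOf.1 (QuotientGroup.eq.1 e.symm)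
  exact (four4 hc (a := (⟨s, hs⟩ : A.Q)) (b := (⟨t, ht⟩ : A.Q)) (mt (k _).1 h1) (mt (k _).1 h2)
    (fun e => h3 ((k ⟨s * t, mul_mem hs ht⟩).1 e)) ((k ⟨s * s, mul_mem hs hs⟩).2 (A.sqQ s hs)) (⟨q, hq⟩ : A.Q)).imp (k _).1
    fun h => h.imp (k' _ _) fun h => h.imp (k' _ _) (k' ⟨s * t, mul_mem hs ht⟩ _)

theorem gen (hs : s ∈ A.Q) (ht : t ∈ A.Q) (h1 : s ∉ A.E) (h2 : t ∉ A.E) (h3 : s * t ∉ A.E) (p : G → Prop)
    (pE : ∀ e ∈ A.E, p e) (ps : p s) (pt : p t) (pm : ∀ a ∈ A.Q, ∀ b ∈ A.Q, p a → p b → p (a * b)) (hq : q ∈ A.Q) :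
    p q := by
  have k : ∀ r ∈ A.Q, p r → r⁻¹ * q ∈ A.E → p q := fun r hr h e => by
    simpa only [mul_inv_cancel_left] using pm r hr _ (A.EQ e) h (pE _ e)
  rcases four A hs ht h1 h2 h3 hq with h | h | h | h
  exacts [pE q h, k s hs ps h, k t ht pt h, k _ (mul_mem hs ht) (pm s hs t ht ps pt) h]

theorem xS : A.x ∈ C1 A.z ⊓ 𝒩(A.E) := ⟨A.xz, A.xE⟩

theorem xq (hq : q ∈ A.Q) (hE : q ∉ A.E) :
    A.x * q * A.x⁻¹ ∈ A.Q ∧ A.x * q * A.x⁻¹ ∉ A.E ∧ A.x * q * A.x⁻¹ * q ∉ A.E :=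
  ⟨conj_mem (A.nQ (xS A)) hq, fun h => hE ((mem_normalizer_iff.1 A.xE q).2 h), fun h => hE (A.xQ q hq (by
      have := mul_mem h (inv_mem (A.sqQ q hq))
      rwa [mul_inv_rev, ← mul_assoc, mul_inv_cancel_right] at this))⟩

theorem ext1 : ∃ t ∈ A.Q, t ∉ A.E := SetLike.not_le_iff_exists.1 fun h => by
  have := card_le_of_le h
  rw [A.cE, A.cQ] at this
  omega

theorem exinv (hq : q ∈ A.Q) (hE : q ∉ A.E) : ∃ t ∈ A.Q, t ∉ A.E ∧ t * t = 1 ∧ t⁻¹ * q ∈ A.E := by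
  obtain ⟨e, he, h⟩ := (A.free q (QN A hq) hE (A.sqQ q hq)).2
  refine ⟨e * q, mul_mem (A.EQ he) hq, fun h => hE ((A.E.mul_mem_cancel_left he).1 h), h, ?_⟩
  rw [mul_inv_rev]; exact conj_mem' (QN A hq) (inv_mem he)

theorem fix3 (h : A.x * a * A.x⁻¹ * a⁻¹ ∈ zpowers A.z) : a * A.x = A.x * a := by
  rcases (memz A).1 h with h | h
  · rw [mul_inv_eq_one, mul_inv_eq_iff_eq_mul] at h; exact h.symm
  rw [mul_inv_eq_iff_eq_mul] at h
  have h1 : A.x * A.z * A.x⁻¹ = A.z := by rw [mem_C1.1 A.xz, mul_inv_cancel_right]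
  have h2 : A.x * (A.x * a * A.x⁻¹) * A.x⁻¹ = a := by
    rw [h, show A.x * (A.z * a) * A.x⁻¹ = (A.x * A.z * A.x⁻¹) * (A.x * a * A.x⁻¹) by group, h1, h, ← mul_assoc,
      z2, one_mul]
  have h3 : A.x ^ 3 = 1 := A.x3 ▸ pow_orderOf_eq_one A.x
  calc a * A.x = A.x ^ 3 * a * (A.x ^ 3)⁻¹ * A.x := by rw [h3]; group
    _ = A.x * (A.x * (A.x * a * A.x⁻¹) * A.x⁻¹) := by rw [pow_three]; group
    _ = _ := by rw [h2]

theorem zx : A.z ∈ V A.x := (A.loc.mem _ A.x3 _).2 ⟨(mem_C1.1 A.xz).symm, z2 A⟩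

theorem CQ : A.E ⊓ 𝒞(A.Q) = zpowers A.z := by
  have hz : zpowers A.z ≤ A.E ⊓ 𝒞(A.Q) :=
    zpowers_le.2 ⟨A.zE, mem_centralizer_iff.2 fun q hq => mem_C1.1 (Qz A hq)⟩
  refine le_antisymm (fun d hd => by_contra fun hn => ?_) hz
  obtain ⟨t, ht, hE⟩ := ext1 A
  have l : A.E ⊓ 𝒞(A.Q) ≤ A.E ⊓ C1 t := fun v hv => ⟨hv.1, mem_C1.2 (comm_of_mem hv.2 ht).symm⟩
  have hx := le_norm_inf inf_le_right (le_norm_cent A.nQ) (xS A)
  have h1 : d * A.x = A.x * d := fix3 A (idx2 (hz.trans l) (by rw [cC A ht hE, cz]) (l (conj_mem hx hd))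
    (l (inv_mem hd)) (fun h => hn ((mem_normalizer_iff.1 (nz A A.xz) d).2 h))
    (fun h => hn (inv_mem_iff.1 h)))
  have h2 : d ∈ V A.x := (A.loc.mem _ A.x3 _).2 ⟨h1, A.eE d hd.1⟩
  refine hE (A.Cx t (mem_centralizer_iff.2 fun v hv => ?_) 2 (by
    rw [show t ^ 2 ^ 2 = t * t * (t * t) by norm_num [pow_succ, mul_assoc]]; exact A.eE _ (A.sqQ t ht)))
  by_cases h3 : v ∈ zpowers A.z
  · exact mem_C1.1 (l (hz h3)).2
  · have h4 := idx2 (zpowers_le.2 (zx A)) (by rw [A.loc.cV _ A.x3 A.Vx, cz]) hv h2 h3 hn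
    exact mem_C1.1 (((C1 t).mul_mem_cancel_right (l hd).2).1 (l (hz h4)).2)

theorem inter (hs : s ∈ A.Q) (ht : t ∈ A.Q) (h1 : s ∉ A.E) (h2 : t ∉ A.E) (h3 : s * t ∉ A.E) (hc : c ∈ A.E)
    (cs : c * s = s * c) (ct : c * t = t * c) : c ∈ zpowers A.z :=
  (CQ A).le ⟨hc, mem_centralizer_iff.2 fun q hq => gen A hs ht h1 h2 h3 (fun q => q * c = c * q)
    (fun e he => ab A he hc) cs.symm ct.symm
    (fun a _ b _ ha hb => by rw [mul_assoc, hb, ← mul_assoc, ha, mul_assoc]) hq⟩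

/-- `E₀` -/
def E0 : Subgroup G := ⁅A.E, A.Q⁆

theorem E0E : E0 A ≤ A.E := commutator_le_of_le_norm (QN A)
theorem nE0 : C1 A.z ⊓ 𝒩(A.E) ≤ 𝒩(E0 A) := le_norm_commutator inf_le_right A.nQ

theorem cin (ht : t ∈ A.Q) (hE : t ∉ A.E) : A.E ⊓ C1 t ≤ E0 A := fun c hc => by
  obtain ⟨e, he, rfl⟩ := img A ht hE hc
  exact commutator_mem_commutator he ht

theorem two0 (hs : s ∈ A.Q) (ht : t ∈ A.Q) (h1 : s ∉ A.E) (h2 : t ∉ A.E) (h3 : s * t ∉ A.E) :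
    E0 A ≤ (A.E ⊓ C1 s) ⊔ (A.E ⊓ C1 t) :=
  commutator_le.2 fun e he q hq => gen A hs ht h1 h2 h3 (fun q => ∀ e ∈ A.E, ⁅e, q⁆ ∈ (A.E ⊓ C1 s) ⊔ (A.E ⊓ C1 t))
    (fun a ha e he => by rw [cm_one A he ha]; exact one_mem _) (fun e he => mem_sup_left (cm_mem A he hs))
    (fun e he => mem_sup_right (cm_mem A he ht)) (fun a _ b hb pa pb e he => by
      rw [show ⁅e, a * b⁆ = ⁅e, a⁆ * ⁅⁅e, b⁆, a⁆⁻¹ * ⁅e, b⁆ by simp only [commutatorElement_def]; group]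
      exact mul_mem (mul_mem (pa e he) (inv_mem (pa _ (cmE A he hb)))) (pb e he)) hq e he

theorem zC (ht : t ∈ A.Q) : zpowers A.z ≤ A.E ⊓ C1 t := zpowers_le.2 ⟨A.zE, mem_C1.2 (mem_C1.1 (Qz A ht)).symm⟩

theorem zE0 : zpowers A.z ≤ E0 A := let ⟨_, ht, hE⟩ := ext1 A; (zC A ht).trans (cin A ht hE)

theorem cE0 : Nat.card (E0 A) = 8 := by
  obtain ⟨t, ht, hE⟩ := ext1 A
  obtain ⟨hs, h1, h3⟩ := xq A ht hE
  have h := card_sup_mul_card_inf (normE A (H := A.E ⊓ C1 (A.x * t * A.x⁻¹)) (K := A.E ⊓ C1 t) inf_le_left inf_le_left)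
  rw [← le_antisymm (two0 A hs ht h1 hE h3) (sup_le (cin A hs h1) (cin A ht hE)),
    le_antisymm (fun c hc => inter A hs ht h1 hE h3 hc.1.1 (mem_C1.1 hc.1.2) (mem_C1.1 hc.2.2))
      (le_inf (zC A hs) (zC A ht)), cz, cC A hs h1, cC A ht hE] at h
  omega

theorem cmz (he : e ∈ E0 A) (hq : q ∈ A.Q) : ⁅e, q⁆ ∈ zpowers A.z := by
  by_cases hE : q ∈ A.E
  · rw [cm_one A (E0E A he) hE]; exact one_mem _
  obtain ⟨hs, h1, h3⟩ := xq A hq hE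
  generalize A.x * q * A.x⁻¹ = s at hs h1 h3
  obtain ⟨a, ha, b, hb, rfl⟩ := (mem_sup_nr (normE A inf_le_left inf_le_left)).1 (two0 A hs hq h1 hE h3 he)
  rw [cm_mul A ha.1 hb.1 hq, commutatorElement_eq_one_iff_mul_comm.2 (mem_C1.1 hb.2), mul_one]
  refine inter A hs hq h1 hE h3 (cmE A ha.1 hq) ?_ (mem_C1.1 (cm_mem A ha.1 hq).2)
  have h4 := cm_of_sq (QN A) A.sqQ hs hq
  have h5 : s * a * s⁻¹ = a := by rw [← mem_C1.1 ha.2, mul_inv_cancel_right]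
  calc ⁅a, q⁆ * s = ⁅a, s * q * s⁻¹ * q⁻¹⁆ * (s * q * s⁻¹ * q⁻¹ * ⁅a, q⁆ * (s * q * s⁻¹ * q⁻¹)⁻¹) * s := by
        rw [cm_one A ha.1 h4, ab A h4 (cmE A ha.1 hq), mul_inv_cancel_right, one_mul]
    _ = ⁅s * a * s⁻¹, s * q * s⁻¹⁆ * s := by rw [h5]; simp only [commutatorElement_def]; group
    _ = _ := by simp only [commutatorElement_def]; group

theorem memE0 (ht : t ∈ A.Q) (hE : t ∉ A.E) (he : e ∈ A.E) (h : ⁅e, t⁆ ∈ zpowers A.z) : e ∈ E0 A := by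
  rcases (memz A).1 h with h | h
  · exact cin A ht hE ⟨he, mem_C1.2 (commutatorElement_eq_one_iff_mul_comm.1 h)⟩
  obtain ⟨c, hc, h1⟩ : ∃ c ∈ E0 A, c ∉ A.E ⊓ C1 t := SetLike.not_le_iff_exists.1 fun l => by
    have := card_le_of_le l
    rw [cE0, cC A ht hE] at this
    omega
  have h2 : ⁅c, t⁆ = A.z := ((memz A).1 (cmz A hc ht)).resolve_left fun e =>
    h1 ⟨E0E A hc, mem_C1.2 (commutatorElement_eq_one_iff_mul_comm.1 e)⟩
  exact ((E0 A).mul_mem_cancel_right hc).1 (cin A ht hE ⟨A.E.mul_mem he (E0E A hc), mem_C1.2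
    (commutatorElement_eq_one_iff_mul_comm.1 (by rw [cm_mul A he (E0E A hc) ht, h, h2, z2]))⟩)

theorem xE0 (hv : e ∈ V A.x) (he : e ∈ E0 A) : e ∈ zpowers A.z := by
  have hx : A.x * e * A.x⁻¹ = e := by rw [← mem_C1.1 (V_le_C1 _ hv), mul_inv_cancel_right]
  have k : ∀ t ∈ A.Q, t ∉ A.E → ⁅e, t⁆ = 1 → e ∈ zpowers A.z := fun t ht hE h => by
    obtain ⟨hs, h1, h3⟩ := xq A ht hE
    refine inter A hs ht h1 hE h3 (E0E A he) (commutatorElement_eq_one_iff_mul_comm.1 ?_)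
      (commutatorElement_eq_one_iff_mul_comm.1 h)
    rw [← hx, show ⁅A.x * e * A.x⁻¹, A.x * t * A.x⁻¹⁆ = A.x * ⁅e, t⁆ * A.x⁻¹ by
      simp only [commutatorElement_def]; group, h, mul_one, mul_inv_cancel]
  obtain ⟨t, ht, hE⟩ := ext1 A
  obtain ⟨hs, h1, h3⟩ := xq A ht hE
  generalize A.x * t * A.x⁻¹ = s at hs h1 h3
  rcases (memz A).1 (cmz A he ht) with a1 | a1
  · exact k t ht hE a1
  rcases (memz A).1 (cmz A he hs) with a2 | a2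
  · exact k s hs h1 a2
  refine k _ (mul_mem hs ht) h3 ?_
  rw [show ⁅e, s * t⁆ = ⁅e, s⁆ * (s * ⁅e, t⁆ * s⁻¹) by simp only [commutatorElement_def]; group, a1, a2,
    mem_C1.1 (Qz A hs), mul_inv_cancel_right, z2]

theorem yE0 : V A.y ≤ E0 A := fun v hv => by
  have lx : V A.x ≤ A.E := A.EV ▸ le_sup_left
  have ly : V A.y ≤ A.E := A.EV ▸ le_sup_right
  have h0 : V A.x ⊓ V A.y = ⊥ := by
    have h := card_sup_mul_card_inf (normE A lx ly)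
    rw [← A.EV, A.cE, A.loc.cV _ A.x3 A.Vx, A.loc.cV _ A.y3 A.Vy] at h
    exact card_eq_one.1 (by omega)
  have hn : ∀ w ∈ V A.y, A.x * w * A.x⁻¹ ∈ V A.y := fun w hw => by
    have := conj_mem_cj A.x hw
    rwa [← V_conj, A.xy, mul_inv_cancel_right] at this
  have h3 : A.x ^ 3 = 1 := A.x3 ▸ pow_orderOf_eq_one A.x
  have h1 := hn v hv
  have h2 := hn _ h1
  have e3 : A.x * (A.x * (A.x * v * A.x⁻¹) * A.x⁻¹) * A.x⁻¹ = v := by
    rw [show A.x * (A.x * (A.x * v * A.x⁻¹) * A.x⁻¹) * A.x⁻¹ = A.x ^ 3 * v * (A.x ^ 3)⁻¹ by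
      rw [pow_three]; group, h3]; group
  generalize e1 : A.x * v * A.x⁻¹ = v₁ at h1 h2 e3
  generalize e2 : A.x * v₁ * A.x⁻¹ = v₂ at h2 e3
  have h4 := mul_mem hv (mul_mem h1 h2)
  have h5 : v * (v₁ * v₂) ∈ V A.x := (A.loc.mem _ A.x3 _).2 ⟨by
    rw [eq_comm, ← mul_inv_eq_iff_eq_mul, show A.x * (v * (v₁ * v₂)) * A.x⁻¹ =
      A.x * v * A.x⁻¹ * (A.x * v₁ * A.x⁻¹) * (A.x * v₂ * A.x⁻¹) by group, e1, e2, e3,
      ab A (ly (mul_mem h1 h2)) (ly hv)], A.eE _ (ly h4)⟩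
  have h6 : v₁ * v₂ ∈ E0 A := by
    by_cases h : v₁ ∈ E0 A
    · exact mul_mem h (e2 ▸ conj_mem (nE0 A (xS A)) h)
    · exact idx2 (E0E A) (by rw [A.cE, cE0]) (ly h1) (ly h2) h fun h' =>
        h ((mem_normalizer_iff.1 (nE0 A (xS A)) v₁).2 (e2 ▸ h'))
  rw [eq_inv_of_mul_eq_one_left (mem_bot.1 (h0.le ⟨h5, h4⟩))]
  exact inv_mem h6

theorem mulW (ha : a ∈ A.Q) (h2 : a * a ∈ zpowers A.z) (he : e ∈ E0 A) : e * a * (e * a) ∈ zpowers A.z := by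
  rw [show e * a * (e * a) = e * a * e⁻¹⁻¹ * a⁻¹ * (a * a) by group, invE A (inv_mem (E0E A he))]
  exact mul_mem (cmz A he ha) h2

theorem same (ha : a ∈ A.Q) (hE : a ∉ A.E) (h2 : a * a ∈ zpowers A.z) (he : e ∈ A.E)
    (h3 : e * a * (e * a) ∈ zpowers A.z) : e ∈ E0 A := by
  rw [show e * a * (e * a) = e * a * e⁻¹⁻¹ * a⁻¹ * (a * a) by group, invE A (inv_mem he)] at h3
  exact memE0 A ha hE he (((zpowers A.z).mul_mem_cancel_right h2).1 h3)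

/-- `W` -/
def W : Subgroup G where
  carrier := {q | q ∈ A.Q ∧ q * q ∈ zpowers A.z ∧ (q ∈ A.E → q ∈ E0 A)}
  one_mem' := ⟨one_mem _, by rw [mul_one]; exact one_mem _, fun _ => one_mem _⟩
  inv_mem' := fun {a} ha => ⟨inv_mem ha.1, by rw [← mul_inv_rev]; exact inv_mem ha.2.1,
    fun h => inv_mem (ha.2.2 (inv_mem_iff.1 h))⟩
  mul_mem' := fun {a b} ha hb => by
    refine ⟨mul_mem ha.1 hb.1, ?_⟩
    by_cases h1 : a ∈ A.E
    · exact ⟨mulW A hb.1 hb.2.1 (ha.2.2 h1), fun h =>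
        mul_mem (ha.2.2 h1) (hb.2.2 ((A.E.mul_mem_cancel_left h1).1 h))⟩
    by_cases h2 : b ∈ A.E
    · refine ⟨?_, fun h => (h1 ((A.E.mul_mem_cancel_right h2).1 h)).elim⟩
      have := mulW A ha.1 ha.2.1 (conj_mem (nE0 A (QS' A ha.1)) (hb.2.2 h2))
      rwa [inv_mul_cancel_right] at this
    by_cases h3 : a * b ∈ A.E
    · refine ⟨by rw [A.eE _ h3]; exact one_mem _, fun _ => same A (inv_mem hb.1) (mt inv_mem_iff.1 h2)
        (by rw [← mul_inv_rev]; exact inv_mem hb.2.1) h3 ?_⟩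
      rw [mul_inv_cancel_right]; exact ha.2.1
    refine ⟨?_, fun h => (h3 h).elim⟩
    have u := A.sqQ _ (mul_mem ha.1 hb.1)
    have k1 := zcomm A ha.2.1 (Qz A hb.1)
    have k2 := zcomm A hb.2.1 (Qz A ha.1)
    have d := eq_inv_of_mul_eq_one_left (dih k1 k2.symm (A.eE _ (zE A ha.2.1)) (A.eE _ (zE A hb.2.1)))
    rw [invE A u] at d
    refine inter A ha.1 hb.1 h1 h2 h3 u ?_ ?_
    · conv_rhs => rw [← d]
      group
    · conv_lhs => rw [← d]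
      group

theorem WE : W A ⊓ A.E = E0 A :=
  le_antisymm (fun _ h => h.1.2.2 h.2) fun _ h =>
    ⟨⟨A.EQ (E0E A h), by rw [A.eE _ (E0E A h)]; exact one_mem _, fun _ => h⟩, E0E A h⟩

theorem invQ (ht : t ∈ A.Q) (hE : t ∉ A.E) (h : t * t = 1) : t ∈ W A :=
  ⟨ht, by rw [h]; exact one_mem _, fun e => (hE e).elim⟩

theorem nW : C1 A.z ⊓ 𝒩(A.E) ≤ 𝒩(W A) := le_norm_of_cj_le fun g hg => by
  rintro _ ⟨a, ha, rfl⟩
  refine ⟨conj_mem (A.nQ hg) ha.1, ?_, fun h => conj_mem (nE0 A hg) (ha.2.2 ((mem_normalizer_iff.1 hg.2 a).2 h))⟩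
  rw [← map_mul]; exact conj_mem (nz A hg.1) ha.2.1

theorem cW : Nat.card (W A) = 32 := by
  have l : W A ≤ A.Q := fun _ h => h.1
  have h := card_sup_mul_card_inf (l.trans (QN A))
  have e : W A ⊔ A.E = A.Q := le_antisymm (sup_le l A.EQ) fun q hq => by
    by_cases hE : q ∈ A.E
    · exact mem_sup_right hE
    obtain ⟨t, ht, h1, h2, h3⟩ := exinv A hq hE
    simpa only [mul_inv_cancel_left] using mul_mem_sup (invQ A ht h1 h2) h3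
  rw [e, WE, cE0, A.cE, A.cQ] at h
  omega

theorem coset (ht : t ∈ A.Q) (hE : t ∉ A.E) (h2 : t * t = 1) :
    {a | t⁻¹ * a ∈ A.E ∧ a * a = 1}.ncard = 4 := by
  have i := inv_eq_of_mul_eq_one_right h2
  have e : {a | t⁻¹ * a ∈ A.E ∧ a * a = 1} = (fun c => t * c) '' (A.E ⊓ C1 t : Subgroup G) := by
    ext a
    refine ⟨fun h => ⟨t⁻¹ * a, ⟨h.1, mem_C1.2 ?_⟩, mul_inv_cancel_left _ _⟩, ?_⟩
    · rw [mul_inv_cancel_left, ← invE A h.1, mul_inv_rev, inv_inv, mul_assoc, h2, mul_one,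
        inv_eq_of_mul_eq_one_right h.2]
    · rintro ⟨c, hc, rfl⟩
      refine ⟨by rw [inv_mul_cancel_left]; exact hc.1, ?_⟩
      rw [mul_assoc, ← mul_assoc c, mem_C1.1 hc.2, mul_assoc, A.eE c hc.1, mul_one, h2]
  rw [e, Set.ncard_image_of_injective _ (mul_right_injective t), ← cC A ht hE]
  rfl

theorem c20 : Nat.card {a // a ∈ W A ∧ a * a = 1} = 20 := by
  obtain ⟨q, hq, hE⟩ := ext1 A
  obtain ⟨t, ht, t1, t2, -⟩ := exinv A hq hE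
  obtain ⟨hs, s1, h3⟩ := xq A ht t1
  have s2 : A.x * t * A.x⁻¹ * (A.x * t * A.x⁻¹) = 1 := by rw [conj_mul, t2, mul_one, mul_inv_cancel]
  generalize A.x * t * A.x⁻¹ = s at hs s1 h3 s2
  obtain ⟨r, hr, r1, r2, h4⟩ := exinv A (mul_mem hs ht) h3
  have dj : ∀ a b : G, a⁻¹ * b ∉ A.E → Disjoint {c | a⁻¹ * c ∈ A.E ∧ c * c = 1} {c | b⁻¹ * c ∈ A.E ∧ c * c = 1} :=
    fun a b h => Set.disjoint_left.2 fun c h1 h2 => h (by
      simpa only [mul_inv_rev, inv_inv, mul_assoc, mul_inv_cancel_left] using mul_mem h1.1 (inv_mem h2.1))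
  have d0 : ∀ b : G, b ∉ A.E → Disjoint (E0 A : Set G) {c | b⁻¹ * c ∈ A.E ∧ c * c = 1} :=
    fun b h => Set.disjoint_left.2 fun c h1 h2 => h (inv_mem_iff.1 ((A.E.mul_mem_cancel_right (E0E A h1)).1 h2.1))
  have e : {a | a ∈ W A ∧ a * a = 1} = (E0 A : Set G) ∪ {c | s⁻¹ * c ∈ A.E ∧ c * c = 1} ∪
      {c | t⁻¹ * c ∈ A.E ∧ c * c = 1} ∪ {c | r⁻¹ * c ∈ A.E ∧ c * c = 1} := by
    have k : ∀ b ∈ A.Q, b ∉ A.E → ∀ c, b⁻¹ * c ∈ A.E ∧ c * c = 1 → c ∈ W A ∧ c * c = 1 := fun b hb h c hc =>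
      ⟨invQ A ((A.Q.mul_mem_cancel_left (inv_mem hb)).1 (A.EQ hc.1))
        (fun e => h (inv_mem_iff.1 ((A.E.mul_mem_cancel_right e).1 hc.1))) hc.2, hc.2⟩
    ext a
    refine ⟨fun h => ?_, ?_⟩
    · rcases four A hs ht s1 t1 h3 h.1.1 with h5 | h5 | h5 | h5
      · exact .inl (.inl (.inl (h.1.2.2 h5)))
      · exact .inl (.inl (.inr ⟨h5, h.2⟩))
      · exact .inl (.inr ⟨h5, h.2⟩)
      · exact .inr ⟨by simpa only [mul_assoc, mul_inv_cancel_left, mul_inv_rev] using mul_mem h4 h5, h.2⟩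
    · rintro (((h | h) | h) | h)
      exacts [⟨((WE A).ge h).1, A.eE _ (E0E A h)⟩, k s hs s1 a h, k t ht t1 a h, k r hr r1 a h]
  have n1 : s⁻¹ * t ∉ A.E := by rwa [inv_eq_of_mul_eq_one_right s2]
  have n2 : s⁻¹ * r ∉ A.E := fun h => t1 (by
    simpa only [mul_assoc, mul_inv_cancel_left, inv_mul_cancel_left] using mul_mem h h4)
  have n3 : t⁻¹ * r ∉ A.E := fun h => s1 ((mem_normalizer_iff''.1 (QN A ht) s).2 (by
    simpa only [mul_assoc, mul_inv_cancel_left] using mul_mem h h4))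
  change Set.ncard {a | a ∈ W A ∧ a * a = 1} = 20
  rw [e, Set.ncard_union_eq (by simp only [Set.disjoint_union_left]; exact ⟨⟨d0 r r1, dj _ _ n2⟩, dj _ _ n3⟩),
    Set.ncard_union_eq (by simp only [Set.disjoint_union_left]; exact ⟨d0 t t1, dj _ _ n1⟩),
    Set.ncard_union_eq (d0 s s1), coset A hs s1 s2, coset A ht t1 t2, coset A hr r1 r2,
    show (E0 A : Set G).ncard = 8 from cE0 A]

end Awx

open Awx in
theorem awS : AwS.{u} := fun _ _ _ A => ⟨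
  { A with
    E0 := E0 A, W := W A, cE0 := cE0 A, E0E := E0E A, zE0 := zE0 A (mem_zpowers _), yE0 := yE0 A
    xE0 := fun _ hv he => xE0 A hv he, nE0 := nE0 A, cW := cW A, WQ := fun _ h => h.1, WE := WE A, nW := nW A
    sqW := fun _ h => h.2.1
    cmW := fun _ ha _ hb => cm_of_sq (H := W A) (fun _ h => nz A (Qz A h.1)) (fun _ h => h.2.1) ha hb
    invQ := fun _ ht hE h => invQ A ht hE h, cin := fun _ ht hE => cin A ht hE, CQ := CQ A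
    fpf := fun a ha h => by
      have h1 := A.xQ a ha.1 (zE A h)
      exact xE0 A ((A.loc.mem _ A.x3 _).2 ⟨fix3 A h, A.eE a h1⟩) (ha.2.2 h1)
    gen0 := fun _ h => commutator_le.2 h
    two0 := fun _ hs _ ht h1 h2 h3 => two0 A hs ht h1 h2 h3, c20 := c20 A }⟩

end CL.T3
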