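/-
Project T3 (S3253): the group `R` of order 64 in case B.
-/
import Cfsg.Agent.T3.Defs2
import Cfsg.Agent.Fgs.ClassBasic

set_option autoImplicit false
set_option linter.unusedSectionVars false
open Cfsg Subgroup CL.Even CL.Grp

namespace CL.T3

universe u

namespace B1

variable {G : Type u} [Group G] [Finite G] {z s a b c v r : G} {K Q : Subgroup G}

theorem cr (h : a * b = b * a) (e : a * (b * c) = b * c * a) : a * c = c * a :=
  mul_left_cancel (a := b) (by rw [← mul_assoc, ← h, mul_assoc, e, mul_assoc])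

section
variable (B : Bs G)

theorem ne1 (h : s ∉ zpowers z) : s ≠ 1 := fun e => h (e ▸ one_mem _)

theorem mem (hz : z ∈ B.P) (z1 : z ≠ 1) (ha : a ∈ V z) : a * z = z * a ∧ a * a = 1 := (B.loc.mem z (B.o3 z hz z1) a).1 ha

theorem fpf (hz : z ∈ B.P) (z1 : z ≠ 1) (hs : s ∈ B.P) (sz : s ∉ zpowers z) (h1 : a * z = z * a) (h2 : a * a = 1)
    (h : a * s = s * a) : a = 1 := by_contra fun a1 => by
  have : a ∈ B.P := by
    rw [← B.gen z hz z1 s hs sz, ← B.loc.cP z s (B.o3 z hz z1) (B.o3 s hs (ne1 sz)) (B.cm z hz s hs) sz]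
    exact ⟨mem_C1.2 h1, mem_C1.2 h⟩
  have := B.o3 a this a1 ▸ orderOf_dvd_of_pow_eq_one ((pow_two a).trans h2)
  omega

theorem irr (hz : z ∈ B.P) (z1 : z ≠ 1) (hs : s ∈ B.P) (sz : s ∉ zpowers z) (hK : s ∈ 𝒩(K)) (ha : a ∈ V z) (aK : a ∈ K)
    (a1 : a ≠ 1) : V z ≤ K := by
  have c4 := B.loc.cV z (B.o3 z hz z1) fun e => a1 (mem_bot.1 (e ▸ ha))
  obtain ⟨k, hk, e⟩ := (Nat.dvd_prime_pow Nat.prime_two).1
    (show Nat.card (V z ⊓ K : Subgroup G) ∣ 2 ^ 2 from (card_dvd_of_le inf_le_left).trans c4.dvd)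
  interval_cases k
  · exact (a1 (mem_bot.1 (card_eq_one.1 e ▸ mem_inf.2 ⟨ha, aK⟩))).elim
  · have m := mem B hz z1 ha
    have := ((Nat.card_eq_two_iff' 1).1 e).unique (y₁ := ⟨_, conj_mem (B.PV z hz hs) ha, conj_mem hK aK⟩) (y₂ := ⟨a, ha, aK⟩)
      (fun e => a1 (conj_eq_one_iff.1 (congrArg Subtype.val e))) fun e => a1 (congrArg Subtype.val e)
    exact (a1 (fpf B hz z1 hs sz m.1 m.2 (mul_inv_eq_iff_eq_mul.1 (congrArg Subtype.val this)).symm)).elim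
  · exact (eq_of_le_of_card_ge inf_le_left (c4.trans e.symm).le).ge.trans inf_le_right

end

/-- exchange of `y` and `w` -/
def swap (B : CB G) : CB G :=
  { B with
    y := B.w, w := B.y, hy := B.hw, hw := B.hy, yx := B.wx, wx := B.yx, Vy := B.Vw, Vw := B.Vy, xy := B.xw, xw := B.xy
    wy := fun e => B.wy ((eq_of_le_of_card_ge (zpowers_le.2 e) (by
      rw [Nat.card_zpowers, Nat.card_zpowers, B.o3 _ B.hy (ne1 B.yx), B.o3 _ B.hw (ne1 B.wx)])).ge (mem_zpowers _))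
    yw := fun e => B.yw (le_centralizer_iff.1 e) }

variable (B : CB G)

theorem elx : El (V B.x) := fun _ h => (mem B.toBs B.hx B.x1 h).2
theorem ely : El (V B.y) := fun _ h => (mem B.toBs B.hy (ne1 B.yx) h).2
theorem cx : Nat.card (V B.x) = 4 := B.loc.cV _ (B.o3 _ B.hx B.x1) B.Vx
theorem cy : Nat.card (V B.y) = 4 := B.loc.cV _ (B.o3 _ B.hy (ne1 B.yx)) B.Vy

theorem xy1 (h1 : a ∈ V B.x) (h2 : a ∈ V B.y) : a = 1 :=
  fpf B.toBs B.hx B.x1 B.hy B.yx (mem B.toBs B.hx B.x1 h1).1 (elx B a h1) (mem B.toBs B.hy (ne1 B.yx) h2).1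

theorem m2 : r ∈ B.E2 ↔ ∃ v ∈ V B.x, ∃ a ∈ V B.y, v * a = r := mem_sup_nl (B.xy.trans (cent_le_norm _))

theorem c2 : Nat.card B.E2 = 16 := by
  rw [CB.E2, card_sup_of_inf_eq_bot ((le_centralizer_iff.1 B.xy).trans (cent_le_norm _))
    (eq_bot_iff.2 fun a h => xy1 B h.1 h.2), cx, cy]

theorem el2 : El B.E2 := fun r hr => by
  obtain ⟨v, hv, a, ha, rfl⟩ := (m2 B).1 hr
  rw [(show Commute v a from B.xy ha v hv).symm.mul_mul_mul_comm, elx B v hv, ely B a ha, one_mul]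

theorem P2 : B.P ≤ 𝒩(B.E2) := le_norm_sup (B.PV _ B.hx) (B.PV _ B.hy)

/-- an element of `P` outside the two subgroups has no fixed points on `E2` -/
theorem fp2 (hs : s ∈ B.P) (h1 : s ∉ zpowers B.x) (h2 : s ∉ zpowers B.y) (hr : r ∈ B.E2) (e : r * s = s * r) : r = 1 := by
  obtain ⟨v, hv, a, ha, rfl⟩ := (m2 B).1 hr
  have e1 : v⁻¹ * (s * v * s⁻¹) = a * (s * a * s⁻¹)⁻¹ := by
    calc _ = v⁻¹ * (s * (v * a)) * (a⁻¹ * s⁻¹) := by group
      _ = _ := by rw [← e]; group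
  have e2 := xy1 B (mul_mem (inv_mem hv) (conj_mem (B.PV _ B.hx hs) hv))
    (e1 ▸ mul_mem ha (inv_mem (conj_mem (B.PV _ B.hy hs) ha)))
  rw [fpf B.toBs B.hx B.x1 hs h1 (mem B.toBs B.hx B.x1 hv).1 (elx B v hv) (eq_mul_inv_iff_mul_eq.1 (inv_mul_eq_one.1 e2)),
    fpf B.toBs B.hy (ne1 B.yx) hs h2 (mem B.toBs B.hy (ne1 B.yx) ha).1 (ely B a ha)
      (eq_mul_inv_iff_mul_eq.1 (mul_inv_eq_one.1 (e1 ▸ e2))), one_mul]

theorem w2 (h1 : b ∈ B.E2) (h2 : b ∈ V B.w) : b = 1 := fp2 B B.hw B.wx B.wy h1 (mem B.toBs B.hw (ne1 B.wx) h2).1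

theorem inf (h1 : r ∈ B.E2) (h2 : r ∈ B.E3) : r ∈ V B.x := by
  obtain ⟨v, hv, b, hb, rfl⟩ := (m2 (swap B)).1 h2
  rw [w2 B ((mul_mem_cancel_left (mem_sup_left hv)).1 h1) hb, mul_one]
  exact hv

theorem nc0 (ha : a ∈ V B.y) (hb : b ∈ V B.w) (a1 : a ≠ 1) (e : a * b = b * a) : b = 1 := by_contra fun b1 =>
  B.yw (le_centralizer_iff.1 (irr B.toBs B.hy (ne1 B.yx) B.hw B.wy (norm_le_norm_cent _ (B.PV _ B.hw B.hw)) ha
    (fun c hc => mem_C1.1 (irr B.toBs B.hw (ne1 B.wx) B.hy (swap B).wy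
      (le_normalizer (mem_C1.2 (mem B.toBs B.hy (ne1 B.yx) ha).1.symm)) hb (mem_C1.2 e.symm) b1 hc)) a1))

/-- the properties of `Q` -/
structure QH (x : G) (Q : Subgroup G) : Prop where
  pg : IsPGroup 2 Q
  le : Q ≤ 𝒞(V x)
  card : Nat.card Q = 64
  two : ∀ g ∈ 𝒞(V x), ∀ k : ℕ, g ^ 2 ^ k = 1 → g ∈ Q

variable (h : QH B.x Q)
include h

theorem yQ : V B.y ≤ Q := fun a ha => h.two a (B.xy ha) 1 ((pow_two a).trans (ely B a ha))
theorem Q2 : B.E2 ≤ Q :=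
  sup_le (fun a ha => h.two a (fun _ hb => (elx B).comm hb ha) 1 ((pow_two a).trans (elx B a ha))) (yQ B h)

theorem dec (hr : r ∈ Q) : ∃ e ∈ B.E2, ∃ b ∈ V B.w, e * b = r := by
  obtain ⟨⟨e, b⟩, k⟩ := (Function.Injective.bijective_of_nat_card_le
    (f := fun g : B.E2 × V B.w => (⟨g.1 * g.2, mul_mem (Q2 B h g.1.2) (yQ (swap B) h g.2.2)⟩ : Q))
    (fun g g' e => mul_injective_of_disjoint (disjoint_def.2 (w2 B)) (congrArg Subtype.val e))
    (by rw [h.card, Nat.card_prod, c2, show Nat.card (V B.w) = 4 from cy (swap B)])).2 ⟨r, hr⟩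
  exact ⟨e, e.2, b, b.2, congrArg Subtype.val k⟩

theorem RQ : B.R = Q := le_antisymm (sup_le (Q2 B h) (Q2 (swap B) h)) fun r hr => by
  obtain ⟨e, he, b, hb, rfl⟩ := dec B h hr
  exact mul_mem (mem_sup_left he) (mem_sup_right (mem_sup_right hb))

theorem n2 : V B.w ≤ 𝒩(B.E2) := by
  obtain ⟨r, hr, nr⟩ := SetLike.exists_of_lt (lt_inf_normalizer_of_isPGroup h.pg
    (lt_of_le_of_ne (Q2 B h) fun e => by have := c2 B; rw [e, h.card] at this; omega))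
  obtain ⟨e, he, b, hb, rfl⟩ := dec B h hr.1
  exact irr B.toBs B.hw (ne1 B.wx) B.hy (swap B).wy (le_normalizer (P2 B B.hy)) hb
    ((mul_mem_cancel_left (le_normalizer he)).1 hr.2) fun k => nr (by rwa [k, mul_one])

theorem cm2 (hr : r ∈ Q) (hs : s ∈ Q) : r * s * r⁻¹ * s⁻¹ ∈ B.E2 := by
  obtain ⟨e, he, b, hb, rfl⟩ := dec B h hr
  obtain ⟨f, hf, c, hc, rfl⟩ := dec B h hs
  have := mul_mem (mul_mem (mul_mem he (conj_mem (n2 B h hb) hf)) (conj_mem (n2 B h hc) (inv_mem he))) (inv_mem hf)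
  convert this using 1
  calc _ = e * b * f * (c * b⁻¹) * e⁻¹ * c⁻¹ * f⁻¹ := by group
    _ = _ := by rw [(ely (swap B)).comm hc (inv_mem hb)]; group

theorem sq2 (hr : r ∈ Q) : r * r ∈ B.E2 := by
  obtain ⟨e, he, b, hb, rfl⟩ := dec B h hr
  have := mul_mem he (conj_mem (n2 B h hb) he)
  rwa [inv_eq_of_mul_eq_one_right (ely (swap B) b hb), ← mul_assoc, ← mul_assoc, mul_assoc (e * b)] at this

theorem nc (ha : a ∈ B.E2) (na : a ∉ V B.x) (hb : b ∈ B.E3) (e : a * b = b * a) : b ∈ V B.x := by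
  have bQ := h.le (Q2 (swap B) h hb)
  obtain ⟨v, hv, a, ha', rfl⟩ := (m2 B).1 ha
  have e1 := (cr (bQ v hv).symm e.symm).symm
  obtain ⟨u, hu, b, hb', rfl⟩ := (m2 (swap B)).1 hb
  rw [nc0 B ha' hb' (fun k => na (by rwa [k, mul_one]))
    (cr (B.xy ha' u hu).symm e1), mul_one]
  exact hu

theorem cent (hr : r ∈ Q) (nr : r ∉ B.E2) : Nat.card (Q ⊓ C1 r : Subgroup G) = 16 := by
  have e1 : (C1 r).relIndex Q ≤ 4 := by
    rw [← CL.Fgs.ncard_conj_subgroup, ← cx B]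
    change _ ≤ (V B.x : Set G).ncard
    refine (Set.ncard_le_ncard ?_ (Set.toFinite _)).trans (Set.ncard_image_le (f := (· * r)) (Set.toFinite _))
    rintro _ ⟨g, hg, rfl⟩
    exact ⟨_, inf B (cm2 B h hg hr) (cm2 (swap B) h hg hr), inv_mul_cancel_right _ _⟩
  have e2 : C1 r ⊓ V B.y = ⊥ := eq_bot_iff.2 fun a ha => by_contra fun a1 => by
    obtain ⟨e, he, b, hb, rfl⟩ := dec B h hr
    exact nr (by rwa [nc0 B ha.2 hb a1 (cr ((el2 B).comm (mem_sup_right ha.2) he) (mem_C1.1 ha.1)), mul_one])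
  have e3 := card_inf_mul_relIndex (C1 r) (V B.y)
  have e4 := relIndex_le_of_le_right (H := C1 r) (yQ B h) index_ne_zero_of_finite
  have e5 := card_inf_mul_relIndex (C1 r) Q
  rw [e2, card_bot, cy, one_mul] at e3
  rw [le_antisymm e1 (e3 ▸ e4), h.card, inf_comm] at e5
  omega

theorem C2 : 𝒞(B.E2) = B.E2 := le_antisymm (fun g hg => by
  have gx : g ∈ 𝒞(V B.x) := cent_mono le_sup_left hg
  have n3 : ¬ 3 ∣ orderOf g := fun d => by
    have o := orderOf_pow_orderOf_div (orderOf_pos g).ne' d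
    have l : B.E2 ≤ V (g ^ (orderOf g / 3)) := fun a ha => (B.loc.mem _ o a).2 ⟨pow_mem hg _ a ha, el2 B a ha⟩
    have := card_le_of_le l
    rw [c2, B.loc.cV _ o fun e => B.Vx (eq_bot_iff.2 (le_sup_left.trans (e ▸ l)))] at this
    omega
  obtain ⟨e, he, b, hb, rfl⟩ := dec B h (h.two g gx 6 (orderOf_dvd_iff_pow_eq_one.1
    (((Nat.prime_three.coprime_iff_not_dvd.2 n3).symm).dvd_of_dvd_mul_left ((orderOf_dvd_natCard _ gx).trans B.c192.dvd))))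
  obtain ⟨a, ha, a1⟩ := (bot_or_exists_ne_one _).resolve_left B.Vy
  rwa [nc0 B ha hb a1 (cr ((el2 B).comm (mem_sup_right ha) he) (hg a (mem_sup_right ha))), mul_one]) fun a ha b hb => (el2 B).comm hb ha

end B1

open B1 in
theorem b1S (hG : GenS.{u}) (hC : CvS.{u}) : B1S.{u} := by
  intro G _ _ B
  obtain ⟨Q, q1, q2, q3, q4, q5, q6, -⟩ := hC G B.toBs B.x B.hx B.x1 B.Vx
  rw [B.c192] at q3 q6
  have h : QH B.x Q := ⟨q1, q2, by omega, q5⟩
  have e := RQ B h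
  have cent' : ∀ a ∈ Q, a ∉ V B.x → Nat.card (Q ⊓ C1 a : Subgroup G) = 16 := fun a ha na => by
    by_cases k : a ∈ B.E2
    exacts [cent (swap B) h ha fun k' => na (inf B k k'), cent B h ha k]
  refine ⟨e ▸ h.card, c2 B, c2 (swap B), el2 B, el2 (swap B), C2 B h, C2 (swap B) h,
    le_antisymm (fun r hr => inf B hr.1 hr.2) (le_inf le_sup_left le_sup_left), e ▸ q2,
    e ▸ fun a ha b hb => inf B (cm2 B h ha hb) (cm2 (swap B) h ha hb),
    e ▸ fun a ha => inf B (sq2 B h ha) (sq2 (swap B) h ha), e ▸ fun r hr => ?_, e ▸ cent', e ▸ fun r hr r2 => ?_,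
    fun a ha na b hb nb k => nb (nc B h ha na hb k), e ▸ q5, q6, e ▸ le_antisymm (fun n hn => ?_) q4, e ▸ fun r hr k => ?_⟩
  · obtain ⟨f, hf, b, hb, rfl⟩ := dec B h hr
    obtain ⟨v, hv, a, ha, rfl⟩ := (m2 B).1 hf
    exact ⟨v, hv, a, ha, b, hb, rfl⟩
  · obtain ⟨f, hf, b, hb, rfl⟩ := dec B h hr
    by_cases k : f ∈ V B.x
    · exact Or.inr (mul_mem (mem_sup_left k) (mem_sup_right hb))
    refine Or.inl (mul_mem hf (mem_sup_left (nc B h hf k (mem_sup_right hb) ?_)))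
    rw [← inv_eq_of_mul_eq_one_right r2, mul_inv_rev, inv_eq_of_mul_eq_one_right (el2 B f hf),
      inv_eq_of_mul_eq_one_right (ely (swap B) b hb)]
  · refine mem_normalizer_fintype fun v hv => by_contra fun k => ?_
    have := cent' _ (conj_mem hn (Q2 B h (mem_sup_left hv))) k
    rw [inf_eq_left.2 fun g hg => mem_C1.2 (by
      calc g * (n * v * n⁻¹) = n * (n⁻¹ * g * n * v) * n⁻¹ := by group
        _ = _ := by rw [← q2 (conj_mem' hn hg) v hv]; group), h.card] at this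
    omega
  · have t : ∀ (B : CB G), QH B.x Q → B.x * r * B.x⁻¹ * r⁻¹ ∈ V B.x → r ∈ B.E2 := fun B h k => by
      obtain ⟨f, hf, b, hb, rfl⟩ := dec B h hr
      have k1 : B.x * b * B.x⁻¹ * b⁻¹ ∈ B.E2 := by
        have := mul_mem (mul_mem (inv_mem (conj_mem (P2 B B.hx) hf)) (mem_sup_left k)) hf
        convert this using 1
        group
      have m := mem B.toBs B.hw (ne1 B.wx) hb
      rwa [fpf B.toBs B.hw (ne1 B.wx) B.hx (fun e => B.wx ((eq_of_le_of_card_ge (zpowers_le.2 e) (by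
        rw [Nat.card_zpowers, Nat.card_zpowers, B.o3 _ B.hx B.x1, B.o3 _ B.hw (ne1 B.wx)])).ge (mem_zpowers _))) m.1 m.2
        (mul_inv_eq_iff_eq_mul.1 (mul_inv_eq_one.1 (w2 B k1 (mul_mem (conj_mem (B.PV _ B.hw B.hx) hb) (inv_mem hb))))).symm,
        mul_one]
    exact inf B (t B h k) (t (swap B) h k)

end CL.T3
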