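/-
Project T3, case B: the group `T = R⟨i⟩` of order 128.
-/
import Cfsg.Agent.T3.Defs2

set_option autoImplicit false
set_option linter.unusedSectionVars false
open Cfsg Subgroup CL.Even CL.Grp

namespace CL.T3

universe u

namespace B2x

variable {G : Type u} [Group G] [Finite G]

theorem orb (H : Subgroup G) (t : G) :
    Nat.card (H ⊓ C1 t : Subgroup G) * {g | ∃ h ∈ H, h * t * h⁻¹ = g}.ncard = Nat.card H := by
  let _ : MulAction H G := MulAction.compHom G ((MulAut.conj (G := G)).comp H.subtype)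
  have e1 : MulAction.stabilizer H t = (C1 t).subgroupOf H := by
    ext h
    rw [MulAction.mem_stabilizer_iff, mem_subgroupOf, mem_C1]
    exact mul_inv_eq_iff_eq_mul
  have e2 : MulAction.orbit H t = {g | ∃ h ∈ H, h * t * h⁻¹ = g} := by
    ext g
    exact ⟨fun ⟨h, e⟩ => ⟨h, h.2, e⟩, fun ⟨h, hh, e⟩ => ⟨⟨h, hh⟩, e⟩⟩
  rw [← e2, ← MulAction.index_stabilizer, e1, inf_comm]
  exact card_inf_mul_relIndex _ _

theorem two_mem {K : Subgroup G} (h : Nat.card K = 2) {a : G} (ha : a ∈ K) (a1 : a ≠ 1) {k : G} (hk : k ∈ K) :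
    k = 1 ∨ k = a := by
  obtain ⟨c, -, hc⟩ := (Nat.card_eq_two_iff' (1 : K)).1 h
  by_cases k1 : k = 1
  · exact .inl k1
  · exact .inr (congrArg Subtype.val ((hc ⟨k, hk⟩ fun e => k1 (congrArg Subtype.val e)).trans
      (hc ⟨a, ha⟩ fun e => a1 (congrArg Subtype.val e)).symm))

theorem two_ex {K : Subgroup G} (h : Nat.card K = 2) : ∃ a ∈ K, a ≠ 1 := by
  by_contra! hc
  rw [(eq_bot_iff_forall _).2 hc, card_bot] at h
  omega

theorem ii (B : Bs G) : B.i * B.i = 1 := by rw [← pow_two, ← B.i2, pow_orderOf_eq_one]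

theorem mem_zi (B : Bs G) {k : G} (hk : k ∈ zpowers B.i) : k = 1 ∨ k = B.i :=
  two_mem (by rw [Nat.card_zpowers, B.i2]) (mem_zpowers _) (fun e => by
    have := B.i2; rw [e, orderOf_one] at this; omega) hk

theorem elV (B : Bs G) {x : G} (hx : x ∈ B.P) (x1 : x ≠ 1) : El (V x) :=
  fun a ha => ((B.loc.mem x (B.o3 x hx x1) a).1 ha).2

theorem ne1 {x y : G} (h : y ∉ zpowers x) : y ≠ 1 := fun e => h (e ▸ one_mem _)

theorem disj (B : Bs G) {x y v : G} (hx : x ∈ B.P) (x1 : x ≠ 1) (hy : y ∈ B.P) (yx : y ∉ zpowers x)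
    (h1 : v ∈ V x) (h2 : v ∈ V y) : v = 1 := by
  have hv : v ∈ B.P := by
    rw [← B.gen x hx x1 y hy yx, ← B.loc.cP x y (B.o3 x hx x1) (B.o3 y hy (ne1 yx)) (B.cm x hx y hy) yx]
    exact ⟨V_le_C1 x h1, V_le_C1 y h2⟩
  by_contra v1
  have : orderOf v ∣ 2 := orderOf_dvd_of_pow_eq_one (by rw [pow_two, elV B hx x1 v h1])
  rw [B.o3 v hv v1] at this
  omega

variable (B : CB G)

theorem x2 : V B.x ≤ B.E2 := le_sup_left
theorem x3 : V B.x ≤ B.E3 := le_sup_left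
theorem y2 : V B.y ≤ B.E2 := le_sup_right
theorem w3 : V B.w ≤ B.E3 := le_sup_right
theorem r2 : B.E2 ≤ B.R := le_sup_left
theorem r3 : B.E3 ≤ B.R := le_sup_right
theorem rT : B.R ≤ B.T := le_sup_left
theorem iT : B.i ∈ B.T := (le_sup_right : _ ≤ B.T) (mem_zpowers _)
theorem i2 : zpowers B.i ≤ 𝒩(B.E2) :=
  le_norm_sup (zpowers_le.2 (B.iV _ B.hx)) (zpowers_le.2 (B.iV _ B.hy))
theorem i3 : zpowers B.i ≤ 𝒩(B.E3) :=
  le_norm_sup (zpowers_le.2 (B.iV _ B.hx)) (zpowers_le.2 (B.iV _ B.hw))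
theorem iN : zpowers B.i ≤ 𝒩(B.R) := le_norm_sup (i2 B) (i3 B)
theorem TN : B.T ≤ 𝒩(B.R) := sup_le le_normalizer (iN B)

variable {B}

theorem nx {a : G} (ha : a ∈ V B.y) (a1 : a ≠ 1) : a ∉ V B.x :=
  fun c => a1 (disj B.toBs B.hx B.x1 B.hy B.yx c ha)
theorem nx' {b : G} (hb : b ∈ V B.w) (b1 : b ≠ 1) : b ∉ V B.x :=
  fun c => b1 (disj B.toBs B.hx B.x1 B.hw B.wx c hb)

theorem RN (h : B1F B) {E : Subgroup G} (h1 : V B.x ≤ E) (h2 : E ≤ B.R) : B.R ≤ 𝒩(E) :=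
  le_norm_of_cj_le fun r hr => by
    rintro _ ⟨e, he, rfl⟩
    have := mul_mem (h1 (h.cmR r hr e (h2 he))) he
    rwa [inv_mul_cancel_right] at this

theorem claim (h : B1F B) {r : G} (hr : r ∈ B.R) (hu : B.i * r * B.i⁻¹ * r⁻¹ ∈ V B.x) :
    ∃ a ∈ V B.y ⊓ C1 B.i, ∃ b ∈ V B.w ⊓ C1 B.i, r * (a * b)⁻¹ ∈ V B.x := by
  obtain ⟨v, hv, a, ha, b, hb, rfl⟩ := h.dec r hr
  have hv' := conj_mem (B.iV _ B.hx) hv
  have ha' := conj_mem (B.iV _ B.hy) ha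
  have hb' := conj_mem (B.iV _ B.hw) hb
  have hc := mul_mem (mul_mem (inv_mem hv') hu) hv
  generalize hcd : (B.i * v * B.i⁻¹)⁻¹ * (B.i * (v * a * b) * B.i⁻¹ * (v * a * b)⁻¹) * v = c at hc
  have e0 : c * a = a * c := h.RC (r2 B (y2 B ha)) c hc
  have e1 : a⁻¹ * (B.i * a * B.i⁻¹) = c * (b * (B.i * b * B.i⁻¹)⁻¹) := by
    calc a⁻¹ * (B.i * a * B.i⁻¹) = a⁻¹ * (c * a) * (b * (B.i * b * B.i⁻¹)⁻¹) := by rw [← hcd]; group
      _ = _ := by rw [e0]; group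
  have h1 : a⁻¹ * (B.i * a * B.i⁻¹) ∈ V B.y := mul_mem (inv_mem ha) ha'
  have h2 : a⁻¹ * (B.i * a * B.i⁻¹) ∈ V B.x :=
    h.inf.le ⟨y2 B h1, e1 ▸ mul_mem (x3 B hc) (w3 B (mul_mem hb (inv_mem hb')))⟩
  have e2 := disj B.toBs B.hx B.x1 B.hy B.yx h2 h1
  have e3 : b * (B.i * b * B.i⁻¹)⁻¹ = 1 := by
    refine disj B.toBs B.hx B.x1 B.hw B.wx ?_ (mul_mem hb (inv_mem hb'))
    rw [e2, eq_comm, mul_eq_one_iff_inv_eq] at e1
    exact e1 ▸ inv_mem hc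
  refine ⟨a, ⟨ha, mem_C1.2 ?_⟩, b, ⟨hb, mem_C1.2 ?_⟩, ?_⟩
  · rw [inv_mul_eq_one, eq_mul_inv_iff_mul_eq] at e2; exact e2
  · rw [mul_inv_eq_one, eq_mul_inv_iff_mul_eq] at e3; exact e3
  · rwa [mul_assoc v, mul_inv_cancel_right]

theorem le8 (h : B1F B) (S : Set G) (h0 : ∀ r ∈ S, r ∈ B.R) (h1 : ∀ r ∈ S, B.i * r * B.i⁻¹ * r⁻¹ ∈ V B.x)
    (h2 : ∀ r ∈ S, ∀ s ∈ S, s * r⁻¹ ∈ V B.x → s * r⁻¹ ∈ C1 B.i) : S.ncard ≤ 8 := by
  have cx := B.iC _ B.hx B.x1 B.Vx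
  have cy := B.iC _ B.hy (ne1 B.yx) B.Vy
  have cw := B.iC _ B.hw (ne1 B.wx) B.Vw
  obtain ⟨z, hz, z1⟩ := two_ex cx
  obtain ⟨a, ha, a1⟩ := two_ex cy
  obtain ⟨b, hb, b1⟩ := two_ex cw
  have k : ∀ c : G, {r | r ∈ S ∧ r * c⁻¹ ∈ V B.x}.ncard ≤ 2 := by
    intro c
    rcases Set.eq_empty_or_nonempty {r | r ∈ S ∧ r * c⁻¹ ∈ V B.x} with e | ⟨r, hr, hrc⟩
    · rw [e]; simp
    · refine (Set.ncard_le_ncard (t := {r, z * r}) ?_).trans ((Set.ncard_insert_le _ _).trans (by simp))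
      rintro s ⟨hs, hsc⟩
      have e : s * r⁻¹ ∈ V B.x := by
        have := mul_mem hsc (inv_mem hrc)
        rwa [show s * c⁻¹ * (r * c⁻¹)⁻¹ = s * r⁻¹ by group] at this
      rcases two_mem cx hz z1 ⟨e, h2 r hr s hs e⟩ with e | e
      · exact .inl (mul_inv_eq_one.1 e)
      · exact .inr (mul_inv_eq_iff_eq_mul.1 e)
  have hs : S ⊆ ({r | r ∈ S ∧ r * (1 * 1)⁻¹ ∈ V B.x} ∪ {r | r ∈ S ∧ r * (1 * b)⁻¹ ∈ V B.x}) ∪
      ({r | r ∈ S ∧ r * (a * 1)⁻¹ ∈ V B.x} ∪ {r | r ∈ S ∧ r * (a * b)⁻¹ ∈ V B.x}) := by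
    intro r hr
    obtain ⟨a', ha', b', hb', e⟩ := claim h (h0 r hr) (h1 r hr)
    rcases two_mem cy ha a1 ha' with rfl | rfl <;> rcases two_mem cw hb b1 hb' with rfl | rfl
    · exact .inl (.inl ⟨hr, e⟩)
    · exact .inl (.inr ⟨hr, e⟩)
    · exact .inr (.inl ⟨hr, e⟩)
    · exact .inr (.inr ⟨hr, e⟩)
  refine (Set.ncard_le_ncard hs).trans ((Set.ncard_union_le _ _).trans ?_)
  exact (add_le_add ((Set.ncard_union_le _ _).trans (add_le_add (k _) (k _)))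
    ((Set.ncard_union_le _ _).trans (add_le_add (k _) (k _)))).trans (by norm_num)

theorem iR (h : B1F B) : B.i ∉ B.R := fun c => by
  have hn : B.x ∈ 𝒩(B.R) :=
    le_norm_sup (le_norm_sup (B.PV _ B.hx) (B.PV _ B.hy)) (le_norm_sup (B.PV _ B.hx) (B.PV _ B.hw)) B.hx
  have h1 := mul_mem c (conj_mem hn (inv_mem c))
  have e : B.i * (B.x * B.i⁻¹ * B.x⁻¹) = B.x := by
    have h3 : B.x ^ 3 = 1 := by rw [← B.o3 _ B.hx B.x1, pow_orderOf_eq_one]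
    calc _ = (B.i * B.x * B.i⁻¹) * B.x⁻¹ := by group
      _ = (B.x ^ 3)⁻¹ * B.x := by rw [B.iinv _ B.hx]; group
      _ = _ := by rw [h3]; group
  rw [e] at h1
  have := B.R.orderOf_dvd_natCard h1
  rw [B.o3 _ B.hx B.x1, h.cR] at this
  omega

theorem memT {t : G} (ht : t ∈ B.T) : t ∈ B.R ∨ t * B.i ∈ B.R := by
  obtain ⟨r, hr, k, hk, rfl⟩ := (mem_sup_nl (iN B)).1 ht
  rcases mem_zi B.toBs hk with rfl | rfl
  · left; rwa [mul_one]
  · right; rwa [mul_assoc, ii, mul_one]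

theorem cT (h : B1F B) : Nat.card B.T = 128 := by
  unfold CB.T
  rw [sup_comm, card_sup_of_inf_eq_bot (iN B), Nat.card_zpowers, B.i2, h.cR]
  refine (eq_bot_iff_forall _).2 fun k hk => (mem_zi B.toBs hk.1).resolve_right fun e => iR h (e ▸ hk.2)

theorem both (h : B1F B) : Nat.card (B.R ⊓ C1 B.i : Subgroup G) = 8 ∧
    ∀ t ∈ B.T, t ∉ B.R → t * t = 1 → ∃ r ∈ B.R, r * B.i * r⁻¹ = t := by
  have hi := ii B.toBs
  have hi' : B.i⁻¹ = B.i := inv_eq_of_mul_eq_one_right hi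
  have c1 : Nat.card (B.R ⊓ C1 B.i : Subgroup G) ≤ 8 :=
    le8 h (B.R ⊓ C1 B.i : Subgroup G) (fun r hr => hr.1) (fun r hr => by
      rw [← mem_C1.1 hr.2, mul_inv_cancel_right, mul_inv_cancel]; exact one_mem _)
      (fun r hr s hs _ => mul_mem hs.2 (inv_mem (show r ∈ C1 B.i from hr.2)))
  let I : Set G := {r | r ∈ B.R ∧ B.i * r * B.i⁻¹ = r⁻¹}
  have c2 : I.ncard ≤ 8 := le8 h I (fun r hr => hr.1) (fun r hr => by
      rw [hr.2]; exact h.sqR _ (inv_mem hr.1)) (fun r hr s hs e => by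
      have e1 : s * r⁻¹ * r = r * (s * r⁻¹) := h.RC hr.1 _ e
      have e2 : (s * r⁻¹)⁻¹ = s * r⁻¹ := inv_eq_of_mul_eq_one_right (elV B.toBs B.hx B.x1 _ e)
      rw [mem_C1, eq_comm, ← mul_inv_eq_iff_eq_mul]
      calc B.i * (s * r⁻¹) * B.i⁻¹ = (B.i * s * B.i⁻¹) * (B.i * r * B.i⁻¹)⁻¹ := by group
        _ = r⁻¹ * (s * r⁻¹)⁻¹ * r := by rw [hr.2, hs.2]; group
        _ = r⁻¹ * (s * r⁻¹ * r) := by rw [e2]; group
        _ = _ := by rw [e1]; group)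
  let O : Set G := {g | ∃ r ∈ B.R, r * B.i * r⁻¹ = g}
  let J : Set G := (fun r => r * B.i) '' I
  have c3 : J.ncard ≤ 8 := (Set.ncard_image_le).trans c2
  have c4 : O ⊆ J := by
    rintro _ ⟨r, hr, rfl⟩
    refine ⟨r * (B.i * r⁻¹ * B.i⁻¹), ⟨mul_mem hr (conj_mem (iN B (mem_zpowers _)) (inv_mem hr)), ?_⟩, by group⟩
    calc _ = B.i * r * B.i * r⁻¹ * (B.i * B.i)⁻¹ := by group
      _ = B.i * r * B.i⁻¹ * r⁻¹ := by rw [hi, hi', inv_one, mul_one]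
      _ = _ := by group
  have c5 := orb B.R B.i
  rw [h.cR] at c5
  have c6 : O.ncard ≤ 8 := (Set.ncard_le_ncard c4).trans c3
  have c7 : Nat.card (B.R ⊓ C1 B.i : Subgroup G) = 8 ∧ O.ncard = 8 := by
    change _ * O.ncard = 64 at c5
    constructor <;> nlinarith
  refine ⟨c7.1, fun t ht tR tt => ?_⟩
  have c8 : O = J := Set.eq_of_subset_of_ncard_le c4 (c7.2 ▸ c3)
  have : t ∈ J := ⟨t * B.i, ⟨(memT ht).resolve_left tR, by
    rw [mul_inv_rev, hi', inv_eq_of_mul_eq_one_right tt, mul_assoc, mul_assoc, hi, mul_one]⟩, by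
    show t * B.i * B.i = t
    rw [mul_assoc, hi, mul_one]⟩
  rwa [← c8] at this

theorem two (h : B1F B) {a b : G} (ha : a ∈ V B.y ⊓ C1 B.i) (a1 : a ≠ 1) (hb : b ∈ V B.w ⊓ C1 B.i) (b1 : b ≠ 1)
    (F : Subgroup G) (hF : F ≤ B.T) (el : El F) (cF : Nat.card F = 16) : F = B.E2 ∨ F = B.E3 := by
  by_cases hR : F ≤ B.R
  · by_cases h2 : F ≤ B.E2
    · exact .inl (eq_of_le_of_card_ge h2 (by rw [cF, h.cE2]))
    · obtain ⟨f, hf, hn⟩ := SetLike.not_le_iff_exists.1 h2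
      have f3 := (h.invR f (hR hf) (el f hf)).resolve_left hn
      refine .inr (eq_of_le_of_card_ge (fun g hg => ?_) (by rw [cF, h.cE3]))
      by_contra g3
      exact h.nc g ((h.invR g (hR hg) (el g hg)).resolve_right g3) (fun c => g3 (x3 B c)) f f3
        (fun c => hn (x2 B c)) (el.comm hg hf)
  · exfalso
    obtain ⟨t, ht, hn⟩ := SetLike.not_le_iff_exists.1 hR
    obtain ⟨r, hr, rfl⟩ := (both h).2 t (hF ht) hn (el t ht)
    have c1 := card_sup_mul_card_inf (hF.trans (TN B))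
    have c2 : Nat.card (F ⊔ B.R : Subgroup G) ≤ 128 := cT h ▸ card_le_of_le (sup_le hF (rT B))
    rw [cF, h.cR] at c1
    have c3 : cj r⁻¹ (F ⊓ B.R) = B.R ⊓ C1 B.i := by
      refine eq_of_le_of_card_ge ?_ (by rw [card_cj, (both h).1]; nlinarith)
      intro g hg
      rw [mem_cj, inv_inv] at hg
      refine ⟨?_, mem_C1.2 ?_⟩
      · have := mul_mem (mul_mem (inv_mem hr) (show _ ∈ B.R from hg.2)) hr
        rwa [show r⁻¹ * (r * g * r⁻¹) * r = g by group] at this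
      · calc g * B.i = r⁻¹ * ((r * g * r⁻¹) * (r * B.i * r⁻¹)) * r := by group
          _ = _ := by rw [el.comm hg.1 ht]; group
    have ma : a ∈ cj r⁻¹ (F ⊓ B.R) := c3 ▸ ⟨r2 B (y2 B ha.1), ha.2⟩
    have mb : b ∈ cj r⁻¹ (F ⊓ B.R) := c3 ▸ ⟨r3 B (w3 B hb.1), hb.2⟩
    rw [mem_cj, inv_inv] at ma mb
    refine h.nc a (y2 B ha.1) (nx ha.1 a1) b (w3 B hb.1) (nx' hb.1 b1) ?_
    calc a * b = r⁻¹ * ((r * a * r⁻¹) * (r * b * r⁻¹)) * r := by group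
      _ = _ := by rw [el.comm ma.1 mb.1]; group

theorem el_cj {E : Subgroup G} (h : El E) (g : G) : El (cj g E) := by
  rintro _ ⟨e, he, rfl⟩
  rw [← map_mul, h e he, map_one]

end B2x

open B2x in
theorem b2S : B2S.{u} := by
  intro G _ _ B h
  obtain ⟨z, hz, z1⟩ := two_ex (B.iC _ B.hx B.x1 B.Vx)
  obtain ⟨a, ha, a1⟩ := two_ex (B.iC _ B.hy (ne1 B.yx) B.Vy)
  obtain ⟨b, hb, b1⟩ := two_ex (B.iC _ B.hw (ne1 B.wx) B.Vw)
  exact ⟨a, b, z, ha.1, a1, mem_C1.1 ha.2, hb.1, b1, mem_C1.1 hb.2, hz.1, z1, mem_C1.1 hz.2, iR h, cT h,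
    fun _ => memT, sup_le (RN h (x2 B) (r2 B)) (i2 B), sup_le (RN h (x3 B) (r3 B)) (i3 B), (both h).1, (both h).2,
    two h ha a1 hb b1⟩

open B2x in
theorem b3S (ho : OdS.{u}) (hr : RkS.{u}) : B3S.{u} := by
  intro G _ _ B a b z h k
  have := Fact.mk Nat.prime_two
  have hi := ii B.toBs
  have pT : IsPGroup 2 B.T := IsPGroup.of_card (n := 7) k.cT
  have T2 := (r2 B).trans (rT B)
  have T3 := (r3 B).trans (rT B)
  have b2 : b ∉ B.E2 := fun c => nx' k.hb k.b1 (h.inf.le ⟨c, w3 B k.hb⟩)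
  have t2 : ∀ g : G, cj g B.E2 ≤ B.T → cj g B.E2 = B.E2 ∨ cj g B.E2 = B.E3 := fun g hg =>
    k.two _ hg (el_cj h.el2 g) (by rw [card_cj, h.cE2])
  have t3 : ∀ g : G, cj g B.E3 ≤ B.T → cj g B.E3 = B.E3 ∨ cj g B.E3 = B.E2 := fun g hg =>
    (k.two _ hg (el_cj h.el3 g) (by rw [card_cj, h.cE3])).symm
  have TV : B.T ≤ 𝒩(V B.x) := h.NR ▸ TN B
  have s1 : Sy B.T 𝒩(V B.x) := ⟨TV, pT, by
    have := card_mul_relIndex TV
    rw [k.cT, h.cN] at this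
    omega⟩
  have NV : 𝒩(B.T) ≤ 𝒩(V B.x) := fun g hg => by
    have ne : cj g B.E2 ≠ cj g B.E3 := fun c => b2 (cj_inj.1 c ▸ w3 B k.hb)
    rw [← cj_eq_iff_mem, ← h.inf, cj_inf]
    rcases t2 g (cj_le_of_le T2 hg) with e | e <;> rcases t3 g (cj_le_of_le T3 hg) with e' | e'
    · rw [e, e']
    · exact absurd (e.trans e'.symm) ne
    · exact absurd (e.trans e'.symm) ne
    · rw [e, e', inf_comm]
  have sT : Sy B.T ⊤ := isSylowIn_of_maximal le_top pT fun U hU hTU _ => by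
    by_contra hne
    have hlt := lt_inf_normalizer_of_isPGroup hU (lt_of_le_of_ne hTU (Ne.symm hne))
    exact hlt.ne' (s1.eq_of_le (hU.to_inf_left) hlt.le (inf_le_right.trans NV))
  have w2 := ho G B.T B.E2 B.E3 sT T2 k.T2 k.T3 t2
  have w3' := ho G B.T B.E3 B.E2 sT T3 k.T3 k.T2 t3
  have cx := B.iC _ B.hx B.x1 B.Vx
  have zz : z * z = 1 := elV B.toBs B.hx B.x1 z k.hz
  have aE := y2 B k.ha
  refine ⟨sT, w2, w3', fun g hg => ?_, fun c hc => ?_, ?_, ?_, ?_, ?_⟩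
  · have e2 := w2 g ((cj_mono g (r2 B)).trans hg)
    have e3 := w3' g ((cj_mono g (r3 B)).trans hg)
    unfold CB.R
    rw [cj_sup, e2, e3]
  · obtain ⟨n, hn⟩ := pT ⟨c, hc.1⟩
    have cR : c ∈ B.R := h.RQ c (cent_mono ((x2 B).trans T2) hc.2) n (by simpa using congrArg Subtype.val hn)
    have cV : c ∈ V B.x := by
      by_contra hv
      have := h.cent c cR hv
      rw [inf_eq_left.2 (show B.R ≤ C1 c from fun r hr => mem_C1.2 (hc.2 r (rT B hr))), h.cR] at this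
      omega
    rcases two_mem cx ⟨k.hz, mem_C1.2 k.zi⟩ k.z1 ⟨cV, mem_C1.2 (hc.2 _ (iT B)).symm⟩ with e | e
    · rw [e]; exact one_mem _
    · rw [e]; exact mem_zpowers _
  · exact sup_le (fun r hr => mem_C1.2 (h.RC hr z k.hz).symm) (zpowers_le.2 (mem_C1.2 k.zi.symm))
  · have Ca : B.R ⊓ C1 a = B.E2 := (eq_of_le_of_card_ge (le_inf (r2 B) fun e he => mem_C1.2 (h.el2.comm he aE))
      (by rw [h.cent a (r2 B aE) (nx k.ha k.a1), h.cE2])).symm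
    have cK : Nat.card (B.E2 ⊓ C1 B.i : Subgroup G) = 4 := by
      have l1 : B.E2 ⊓ C1 B.i ≤ B.R ⊓ C1 B.i := inf_le_inf_right _ (r2 B)
      have l2 : V B.x ⊓ C1 B.i ≤ B.E2 ⊓ C1 B.i := inf_le_inf_right _ (x2 B)
      have d := card_dvd_of_le l1
      have n8 : Nat.card (B.E2 ⊓ C1 B.i : Subgroup G) ≠ 8 := fun c =>
        b2 ((eq_of_le_of_card_ge l1 (by rw [c, k.c8])).ge ⟨r3 B (w3 B k.hb), mem_C1.2 k.bi⟩).1
      have n2 : ¬ Nat.card (B.E2 ⊓ C1 B.i : Subgroup G) ≤ 2 := fun c =>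
        nx k.ha k.a1 ((eq_of_le_of_card_ge l2 (by rw [cx]; exact c)).ge ⟨aE, mem_C1.2 k.ai⟩).1
      rw [k.c8] at d
      have := Nat.le_of_dvd (by norm_num) d
      generalize Nat.card (B.E2 ⊓ C1 B.i : Subgroup G) = m at *
      interval_cases m <;> omega
    have nK : zpowers B.i ≤ 𝒩(B.E2 ⊓ C1 B.i) := (zpowers_le.2 (show B.i ∈ 𝒞(B.E2 ⊓ C1 B.i) from
      fun e he => mem_C1.1 he.2)).trans (cent_le_norm _)
    have l1 : B.E2 ⊓ C1 B.i ≤ (B.E2 ⊓ C1 B.i) ⊔ zpowers B.i := le_sup_left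
    have l2 : B.i ∈ (B.E2 ⊓ C1 B.i) ⊔ zpowers B.i := mem_sup_right (mem_zpowers _)
    refine hr G B.T ((B.E2 ⊓ C1 B.i) ⊔ zpowers B.i) sT (sup_le (inf_le_left.trans T2) (zpowers_le.2 (iT B)))
      (fun t ht => ?_) ?_ (fun c hc => ?_)
    · obtain ⟨e, he, j, hj, rfl⟩ := (mem_sup_nl nK).1 ht
      rcases mem_zi B.toBs hj with rfl | rfl
      · rw [mul_one]; exact h.el2 e he.1
      · calc e * B.i * (e * B.i) = e * (B.i * e) * B.i := by group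
          _ = (e * e) * (B.i * B.i) := by rw [← mem_C1.1 he.2]; group
          _ = 1 := by rw [h.el2 e he.1, hi, mul_one]
    · rw [sup_comm, card_sup_of_inf_eq_bot nK, Nat.card_zpowers, B.i2, cK]
      exact (eq_bot_iff_forall _).2 fun j hj =>
        (mem_zi B.toBs hj.1).resolve_right fun e => k.iR (r2 B (e ▸ hj.2.1))
    · have ca : c ∈ C1 a := mem_C1.2 (hc.2 a (l1 ⟨aE, mem_C1.2 k.ai⟩)).symm
      have ci : c ∈ C1 B.i := mem_C1.2 (hc.2 _ l2).symm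
      rcases k.memT c hc.1 with cR | cR
      · exact l1 ⟨Ca.le ⟨cR, ca⟩, ci⟩
      · have := mul_mem (l1 ⟨Ca.le ⟨cR, mul_mem ca (mem_C1.2 k.ai.symm)⟩, mul_mem ci (mem_C1.2 rfl)⟩) (inv_mem l2)
        rwa [mul_inv_cancel_right] at this
  · have e : (B.E2 : Set G).ncard = 16 := h.cE2
    rw [← e]
    refine Set.ncard_lt_ncard (t := {t | t ∈ B.T ∧ t * t ∈ zpowers z}) ⟨fun t ht => ⟨T2 ht, ?_⟩, fun c => b2 (c ⟨?_, ?_⟩)⟩
    · rw [h.el2 t ht]; exact one_mem _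
    · exact T3 (w3 B k.hb)
    · rw [h.el3 b (w3 B k.hb)]; exact one_mem _
  · have c1 := orb 𝒩(V B.x) z
    have c2 : {g | ∃ n ∈ 𝒩(V B.x), n * z * n⁻¹ = g}.ncard ≤ 3 := by
      have e : ((V B.x : Set G) \ {1}).ncard = 3 := by
        have : (V B.x : Set G).ncard = 4 := B.loc.cV _ (B.o3 _ B.hx B.x1) B.Vx
        rw [Set.ncard_sdiff_singleton_of_mem (show (1 : G) ∈ (V B.x : Set G) from one_mem _), this]
      rw [← e]
      refine Set.ncard_le_ncard ?_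
      rintro _ ⟨n, hn, rfl⟩
      exact ⟨conj_mem hn k.hz, fun c => k.z1 (by
        rw [Set.mem_singleton_iff, mul_inv_eq_one, mul_eq_left] at c; exact c)⟩
    have c3 : ¬ 9 ∣ Nat.card (𝒩(V B.x) ⊓ C1 z : Subgroup G) := fun c =>
      B.loc.inv9 z (orderOf_eq_prime (by rw [pow_two, zz]) k.z1) (c.trans (card_dvd_of_le inf_le_right))
    rw [h.cN] at c1
    rw [inf_comm]
    generalize {g | ∃ n ∈ 𝒩(V B.x), n * z * n⁻¹ = g}.ncard = m at *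
    interval_cases m <;> omega

end CL.T3
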