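/-
Project T3: case B, the radical does not meet `T` in `⟨z⟩`.
-/
import Cfsg.Agent.T3.Defs2
import Cfsg.Agent.Grp.Cores

set_option autoImplicit false
set_option linter.unusedSectionVars false
open Cfsg Subgroup CL.Even CL.Grp

namespace CL.T3

universe u

namespace Bc1

attribute [local instance] Rd.gK Rd.fK

variable {G : Type u} [Group G] [Finite G]

theorem mem_two {z y : G} (hz : z * z = 1) (hy : y ∈ zpowers z) : y = 1 ∨ y = z := by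
  obtain ⟨k, rfl⟩ := hy
  have : ∀ j : ℤ, z ^ (2 * j) = 1 := fun j => by rw [zpow_mul, zpow_two, hz, one_zpow]
  rcases Int.even_or_odd' k with ⟨j, rfl | rfl⟩
  · exact .inl (this j)
  · exact .inr (by dsimp only; rw [zpow_add_one, this, one_mul])

structure Cx (B : CB G) (a b z : G) (D : Rd (C1 z) B.T z) (v : G) : Prop where
  b1 : B1F B
  b2 : B2F B a b z
  b3 : B3F B z
  b4 : B4F B z D
  hU : B.T ⊓ D.L ≤ zpowers z
  hv : v ∈ V B.x
  vz : v ∉ zpowers z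

namespace Cx

variable {B : CB G} {a b z : G} {D : Rd (C1 z) B.T z} {v : G} (h : Cx B a b z D v)
include h

theorem x3 : orderOf B.x = 3 := B.o3 _ B.hx B.x1
theorem sqV {w : G} (hw : w ∈ V B.x) : w * w = 1 := ((B.loc.mem _ h.x3 w).1 hw).2
theorem zz : z * z = 1 := h.sqV h.b2.hz
theorem oz : orderOf z = 2 := orderOf_eq_prime (by rw [pow_two, h.zz]) h.b2.z1
theorem VR : V B.x ≤ B.R := le_sup_left.trans (le_sup_left (a := B.E2))
theorem RT : B.R ≤ B.T := le_sup_left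
theorem RN : B.R ≤ D.N := h.b4.2.2.1
theorem xC : B.x ∈ 𝒞(V B.x) := fun _ hw => mem_C1.1 (V_le_C1 _ hw)
theorem xz : B.x ∈ C1 z := mem_C1.2 (h.xC z h.b2.hz).symm
theorem xN : B.x ∈ D.N := D.N3 _ h.xz h.x3
theorem zV : zpowers z ≤ V B.x := zpowers_le.2 h.b2.hz
theorem zL : zpowers z ≤ D.L := zpowers_le.2 D.zL
theorem TL : B.T ⊓ D.L = zpowers z := le_antisymm h.hU (le_inf (h.zV.trans (h.VR.trans h.RT)) h.zL)
theorem pR : IsPGroup 2 B.R := IsPGroup.of_card (n := 6) h.b1.cR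

theorem four {w : G} (hw : w ∈ V B.x) (hz : w ∉ zpowers z) : w * v⁻¹ ∈ zpowers z := by
  have k := card_mul_relIndex h.zV
  rw [B.loc.cV _ h.x3 B.Vx, Nat.card_zpowers, h.oz] at k
  exact (mul_mem_iff_of_index_two (H := (zpowers z).subgroupOf (V B.x)) (by rw [← relIndex]; omega)
    (a := ⟨w, hw⟩) (b := ⟨v⁻¹, inv_mem h.hv⟩)).2 (iff_of_false hz fun m => h.vz (inv_mem_iff.1 m))

theorem key {n : G} (hn : n ∈ 𝒩(V B.x)) {k j : ℕ} (h1 : n ^ 2 ^ k = 1) (h2 : (B.x * n * B.x⁻¹ * n⁻¹) ^ 2 ^ j = 1) :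
    n ∈ B.R := by
  have : Fact (Nat.Prime 3) := ⟨Nat.prime_three⟩
  have m : B.x * n * B.x⁻¹ * n⁻¹ ∈ B.R := h.b1.RQ _ (by
    have := mul_mem h.xC (conj_mem (norm_le_norm_cent _ hn) (inv_mem h.xC))
    simpa only [mul_assoc] using this) j h2
  have xR : B.x ∈ 𝒩(B.R) := h.b1.NR ▸ cent_le_norm _ h.xC
  have nR : n ∈ 𝒩(B.R) := h.b1.NR ▸ hn
  have p3 : IsPGroup 3 (zpowers B.x) := IsPGroup.of_card (n := 1) (by rw [Nat.card_zpowers, h.x3, pow_one])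
  have sy : IsSylowIn 3 (zpowers B.x) (zpowers B.x ⊔ B.R) := ⟨le_sup_left, p3, fun k3 => B.loc.inv9 z h.oz (by
    refine Dvd.dvd.trans ?_ (card_dvd_of_le (sup_le (zpowers_le.2 h.xz) (h.RT.trans h.b3.Tz)))
    rw [← card_mul_relIndex (le_sup_left (b := B.R)), Nat.card_zpowers, h.x3]
    exact Nat.mul_dvd_mul_left 3 k3)⟩
  obtain ⟨y, hy, k1⟩ := sy.frattini (H := zpowers n) (zpowers_le.2 (mem_norm_of_cj_le (by
    rw [cj_sup, cj_eq nR, MonoidHom.map_zpowers]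
    refine sup_le (zpowers_le.2 ?_) le_sup_right
    have := mul_mem (inv_mem (mem_sup_right (S := zpowers B.x) m)) (mem_sup_left (mem_zpowers B.x))
    simpa [mul_assoc] using this))) (mem_zpowers n)
  obtain ⟨p, hp, r, hr, rfl⟩ := (mem_sup_nr (zpowers_le.2 xR)).1 hy
  rw [mul_assoc, mul_mem_cancel_left (le_normalizer hp)] at k1
  have k2 : B.x * (r * n * B.x⁻¹ * (r * n)⁻¹) = 1 := by
    refine mem_bot.1 ((IsPGroup.disjoint_of_ne 3 2 (by norm_num) _ _ p3 h.pR).le_bot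
      ⟨mul_mem (mem_zpowers _) (conj_mem k1 (inv_mem (mem_zpowers _))), ?_⟩)
    have := mul_mem (mul_mem (conj_mem xR hr) m) (inv_mem hr)
    simpa [mul_assoc] using this
  obtain ⟨i, hi⟩ := isPGroup_iff_forall.1 (isPGroup_sup (isPGroup_zpowers h1) h.pR (zpowers_le.2 nR)) (r * n)
    (mul_mem (mem_sup_right hr) (mem_sup_left (mem_zpowers n)))
  refine (mul_mem_cancel_left hr).1 (h.VR (B.loc.two _ h.x3 _ i ?_ hi))
  calc r * n * B.x = B.x * (r * n * B.x⁻¹ * (r * n)⁻¹) * (r * n * B.x) := by rw [k2, one_mul]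
    _ = _ := by group

/-- the image of `v` -/
def s : D.K := D.φ ⟨v, h.RN (h.VR h.hv)⟩

/-- the image of `R` -/
def Q (_ : Cx B a b z D v) : Subgroup D.K := (B.R.subgroupOf D.N).map D.φ

theorem eq_iff {m n : D.N} : D.φ m = D.φ n ↔ (m : G) * (n : G)⁻¹ ∈ D.L := by
  rw [← mul_inv_eq_one, ← map_inv, ← map_mul, D.ker]; rfl

theorem vL : v ∉ D.L := fun m => h.vz (h.hU ⟨h.RT (h.VR h.hv), m⟩)

theorem os : orderOf h.s = 2 := orderOf_eq_prime (by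
  rw [pow_two, s, ← map_mul, D.ker]
  change v * v ∈ D.L
  rw [h.sqV h.hv]
  exact one_mem _) fun e => h.vL ((D.ker _).1 e)

theorem imV {w : D.N} (hw : (w : G) ∈ V B.x) : D.φ w ∈ zpowers h.s := by
  by_cases k : (w : G) ∈ zpowers z
  · rw [(D.ker w).2 (h.zL k)]
    exact one_mem _
  · rw [show D.φ w = h.s from h.eq_iff.2 (h.zL (h.four hw k))]
    exact mem_zpowers _

theorem cs1 {n : D.N} (hn : (n : G) ∈ 𝒩(V B.x)) : D.φ n ∈ C1 h.s := by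
  rw [mem_C1, ← mul_inv_eq_iff_eq_mul, s, ← map_inv, ← map_mul, ← map_mul, h.eq_iff]
  refine h.zL (h.four (conj_mem hn h.hv) fun m => h.vz ?_)
  have := conj_mem' (cent_le_norm _ (show (n : G) ∈ 𝒞(zpowers z) by
    rintro _ ⟨k, rfl⟩
    exact (Commute.zpow_left (mem_C1.1 (D.NH n.2)).symm k).eq)) m
  simpa [mul_assoc] using this

theorem cs2 {κ : D.K} (hκ : κ ∈ C1 h.s) : ∃ n : D.N, (n : G) ∈ 𝒩(V B.x) ∧ D.φ n = κ := by
  obtain ⟨k, rfl⟩ := D.sur κ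
  rw [mem_C1, ← mul_inv_eq_iff_eq_mul, s, ← map_inv, ← map_mul, ← map_mul, h.eq_iff] at hκ
  have vN : zpowers v ≤ 𝒩(D.L) := zpowers_le.2 (D.nL (h.b3.Tz (h.RT (h.VR h.hv))))
  have sy : IsSylowIn 2 (V B.x) (zpowers v ⊔ D.L) := by
    refine isSylowIn_of_maximal (fun w hw => ?_) (h.pR.to_le h.VR) fun U hU h1 h2 => le_antisymm (fun u hu => ?_) h1
    · by_cases k : w ∈ zpowers z
      · exact mem_sup_right (h.zL k)
      · simpa using mul_mem (mem_sup_right (S := zpowers v) (h.zL (h.four hw k))) (mem_sup_left (mem_zpowers v))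
    · obtain ⟨p, hp, l, hl, rfl⟩ := (mem_sup_nr vN).1 (h2 hu)
      have hp' := zpowers_le.2 h.hv hp
      have k := D.sL.eq_of_le (U := U ⊓ D.L) (hU.to_le inf_le_left)
        (le_inf (h.hU.trans (h.zV.trans h1)) inf_le_right) inf_le_right
      exact mul_mem hp' (h.zV (h.hU (k.le ⟨(mul_mem_cancel_left (h1 hp')).1 hu, hl⟩)))
  obtain ⟨y, hy, k1⟩ := sy.frattini (H := zpowers (k : G)) (zpowers_le.2 (mem_norm_of_cj_le (by
    rw [cj_sup, cj_eq (D.nL (D.NH k.2)), MonoidHom.map_zpowers]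
    refine sup_le (zpowers_le.2 ?_) le_sup_right
    simpa using mul_mem (mem_sup_right (S := zpowers v) hκ) (mem_sup_left (mem_zpowers v))))) (mem_zpowers _)
  obtain ⟨p, hp, l, hl, rfl⟩ := (mem_sup_nr vN).1 hy
  rw [mul_assoc, mul_mem_cancel_left (le_normalizer (zpowers_le.2 h.hv hp))] at k1
  exact ⟨⟨l, D.LN hl⟩ * k, k1, h.eq_iff.2 (by simpa using hl)⟩

theorem cQ : Nat.card h.Q = 32 := by
  have k := card_eq_card_inf_ker_mul_card_map D.φ (B.R.subgroupOf D.N)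
  have e : D.φ.ker ⊓ B.R.subgroupOf D.N = (zpowers z).subgroupOf D.N := by
    ext n
    exact ⟨fun m => h.hU ⟨h.RT m.2, (D.ker n).1 m.1⟩, fun m => ⟨(D.ker n).2 (h.zL m), h.VR (h.zV m)⟩⟩
  rw [e, Nat.card_congr (subgroupOfEquivOfLe h.RN).toEquiv,
    Nat.card_congr (subgroupOfEquivOfLe (h.zL.trans D.LN)).toEquiv, h.b1.cR, Nat.card_zpowers, h.oz] at k
  rw [Q]
  omega

theorem nQ : C1 h.s ≤ 𝒩(h.Q) := fun κ hκ => by
  obtain ⟨n, hn, rfl⟩ := h.cs2 hκ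
  refine mem_norm_of_cj_le ?_
  rintro _ ⟨_, ⟨r, hr, rfl⟩, rfl⟩
  exact ⟨n * r * n⁻¹, conj_mem (H := B.R) (g := n) (x := r) (h.b1.NR ▸ hn) hr, by simp⟩

/-- an element of `N(R)` which centralises `Q` acts trivially modulo `z` -/
theorem act {n : D.N} (hn : (n : G) ∈ 𝒩(B.R)) (hc : ∀ b ∈ h.Q, D.φ n * b = b * D.φ n) {r : G} (hr : r ∈ B.R) :
    n * r * (n : G)⁻¹ = r ∨ n * r * (n : G)⁻¹ = z * r := by
  have k := hc _ ⟨⟨r, h.RN hr⟩, hr, rfl⟩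
  rw [← mul_inv_eq_iff_eq_mul, ← map_inv, ← map_mul, ← map_mul, h.eq_iff] at k
  exact (mem_two h.zz (h.hU ⟨h.RT (mul_mem (conj_mem hn hr) (inv_mem hr)), k⟩)).imp mul_inv_eq_one.1
    mul_inv_eq_iff_eq_mul.1

theorem zR {r : G} (hr : r ∈ B.R) : r * z = z * r := mem_C1.1 (h.b3.Tz (h.RT hr))

theorem cen {n : D.N} (hn : (n : G) ∈ B.R) (hc : ∀ b ∈ h.Q, D.φ n * b = b * D.φ n) : (n : G) ∈ V B.x := by
  by_contra hV
  have k := card_inf_mul_relIndex (C1 (n : G)) B.R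
  rw [inf_comm, h.b1.cent _ hn hV, h.b1.cR] at k
  have k1 : ∀ r ∈ B.R, r ∉ C1 (n : G) → n * r * (n : G)⁻¹ = z * r := fun r hr m =>
    (h.act (le_normalizer hn) hc hr).resolve_left fun e => m (mem_C1.2 (mul_inv_eq_iff_eq_mul.1 e).symm)
  have k2 : (C1 (n : G)).relIndex B.R ∣ 2 := relIndex_dvd_two_iff.2 (by
    by_cases e : B.R ≤ C1 (n : G)
    · exact ⟨1, one_mem _, fun r hr => .inr (e hr)⟩
    obtain ⟨p, hp, hp'⟩ := SetLike.not_le_iff_exists.1 e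
    refine ⟨p, hp, fun r hr => or_iff_not_imp_right.2 fun m => mem_C1.2 (mul_inv_eq_iff_eq_mul.1 ?_).symm⟩
    rw [← conj_mul, k1 r hr m, k1 p hp hp', mul_assoc, ← mul_assoc r, h.zR hr, ← mul_assoc, ← mul_assoc, h.zz,
      one_mul])
  have := Nat.le_of_dvd two_pos k2
  omega

theorem two {n : D.N} (hn : (n : G) ∈ 𝒩(V B.x)) {k : ℕ} (e : D.φ n ^ 2 ^ k = 1) : (n : G) ^ 2 ^ (k + 7) = 1 := by
  rw [← map_pow, D.ker, coe_pow] at e
  have k1 := orderOf_dvd_natCard _ (pow_mem (show (n : G) ∈ C1 z ⊓ 𝒩(V B.x) from ⟨D.NH n.2, hn⟩) (2 ^ k))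
  rw [h.b3.cS, show 384 = 3 * 2 ^ 7 by norm_num] at k1
  have k2 : (orderOf ((n : G) ^ 2 ^ k)).Coprime 3 := ((Nat.Prime.coprime_iff_not_dvd Nat.prime_three).2
    fun m => D.L3 (m.trans (orderOf_dvd_natCard _ e))).symm
  rw [pow_add, pow_mul]
  exact orderOf_dvd_iff_pow_eq_one.1 (k2.dvd_of_dvd_mul_left k1)

theorem nine (U : Subgroup D.K) (hU : IsPGroup 2 U) (h1 : U ≤ C1 h.s) (h2 : C1 h.s ≤ 𝒩(U)) : U ≤ h.Q :=
  fun κ hκ => by
  obtain ⟨n, hn, rfl⟩ := h.cs2 (h1 hκ)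
  have xV := cent_le_norm _ h.xC
  obtain ⟨k, hk⟩ := isPGroup_iff_forall.1 hU _ hκ
  obtain ⟨j, hj⟩ := isPGroup_iff_forall.1 hU _
    (mul_mem (conj_mem (h2 (h.cs1 (n := ⟨B.x, h.xN⟩) xV)) hκ) (inv_mem hκ))
  rw [← map_inv, ← map_inv, ← map_mul, ← map_mul, ← map_mul] at hj
  exact ⟨n, h.key hn (h.two hn hk)
    (h.two (mul_mem (mul_mem (mul_mem xV hn) (inv_mem xV)) (inv_mem hn)) hj), rfl⟩

theorem eight : C1 h.s ⊓ 𝒞(h.Q) ≤ h.Q := by
  refine h.nine _ (isPGroup_iff_forall.2 fun κ hκ => ⟨2, ?_⟩) inf_le_left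
    (le_norm_inf le_normalizer (le_norm_cent h.nQ))
  obtain ⟨n, hn, rfl⟩ := h.cs2 hκ.1
  have nz : (n : G) * z * (n : G)⁻¹ = z := mul_inv_eq_iff_eq_mul.2 (mem_C1.1 (D.NH n.2))
  have k : (n : G) * n ∈ B.E2 := h.b1.C2 ▸ cent_mono (le_sup_left (b := B.E3)) fun r hr => by
    rw [eq_comm, ← mul_inv_eq_iff_eq_mul, show (n : G) * n * r * ((n : G) * n)⁻¹ =
      n * (n * r * (n : G)⁻¹) * (n : G)⁻¹ by group]
    rcases h.act (h.b1.NR ▸ hn) (fun b hb => (hκ.2 b hb).symm) hr with e | e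
    · rw [e, e]
    · rw [e, ← conj_mul, nz, e, ← mul_assoc, h.zz, one_mul]
  rw [← map_pow, show n ^ 2 ^ 2 = 1 from Subtype.ext (by
    rw [coe_pow, show 2 ^ 2 = 2 + 2 from rfl, pow_add, pow_two]; exact h.b1.el2 _ k), map_one]

end Cx

end Bc1

theorem bc1S (hX : X32S.{u}) : Bc1S.{u} := by
  intro G _ _ B a b z D b1 b2 b3 b4 hU
  have x3 := B.o3 _ B.hx B.x1
  obtain ⟨v, hv, vz⟩ : ∃ v ∈ V B.x, v ∉ zpowers z := SetLike.not_le_iff_exists.1 fun e => by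
    have k := card_le_of_le e
    rw [B.loc.cV _ x3 B.Vx, Nat.card_zpowers, orderOf_eq_prime (p := 2)
      (by rw [pow_two]; exact ((B.loc.mem _ x3 z).1 b2.hz).2) b2.z1] at k
    omega
  have h : Bc1.Cx B a b z D v := ⟨b1, b2, b3, b4, hU, hv, vz⟩
  let _ := D.gK
  have := D.fK
  refine D.K9 (hX D.K D.simp D.nab h.s h.Q h.os ⟨_, h.VR hv, rfl⟩ h.cQ ?_ h.nQ ?_ ?_ h.eight h.nine)
  · rintro _ ⟨r, hr, rfl⟩
    exact h.cs1 (cent_le_norm _ (b1.RC hr))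
  · rintro _ ⟨r, hr, rfl⟩
    rw [← map_mul]
    exact h.imV (b1.sqR _ hr)
  · rintro _ ⟨r, hr, rfl⟩ hc
    exact h.imV (h.cen hr hc)

end CL.T3
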