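/-
Project T3: case B, non-solvable 2-locals and the radical of the involution centraliser.
-/
import Cfsg.Agent.T3.Defs2
import Cfsg.Agent.T3.Gen
import Cfsg.Agent.Char.Burnside

set_option autoImplicit false
set_option linter.unusedSectionVars false
open Cfsg Subgroup CL.Even CL.Grp

namespace CL.T3

universe u

namespace Bnx

instance : Fact (Nat.Prime 2) := ⟨Nat.prime_two⟩

variable {G : Type u} [Group G] [Finite G]

theorem cnt {R W : Subgroup G} {u : G} (h : ∀ r ∈ R, r * u * r⁻¹ * u⁻¹ ∈ W) :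
    Nat.card R ≤ Nat.card W * Nat.card (R ⊓ C1 u : Subgroup G) := by
  have : (C1 u).relIndex R ≤ Nat.card W := by
    refine Nat.card_le_card_of_injective (fun q : R ⧸ (C1 u).subgroupOf R => (⟨_, h _ q.out.2⟩ : W)) fun p q e => ?_
    rw [← p.out_eq', ← q.out_eq', QuotientGroup.eq, mem_subgroupOf, mem_C1, coe_mul, coe_inv]
    have e' := mul_right_cancel (congrArg Subtype.val e)
    calc _ = (p.out : G)⁻¹ * (q.out * u * (q.out : G)⁻¹) * q.out := by group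
      _ = _ := by rw [← e']; group
  rw [← card_inf_mul_relIndex (C1 u) R, inf_comm, mul_comm]
  exact Nat.mul_le_mul_right _ this

theorem ne1 {x y : G} (h : y ∉ zpowers x) : y ≠ 1 := fun e => h (e ▸ one_mem _)

section
variable (B : Bs G) {x y : G}

theorem el (hx : x ∈ B.P) (x1 : x ≠ 1) : El (V x) := fun a ha => ((B.loc.mem x (B.o3 x hx x1) a).1 ha).2

theorem sym (hx : x ∈ B.P) (x1 : x ≠ 1) (hy : y ∈ B.P) (yx : y ∉ zpowers x) : x ∉ zpowers y := fun k =>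
  yx ((eq_of_le_of_card_ge (zpowers_le.2 k) (by
    rw [Nat.card_zpowers, Nat.card_zpowers, B.o3 x hx x1, B.o3 y hy (ne1 yx)])).ge (mem_zpowers y))

theorem disj (hx : x ∈ B.P) (x1 : x ≠ 1) (hy : y ∈ B.P) (yx : y ∉ zpowers x) {v : G} (h1 : v ∈ V x) (h2 : v ∈ V y) :
    v = 1 :=
  Genx.nofix B.loc (B.o3 x hx x1) (B.o3 y hy (ne1 yx)) (B.cm x hx y hy) yx h1 (mem_C1.1 (V_le_C1 y h2))

theorem V_le (hx : x ∈ B.P) (x1 : x ≠ 1) (hy : y ∈ B.P) (yx : y ∉ zpowers x) {N : Subgroup G} (yN : y ∈ N)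
    (n : V x ≤ 𝒩(N)) : V x ≤ N := fun v hv => by
  have m1 := conj_mem (B.PV x hx hy) hv
  have m2 := conj_mem (B.PV x hx hy) m1
  have m := mul_mem (mul_mem hv m1) m2
  have y3 : y ^ 3 = 1 := by rw [← B.o3 y hy (ne1 yx), pow_orderOf_eq_one]
  have e := Genx.nofix B.loc (B.o3 x hx x1) (B.o3 y hy (ne1 yx)) (B.cm x hx y hy) yx m
    (mul_inv_eq_iff_eq_mul.1 (by
      calc _ = y * v * y⁻¹ * (y * (y * v * y⁻¹) * y⁻¹) * (y ^ 3 * v * (y ^ 3)⁻¹) := by group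
        _ = _ := by rw [y3, one_mul, inv_one, mul_one, ← (el B hx x1).comm hv (mul_mem m1 m2), ← mul_assoc])).symm
  have : v = (v * y * v⁻¹ * y)⁻¹ * (y * y) := by
    rw [inv_eq_of_mul_eq_one_right (el B hx x1 v hv)]
    calc v = (v * y * v * y)⁻¹ * (v * (y * v * y⁻¹) * (y * (y * v * y⁻¹) * y⁻¹)) * (y * y) := by group
      _ = _ := by rw [e, mul_one]
  rw [this]
  exact mul_mem (inv_mem (mul_mem (conj_mem (n hv) yN) yN)) (mul_mem yN yN)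

end

variable {B : CB G} {a b z : G}

theorem x2 : V B.x ≤ B.E2 := le_sup_left
theorem x3 : V B.x ≤ B.E3 := le_sup_left
theorem y2 : V B.y ≤ B.E2 := le_sup_right
theorem w3 : V B.w ≤ B.E3 := le_sup_right
theorem r2 : B.E2 ≤ B.R := le_sup_left
theorem r3 : B.E3 ≤ B.R := le_sup_right
theorem rT : B.R ≤ B.T := le_sup_left
theorem iT : B.i ∈ B.T := mem_sup_right (mem_zpowers _)
theorem R_le {K : Subgroup G} (hx : V B.x ≤ K) (hy : V B.y ≤ K) (hw : V B.w ≤ K) : B.R ≤ K :=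
  sup_le (sup_le hx hy) (sup_le hx hw)
theorem p2 : B.P ≤ 𝒩(B.E2) := le_norm_sup (B.PV _ B.hx) (B.PV _ B.hy)
theorem p3 : B.P ≤ 𝒩(B.E3) := le_norm_sup (B.PV _ B.hx) (B.PV _ B.hw)
theorem yx {v : G} (h : v ∈ V B.y) (v1 : v ≠ 1) : v ∉ V B.x := fun k => v1 (disj B.toBs B.hx B.x1 B.hy B.yx k h)
theorem wx {v : G} (h : v ∈ V B.w) (v1 : v ≠ 1) : v ∉ V B.x := fun k => v1 (disj B.toBs B.hx B.x1 B.hw B.wx k h)
theorem cx : Nat.card (V B.x) = 4 := B.loc.cV _ (B.o3 _ B.hx B.x1) B.Vx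

theorem nle (hG : GenS.{u}) (hL : L3S.{u}) (h1 : B1F B) {E : Subgroup G} (hP : B.P ≤ 𝒩(E)) (hR : B.R ≤ 𝒩(E))
    (hs : Group.IsSolvable 𝒩(E)) : 𝒩(E) ≤ 𝒩(B.R) := by
  obtain ⟨O, -, n, o2, hV, -⟩ := hL G B.toBs _ hP (.inl hs)
  have le : B.R ≤ O := R_le (hV _ B.hx B.x1 ((x2.trans r2).trans hR)) (hV _ B.hy (ne1 B.yx) ((y2.trans r2).trans hR))
    (hV _ B.hw (ne1 B.wx) ((w3.trans r3).trans hR))
  have ne := inf_cent_ne_bot o2 o2 le_normalizer fun k => B.Vx (le_bot_iff.1 (k ▸ (x2.trans r2).trans le))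
  obtain ⟨k, hk⟩ := o2.exists_card_eq
  obtain ⟨s, hs, s1, sl, sn⟩ : ∃ s ∈ B.P, s ≠ 1 ∧ V s ≤ O ⊓ 𝒞(O) ∧ V s ≠ ⊥ := by
    by_contra! c
    refine ne (le_bot_iff.1 ((hG G B.toBs _ (le_norm_inf (hP.trans n) (le_norm_cent (hP.trans n))) fun d => ?_).2.2 ⊥
      fun s hs s1 sl => (c s hs s1 sl).le))
    have := d.trans (card_dvd_of_le (inf_le_left : O ⊓ 𝒞(O) ≤ O))
    rw [hk] at this
    exact absurd (Nat.prime_three.dvd_of_dvd_pow this) (by norm_num)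
  have d1 : Nat.card O ∣ Nat.card 𝒞(V s) := card_dvd_of_le (le_centralizer_iff.1 (sl.trans inf_le_right))
  have d2 : 3 ∣ Nat.card 𝒞(V s) := by
    rw [← B.o3 s hs s1, ← Nat.card_zpowers]
    exact card_dvd_of_le (zpowers_le.2 fun v hv => mem_C1.1 (V_le_C1 s hv))
  have := (Nat.le_of_dvd Nat.card_pos (Nat.Coprime.mul_dvd_of_dvd_of_dvd
    (by rw [hk]; exact Nat.Coprime.pow_left k (by norm_num)) d1 d2)).trans (B.mx s hs s1 sn)
  rwa [eq_of_le_of_card_ge le (by rw [h1.cR]; omega)]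

theorem TS (h1 : B1F B) (h2 : B2F B a b z) (h3 : B3F B z) : B.T ≤ C1 z ⊓ 𝒩(V B.x) :=
  le_inf h3.Tz (h1.NR ▸ le_norm_sup h2.T2 h2.T3)

theorem xS (h2 : B2F B a b z) : B.x ∈ C1 z ⊓ 𝒩(V B.x) :=
  ⟨mem_C1.2 (mem_C1.1 (V_le_C1 _ h2.hz)).symm, B.PV _ B.hx B.hx⟩

theorem mid (h1 : B1F B) {W E : Subgroup G} (hE : Nat.card E = 16) (ER : E ≤ B.R) (h : V B.x ≤ W) (h' : W ≤ E)
    (n : B.x ∈ 𝒩(W)) : W = V B.x ∨ W = E := by
  have d1 := card_dvd_of_le h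
  have d2 := card_dvd_of_le h'
  rw [cx] at d1
  rw [hE] at d2
  have l := Nat.le_of_dvd (by norm_num) d2
  by_contra! c
  have c1 : ¬ Nat.card W ≤ 4 := fun k => c.1 (eq_of_le_of_card_ge h (cx (B := B) ▸ k)).symm
  have c2 : ¬ 16 ≤ Nat.card W := fun k => c.2 (eq_of_le_of_card_ge h' (hE ▸ k))
  have e : Nat.card W = 8 := by
    generalize Nat.card W = m at *
    interval_cases m <;> omega
  have i2 : ((V B.x).subgroupOf W).index = 2 := by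
    have := card_mul_relIndex h
    rw [cx, e] at this
    change (V B.x).relIndex W = 2
    omega
  obtain ⟨u, hu, uV⟩ := SetLike.not_le_iff_exists.1 fun k => c.1 (le_antisymm k h)
  refine uV (h1.fp u (ER (h' hu)) ?_)
  refine (mul_mem_iff_of_index_two i2 (a := ⟨_, conj_mem n hu⟩) (b := ⟨u, hu⟩⁻¹)).2 (iff_of_false (fun k => uV ?_) fun k => uV ?_)
  · exact (mem_normalizer_iff.1 (B.PV _ B.hx B.hx) u).2 k
  · exact inv_mem_iff.1 (mem_subgroupOf.1 k)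

end Bnx

open Bnx in
theorem bnS (hG : GenS.{u}) (hL : L3S.{u}) (hH : HS.{u}) : BnS.{u} := by
  intro G _ _ B a b z h1 h2 h3
  by_contra! c
  have n2 := nle hG hL h1 p2 (rT.trans h2.T2) c.1
  have n3 := nle hG hL h1 p3 (rT.trans h2.T3) c.2
  refine hH G B.simp B.nab B.T B.R (V B.x) B.i a h3.sT (fun k => ?_) rT (x2.trans r2) (le_centralizer_iff.1 h1.RC)
    (el B.toBs B.hx B.x1) B.Vx h1.NR.le h3.wcR (fun t ht _ t2 => ?_)
    (fun t ht tR t2 => let ⟨r, _, e⟩ := h2.invT t ht tR t2; ⟨r, e⟩) iT h2.iR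
    (by rw [← pow_two, ← B.i2, pow_orderOf_eq_one]) (r2 (y2 h2.ha)) (yx h2.ha h2.a1) (h1.el2 a (y2 h2.ha)) h2.ai
  · exact h1.nc a (y2 h2.ha) (yx h2.ha h2.a1) b (w3 h2.hb) (wx h2.hb h2.b1)
      (k (rT (r3 (w3 h2.hb))) a (rT (r2 (y2 h2.ha))))
  · rcases h1.invR t ht t2 with k | k
    · exact ⟨B.E2, le_inf (r2.trans rT) fun e he => mem_C1.2 (h1.el2.comm he k),
        fun g hg => n2 (cj_eq_iff_mem.1 (h3.wc2 g hg))⟩
    · exact ⟨B.E3, le_inf (r3.trans rT) fun e he => mem_C1.2 (h1.el3.comm he k),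
        fun g hg => n3 (cj_eq_iff_mem.1 (h3.wc3 g hg))⟩

open Bnx in
theorem b4S : B4S.{u} := by
  intro G _ _ B a b z D h1 h2 h3
  have ts := TS h1 h2 h3
  have n : C1 z ⊓ 𝒩(V B.x) ≤ 𝒩(D.L ⊓ (C1 z ⊓ 𝒩(V B.x))) := le_norm_inf (inf_le_left.trans D.nL) le_normalizer
  have p : IsPGroup 2 (D.L ⊓ (C1 z ⊓ 𝒩(V B.x)) : Subgroup G) := by
    have d := card_dvd_of_le (inf_le_right : D.L ⊓ (C1 z ⊓ 𝒩(V B.x)) ≤ _)
    rw [h3.cS, show 384 = 2 ^ 7 * 3 by norm_num] at d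
    obtain ⟨k, -, e⟩ := (Nat.dvd_prime_pow Nat.prime_two).1 (Nat.Coprime.dvd_of_dvd_mul_right
      ((Nat.Prime.coprime_iff_not_dvd Nat.prime_three).2 fun k => D.L3 (k.trans (card_dvd_of_le inf_le_left))).symm d)
    exact IsPGroup.of_card e
  have e : B.T ⊓ D.L = D.L ⊓ (C1 z ⊓ 𝒩(V B.x)) := le_antisymm (le_inf inf_le_right (inf_le_left.trans ts))
    (le_inf ((h3.sT.of_le ts le_top).le_of_normalized p inf_le_right n) inf_le_left)
  rw [← e] at n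
  have UR : B.T ⊓ D.L ≤ B.R := fun u hu => (h2.memT u hu.1).resolve_right fun k => by
    have m1 : _ ∈ B.T := (mem_inf.1 (conj_mem (n (xS h2)) hu)).1
    have m2 := rT (conj_mem (h1.NR.ge (xS h2).2) k)
    have m : B.x * B.x ∈ B.T := by
      have := B.T.mul_mem (B.T.mul_mem (B.T.inv_mem m1) m2) (B.T.inv_mem iT)
      rwa [show (B.x * u * B.x⁻¹)⁻¹ * (B.x * (u * B.i) * B.x⁻¹) * B.i⁻¹ = B.x * (B.i * B.x⁻¹ * B.i⁻¹) by group,
        B.iinv _ (inv_mem B.hx), inv_inv] at this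
    have o := B.o3 _ B.hx B.x1
    have := eq_one_of_coprime_of_mem h3.sT.isPGroup (x := B.x) (by rw [o]; norm_num)
      (mem_of_pow_mem_of_coprime (n := 2) (by rw [o]; norm_num) (by rwa [pow_two]))
    exact B.x1 this
  have RN : B.R ≤ 𝒩(D.N) := (rT.trans h3.Tz).trans D.nN
  have xN := D.N3 _ (xS h2).1 (B.o3 _ B.hx B.x1)
  have yN := V_le B.toBs B.hy (ne1 B.yx) B.hx (sym B.toBs B.hx B.x1 B.hy B.yx) xN ((y2.trans r2).trans RN)
  have wN := V_le B.toBs B.hw (ne1 B.wx) B.hx (sym B.toBs B.hx B.x1 B.hw B.wx) xN ((w3.trans r3).trans RN)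
  refine ⟨UR, n, R_le ?_ yN wN, or_iff_not_imp_right.2 fun c u hu => ?_⟩
  · have := cnt (R := V B.w) (W := V B.x ⊓ D.N) (u := a) fun r hr =>
      mem_inf.2 ⟨h1.cmR r (r3 (w3 hr)) a (r2 (y2 h2.ha)), mul_mem (mul_mem (mul_mem (wN hr) (yN h2.ha)) (inv_mem (wN hr)))
        (inv_mem (yN h2.ha))⟩
    rw [show V B.w ⊓ C1 a = ⊥ from le_bot_iff.1 fun r hr => by_contra fun r1 =>
      h1.nc a (y2 h2.ha) (yx h2.ha h2.a1) r (w3 hr.1) (wx hr.1 r1) (mem_C1.1 hr.2).symm, card_bot, mul_one,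
      B.loc.cV _ (B.o3 _ B.hw (ne1 B.wx)) B.Vw, ← cx (B := B)] at this
    exact inf_eq_left.1 (eq_of_le_of_card_ge inf_le_left this)
  · have l : Nat.card (B.T ⊓ D.L ⊓ V B.x : Subgroup G) ≤ 2 := by
      have d := card_dvd_of_le (inf_le_right : B.T ⊓ D.L ⊓ V B.x ≤ _)
      have k : ¬ Nat.card (V B.x) ≤ Nat.card (B.T ⊓ D.L ⊓ V B.x : Subgroup G) := fun k =>
        c (inf_eq_right.1 (eq_of_le_of_card_ge inf_le_right k))
      rw [cx] at d k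
      generalize Nat.card (B.T ⊓ D.L ⊓ V B.x : Subgroup G) = m at *
      by_contra
      obtain rfl : m = 3 := by omega
      omega
    have ez : zpowers z = B.T ⊓ D.L ⊓ V B.x := eq_of_le_of_card_ge
      (zpowers_le.2 ⟨⟨rT (r2 (x2 h2.hz)), D.zL⟩, h2.hz⟩)
      (by rw [Nat.card_zpowers, orderOf_eq_prime ((pow_two z).trans (h1.el2 z (x2 h2.hz))) h2.z1]; exact l)
    refine ez.ge ⟨hu, by_contra fun uV => ?_⟩
    have := cnt (R := B.R) (W := B.T ⊓ D.L ⊓ V B.x) (u := u) fun r hr =>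
      mem_inf.2 ⟨mul_mem (conj_mem (n (ts (rT hr))) hu) (inv_mem hu), h1.cmR r hr u (UR hu)⟩
    rw [h1.cR, h1.cent u (UR hu) uV] at this
    omega

open Bnx in
theorem bc2S : Bc2S.{u} := by
  intro G _ _ B a b z D h1 h2 h3 ⟨UR, n, _, _⟩ hV
  have ns : ¬ 𝒩(B.T ⊓ D.L) ≤ 𝒩(V B.x) := fun k => D.ns (by
    have : Group.IsSolvable 𝒩(V B.x) := CL.Char.isSolvable_of_card_eq_pow_mul_pow (a := 7) (b := 2) Nat.prime_two
      Nat.prime_three h1.cN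
    exact Group.isSolvable_of_isSolvable_injective (inclusion_injective (inf_le_right.trans k)))
  generalize B.T ⊓ D.L = U at *
  have nx := n (xS h2)
  rcases mid h1 h1.cE2 r2 (le_inf hV x2) inf_le_right (le_norm_inf (zpowers_le.2 nx) (zpowers_le.2 (p2 B.hx))
    (mem_zpowers _)) with e2 | e2 <;>
  rcases mid h1 h1.cE3 r3 (le_inf hV x3) inf_le_right (le_norm_inf (zpowers_le.2 nx) (zpowers_le.2 (p3 B.hx))
    (mem_zpowers _)) with e3 | e3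
  · refine (ns (le_normalizer_iff.2 fun g hg v hv => ?_)).elim
    have m := conj_mem hg (hV hv)
    exact (h1.invR _ (UR m) (by rw [conj_mul, h1.el2 v (x2 hv), mul_one, mul_inv_cancel])).elim
      (fun k => e2.le ⟨m, k⟩) fun k => e3.le ⟨m, k⟩
  · replace e3 := inf_eq_right.1 e3
    refine .inr (le_antisymm (fun u hu => ?_) e3)
    obtain ⟨v, hv, p, hp, q, hq, rfl⟩ := h1.dec u (UR hu)
    exact mul_mem (x3 (e2.le ⟨(U.mul_mem_cancel_right (e3 (w3 hq))).1 hu, mul_mem (x2 hv) (y2 hp)⟩)) (w3 hq)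
  · replace e2 := inf_eq_right.1 e2
    refine .inl (le_antisymm (fun u hu => ?_) e2)
    obtain ⟨v, hv, p, hp, q, hq, rfl⟩ := h1.dec u (UR hu)
    exact mul_mem (mul_mem (x2 hv) (y2 hp))
      (x2 (e3.le ⟨(U.mul_mem_cancel_left (e2 (mul_mem (x2 hv) (y2 hp)))).1 hu, w3 hq⟩))
  · exact (ns (by rw [le_antisymm UR (sup_le (inf_eq_right.1 e2) (inf_eq_right.1 e3)), h1.NR])).elim

end CL.T3
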