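/-
Project T3 (S3253), job C1 (helper60): the 2-group `R` of order 256 in case C.
-/
import Cfsg.Agent.T3.Defs2
import Cfsg.Agent.T3.Gen

set_option autoImplicit false
set_option linter.unusedSectionVars false
open Cfsg Subgroup CL.Even CL.Grp

namespace CL.T3

universe u

namespace C1x

open Genx

variable {G : Type u} [Group G] [Finite G]

theorem split {A B : Subgroup G} {g h : G} (hn : B ≤ 𝒩(A)) (hd : B ⊓ A = ⊥) (gA : g ∈ 𝒩(A)) (gB : g ∈ 𝒩(B))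
    (hh : h ∈ A ⊔ B) (e : h * g = g * h) : ∃ a ∈ A ⊓ C1 g, ∃ b ∈ B ⊓ C1 g, a * b = h := by
  obtain ⟨a, ha, b, hb, rfl⟩ := (mem_sup_nl hn).1 hh
  have k : a⁻¹ * (g * a * g⁻¹) = b * (g * b * g⁻¹)⁻¹ := by
    calc a⁻¹ * (g * a * g⁻¹) = a⁻¹ * (g * (a * b)) * (b⁻¹ * g⁻¹) := by group
      _ = _ := by rw [← e]; group
  have m : a⁻¹ * (g * a * g⁻¹) ∈ B ⊓ A :=
    ⟨k ▸ B.mul_mem hb (B.inv_mem (conj_mem gB hb)), A.mul_mem (A.inv_mem ha) (conj_mem gA ha)⟩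
  rw [hd, mem_bot] at m
  refine ⟨a, ⟨ha, mem_C1.2 (mul_inv_eq_iff_eq_mul.1 (inv_mul_eq_one.1 m).symm).symm⟩, b, ⟨hb, mem_C1.2 ?_⟩, rfl⟩
  rw [k] at m
  exact (mul_inv_eq_iff_eq_mul.1 (mul_inv_eq_one.1 m).symm).symm

/-- `g` acts without fixed points on `H` -/
def Fp (g : G) (H : Subgroup G) : Prop := ∀ h ∈ H, h * g = g * h → h = 1

theorem Fp.sup {A B : Subgroup G} {g : G} (h1 : Fp g A) (h2 : Fp g B) (hn : B ≤ 𝒩(A)) (hd : B ⊓ A = ⊥)
    (gA : g ∈ 𝒩(A)) (gB : g ∈ 𝒩(B)) : Fp g (A ⊔ B) := fun h hh e => by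
  obtain ⟨a, ha, b, hb, rfl⟩ := split hn hd gA gB hh e
  rw [h1 a ha.1 (mem_C1.1 ha.2), h2 b hb.1 (mem_C1.1 hb.2), one_mul]

theorem Fp.inf {H : Subgroup G} {g : G} (h : Fp g H) : V g ⊓ H = ⊥ :=
  le_bot_iff.1 fun a ha => mem_bot.2 (h a ha.2 (mem_C1.1 (V_le_C1 g ha.1)))

theorem el_sup {A B : Subgroup G} (h1 : El A) (h2 : El B) (h : B ≤ 𝒞(A)) : El (A ⊔ B) := fun r hr => by
  obtain ⟨a, ha, b, hb, rfl⟩ := (mem_sup_nl (h.trans (cent_le_norm A))).1 hr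
  calc a * b * (a * b) = a * (b * a) * b := by group
    _ = (a * a) * (b * b) := by rw [← comm_of_mem (h hb) ha]; group
    _ = 1 := by rw [h1 a ha, h2 b hb, one_mul]

theorem el_cent {A : Subgroup G} (h : El A) : A ≤ 𝒞(A) := fun _ ha _ hb => h.comm hb ha

theorem sym {a b : G} (ha : orderOf a = 3) (hb : orderOf b = 3) (h : a ∈ zpowers b) : b ∈ zpowers a :=
  (eq_of_le_of_card_ge (zpowers_le.2 h) (by rw [Nat.card_zpowers, Nat.card_zpowers, ha, hb])).ge (mem_zpowers b)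

theorem V_eq {a z : G} (ha : orderOf a = 3) (h : z ∈ zpowers a) (z1 : z ≠ 1) : V z = V a := by
  classical
  obtain ⟨k, hk, rfl⟩ := Finset.mem_image.1 (mem_zpowers_iff_mem_range_orderOf.1 h)
  rw [ha, Finset.mem_range] at hk
  interval_cases k
  · exact absurd (pow_zero a) z1
  · simp only [pow_one]
  · have : a ^ 2 = a⁻¹ := by
      rw [eq_inv_iff_mul_eq_one, ← pow_succ]; exact orderOf_dvd_iff_pow_eq_one.1 ha.dvd
    simp only [this, V_inv]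

theorem irr (L : Loc G) {x y w : G} (hx : orderOf x = 3) (hy : orderOf y = 3) (hc : x * y = y * x)
    (hn : y ∉ zpowers x) {W : Subgroup G} (hW : y ∈ 𝒩(V x ⊓ W)) (hw : w ∈ V x ⊓ W) (w1 : w ≠ 1) : V x ≤ W := by
  have d : Nat.card (V x ⊓ W : Subgroup G) ∣ 2 ^ 2 := (card_dvd_of_le inf_le_left).trans (cV_dvd L hx)
  obtain ⟨k, hk, e⟩ := (Nat.dvd_prime_pow Nat.prime_two).1 d
  interval_cases k
  · exact absurd (mem_bot.1 ((card_eq_one.1 e).le hw)) w1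
  · obtain ⟨z, -, hz⟩ := (Nat.card_eq_two_iff' (1 : (V x ⊓ W : Subgroup G))).1 e
    have e1 : (⟨_, conj_mem hW hw⟩ : (V x ⊓ W : Subgroup G)) = ⟨w, hw⟩ :=
      (hz _ fun e => w1 (by simpa using congrArg Subtype.val e)).trans
        (hz _ fun e => w1 (congrArg Subtype.val e)).symm
    exact absurd (nofix L hx hy hc hn hw.1 (mul_inv_eq_iff_eq_mul.1 (congrArg Subtype.val e1)).symm) w1
  · refine le_trans (eq_of_le_of_card_ge inf_le_left ?_).ge inf_le_right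
    rw [e]; exact Nat.le_of_dvd (by norm_num) (cV_dvd L hx)

theorem cent_symm {A B : Subgroup G} (h : A ≤ 𝒞(B)) : B ≤ 𝒞(A) := le_centralizer_iff.1 h

end C1x

open Genx C1x

theorem c1S (hG : GenS.{u}) (hC : CvS.{u}) : C1S.{u} := by
  intro G _ _ C
  have := Fact.mk Nat.prime_two
  have L := C.loc
  have hx := C.hx
  have hy : C.y ∈ C.P := C.yf ▸ conj_mem C.fN hx
  have yx : C.y ∉ zpowers C.x := C.yf ▸ C.fmov _ hx C.x1
  have y1 : C.y ≠ 1 := fun e => yx (e ▸ one_mem _)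
  have ox := C.o3 _ hx C.x1
  have oy := C.o3 _ hy y1
  have xy : C.x ∉ zpowers C.y := fun h => yx (sym ox oy h)
  have hu : C.x * C.y ∈ C.P := C.P.mul_mem hx hy
  have hw : C.x * C.y⁻¹ ∈ C.P := C.P.mul_mem hx (C.P.inv_mem hy)
  have ux : C.x * C.y ∉ zpowers C.x := fun h => yx ((mul_mem_cancel_left (mem_zpowers _)).1 h)
  have uy : C.x * C.y ∉ zpowers C.y := fun h => xy ((mul_mem_cancel_right (mem_zpowers _)).1 h)
  have wx : C.x * C.y⁻¹ ∉ zpowers C.x := fun h => yx (inv_mem_iff.1 ((mul_mem_cancel_left (mem_zpowers _)).1 h))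
  have wy : C.x * C.y⁻¹ ∉ zpowers C.y := fun h => xy ((mul_mem_cancel_right (inv_mem (mem_zpowers _))).1 h)
  have u1 : C.x * C.y ≠ 1 := fun e => ux (e ▸ one_mem _)
  have w1 : C.x * C.y⁻¹ ≠ 1 := fun e => wx (e ▸ one_mem _)
  have ou := C.o3 _ hu u1
  have ow := C.o3 _ hw w1
  have wu : C.x * C.y⁻¹ ∉ zpowers (C.x * C.y) := fun h => by
    have h1 := mul_mem h (mem_zpowers (C.x * C.y))
    have e : C.x * C.y⁻¹ * (C.x * C.y) = C.x ^ 2 := by rw [C.cm _ hx _ hy, pow_two]; group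
    rw [e] at h1
    exact ux (sym ox ou (mem_of_pow_mem_of_coprime (by rw [ox]; norm_num) h1))
  have uw : C.x * C.y ∉ zpowers (C.x * C.y⁻¹) := fun h => wu (sym ou ow h)
  have fp : ∀ a ∈ C.P, a ≠ 1 → ∀ b ∈ C.P, b ∉ zpowers a → Fp b (V a) := fun a ha a1 b hb ba w hw e =>
    nofix L (C.o3 a ha a1) (C.o3 b hb fun e => ba (e ▸ one_mem _)) (C.cm a ha b hb) ba hw e
  have el : ∀ a ∈ C.P, a ≠ 1 → El (V a) := fun a ha a1 v hv => ((L.mem a (C.o3 a ha a1) v).1 hv).2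
  have c4 : ∀ a ∈ C.P, a ≠ 1 → Nat.card (V a) = 4 := fun a ha a1 => L.cV a (C.o3 a ha a1) (C.nt a ha a1)
  have cZ : ∀ a ∈ C.P, a ≠ 1 → V a ≤ 𝒞(C.Z) := fun a ha a1 => by
    rw [CC.Z, cent_sup]; exact le_inf (C.cx a ha a1) (C.cy a ha a1)
  have nZ : ∀ a ∈ C.P, a ≠ 1 → V a ≤ 𝒩(C.Z) := fun a ha a1 => (cZ a ha a1).trans (cent_le_norm _)
  have yN : V C.y ≤ 𝒩(V C.x) := (C.cx _ hy y1).trans (cent_le_norm _)
  have dZ : V C.y ⊓ V C.x = ⊥ := (fp _ hx C.x1 _ hy yx).inf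
  have PZ : C.P ≤ 𝒩(C.Z) := le_norm_sup (C.PV _ hx) (C.PV _ hy)
  have P3 : C.P ≤ 𝒩(C.E3) := le_norm_sup PZ (C.PV _ hu)
  have P4 : C.P ≤ 𝒩(C.E4) := le_norm_sup PZ (C.PV _ hw)
  have PR : C.P ≤ 𝒩(C.R) := le_norm_sup P3 P4
  have fZ : ∀ b ∈ C.P, b ∉ zpowers C.x → b ∉ zpowers C.y → Fp b C.Z := fun b hb h1 h2 =>
    (fp _ hx C.x1 b hb h1).sup (fp _ hy y1 b hb h2) yN dZ (C.PV _ hx hb) (C.PV _ hy hb)
  have d3 := (fZ _ hu ux uy).inf
  have d4 := (fZ _ hw wx wy).inf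
  have wZ : V (C.x * C.y⁻¹) ⊓ C.E3 = ⊥ :=
    ((fZ _ hw wx wy).sup (fp _ hu u1 _ hw wu) (nZ _ hu u1) d3 (PZ hw) (C.PV _ hu hw)).inf
  have uZ : V (C.x * C.y) ⊓ C.E4 = ⊥ :=
    ((fZ _ hu ux uy).sup (fp _ hw w1 _ hu uw) (nZ _ hw w1) d4 (PZ hu) (C.PV _ hw hu)).inf
  have kZ : Nat.card C.Z = 16 := by
    rw [CC.Z, sup_comm, card_sup_of_inf_eq_bot yN dZ, c4 _ hx C.x1, c4 _ hy y1]
  have k3 : Nat.card C.E3 = 64 := by
    rw [CC.E3, sup_comm, card_sup_of_inf_eq_bot (nZ _ hu u1) d3, kZ, c4 _ hu u1]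
  have k4 : Nat.card C.E4 = 64 := by
    rw [CC.E4, sup_comm, card_sup_of_inf_eq_bot (nZ _ hw w1) d4, kZ, c4 _ hw w1]
  have eZ : El C.Z := el_sup (el _ hx C.x1) (el _ hy y1) (C.cx _ hy y1)
  have e3 : El C.E3 := el_sup eZ (el _ hu u1) (cZ _ hu u1)
  have e4 : El C.E4 := el_sup eZ (el _ hw w1) (cZ _ hw w1)
  have Z3 : C.Z ≤ C.E3 := le_sup_left
  have Z4 : C.Z ≤ C.E4 := le_sup_left
  have u3 : V (C.x * C.y) ≤ C.E3 := le_sup_right
  have w4 : V (C.x * C.y⁻¹) ≤ C.E4 := le_sup_right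
  have R3 : C.E3 ≤ C.R := le_sup_left
  have R4 : C.E4 ≤ C.R := le_sup_right
  have RC : C.R ≤ 𝒞(C.Z) := sup_le ((el_cent e3).trans (cent_mono Z3)) ((el_cent e4).trans (cent_mono Z4))
  have RN : C.R ≤ 𝒩(C.Z) := RC.trans (cent_le_norm _)
  have four : ∀ z ∈ C.P, z ≠ 1 →
      V z ≤ C.Z ∨ V z = V (C.x * C.y) ∨ V z = V (C.x * C.y⁻¹) := fun z hz z1 => by
    rcases C.four _ hx C.x1 _ hy yx z hz with h | h | h | h
    · exact .inl ((V_eq ox h z1).le.trans le_sup_left)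
    · exact .inl ((V_eq oy h z1).le.trans le_sup_right)
    · exact .inr (.inl (V_eq ou h z1))
    · exact .inr (.inr (V_eq ow h z1))
  have p2 : IsPGroup 2 C.R := by
    obtain ⟨Q, hQ, -, -, -, h, -⟩ := hC G C.toBs _ hx C.x1 (C.nt _ hx C.x1)
    have k : ∀ E, El E → E ≤ C.R → E ≤ Q := fun E hE h1 a ha =>
      h a (cent_mono le_sup_left (RC (h1 ha))) 1 (by rw [pow_one, pow_two, hE a ha])
    exact hQ.to_le (sup_le (k _ e3 R3) (k _ e4 R4))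
  have nu : ¬ V (C.x * C.y) ≤ C.Z := fun h => C.nt _ hu u1 ((inf_eq_left.2 h).symm.trans d3)
  have cuw : ⁅V (C.x * C.y), V (C.x * C.y⁻¹)⁆ ≤ C.Z := by
    obtain ⟨k, h1, h2⟩ := exists_iter_not_le (exists_iter_eq_bot p2 p2 le_normalizer) (A := C.Z)
      fun h => nu (u3.trans (R3.trans h))
    have h3 : ¬ 3 ∣ Nat.card (iterCommutator C.R C.R k) := fun h => by
      obtain ⟨n, hn⟩ := IsPGroup.iff_card.1 (p2.to_le (iter_le le_normalizer k))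
      exact absurd (Nat.prime_three.dvd_of_dvd_pow (hn ▸ h)) (by norm_num)
    by_contra hh
    refine h1 ((hG G C.toBs _ (le_norm_iter PR PR k) h3).2.2 _ fun z hz z1 h => ?_)
    rcases four z hz z1 with e | e | e
    · exact e
    · exact absurd ((commutator_mono (e ▸ h) (w4.trans R4)).trans h2) hh
    · exact absurd (commutator_comm_le _ _ |>.trans ((commutator_mono (e ▸ h) (u3.trans R3)).trans h2)) hh
  have b0 : ∀ {A B : Subgroup G}, B ≤ 𝒞(A) → ⁅A, B⁆ ≤ C.Z := fun h => (commutator_eq_bot_iff'.2 h).le.trans bot_le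
  have c34 : ⁅C.E3, C.E4⁆ ≤ C.Z :=
    commutator_sup_le' le_normalizer (nZ _ hu u1) (b0 (R4.trans RC))
      (commutator_sup_le le_normalizer (nZ _ hw w1) (b0 (cent_symm (cZ _ hu u1))) cuw)
  have cR : ⁅C.R, C.R⁆ ≤ C.Z :=
    commutator_sup_le' (R3.trans RN) (R4.trans RN)
      (commutator_sup_le (R3.trans RN) (R4.trans RN) (b0 (el_cent e3)) c34)
      (commutator_sup_le (R3.trans RN) (R4.trans RN) ((commutator_comm_le _ _).trans c34) (b0 (el_cent e4)))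
  have wN : V (C.x * C.y⁻¹) ≤ 𝒩(C.E3) :=
    le_norm_of_commutator_le (((commutator_mono R3 (w4.trans R4)).trans cR).trans Z3)
  have RE : C.R = C.E3 ⊔ V (C.x * C.y⁻¹) :=
    le_antisymm (sup_le le_sup_left (sup_le (Z3.trans le_sup_left) le_sup_right)) (sup_le R3 (w4.trans R4))
  have dec : ∀ r ∈ C.R, ∃ e ∈ C.E3, ∃ b ∈ V (C.x * C.y⁻¹), e * b = r := fun r hr => (mem_sup_nl wN).1 (RE ▸ hr)
  have nc0 : ∀ a ∈ V (C.x * C.y), ∀ b ∈ V (C.x * C.y⁻¹), a * b = b * a → a = 1 ∨ b = 1 := fun a ha b hb e => by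
    by_contra hh
    push Not at hh
    have h1 : V (C.x * C.y⁻¹) ≤ 𝒞(zpowers a) := irr L ow ou (C.cm _ hw _ hu) uw
      (le_norm_inf (L := zpowers (C.x * C.y)) (zpowers_le.2 (C.PV _ hw hu)) (le_norm_cent
        ((cent_symm (zpowers_le.2 (cent_symm (zpowers_le.2 ?_) (mem_zpowers a)))).trans (cent_le_norm _)))
        (mem_zpowers _)) ⟨hb, cent_symm (zpowers_le.2 ?_) (mem_zpowers b)⟩ hh.2
    · exact C.uw (cent_symm (irr L ou ow (C.cm _ hu _ hw) wu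
        (le_norm_inf (C.PV _ hu) (le_norm_cent (C.PV _ hw)) hw) ⟨ha, cent_symm h1 (mem_zpowers a)⟩ hh.1))
    · intro z hz
      obtain ⟨k, rfl⟩ := mem_zpowers_iff.1 hz
      exact ((show Commute a _ from mem_C1.1 (V_le_C1 _ ha)).zpow_left k).eq
    · intro z hz
      obtain ⟨k, rfl⟩ := mem_zpowers_iff.1 hz
      exact ((show Commute b a from e.symm).zpow_left k).eq
  have nc : ∀ a ∈ C.E3, a ∉ C.Z → ∀ b ∈ C.E4, b ∉ C.Z → a * b ≠ b * a := fun a ha a1 b hb b1 e => by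
    obtain ⟨v, hv, a', ha', rfl⟩ := (mem_sup_nl (nZ _ hu u1)).1 ha
    obtain ⟨v', hv', b', hb', rfl⟩ := (mem_sup_nl (nZ _ hw w1)).1 hb
    have c1 : Commute v (v' * b') := comm_of_mem (RC (R4 hb)) hv
    have c2 : Commute v' a' := comm_of_mem (cZ _ hu u1 ha') hv'
    have c3 : Commute a' (v' * b') := by
      simpa using (c1.inv_left.mul_left (show Commute (v * a') (v' * b') from e))
    have c4 : Commute b' a' := by simpa using c2.inv_left.mul_left c3.symm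
    rcases nc0 a' ha' b' hb' c4.symm.eq with h | h
    · exact a1 (by rwa [h, mul_one])
    · exact b1 (by rwa [h, mul_one])
  have out : ∀ {A E : Subgroup G}, A ⊓ E = ⊥ → C.Z ≤ E → ∀ a ∈ A, a ≠ 1 → a ∉ C.Z := fun h h1 a ha a1 hz =>
    a1 (mem_bot.1 (h.le ⟨ha, h1 hz⟩))
  have fx : cj C.f (V C.x) = V C.y := by rw [← V_conj, ← C.yf]
  have fy' : C.f * C.y * C.f⁻¹ = C.x⁻¹ := by
    rw [← C.iinv _ hx, ← C.ff, C.yf]; group
  have fy : cj C.f (V C.y) = V C.x := by rw [← V_conj, fy', V_inv]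
  have fZ' : cj C.f C.Z = C.Z := by rw [CC.Z, cj_sup, fx, fy, sup_comm]
  refine ⟨kZ, k3, k4, ?_, e3, e4, RC, fun a ha b hb => cR (commutator_mem_commutator ha hb), fun r hr => ?_, uZ, wZ,
    fun r hr r2 => ?_, nc, ?_, ?_, ?_, ?_, fun z hz z1 => ?_⟩
  · rw [RE, sup_comm, card_sup_of_inf_eq_bot wN wZ, k3, c4 _ hw w1]
  · obtain ⟨e, he, b, hb, rfl⟩ := dec r hr
    obtain ⟨v, hv, a, ha, rfl⟩ := (mem_sup_nl (nZ _ hu u1)).1 he
    exact ⟨v, hv, a, ha, b, hb, rfl⟩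
  · obtain ⟨e, he, b, hb, rfl⟩ := dec r hr
    by_cases h1 : e ∈ C.Z
    · exact .inr (mul_mem (Z4 h1) (w4 hb))
    by_cases h2 : b = 1
    · exact .inl (by rwa [h2, mul_one])
    refine absurd ?_ (nc e he h1 b (w4 hb) (out wZ Z3 b hb h2))
    calc e * b = e * (e * b * (e * b)) * b := by rw [r2, mul_one]
      _ = (e * e) * (b * e) * (b * b) := by group
      _ = b * e := by rw [e3 e he, e4 b (w4 hb), one_mul, mul_one]
  · have : C.Z = C.R ⊓ 𝒞(C.R) := le_antisymm (le_inf (Z3.trans R3) (cent_symm RC)) fun r hr => by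
      obtain ⟨⟨a, ha⟩, a1⟩ := ne_bot_iff_exists_ne_one.1 (C.nt _ hu u1)
      obtain ⟨⟨b', hb'⟩, b1⟩ := ne_bot_iff_exists_ne_one.1 (C.nt _ hw w1)
      obtain ⟨e, he, b, hb, rfl⟩ := dec r hr.1
      have c1 : Commute b' (e * b) := comm_of_mem hr.2 (R4 (w4 hb'))
      have c2 : Commute b' b := e4.comm (w4 hb') (w4 hb)
      have c3 : Commute b' e := by simpa using c1.mul_right c2.inv_right
      have h1 : e ∈ C.Z := by_contra fun h =>
        nc e he h b' (w4 hb') (out wZ Z3 b' hb' fun e => b1 (Subtype.ext e)) c3.symm.eq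
      exact by_contra fun h => nc a (u3 ha) (out uZ Z4 a ha fun e => a1 (Subtype.ext e)) _
        (mul_mem (Z4 h1) (w4 hb)) h (comm_of_mem hr.2 (R3 (u3 ha)))
    rw [this]
    exact le_norm_inf le_rfl (norm_le_norm_cent _)
  · rw [CC.E3, CC.E4, cj_sup, fZ', ← V_conj, ← V_inv (C.x * C.y⁻¹)]
    congr 2
    calc _ = C.f * C.x * C.f⁻¹ * (C.f * C.y * C.f⁻¹) := by group
      _ = _ := by rw [fy', ← C.yf]; group
  · rw [CC.E3, CC.E4, cj_sup, fZ', ← V_conj]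
    congr 2
    calc _ = C.f * C.x * C.f⁻¹ * (C.f * C.y * C.f⁻¹)⁻¹ := by group
      _ = _ := by rw [fy', ← C.yf, inv_inv, C.cm _ hx _ hy]
  · have : C.Z ⊓ C1 C.i = (V C.y ⊓ C1 C.i) ⊔ (V C.x ⊓ C1 C.i) :=
      le_antisymm (fun h hh => by
        obtain ⟨a, ha, b, hb, rfl⟩ := split yN dZ (C.iV _ hx) (C.iV _ hy) hh.1 (mem_C1.1 hh.2)
        exact mul_mem (mem_sup_right ha) (mem_sup_left hb))
        (sup_le (inf_le_inf_right _ le_sup_right) (inf_le_inf_right _ le_sup_left))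
    rw [this, card_sup_of_inf_eq_bot ((inf_le_left.trans ((C.cx _ hy y1).trans (cent_mono inf_le_left))).trans
      (cent_le_norm _)) (le_bot_iff.1 ((inf_le_inf inf_le_left inf_le_left).trans dZ.le)),
      C.iC _ hx C.x1 (C.nt _ hx C.x1), C.iC _ hy y1 (C.nt _ hy y1)]
  · rcases four z hz z1 with e | e | e
    · exact e.trans (Z3.trans R3)
    · exact e.le.trans (u3.trans R3)
    · exact e.le.trans (w4.trans R4)

end CL.T3
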