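/-
Project T3: case C, the Sylow 2-subgroup and the contradiction.
-/
import Cfsg.Agent.T3.Defs2

set_option autoImplicit false
set_option linter.unusedSectionVars false
open Cfsg Subgroup CL.Even CL.Grp

namespace CL.T3

universe u

namespace C2x

variable {G : Type u} [Group G] [Finite G]

theorem le_or_le {Y A B : Subgroup G} (h : ∀ y ∈ Y, y ∈ A ∨ y ∈ B) : Y ≤ A ∨ Y ≤ B := by
  by_contra k
  rw [not_or, SetLike.not_le_iff_exists, SetLike.not_le_iff_exists] at k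
  obtain ⟨⟨a, ha, ha'⟩, b, hb, hb'⟩ := k
  rcases h _ (Y.mul_mem ha hb) with m | m
  · exact ha' ((mul_mem_cancel_right ((h b hb).resolve_right hb')).1 m)
  · exact hb' ((mul_mem_cancel_left ((h a ha).resolve_left ha')).1 m)

theorem el_cj {E : Subgroup G} (h : El E) (g : G) : El (cj g E) := by
  rintro _ ⟨a, ha, rfl⟩
  rw [← map_mul, h a ha, map_one]

theorem nsup {H K : Subgroup G} {g : G} (h1 : g ∈ 𝒩(H)) (h2 : g ∈ 𝒩(K)) : g ∈ 𝒩(H ⊔ K) :=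
  zpowers_le.1 (le_norm_sup (zpowers_le.2 h1) (zpowers_le.2 h2))

variable (C : CC G)

theorem hy : C.y ∈ C.P := C.yf ▸ conj_mem C.fN C.hx
theorem yx : C.y ∉ zpowers C.x := C.yf ▸ C.fmov C.x C.hx C.x1
theorem y1 : C.y ≠ 1 := fun e => yx C (e ▸ one_mem _)
theorem hu : C.x * C.y ∈ C.P := mul_mem C.hx (hy C)
theorem hw : C.x * C.y⁻¹ ∈ C.P := mul_mem C.hx (inv_mem (hy C))
theorem u1 : C.x * C.y ≠ 1 := fun e => yx C (eq_inv_of_mul_eq_one_right e ▸ inv_mem (mem_zpowers _))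
theorem w1 : C.x * C.y⁻¹ ≠ 1 := fun e => yx C (mul_inv_eq_one.1 e ▸ mem_zpowers _)
theorem ii : C.i * C.i = 1 := by rw [← pow_two, ← C.i2, pow_orderOf_eq_one]
theorem Z3 : C.Z ≤ C.E3 := le_sup_left
theorem Z4 : C.Z ≤ C.E4 := le_sup_left
theorem R3 : C.E3 ≤ C.R := le_sup_left
theorem R4 : C.E4 ≤ C.R := le_sup_right
theorem RT : C.R ≤ C.T := le_sup_left
theorem fT : C.f ∈ C.T := mem_sup_right (mem_zpowers _)
theorem iT : C.i ∈ C.T := C.ff ▸ mul_mem (fT C) (fT C)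

theorem n3 {g : G} (h : ∀ z ∈ C.P, g ∈ 𝒩(V z)) : g ∈ 𝒩(C.E3) := nsup (nsup (h _ C.hx) (h _ (hy C))) (h _ (hu C))
theorem n4 {g : G} (h : ∀ z ∈ C.P, g ∈ 𝒩(V z)) : g ∈ 𝒩(C.E4) := nsup (nsup (h _ C.hx) (h _ (hy C))) (h _ (hw C))

theorem V_eq {z z' : G} (hz : z ∈ C.P) (h1 : z ≠ 1) (h : z' ∈ zpowers z) (h2 : z' ≠ 1) : V z' = V z := by
  have hz' : z' ∈ C.P := zpowers_le.2 hz h
  refine (eq_of_le_of_card_ge (H := V z) (K := V z') (Subgroup.closure_mono fun y (k : _ ∧ _) => And.intro ?_ k.2) ?_).symm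
  · obtain ⟨n, rfl⟩ := h
    exact (Commute.zpow_right k.1 n).eq
  · rw [C.loc.cV z (C.o3 z hz h1) (C.nt z hz h1), C.loc.cV z' (C.o3 z' hz' h2) (C.nt z' hz' h2)]

theorem zf {a : G} (h : a ∈ zpowers C.f) : a = 1 ∨ a = C.f ∨ a = C.i ∨ a = C.i * C.f := by
  obtain ⟨n, rfl⟩ := (mem_powers_iff_mem_zpowers).2 h
  have f4 : C.f ^ 4 = 1 := by rw [← ii C, ← C.ff]; simp only [pow_succ, pow_zero]; group
  change C.f ^ n = 1 ∨ C.f ^ n = _ ∨ C.f ^ n = _ ∨ C.f ^ n = _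
  rw [pow_eq_pow_mod n f4, ← C.ff]
  have : n % 4 = 0 ∨ n % 4 = 1 ∨ n % 4 = 2 ∨ n % 4 = 3 := by omega
  rcases this with e | e | e | e <;> rw [e] <;> simp [pow_succ]

theorem if2 : C.i * C.f * (C.i * C.f) = C.i := by
  calc _ = C.i * C.i * C.i := by rw [← C.ff]; group
    _ = _ := by rw [ii, one_mul]

variable {C}

theorem fR (h : C1F C) : C.f ∈ 𝒩(C.R) := cj_eq_iff_mem.1 (by rw [CC.R, cj_sup, h.f3, h.f4, sup_comm])

theorem iR (h : C1F C) : C.i ∉ C.R := fun k => by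
  have h1 : C.i * (C.x * C.i⁻¹ * C.x⁻¹) ∈ C.R :=
    mul_mem k (conj_mem (nsup (n3 C fun z hz => C.PV z hz C.hx) (n4 C fun z hz => C.PV z hz C.hx)) (inv_mem k))
  have x3 : C.x ^ 3 = 1 := C.o3 _ C.hx C.x1 ▸ pow_orderOf_eq_one _
  have h2 : C.i * (C.x * C.i⁻¹ * C.x⁻¹) = C.x := by
    calc _ = (C.i * C.x * C.i⁻¹) * C.x⁻¹ * C.x ^ 3 := by rw [x3]; group
      _ = _ := by rw [C.iinv _ C.hx]; simp only [pow_succ, pow_zero]; group
  have := orderOf_dvd_natCard C.R (h2 ▸ h1)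
  rw [C.o3 _ C.hx C.x1, h.cR] at this
  norm_num at this

theorem main (hG : GenS.{u}) (hL : L3S.{u}) (h : C1F C) : 𝒩(C.E3) ≤ 𝒩(C.R) ∧
    ∀ g ∈ 𝒩(C.E3), ∃ t ∈ C.T, ∃ p ∈ C.P, g = t * p := by
  have := Fact.mk Nat.prime_two
  have PX : C.P ≤ 𝒩(C.E3) := fun p hp => n3 C fun z hz => C.PV z hz hp
  have RX : C.R ≤ 𝒩(C.E3) := fun r hr => mem_norm_of_cj_le (by
    rintro _ ⟨a, ha, rfl⟩
    exact (mul_mem_cancel_right (inv_mem ha)).1 (Z3 C (h.cmR r hr a (R3 C ha))))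
  have key : ∀ n ∈ 𝒩(C.E3), n ∈ 𝒩(C.P) → ∃ p ∈ C.P, n = p ∨ n = p * C.i := fun n h1 h2 => by
    refine C.fix n h2 _ (hw C) (w1 C) ?_
    have k1 : n * (C.x * C.y⁻¹) * n⁻¹ ≠ 1 := by simpa only [ne_eq, conj_eq_one_iff] using w1 C
    have k2 : ¬ V (n * (C.x * C.y⁻¹) * n⁻¹) ≤ C.E3 := fun k => by
      rw [V_conj, ← cj_eq h1, cj_le_cj] at k
      exact C.nt _ (hw C) (w1 C) (by rw [← h.wZ, inf_eq_left.2 k])
    rcases C.four _ C.hx C.x1 _ (hy C) (yx C) _ (conj_mem h2 (hw C)) with k | k | k | k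
    · exact (k2 (V_eq C C.hx C.x1 k k1 ▸ le_sup_left.trans le_sup_left)).elim
    · exact (k2 (V_eq C (hy C) (y1 C) k k1 ▸ le_sup_right.trans le_sup_left)).elim
    · exact (k2 (V_eq C (hu C) (u1 C) k k1 ▸ le_sup_right)).elim
    · exact k
  obtain ⟨O, -, h2, h3, h4, h5⟩ := hL G C.toBs _ PX (Or.inr ⟨n3 C C.iV, key⟩)
  have k := fun z hz z1 => h4 z hz z1 ((h.allV z hz z1).trans RX)
  have e : O = C.R := by
    refine le_antisymm ((hG G C.toBs O (PX.trans h2) fun d => ?_).2.2 _ fun z hz z1 _ => h.allV z hz z1)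
      (sup_le (sup_le (sup_le (k _ C.hx C.x1) (k _ (hy C) (y1 C))) (k _ (hu C) (u1 C)))
        (sup_le (sup_le (k _ C.hx C.x1) (k _ (hy C) (y1 C))) (k _ (hw C) (w1 C))))
    obtain ⟨n, hn⟩ := IsPGroup.iff_card.1 h3
    exact absurd (Nat.prime_three.dvd_of_dvd_pow (hn ▸ d)) (by norm_num)
  refine ⟨e ▸ h2, fun g hg => ?_⟩
  obtain ⟨o, ho, n, h6, h7, rfl⟩ := h5 g hg
  obtain ⟨p, hp, rfl | rfl⟩ := key n h6 h7
  · exact ⟨o, RT C (e ▸ ho), _, hp, rfl⟩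
  · refine ⟨o * C.i, mul_mem (RT C (e ▸ ho)) (iT C), _, inv_mem hp, ?_⟩
    calc o * (p * C.i) = o * ((C.i * p⁻¹ * C.i⁻¹) * C.i) := by rw [C.iinv _ (inv_mem hp), inv_inv]
      _ = _ := by group

theorem cT (h : C1F C) : Nat.card C.T = 1024 := by
  have := Fact.mk Nat.prime_two
  have o4 : orderOf C.f = 2 ^ (1 + 1) := orderOf_eq_prime_pow
    (by rw [pow_one, pow_two, C.ff]; exact fun e => iR h (e ▸ one_mem _))
    (by rw [← ii C, ← C.ff, show 2 ^ (1 + 1) = 4 by rfl]; simp only [pow_succ, pow_zero]; group)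
  let F : C.R × zpowers C.f → C.T := fun a => ⟨a.1 * a.2, mul_mem (mem_sup_left a.1.2) (mem_sup_right a.2.2)⟩
  have hF : Function.Bijective F := by
    constructor
    · rintro ⟨r, a⟩ ⟨r', a'⟩ e
      have e1 : (r : G) * a = r' * a' := congrArg Subtype.val e
      have e2 : (r' : G)⁻¹ * r = a' * (a : G)⁻¹ := by
        calc (r' : G)⁻¹ * r = (r' : G)⁻¹ * (r * a) * (a : G)⁻¹ := by group
          _ = _ := by rw [e1]; group
      have e3 : (a' : G) * (a : G)⁻¹ ∈ C.R := e2 ▸ mul_mem (inv_mem r'.2) r.2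
      have e4 : (a' : G) * (a : G)⁻¹ = 1 := by
        rcases zf C (mul_mem a'.2 (inv_mem a.2)) with k | k | k | k <;> rw [k] at e3 ⊢
        · exact (iR h (C.ff ▸ mul_mem e3 e3)).elim
        · exact (iR h e3).elim
        · exact (iR h (if2 C ▸ mul_mem e3 e3)).elim
      exact Prod.ext (Subtype.ext (inv_mul_eq_one.1 (e2.trans e4)).symm) (Subtype.ext (mul_inv_eq_one.1 e4).symm)
    · rintro ⟨t, ht⟩
      obtain ⟨r, hr, a, ha, rfl⟩ := (mem_sup_nl (zpowers_le.2 (fR h))).1 ht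
      exact ⟨(⟨r, hr⟩, ⟨a, ha⟩), rfl⟩
  rw [← Nat.card_eq_of_bijective F hF, Nat.card_prod, h.cR, Nat.card_zpowers, o4]
  norm_num

end C2x

open C2x in
theorem c2S (hG : GenS.{u}) (hL : L3S.{u}) : C2S.{u} := by
  intro G _ _ C h
  have := Fact.mk Nat.prime_two
  obtain ⟨h1, h2⟩ := main hG hL h
  refine ⟨h1, ?_, cT h, isSylowIn_of_maximal (sup_le le_normalizer (zpowers_le.2 (fR h)))
    (IsPGroup.of_card (n := 10) (cT h)) fun U hU k1 k2 => le_antisymm (fun m hm => ?_) k1, iR h, fun t ht k => ?_⟩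
  · rw [← h.f3, ← cj_norm]
    exact cj_le_of_mem h1 (fR h)
  · obtain ⟨t, ht, p, hp, rfl⟩ : ∃ t ∈ C.T, ∃ p ∈ C.P, m = t * p := by
      rcases le_or_le fun a ha => h.invR a (cj_le_of_le (R3 C) (k2 hm) ha) (el_cj h.el3 m a ha) with k | k
      · exact h2 m (mem_norm_of_cj_le k)
      · obtain ⟨t, ht, p, hp, e⟩ := h2 (C.f * m) (mem_norm_of_cj_le (by rw [cj_mul]; exact (cj_mono _ k).trans h.f4.le))
        exact ⟨C.f⁻¹ * t, mul_mem (inv_mem (fT C)) ht, p, hp, by rw [mul_assoc, ← e]; group⟩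
    by_cases p1 : p = 1
    · rwa [p1, mul_one]
    · exact absurd (eq_one_of_coprime_of_mem hU (by rw [C.o3 p hp p1]; norm_num) ((mul_mem_cancel_left (k1 ht)).1 hm)) p1
  · obtain ⟨r, hr, a, ha, rfl⟩ := (mem_sup_nl (zpowers_le.2 (fR h))).1 ht
    have k' : a * a ∈ C.R := (mul_mem_cancel_left (mul_mem hr (conj_mem (zpowers_le.2 (fR h) ha) hr))).1
      (by rwa [show r * (a * r * a⁻¹) * (a * a) = r * a * (r * a) by group])
    rcases zf C ha with rfl | rfl | rfl | rfl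
    · exact Or.inl (by rwa [mul_one])
    · exact (iR h (C.ff ▸ k')).elim
    · exact Or.inr (by rwa [mul_assoc, ii, mul_one])
    · exact (iR h (if2 C ▸ k')).elim

open C2x in
theorem c4S (hH : HS.{u}) : C4S.{u} := by
  intro G _ _ C h h2 h3
  have := Fact.mk Nat.prime_two
  have t3 : ∀ g : G, cj g C.E3 ≤ C.T → cj g C.E3 = C.E3 ∨ cj g C.E3 = C.E4 := fun g k =>
    h3.two _ k (el_cj h.el3 g) ((card_cj g _).trans h.cE3)
  have t4 : ∀ g : G, cj g C.E4 ≤ C.T → cj g C.E4 = C.E3 ∨ cj g C.E4 = C.E4 := fun g k =>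
    h3.two _ k (el_cj h.el4 g) ((card_cj g _).trans h.cE4)
  have wc : ∀ g : G, cj g C.R ≤ C.T → g ∈ 𝒩(C.R) := fun g k => mem_norm_of_cj_le (by
    refine (cj_sup g _ _).trans_le (sup_le ?_ ?_)
    · rcases t3 g ((cj_mono g (R3 C)).trans k) with e | e <;> rw [e]
      exacts [R3 C, R4 C]
    · rcases t4 g ((cj_mono g (R4 C)).trans k) with e | e <;> rw [e]
      exacts [R3 C, R4 C])
  have sT : Sy C.T ⊤ := isSylowIn_of_maximal le_top h2.sT.isPGroup fun U hU k _ => by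
    by_contra hne
    exact (lt_inf_normalizer_of_isPGroup hU (lt_of_le_of_ne k (Ne.symm hne))).ne'
      (h2.sT.eq_of_le hU.to_inf_left (le_inf k le_normalizer) fun g hg => wc g (cj_le_of_le (RT C) hg.2))
  obtain ⟨⟨a, ha, ai⟩, a1⟩ := ne_bot_iff_exists_ne_one.1 (show V (C.x * C.y) ⊓ C1 C.i ≠ ⊥ from fun e => by
    simpa [e] using C.iC _ (hu C) (u1 C) (C.nt _ (hu C) (u1 C)))
  obtain ⟨⟨b, hb⟩, b1⟩ := ne_bot_iff_exists_ne_one.1 (C.nt _ (hw C) (w1 C))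
  have a3 : a ∈ C.E3 := mem_sup_right ha
  have b4 : b ∈ C.E4 := mem_sup_right hb
  have aZ : a ∉ C.Z := fun k => a1 (Subtype.ext (mem_bot.1 (h.uZ.le ⟨ha, Z4 C k⟩)))
  have bZ : b ∉ C.Z := fun k => b1 (Subtype.ext (mem_bot.1 (h.wZ.le ⟨hb, Z3 C k⟩)))
  have ff : ∀ g : G, C.f * g ∈ 𝒩(C.R) → g ∈ 𝒩(C.R) := fun g => (mul_mem_cancel_left (fR h)).1
  refine hH G C.simp C.nab C.T C.R C.Z C.i a sT
    (fun k => h.nc a a3 aZ b b4 bZ (comm_of_mem (k (RT C (R4 C b4))) (RT C (R3 C a3)))) (RT C) ((Z3 C).trans (R3 C))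
    (le_centralizer_iff.1 h.RC) (fun z hz => h.el3 z (Z3 C hz)) (fun e => by simpa [e] using h.cZ) h.NZ
    (fun g k => cj_eq (wc g k)) (fun t ht _ k => ?_) (fun t ht k1 k2 => ?_) (iT C) h2.iR (ii C) (R3 C a3) aZ
    (h.el3 a a3) (mem_C1.1 ai)
  · rcases h.invR t ht k with m | m
    · refine ⟨C.E3, le_inf ((R3 C).trans (RT C)) fun e he => mem_C1.2 (h.el3.comm he m), fun g hg => ?_⟩
      rcases t3 g hg with e | e
      · exact h2.N3 (cj_eq_iff_mem.1 e)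
      · exact ff g (h2.N3 (cj_eq_iff_mem.1 (by rw [cj_mul, e, h.f4])))
    · refine ⟨C.E4, le_inf ((R4 C).trans (RT C)) fun e he => mem_C1.2 (h.el4.comm he m), fun g hg => ?_⟩
      rcases t4 g hg with e | e
      · exact ff g (h2.N4 (cj_eq_iff_mem.1 (by rw [cj_mul, e, h.f3])))
      · exact h2.N4 (cj_eq_iff_mem.1 e)
  · obtain ⟨r, -, e⟩ := h3.invT t ht k1 k2
    exact ⟨r, e⟩

end CL.T3
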