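/-
Project T3 (S3253), case C: involutions and elementary abelian subgroups of order 64 of `T`.
-/
import Cfsg.Agent.T3.Defs2

set_option autoImplicit false
set_option linter.unusedSectionVars false
open Cfsg Subgroup CL.Even CL.Grp

namespace CL.T3

universe u

namespace C3x

theorem card_le_mul {α β γ : Type*} [Finite β] [Finite γ] (f : α → β) (g : ∀ a b, f a = f b → γ)
    (h : ∀ a a' b k k', g a b k = g a' b k' → a = a') : Nat.card α ≤ Nat.card β * Nat.card γ := by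
  rcases isEmpty_or_nonempty α with _ | _
  · simp
  rw [← Nat.card_prod]
  refine Nat.card_le_card_of_injective
    (fun a => (f a, g a (Function.invFun f (f a)) (Function.invFun_eq ⟨a, rfl⟩).symm)) fun a a' e => ?_
  obtain ⟨e1, e2⟩ := Prod.mk.inj e
  have k : ∀ b b' k k', b = b' → g a b k = g a' b' k' → a = a' := by
    rintro b _ k k' rfl e; exact h _ _ _ _ _ e
  exact k _ _ _ _ (by rw [e1]) e2

variable {G : Type u} [Group G] [Finite G] {C : CC G}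

theorem hy (C : CC G) : C.y ∈ C.P := C.yf ▸ conj_mem C.fN C.hx
theorem yx (C : CC G) : C.y ∉ zpowers C.x := C.yf ▸ C.fmov _ C.hx C.x1
theorem hu (C : CC G) : C.x * C.y ∈ C.P := mul_mem C.hx (hy C)
theorem hw (C : CC G) : C.x * C.y⁻¹ ∈ C.P := mul_mem C.hx (inv_mem (hy C))
theorem u1 (C : CC G) : C.x * C.y ≠ 1 := fun e => yx C (eq_inv_of_mul_eq_one_right e ▸ inv_mem (mem_zpowers _))
theorem w1 (C : CC G) : C.x * C.y⁻¹ ≠ 1 := fun e => yx C (mul_inv_eq_one.1 e ▸ mem_zpowers _)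
theorem ii (C : CC G) : C.i * C.i = 1 := by rw [← pow_two, ← C.i2, pow_orderOf_eq_one]
theorem i_inv (C : CC G) : C.i⁻¹ = C.i := inv_eq_of_mul_eq_one_right (ii C)
theorem Z3 (C : CC G) : C.Z ≤ C.E3 := le_sup_left
theorem Z4 (C : CC G) : C.Z ≤ C.E4 := le_sup_left
theorem R3 (C : CC G) : C.E3 ≤ C.R := le_sup_left
theorem R4 (C : CC G) : C.E4 ≤ C.R := le_sup_right
theorem U3 (C : CC G) : V (C.x * C.y) ≤ C.E3 := le_sup_right
theorem W4 (C : CC G) : V (C.x * C.y⁻¹) ≤ C.E4 := le_sup_right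

theorem iV (C : CC G) {p : G} (hp : p ∈ C.P) : zpowers C.i ≤ 𝒩(V p) := zpowers_le.2 (C.iV p hp)
theorem iZ (C : CC G) : zpowers C.i ≤ 𝒩(C.Z) := le_norm_sup (iV C C.hx) (iV C (hy C))
theorem iR (C : CC G) : C.i ∈ 𝒩(C.R) :=
  le_norm_sup (le_norm_sup (iZ C) (iV C (hu C))) (le_norm_sup (iZ C) (iV C (hw C))) (mem_zpowers _)

theorem sqZ (h : C1F C) {r : G} (hr : r ∈ C.R) : r * r ∈ C.Z := by
  obtain ⟨v, hv, a, ha, b, hb, rfl⟩ := h.dec r hr
  have a1 := U3 C ha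
  have b1 := W4 C hb
  have k := comm_of_mem (h.RC (mul_mem (R3 C a1) (R4 C b1))) hv
  have := mul_mem (mul_mem hv hv) (h.cmR a (R3 C a1) b (R4 C b1))
  rw [inv_eq_of_mul_eq_one_right (h.el3 a a1), inv_eq_of_mul_eq_one_right (h.el4 b b1)] at this
  convert this using 1
  calc v * a * b * (v * a * b) = v * (a * b * v) * a * b := by group
    _ = _ := by rw [← k]; group

theorem fixd (h : C1F C) {r : G} (hr : r ∈ C.R) (k : C.i * r * C.i⁻¹ * r⁻¹ ∈ C.Z) :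
    ∃ a ∈ V (C.x * C.y) ⊓ C1 C.i, ∃ b ∈ V (C.x * C.y⁻¹) ⊓ C1 C.i, r * (a * b)⁻¹ ∈ C.Z := by
  obtain ⟨v, hv, a, ha, b, hb, rfl⟩ := h.dec r hr
  have v' := conj_mem (iZ C (mem_zpowers _)) hv
  have a' := conj_mem (C.iV _ (hu C)) ha
  have b' := mul_mem (conj_mem (C.iV _ (hw C)) hb) (inv_mem hb)
  have k1 : C.i * a * C.i⁻¹ * (C.i * b * C.i⁻¹ * b⁻¹) * a⁻¹ ∈ C.Z := by
    convert mul_mem (mul_mem (inv_mem v') k) hv using 1; group
  have k2 := h.cmR a (R3 C (U3 C ha)) _ (R4 C (W4 C (inv_mem b')))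
  have k3 : C.i * a * C.i⁻¹ * a⁻¹ ∈ V (C.x * C.y) ⊓ C.E4 := mem_inf.2 ⟨mul_mem a' (inv_mem ha), by
    convert mul_mem (mul_mem (Z4 C k1) (Z4 C k2)) (W4 C (inv_mem b')) using 1; group⟩
  rw [h.uZ, mem_bot, mul_inv_eq_one] at k3
  rw [k3] at k1
  have k4 : C.i * b * C.i⁻¹ * b⁻¹ ∈ V (C.x * C.y⁻¹) ⊓ C.E3 := mem_inf.2 ⟨b', by
    convert mul_mem (mul_mem (inv_mem (U3 C ha)) (Z3 C k1)) (U3 C ha) using 1; group⟩
  rw [h.wZ, mem_bot, mul_inv_eq_one] at k4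
  exact ⟨a, ⟨ha, mem_C1.2 (mul_inv_eq_iff_eq_mul.1 k3).symm⟩, b, ⟨hb, mem_C1.2 (mul_inv_eq_iff_eq_mul.1 k4).symm⟩,
    by simpa [mul_assoc] using hv⟩

theorem cover (h : C1F C) (S : Set G) (h1 : ∀ r ∈ S, r ∈ C.R ∧ C.i * r * C.i⁻¹ * r⁻¹ ∈ C.Z)
    (h2 : ∀ r ∈ S, ∀ s ∈ S, r * s⁻¹ ∈ C.Z → r * s⁻¹ ∈ C1 C.i) : Nat.card S ≤ 16 := by
  choose a ha b hb k using fun r : S => fixd h (h1 r r.2).1 (h1 r r.2).2
  have z : ∀ r s : S, a r = a s → b r = b s → (r : G) * (s : G)⁻¹ ∈ C.Z := fun r s e1 e2 => by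
    have := mul_mem (k r) (inv_mem (k s))
    rw [e1, e2] at this
    simpa [mul_assoc] using this
  have := card_le_mul (γ := (C.Z ⊓ C1 C.i : Subgroup G))
    (fun r : S => ((⟨a r, ha r⟩ : (V (C.x * C.y) ⊓ C1 C.i : Subgroup G)),
      (⟨b r, hb r⟩ : (V (C.x * C.y⁻¹) ⊓ C1 C.i : Subgroup G))))
    (fun r s e => have m := z r s (congrArg (·.1.1) e) (congrArg (·.2.1) e); ⟨r * (s : G)⁻¹, m, h2 r r.2 s s.2 m⟩)
    fun r r' s _ _ e => Subtype.ext (mul_right_cancel (congrArg Subtype.val e))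
  rwa [Nat.card_prod, C.iC _ (hu C) (u1 C) (C.nt _ (hu C) (u1 C)), C.iC _ (hw C) (w1 C) (C.nt _ (hw C) (w1 C)),
    h.cZi] at this

theorem cA (h : C1F C) : Nat.card (C.R ⊓ C1 C.i : Subgroup G) ≤ 16 :=
  cover h (C.R ⊓ C1 C.i : Subgroup G) (fun r hr => ⟨hr.1, by rw [← mem_C1.1 hr.2]; simp⟩)
    fun r hr s hs _ => mul_mem hr.2 (inv_mem hs.2)

theorem cB (h : C1F C) : Nat.card {r | r ∈ C.R ∧ C.i * r * C.i⁻¹ = r⁻¹} ≤ 16 :=
  cover h _ (fun r hr => ⟨hr.1, by rw [hr.2]; exact sqZ h (inv_mem hr.1)⟩) fun r hr s hs m => by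
    have k1 := comm_of_mem (h.RC hr.1) m
    have k2 := h.el3 _ (Z3 C m)
    refine mem_C1.2 (mul_inv_eq_iff_eq_mul.1 ?_).symm
    calc C.i * (r * s⁻¹) * C.i⁻¹ = C.i * r * C.i⁻¹ * (C.i * s * C.i⁻¹)⁻¹ := by group
      _ = r⁻¹ * ((r * s⁻¹)⁻¹ * r) := by rw [hr.2, hs.2]; group
      _ = r * s⁻¹ := by rw [inv_eq_of_mul_eq_one_right k2, k1]; group

theorem invT (h : C1F C) (h2 : C2F C) : ∀ t ∈ C.T, t ∉ C.R → t * t = 1 → ∃ r ∈ C.R, r * C.i * r⁻¹ = t := by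
  intro t ht tR tt
  have m := (h2.memT t ht (tt ▸ one_mem _)).resolve_left tR
  have sub : {r | ∃ s ∈ C.R, s * C.i * s⁻¹ * C.i = r} ⊆ {r | r ∈ C.R ∧ C.i * r * C.i⁻¹ = r⁻¹} := by
    rintro _ ⟨s, hs, rfl⟩
    refine ⟨?_, by simp [mul_assoc, i_inv C, ii C]⟩
    simpa [mul_assoc, i_inv C] using mul_mem hs (conj_mem (iR C) (inv_mem hs))
  have c1 := card_le_mul (γ := (C.R ⊓ C1 C.i : Subgroup G))
    (fun s : C.R => (⟨s * C.i * (s : G)⁻¹ * C.i, s, s.2, rfl⟩ : {r | ∃ s ∈ C.R, s * C.i * s⁻¹ * C.i = r}))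
    (fun r s e => ⟨(s : G)⁻¹ * r, C.R.mul_mem (inv_mem s.2) r.2, mem_C1.2 (by
      have := mul_right_cancel (congrArg Subtype.val e)
      calc (s : G)⁻¹ * r * C.i = (s : G)⁻¹ * (r * C.i * (r : G)⁻¹) * r := by group
        _ = _ := by rw [this]; group)⟩)
    fun r r' s _ _ e => Subtype.ext (mul_left_cancel (congrArg Subtype.val e))
  have c2 := cA h
  have c3 := cB h
  rw [h.cR] at c1
  have e := Set.eq_of_subset_of_ncard_le sub (by
    rw [← Nat.card_coe_set_eq, ← Nat.card_coe_set_eq]; nlinarith)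
  obtain ⟨s, hs, k⟩ := e.ge (show t * C.i ∈ _ from ⟨m, by simp [i_inv C, inv_eq_of_mul_eq_one_right tt, mul_assoc, ii C]⟩)
  exact ⟨s, hs, mul_right_cancel k⟩

theorem two (h : C1F C) (h2 : C2F C) (F : Subgroup G) (hF : F ≤ C.T) (el : El F) (c : Nat.card F = 64) :
    F = C.E3 ∨ F = C.E4 := by
  have hR : F ≤ C.R := by
    by_contra k
    obtain ⟨t, ht, tR⟩ := SetLike.not_le_iff_exists.1 k
    obtain ⟨r, hr, rfl⟩ := invT h h2 t (hF ht) tR (el t ht)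
    have m : ∀ a b : F, ((a : G) ∈ C.R) = ((b : G) ∈ C.R) → (a : G) * (b : G)⁻¹ ∈ C.R := fun a b e => by
      by_cases k : (b : G) ∈ C.R
      · exact mul_mem (e ▸ k) (inv_mem k)
      · have k1 := (h2.memT a (hF a.2) (el a a.2 ▸ one_mem _)).resolve_left (e ▸ k)
        have k2 := (h2.memT b (hF b.2) (el b b.2 ▸ one_mem _)).resolve_left k
        simpa [mul_assoc] using mul_mem k1 (inv_mem k2)
    have c1 := card_le_mul (γ := (C.R ⊓ C1 C.i : Subgroup G)) (fun a : F => (a : G) ∈ C.R)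
      (fun a b e => ⟨r⁻¹ * (a * (b : G)⁻¹) * r, C.R.mul_mem (mul_mem (inv_mem hr) (m a b e)) hr, mem_C1.2 (by
        have := el.comm (mul_mem a.2 (inv_mem b.2)) ht
        calc r⁻¹ * (a * (b : G)⁻¹) * r * C.i = r⁻¹ * (a * (b : G)⁻¹ * (r * C.i * r⁻¹)) * r := by group
          _ = _ := by rw [this]; group)⟩)
      fun a a' b _ _ e => Subtype.ext (mul_right_cancel (mul_left_cancel (mul_right_cancel (congrArg Subtype.val e))))
    have c2 := cA h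
    rw [c, Nat.card_eq_fintype_card (α := Prop), Fintype.card_prop] at c1
    omega
  by_cases k3 : F ≤ C.E3
  · exact Or.inl (eq_of_le_of_card_ge k3 (by rw [c, h.cE3]))
  refine Or.inr (eq_of_le_of_card_ge (fun b hb => by_contra fun b4 => ?_) (by rw [c, h.cE4]))
  obtain ⟨a, ha, a3⟩ := SetLike.not_le_iff_exists.1 k3
  have a4 := (h.invR a (hR ha) (el a ha)).resolve_left a3
  have b3 := (h.invR b (hR hb) (el b hb)).resolve_right b4
  rcases h.invR _ (hR (mul_mem ha hb)) (el _ (mul_mem ha hb)) with k | k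
  exacts [a3 ((mul_mem_cancel_right b3).1 k), b4 ((mul_mem_cancel_left a4).1 k)]

end C3x

theorem c3S : C3S.{u} := fun _ _ _ _ h h2 => ⟨C3x.invT h h2, C3x.two h h2⟩

end CL.T3
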