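/-
Project T3 (S3253), case D: the quotients `A₆` and `L₃(4)` do not occur.
-/
import Cfsg.Agent.T3.Defs2
import Cfsg.Agent.T3.Q
import Cfsg.Agent.Grp.Factor

set_option autoImplicit false
set_option linter.unusedSectionVars false
open Cfsg Subgroup CL.Even CL.Grp

namespace CL.T3

universe u

namespace D2x
variable {G : Type u} [Group G] [Finite G]

theorem inf_C1_mul {R : Subgroup G} (el : El R) {r t : G} (hr : r ∈ R) : R ⊓ C1 (r * t) = R ⊓ C1 t := by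
  ext y
  simp only [mem_inf, mem_C1]
  refine and_congr_right fun hy => ?_
  have := el.comm hy hr
  constructor
  · intro h
    have h2 : r * (y * t) = r * (t * y) := by rw [← mul_assoc, ← this, mul_assoc, h, mul_assoc]
    exact mul_left_cancel h2
  · intro h
    rw [← mul_assoc, this, mul_assoc, h, mul_assoc]

theorem inf_C1_conj {R : Subgroup G} {m t : G} (hm : m ∈ 𝒩(R)) :
    Nat.card (R ⊓ C1 (m * t * m⁻¹) : Subgroup G) = Nat.card (R ⊓ C1 t : Subgroup G) := by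
  rw [← card_cj m (R ⊓ C1 t)]
  congr 2
  ext y
  rw [mem_cj]
  simp only [mem_inf, mem_C1]
  constructor
  · rintro ⟨h1, h2⟩
    refine ⟨conj_mem' hm h1, ?_⟩
    calc m⁻¹ * y * m * t = m⁻¹ * (y * (m * t * m⁻¹)) * m := by group
      _ = _ := by rw [h2]; group
  · rintro ⟨h1, h2⟩
    refine ⟨by simpa [mul_assoc] using conj_mem hm h1, ?_⟩
    calc y * (m * t * m⁻¹) = m * (m⁻¹ * y * m * t) * m⁻¹ := by group
      _ = _ := by rw [h2]; group

theorem star {R M : Subgroup G} (el : El R) (MN : M ≤ 𝒩(R)) {Y : Type*} [Group Y] (φ : M →* Y)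
    (hs : Function.Surjective φ) (hk : ∀ m : M, φ m = 1 ↔ (m : G) ∈ R) {i s : M} {g : Y} (h : g * φ i * g⁻¹ = φ s) :
    Nat.card (R ⊓ C1 (s : G) : Subgroup G) = Nat.card (R ⊓ C1 (i : G) : Subgroup G) := by
  obtain ⟨m, rfl⟩ := hs g
  have h1 : φ (s * (m * i * m⁻¹)⁻¹) = 1 := by
    rw [map_mul, map_inv, map_mul, map_mul, map_inv, h, mul_inv_cancel]
  have h2 := (hk _).1 h1
  have e : (s : G) = ((s * (m * i * m⁻¹)⁻¹ : M) : G) * ((m : G) * i * (m : G)⁻¹) := by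
    push_cast; group
  rw [e, inf_C1_mul el h2, inf_C1_conj (MN m.2)]

theorem modEq {R : Subgroup G} {u : G} {p : ℕ} [Fact p.Prime] (hu : u ∈ 𝒩(R)) (ho : u ^ p = 1) :
    Nat.card R ≡ Nat.card (R ⊓ C1 u : Subgroup G) [MOD p] := by
  let ψ : zpowers u →* MulAut R := (normalizerMonoidHom R).comp (inclusion (zpowers_le.2 hu))
  letI : MulAction (zpowers u) R := MulAction.compHom R ψ
  have hP : IsPGroup p (zpowers u) := isPGroup_zpowers (k := 1) (by simpa using ho)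
  have := hP.card_modEq_card_fixedPoints R
  suffices e : Nat.card (MulAction.fixedPoints (zpowers u) R) = Nat.card (R ⊓ C1 u : Subgroup G) by rwa [e] at this
  refine Nat.card_congr ⟨fun y => ⟨y.1.1, y.1.2, ?_⟩, fun y => ⟨⟨y.1, y.2.1⟩, ?_⟩, fun _ => rfl, fun _ => rfl⟩
  · have h := congrArg Subtype.val (y.2 ⟨u, mem_zpowers u⟩)
    have h' : u * y.1.1 * u⁻¹ = y.1.1 := h
    exact mem_C1.2 (by rw [← mul_inv_eq_iff_eq_mul.1 h'])
  · rintro ⟨g, k, rfl⟩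
    apply Subtype.ext
    show u ^ k * y.1 * (u ^ k)⁻¹ = y.1
    have hc : Commute y.1 u := mem_C1.1 y.2.2
    rw [← (hc.zpow_right k).eq]; group

theorem C1_pow (R : Subgroup G) (s : G) (n : ℕ) : R ⊓ C1 s ≤ R ⊓ C1 (s ^ n) := fun _ hy =>
  ⟨hy.1, mem_C1.2 (Commute.pow_right (mem_C1.1 hy.2) n).eq⟩

theorem ex_ord {Y : Type*} [Group Y] {M : Subgroup G} (φ : M →* Y) {s : M} {p : ℕ} (h : orderOf (φ s) = p) :
    ∃ k : ℕ, orderOf ((s : G) ^ k) = p := by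
  have h1 : p ∣ orderOf (s : G) := by rw [orderOf_coe, ← h]; exact orderOf_map_dvd φ s
  exact ⟨orderOf (s : G) / p, orderOf_pow_orderOf_div (orderOf_pos _).ne' h1⟩

theorem iR (A : RA G) : A.i ∉ A.R := fun h => Qx.i1 A.toBs (Qx.RN A h (Qx.iN A.toBs))

theorem c16 (D : CD1 G) : Nat.card (D.R ⊓ C1 D.i : Subgroup G) = 16 := by
  have := D.fr
  rw [D.cR] at this
  exact (Nat.pow_left_injective two_ne_zero) (show _ ^ 2 = 16 ^ 2 from this)

theorem idx2 {N M B : Subgroup G} (h : M.relIndex N ∣ 2) (hB : B ≤ N) :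
    Nat.card B ≤ 2 * Nat.card (B ⊓ M : Subgroup G) := by
  have h1 : M.relIndex B ≤ 2 :=
    (relIndex_le_of_le_right hB (ne_zero_of_dvd_ne_zero two_ne_zero h)).trans (Nat.le_of_dvd two_pos h)
  have h2 := (M.subgroupOf B).card_mul_index
  have h3 : Nat.card (M.subgroupOf B) = Nat.card (B ⊓ M : Subgroup G) := by
    rw [← inf_subgroupOf_left]
    exact Nat.card_congr (subgroupOfEquivOfLe inf_le_left).toEquiv
  rw [← h2, h3, mul_comm]
  exact Nat.mul_le_mul_right _ h1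

theorem conjM {N M : Subgroup G} (h : M.relIndex N ∣ 2) {t g : G} (ht : t ∈ N) (hg : g ∈ M) (hgN : g ∈ N) :
    t * g * t⁻¹ ∈ M := by
  have hn : (M.subgroupOf N).Normal := by
    rcases (Nat.dvd_prime Nat.prime_two).1 h with h1 | h1
    · rw [index_eq_one.1 h1]; infer_instance
    · exact normal_of_index_eq_two h1
  exact hn.conj_mem ⟨g, hgN⟩ hg ⟨t, ht⟩

theorem card_le {R M B : Subgroup G} (φ : M →* A6) (hk : ∀ m : M, φ m = 1 ↔ (m : G) ∈ R) (h6 : A6S) (hB : El B) :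
    Nat.card (B ⊓ M : Subgroup G) ≤ 4 * Nat.card (B ⊓ R : Subgroup G) := by
  let ψ : (B ⊓ M : Subgroup G) →* A6 := φ.comp (inclusion inf_le_right)
  have h1 : Nat.card ψ.range ≤ 4 := by
    refine h6.2.1 _ ?_
    rintro _ ⟨b, rfl⟩
    rw [← map_mul]
    have : b * b = 1 := Subtype.ext (hB _ b.2.1)
    rw [this, map_one]
  have h2 : Nat.card ψ.ker ≤ Nat.card (B ⊓ R : Subgroup G) := by
    refine Nat.card_le_card_of_injective (fun y => ⟨y.1.1, y.1.2.1, (hk _).1 y.2⟩) fun a b h => ?_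
    exact Subtype.ext (Subtype.ext (congrArg (fun w : (B ⊓ R : Subgroup G) => (w : G)) h))
  have h3 := ψ.ker.card_mul_index
  rw [index_ker] at h3
  rw [← h3, mul_comm]
  exact Nat.mul_le_mul h1 h2

theorem ord2 {Y : Type*} [Group Y] {y : Y} (h1 : y ≠ 1) (h2 : y * y = 1) : orderOf y = 2 :=
  orderOf_eq_prime (by rw [pow_two, h2]) h1

theorem dvd256 {n : ℕ} (h : n ∣ 256) (h1 : 64 ≤ n) : n = 64 ∨ n = 128 ∨ n = 256 := by
  have := Nat.le_of_dvd (by norm_num) h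
  obtain ⟨k, hk⟩ := h
  have h4 : k ≤ 4 := by nlinarith
  interval_cases k <;> omega

end D2x
open D2x

theorem d2S (h6 : A6S) (hG : GS.{u}) : D2S.{u} := by
  intro G _ _ D ⟨M, MN, RM, PM, iM, idx, _, φ, hs, hk⟩
  have ii := Qx.ii D.toBs
  have hi : orderOf (φ ⟨D.i, iM⟩) = 2 :=
    ord2 (fun h => iR D.toRA ((hk _).1 h)) (by rw [← map_mul]; exact (hk _).2 (by simp [ii]))
  have st : ∀ s : M, orderOf (φ s) = 2 → Nat.card (D.R ⊓ C1 (s : G) : Subgroup G) = 16 := fun s h => by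
    obtain ⟨g, hg⟩ := h6.1 _ _ hi h
    rw [star D.el MN φ hs hk hg]; exact c16 D
  have big : ∀ s : M, 64 ≤ Nat.card (D.R ⊓ C1 (s : G) : Subgroup G) → (s : G) ∈ D.R := fun s h => by
    have hp : ∀ n : ℕ, 64 ≤ Nat.card (D.R ⊓ C1 ((s : G) ^ n) : Subgroup G) := fun n =>
      h.trans (card_le_of_le (C1_pow _ _ n))
    rcases h6.2.2.2.1 (φ s) with h1 | ⟨n, h1 | h1 | h1⟩
    · exact (hk _).1 h1
    · have := st (s ^ n) (by rw [map_pow]; exact h1)
      have h2 := hp n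
      rw [SubmonoidClass.coe_pow] at this
      omega
    · obtain ⟨k, h3⟩ := ex_ord φ (s := s ^ n) (p := 3) (by rw [map_pow]; exact h1)
      rw [SubmonoidClass.coe_pow, ← pow_mul] at h3
      have h2 := hp (n * k)
      have h4 : D.R ⊓ C1 ((s : G) ^ (n * k)) ≤ V ((s : G) ^ (n * k)) := fun y hy =>
        (D.loc.mem _ h3 y).2 ⟨mem_C1.1 hy.2, D.el y hy.1⟩
      have h5 := h2.trans (card_le_of_le h4)
      by_cases hb : V ((s : G) ^ (n * k)) = ⊥
      · rw [hb, card_bot] at h5; omega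
      · rw [D.loc.cV _ h3 hb] at h5; omega
    · obtain ⟨k, h3⟩ := ex_ord φ (s := s ^ n) (p := 5) (by rw [map_pow]; exact h1)
      rw [SubmonoidClass.coe_pow, ← pow_mul] at h3
      have h2 := hp (n * k)
      have : Fact (Nat.Prime 5) := ⟨by norm_num⟩
      have h4 := modEq (R := D.R) (u := (s : G) ^ (n * k)) (p := 5) (MN (M.pow_mem s.2 _))
        (by rw [← h3]; exact pow_orderOf_eq_one _)
      have h5 : Nat.card (D.R ⊓ C1 ((s : G) ^ (n * k)) : Subgroup G) ∣ 256 := D.cR ▸ card_dvd_of_le inf_le_left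
      rw [D.cR] at h4
      have h7 : Nat.card (D.R ⊓ C1 ((s : G) ^ (n * k)) : Subgroup G) = 256 := by
        unfold Nat.ModEq at h4
        rcases dvd256 h5 h2 with h | h | h <;> omega
      have h8 : D.R ⊓ C1 ((s : G) ^ (n * k)) = D.R := eq_of_le_of_card_ge inf_le_left (by rw [h7, D.cR])
      have h9 : (s : G) ^ (n * k) ∈ D.R := by
        rw [← D.CR]
        intro y hy
        have : y ∈ D.R ⊓ C1 ((s : G) ^ (n * k)) := h8.symm ▸ hy
        exact mem_C1.1 this.2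
      have := orderOf_dvd_of_pow_eq_one (show ((s : G) ^ (n * k)) ^ 2 = 1 by rw [pow_two]; exact D.el _ h9)
      rw [h3] at this
      omega
  refine hG G D.simp D.nab D.R M D.i ⟨D.el, RM, MN, idx, fun t ht h1 h2 => ?_, fun B hB el => ?_, fun t ht h1 h2 => ?_⟩
    (fun h => ?_) iM (iR D.toRA) ii (by rw [D.CR]; exact iR D.toRA)
  · have := st ⟨t, ht⟩ (ord2 (fun h => h1 ((hk _).1 h)) (by rw [← map_mul]; exact (hk _).2 (by simp [h2])))
    rw [show Nat.card (D.R ⊓ C1 t : Subgroup G) = 16 from this, D.cR]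
    norm_num
  · have h1 := idx2 idx hB
    have h2 := card_le φ hk h6 el
    have h3 : 0 < Nat.card (B ⊓ D.R : Subgroup G) := Nat.card_pos
    rw [D.cR]
    nlinarith
  · by_contra hc
    have h3 : Nat.card (D.R ⊓ C1 t : Subgroup G) ∣ 256 := D.cR ▸ card_dvd_of_le inf_le_left
    rw [D.cR] at hc
    have h4 : 128 ≤ Nat.card (D.R ⊓ C1 t : Subgroup G) := by
      rcases dvd256 h3 (by omega) with h | h | h <;> omega
    have hP : D.P ≠ ⊥ := fun h => by have := D.cP; rw [h, card_bot] at this; omega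
    obtain ⟨⟨x, hx⟩, x1⟩ := ne_bot_iff_exists_ne_one.1 hP
    have x1' : x ≠ 1 := fun h => x1 (Subtype.ext h)
    have hsM : t * x * t⁻¹ * x⁻¹ ∈ M := M.mul_mem (conjM idx ht (PM hx) (D.PN hx)) (M.inv_mem (PM hx))
    have h5 := card_mul_card_le_of_le (H := D.R) (A := D.R ⊓ C1 t) (B := D.R ⊓ C1 (x * t * x⁻¹)) inf_le_left inf_le_left
    rw [inf_C1_conj (D.PN hx), D.cR] at h5
    have h7 : D.R ⊓ C1 t ⊓ (D.R ⊓ C1 (x * t * x⁻¹)) ≤ D.R ⊓ C1 (t * x * t⁻¹ * x⁻¹) := by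
      rintro y ⟨⟨hy, c1⟩, _, c2⟩
      have c1' : Commute y t := mem_C1.1 c1
      have c2' : Commute y (x * t * x⁻¹) := mem_C1.1 c2
      refine ⟨hy, mem_C1.2 ?_⟩
      have e : t * x * t⁻¹ * x⁻¹ = t * (x * t * x⁻¹)⁻¹ := by group
      rw [e]
      exact (c1'.mul_right c2'.inv_right).eq
    have h8 := card_le_of_le h7
    obtain ⟨r, hr, p, hp, e⟩ := Qx.cmod D.toRA hx x1' ht (big ⟨_, hsM⟩ (by
      show 64 ≤ Nat.card (D.R ⊓ C1 (t * x * t⁻¹ * x⁻¹) : Subgroup G)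
      nlinarith))
    exact h1 (e ▸ M.mul_mem (RM hr) (PM hp))
  · have := D.cR; rw [h, card_bot] at this; omega

namespace D2x
variable {G : Type u} [Group G] [Finite G]

theorem f72 : (72 : ℕ).factorization 2 = 3 := by
  rw [show (72 : ℕ) = 2 ^ 3 * 9 by norm_num, Nat.factorization_mul (by norm_num) (by norm_num),
    Nat.Prime.factorization_pow Nat.prime_two]
  simp [Nat.factorization_eq_zero_of_not_dvd (show ¬ 2 ∣ 9 by norm_num)]

theorem tr (D : Bs G) {E : Subgroup G} (hE : E ≤ 𝒩(D.P)) (cE : Nat.card E = 8) (EP : ∀ e ∈ E, e ∈ D.P → e = 1)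
    {x : G} (hx : x ∈ D.P) (x1' : x ≠ 1) : ∀ z ∈ D.P, z ≠ 1 → ∃ e ∈ E, e * x * e⁻¹ = z := fun z hz z1 => by
  let f : Option E → D.P := fun o => o.elim 1 fun e => ⟨e * x * (e : G)⁻¹, conj_mem (hE e.2) hx⟩
  have ne : ∀ e : E, f (some e) ≠ 1 := fun e h => x1' (by
    have : (e : G) * x * (e : G)⁻¹ = 1 := congrArg Subtype.val h
    exact conj_eq_one_iff.1 this)
  have inj : Function.Injective f := by
    rintro (_ | e) (_ | e') h
    · rfl
    · exact absurd h.symm (ne e')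
    · exact absurd h (ne e)
    · have h1 : (e : G) * x * (e : G)⁻¹ = e' * x * (e' : G)⁻¹ := congrArg Subtype.val h
      have h2 : ((e' : G)⁻¹ * e) * x * ((e' : G)⁻¹ * e)⁻¹ = x := by
        calc _ = (e' : G)⁻¹ * ((e : G) * x * (e : G)⁻¹) * e' := by group
          _ = x := by rw [h1]; group
      have hm : (e' : G)⁻¹ * e ∈ E := E.mul_mem (E.inv_mem e'.2) e.2
      obtain ⟨p, hp, h3 | h3⟩ := D.fix _ (hE hm) x hx x1' (by rw [h2]; exact mem_zpowers x)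
      · have := EP _ hm (h3 ▸ hp)
        exact congrArg some (Subtype.ext (inv_mul_eq_one.1 this).symm)
      · exfalso
        rw [h3] at h2
        have h5 : p * x⁻¹ * p⁻¹ = x := by rw [← D.iinv x hx, ← h2]; rw [h2]; simpa [mul_assoc] using h2
        rw [D.cm p hp x⁻¹ (D.P.inv_mem hx), mul_inv_cancel_right] at h5
        exact x1' (Qx.one_of_sq D hx (by nth_rewrite 1 [← h5]; exact inv_mul_cancel x))
  have bij := inj.bijective_of_nat_card_le (by rw [Finite.card_option, cE, D.cP])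
  obtain ⟨_ | e, he⟩ := bij.2 ⟨z, hz⟩
  · exact absurd (congrArg Subtype.val he).symm z1
  · exact ⟨e, e.2, congrArg Subtype.val he⟩

theorem vx (D : Bs G) {x a : G} (hx : x ∈ D.P) (cV : Nat.card (V x) = 4) (ha : a ∈ V x) (ai : a ∉ C1 D.i) :
    ∀ K : Subgroup G, a ∈ K → D.i * a * D.i⁻¹ ∈ K → V x ≤ K := fun K h1 h2 => by
  have hb : D.i * a * D.i⁻¹ ∈ V x := conj_mem (D.iV x hx) ha
  have a1 : a ≠ 1 := fun h => ai (h ▸ (C1 D.i).one_mem)
  have ab : D.i * a * D.i⁻¹ ≠ a := fun h => ai (mem_C1.2 (mul_inv_eq_iff_eq_mul.1 h).symm)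
  have b1 : D.i * a * D.i⁻¹ ≠ 1 := fun h => a1 (conj_eq_one_iff.1 h)
  have h3 : Nat.card (V x ⊓ K : Subgroup G) ∣ 4 := cV ▸ card_dvd_of_le inf_le_left
  have h5 : 2 < Nat.card (V x ⊓ K : Subgroup G) := by
    have := Fintype.ofFinite (V x ⊓ K : Subgroup G)
    rw [Nat.card_eq_fintype_card, Fintype.two_lt_card_iff]
    exact ⟨1, ⟨a, ha, h1⟩, ⟨_, hb, h2⟩, fun h => a1 (congrArg Subtype.val h).symm,
      fun h => b1 (congrArg Subtype.val h).symm, fun h => ab (congrArg Subtype.val h).symm⟩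
  have h7 : Nat.card (V x ⊓ K : Subgroup G) = 4 := by
    have := Nat.le_of_dvd (by norm_num) h3
    interval_cases h : Nat.card (V x ⊓ K : Subgroup G) <;> omega
  exact inf_eq_left.1 (eq_of_le_of_card_ge inf_le_left (by rw [h7, cV]))

end D2x

theorem D2x.fin {G : Type u} [Group G] [Finite G] (h4 : L4S.{u}) {R E : Subgroup G} {i : G} (el : El R) (CR : 𝒞(R) = R)
    (iN : i ∈ 𝒩(R)) (iR : i ∉ R) (ii : i * i = 1) (c16 : Nat.card (R ⊓ C1 i : Subgroup G) = 16) (hE : IsPGroup 2 E)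
    (EN : E ≤ 𝒩(R)) (iE' : i ∈ E) {Y : Type u} [Group Y] [Finite Y] (φ : 𝒩(R) →* Y) (hY : IsL34 Y)
    (hs : Function.Surjective φ) (hk : ∀ m : 𝒩(R), φ m = 1 ↔ (m : G) ∈ R) : ∃ j ∈ 𝒩(R), j * j ∈ 𝒞(R) ∧
    (∀ e ∈ E, j * e * j⁻¹ * e⁻¹ ∈ 𝒞(R)) ∧ Nat.card (R ⊓ C1 j : Subgroup G) = 16 ∧
    Nat.card (R ⊓ C1 (i * j) : Subgroup G) = 16 := by
  obtain ⟨cj2, hj⟩ := h4 Y hY
  obtain ⟨I, hI⟩ : ∃ I : 𝒩(R), (I : G) = i := ⟨⟨i, iN⟩, rfl⟩
  subst hI
  have i2 : φ I * φ I = 1 := by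
    rw [← map_mul]; exact (hk _).2 (by rw [Subgroup.coe_mul, ii]; exact R.one_mem)
  have hi : orderOf (φ I) = 2 := ord2 (fun h => iR ((hk _).1 h)) i2
  have st : ∀ s : 𝒩(R), orderOf (φ s) = 2 → Nat.card (R ⊓ C1 (s : G) : Subgroup G) = 16 := fun s h => by
    obtain ⟨g, hg⟩ := cj2 _ _ hi h
    rw [star el le_rfl φ hs hk hg]; exact c16
  have hp : IsPGroup 2 ((E.subgroupOf 𝒩(R)).map φ) := (hE.comap_subtype (K := 𝒩(R))).map φ
  obtain ⟨j', hj', o2, ne⟩ : ∃ j' ∈ 𝒞((E.subgroupOf 𝒩(R)).map φ), orderOf j' = 2 ∧ j' ≠ φ I := by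
    obtain ⟨j₁, h1, j₂, h2, o1, o2, ne, _⟩ := hj _ hp
    rcases eq_or_ne j₁ (φ I) with h | h
    · exact ⟨j₂, h2, o2, fun h' => ne (h.trans h'.symm)⟩
    · exact ⟨j₁, h1, o1, h⟩
  obtain ⟨j, rfl⟩ := hs j'
  have jj : φ j * φ j = 1 := by rw [← pow_two]; exact orderOf_dvd_iff_pow_eq_one.1 (by rw [o2])
  have cm : ∀ e : 𝒩(R), (e : G) ∈ E → φ e * φ j = φ j * φ e := fun e he =>
    comm_of_mem hj' (mem_map_of_mem φ (mem_subgroupOf.2 he))
  have o3 : orderOf (φ (I * j)) = 2 := by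
    refine ord2 (fun h => ne ?_) ?_
    · rw [map_mul] at h
      exact (mul_left_cancel (i2.trans h.symm)).symm
    · have := cm I iE'
      rw [map_mul]
      calc _ = φ I * (φ j * φ I) * φ j := by simp only [mul_assoc]
        _ = 1 := by rw [← this, ← mul_assoc, i2, one_mul, jj]
  refine ⟨j, j.2, ?_, fun e he => ?_, st j o2, st (I * j) o3⟩
  · rw [CR]; exact (hk (j * j)).1 (by rw [map_mul, jj])
  · rw [CR]
    refine (hk (j * ⟨e, EN he⟩ * j⁻¹ * (⟨e, EN he⟩ : 𝒩(R))⁻¹)).1 ?_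
    rw [map_mul, map_mul, map_mul, map_inv, map_inv, ← cm ⟨e, EN he⟩ he, mul_inv_cancel_right, mul_inv_cancel]

theorem d3S (h4 : L4S.{u}) (h8 : Q8S.{u}) : D3S.{u} := by
  intro G _ _ D ⟨NN, c72, Y, _, _, φ, hY, hs, hk⟩
  have ii := Qx.ii D.toBs
  have iN := Qx.iN D.toBs
  have : Fact (Nat.Prime 2) := ⟨Nat.prime_two⟩
  obtain ⟨E, hE, iE⟩ := exists_isSylowIn_ge (p := 2) (isPGroup_zpowers (x := D.i) (k := 1) (by rw [pow_one, pow_two, ii]))
    (zpowers_le.2 iN)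
  have iE' : D.i ∈ E := iE (mem_zpowers _)
  have cE : Nat.card E = 8 := by rw [hE.card_eq_pow, c72, f72]; norm_num
  have EP : ∀ e ∈ E, e ∈ D.P → e = 1 := fun e he hp => by
    by_contra h1
    exact h1 (eq_one_of_coprime_of_mem hE.isPGroup (by rw [D.o3 e hp h1]; norm_num) he)
  have uq : ∀ e ∈ E, e * e = 1 → e = 1 ∨ e = D.i := fun e he h => by
    obtain ⟨p, hp, h1 | h1⟩ := D.sq e (hE.le he) (h ▸ D.P.one_mem)
    · exact Or.inl (EP e he (h1 ▸ hp))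
    · have : p = e * D.i⁻¹ := by rw [h1]; group
      have h2 := EP p (this ▸ E.mul_mem he (E.inv_mem iE')) hp
      right; rw [h1, h2, one_mul]
  have hP : D.P ≠ ⊥ := fun h => by have := D.cP; rw [h, card_bot] at this; omega
  obtain ⟨⟨x, hx⟩, x1⟩ := ne_bot_iff_exists_ne_one.1 hP
  have x1' : x ≠ 1 := fun h => x1 (Subtype.ext h)
  have x3 := D.o3 x hx x1'
  have cV := D.loc.cV x x3 (D.nt x hx x1')
  obtain ⟨a, ha, ai⟩ : ∃ a ∈ V x, a ∉ C1 D.i := by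
    by_contra hc
    push Not at hc
    have := D.iC x hx x1' (D.nt x hx x1')
    rw [inf_eq_left.2 hc, cV] at this
    omega
  have tr := tr D.toBs hE.le cE EP hx x1'
  have vx := vx D.toBs hx cV ha ai
  have gn : ∀ K : Subgroup G, (∀ e ∈ E, e * a * e⁻¹ ∈ K) → D.R ≤ K := fun K h => by
    refine D.genR K fun z hz z1 => ?_
    obtain ⟨e, he, rfl⟩ := tr z hz z1
    rw [V_conj, cj_le_iff]
    refine vx _ (mem_cj.2 (by simpa using h e he)) (mem_cj.2 ?_)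
    simpa [mul_assoc] using h _ (E.mul_mem he iE')
  have EN : E ≤ 𝒩(D.R) := hE.le.trans NN
  obtain ⟨j, h1, h2, h3, h5, h6⟩ := D2x.fin h4 D.el D.CR D.iN (iR D.toRA) ii (c16 D) hE.isPGroup EN iE' φ hY hs hk
  exact h8 G D.R E D.i j a D.el D.cR cE EN iE' D.i2 uq (D.allV x hx x1' ha) gn h1 h2 h3 h5 h6

end CL.T3
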