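/-
Project T3: the order of `C(V x)` from the number of neighbours of `x`.
-/
import Cfsg.Agent.T3.Defs2
import Cfsg.Agent.Grp.Cores
import Cfsg.Agent.Grp.SylowIn

set_option autoImplicit false
set_option linter.unusedSectionVars false
open Cfsg Subgroup CL.Even CL.Grp

namespace CL.T3

universe u

namespace DegA
variable {G : Type u} [Group G] [Finite G]

theorem vzp {x z : G} (hx : orderOf x = 3) (hz : z ∈ zpowers x) (h1 : z ≠ 1) : V z = V x := by
  have h3 : x ^ 3 = 1 := hx ▸ pow_orderOf_eq_one x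
  rw [← mem_powers_iff_mem_zpowers] at hz
  obtain ⟨n, rfl⟩ := hz
  have e : x ^ n = x ^ (n % 3) := by rw [← hx, pow_mod_orderOf]
  have hn : n % 3 = 0 ∨ n % 3 = 1 ∨ n % 3 = 2 := by omega
  simp only at h1 ⊢
  rcases hn with h | h | h
  · rw [e, h, pow_zero] at h1; exact absurd rfl h1
  · rw [e, h, pow_one]
  · have : x ^ 2 = x⁻¹ := eq_inv_of_mul_eq_one_left (by rw [← pow_succ]; exact h3)
    rw [e, h, this, V_inv]

theorem vinf (B : Bs G) {a b : G} (ha : a ∈ B.P) (ha1 : a ≠ 1) (hb : b ∈ B.P) (hba : b ∉ zpowers a) {v : G}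
    (h1 : v ∈ V a) (h2 : v ∈ V b) : v = 1 := by
  have hb1 : b ≠ 1 := fun h => hba (h ▸ one_mem _)
  have oa := B.o3 a ha ha1
  have ob := B.o3 b hb hb1
  have hP : v ∈ B.P := by
    rw [← B.gen a ha ha1 b hb hba, ← B.loc.cP a b oa ob (B.cm a ha b hb) hba]
    exact ⟨V_le_C1 a h1, V_le_C1 b h2⟩
  by_contra hv
  have o3 := B.o3 v hP hv
  have hvv := ((B.loc.mem a oa v).1 h1).2
  have : orderOf v ∣ 2 := orderOf_dvd_of_pow_eq_one (by rw [pow_two, hvv])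
  rw [o3] at this
  omega

end DegA

open DegA in
theorem degS (hG : GenS.{u}) (hC : CvS.{u}) : DegS.{u} := by
  intro G _ _ B x hx hx1 hV
  obtain ⟨Q, hQ2, hQC, hcard, hNQ, hQ, -, -⟩ := hC G B x hx hx1 hV
  have ox := B.o3 x hx hx1
  have sq : ∀ z ∈ B.P, z ≠ 1 → ∀ v ∈ V z, v * v = 1 := fun z hz hz1 v hv =>
    ((B.loc.mem z (B.o3 z hz hz1) v).1 hv).2
  have hxC : V x ≤ 𝒞(V x) := fun a ha b hb => El.comm (sq x hx hx1) hb ha
  have inQ : ∀ z ∈ B.P, z ≠ 1 → V z ≤ 𝒞(V x) → V z ≤ Q := fun z hz hz1 h v hv =>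
    hQ v (h hv) 1 (by rw [pow_one, pow_two, sq z hz hz1 v hv])
  have hxQ : V x ≤ Q := inQ x hx hx1 hxC
  have nb1 : ∀ y, B.Nb x y → y ≠ 1 := fun y h e => h.2.1 (e ▸ one_mem _)
  have nbQ : ∀ y, B.Nb x y → V y ≤ Q := fun y h => inQ y h.1 (nb1 y h) h.2.2.2
  have hPQ : B.P ≤ 𝒩(Q) := (B.PV x hx).trans hNQ
  have gen : ∀ H : Subgroup G, H ≤ Q → B.P ≤ 𝒩(H) → ∀ K : Subgroup G, V x ≤ K →
      (∀ z, B.Nb x z → V z ≤ H → V z ≤ K) → H ≤ K := by
    intro H hHQ hPH K hxK hK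
    have h3 : ¬ 3 ∣ Nat.card H := by
      obtain ⟨k, hk⟩ := IsPGroup.iff_card.1 (hQ2.to_le hHQ)
      rw [hk]
      intro h
      have := (Nat.prime_three.dvd_of_dvd_pow h)
      omega
    refine (hG G B H hPH h3).2.2 K fun z hz hz1 hzH => ?_
    by_cases h1 : z ∈ zpowers x
    · rw [vzp ox h1 hz1]; exact hxK
    by_cases h2 : V z = ⊥
    · rw [h2]; exact bot_le
    exact hK z ⟨hz, h1, h2, hzH.trans (hHQ.trans hQC)⟩ hzH
  have c4 : ∀ y, B.Nb x y → Nat.card (V y) = 4 := fun y h =>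
    B.loc.cV y (B.o3 y h.1 (nb1 y h)) h.2.2.1
  have cx : Nat.card (V x) = 4 := B.loc.cV x ox hV
  have c16 : ∀ y, B.Nb x y → Nat.card (V y ⊔ V x : Subgroup G) = 16 := by
    intro y h
    rw [card_sup_of_inf_eq_bot (h.2.2.2.trans (cent_le_norm _))
      (eq_bot_iff.2 fun v hv => mem_bot.2 (vinf B hx hx1 h.1 h.2.1 hv.2 hv.1)), c4 y h, cx]
  refine ⟨fun h0 => ?_, fun y hy h1 => ?_, fun y w hy hw hwy h2 => ?_⟩
  · have : Q = V x := le_antisymm (gen Q le_rfl hPQ _ le_rfl fun z hz _ => absurd hz (h0 z)) hxQ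
    rw [hcard, this, cx]
  · have : Q = V y ⊔ V x := le_antisymm (gen Q le_rfl hPQ _ le_sup_right fun z hz _ => by
      rw [vzp (B.o3 y hy.1 (nb1 y hy)) (h1 z hz) (nb1 z hz)]; exact le_sup_left) (sup_le (nbQ y hy) hxQ)
    rw [hcard, this, c16 y hy]
  · have oy := B.o3 y hy.1 (nb1 y hy)
    have ow := B.o3 w hw.1 (nb1 w hw)
    have hE : V w ⊓ (V y ⊔ V x) = ⊥ := by
      refine eq_bot_iff.2 fun e he => mem_bot.2 ?_
      obtain ⟨b, hb, a, ha, rfl⟩ := (mem_sup_nr (hy.2.2.2.trans (cent_le_norm _))).1 he.2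
      have hc : b * a * w = w * (b * a) := ((B.loc.mem w ow _).1 he.1).1
      have hb' : w * b * w⁻¹ ∈ V y := conj_mem (B.PV y hy.1 hw.1) hb
      have ha' : w * a * w⁻¹ ∈ V x := conj_mem (B.PV x hx hw.1) ha
      have e1 : b⁻¹ * (w * b * w⁻¹) = a * (w * a * w⁻¹)⁻¹ := by
        calc b⁻¹ * (w * b * w⁻¹) = b⁻¹ * (w * (b * a)) * (a⁻¹ * w⁻¹) := by group
          _ = a * (w * a * w⁻¹)⁻¹ := by rw [← hc]; group
      have e2 : a * (w * a * w⁻¹)⁻¹ = 1 :=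
        vinf B hx hx1 hy.1 hy.2.1 ((V x).mul_mem ha ((V x).inv_mem ha'))
          (e1 ▸ (V y).mul_mem ((V y).inv_mem hb) hb')
      have e3 : b⁻¹ * (w * b * w⁻¹) = 1 := e1.trans e2
      have ca : a * w = w * a := by
        have e4 : a = w * a * w⁻¹ := mul_inv_eq_one.1 e2
        calc a * w = (w * a * w⁻¹) * w := by rw [← e4]
          _ = w * a := by group
      have cb : b * w = w * b := by
        calc b * w = b * (b⁻¹ * (w * b * w⁻¹)) * w := by rw [e3]; group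
          _ = w * b := by group
      have a1 : a = 1 := vinf B hx hx1 hw.1 hw.2.1 ha ((B.loc.mem w ow a).2 ⟨ca, sq x hx hx1 a ha⟩)
      have b1 : b = 1 := vinf B hy.1 (nb1 y hy) hw.1 hwy hb
        ((B.loc.mem w ow b).2 ⟨cb, sq y hy.1 (nb1 y hy) b hb⟩)
      rw [a1, b1, mul_one]
    have hEQ : V y ⊔ V x ≤ Q := sup_le (nbQ y hy) hxQ
    have hwE : ¬ V w ≤ V y ⊔ V x := fun h => hw.2.2.1 (by rw [← hE, inf_eq_left.2 h])
    have hlt : V y ⊔ V x < Q := lt_of_le_of_ne hEQ fun h => hwE (h ▸ nbQ w hw)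
    have hPE : B.P ≤ 𝒩((V y ⊔ V x : Subgroup G)) := le_norm_sup (B.PV y hy.1) (B.PV x hx)
    have hN : V w ≤ 𝒩((V y ⊔ V x : Subgroup G)) := by
      by_contra hn
      refine (lt_inf_normalizer_of_isPGroup hQ2 hlt).not_ge (gen _ inf_le_left
        (le_norm_inf hPQ (hPE.trans le_normalizer)) _ le_sup_right fun z hz hzH => ?_)
      rcases h2 z hz with h | h
      · rw [vzp oy h (nb1 z hz)]; exact le_sup_left
      · rw [vzp ow h (nb1 z hz)] at hzH
        exact absurd (hzH.trans inf_le_right) hn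
    have : Q = V w ⊔ (V y ⊔ V x) := le_antisymm (gen Q le_rfl hPQ _ (le_sup_right.trans le_sup_right) fun z hz _ => by
      rcases h2 z hz with h | h
      · rw [vzp oy h (nb1 z hz)]; exact le_sup_left.trans le_sup_right
      · rw [vzp ow h (nb1 z hz)]; exact le_sup_left) (sup_le (nbQ w hw) hEQ)
    rw [hcard, this, card_sup_of_inf_eq_bot hN hE, c4 w hw, c16 y hy]

end CL.T3
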