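/-
Project T3 (helper69), job T3-FL2 (helper74): the filters for `L₂(q)` and `L₃(q)`.
-/
import Cfsg.Agent.T3.Defs
import Cfsg.Agent.S0254
import Cfsg.Agent.Cls.SL2Tori

set_option autoImplicit false
set_option linter.unusedSectionVars false
open Cfsg Subgroup CL.Even CL.Grp

namespace CL.T3

universe u

namespace FL2

open Matrix MatrixGroups

theorem base {G : Type u} [Group G] [Finite G] (h : Loc G) {X : Type*} [Group X] (e : G ≃* X) :
    9 ∣ Nat.card X ∧ ¬ 27 ∣ Nat.card X ∧ ∀ g : X, 3 ∣ orderOf g → orderOf g = 3 ∨ orderOf g = 6 := by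
  rw [← Nat.card_congr e.toEquiv]
  obtain ⟨s, hs⟩ := h.ex
  refine ⟨(Dvd.intro _ (h.cC s hs).symm).trans (card_subgroup_dvd_card _), h.not27, fun g => ?_⟩
  rw [← e.symm.orderOf_eq g]
  exact h.ord _

theorem pow3 {F : Type} [Field F] [Fintype F] (h : 3 ∣ Fintype.card F) : ∃ n, 1 ≤ n ∧ Fintype.card F = 3 ^ n := by
  obtain ⟨p, -, n, hp, e⟩ := FiniteField.card' F
  rw [e] at h
  obtain rfl := (Nat.prime_dvd_prime_iff_eq Nat.prime_three hp).1 (Nat.prime_three.dvd_of_dvd_pow h)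
  exact ⟨n, n.2, e⟩

variable {F : Type} [Field F]

/-- the diagonal matrices of determinant one -/
def dm (x : Fˣ × Fˣ) : Matrix (Fin 3) (Fin 3) F := diagonal ![x.1, x.2, ((x.1 * x.2)⁻¹ : Fˣ)]

theorem dm_det (x : Fˣ × Fˣ) : (dm x).det = 1 := by
  simp [dm, Fin.prod_univ_three]
  field_simp

theorem dm_mul (x y : Fˣ × Fˣ) : dm (x * y) = dm x * dm y := by
  rw [dm, dm, dm, diagonal_mul_diagonal]
  congr 1
  ext i
  fin_cases i <;> simp [mul_comm, mul_left_comm, mul_assoc]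

def dg : Fˣ × Fˣ →* SL(3, F) := MonoidHom.mk' (fun x => ⟨dm x, dm_det x⟩) fun x y => Subtype.ext (dm_mul x y)

theorem dg_cen {x : Fˣ × Fˣ} (h : dg x ∈ center SL(3, F)) : x.1 = (x.1 * x.2)⁻¹ := by
  obtain ⟨r, -, e⟩ := Matrix.SpecialLinearGroup.mem_center_iff.1 h
  have e' : scalar (Fin 3) r = dm x := e
  have e0 := congrFun (congrFun e' 0) 0
  have e2 := congrFun (congrFun e' 2) 2
  simp only [scalar_apply, diagonal_apply_eq, dm] at e0 e2
  exact Units.ext (e0.symm.trans e2)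

/-- an element of order 3 -/
def wm (F : Type) [Field F] : Matrix (Fin 3) (Fin 3) F := !![0, -1, 0; 1, -1, 0; 0, 0, 1]

def w3 : SL(3, F) := ⟨wm F, by simp [wm, det_fin_three]⟩

theorem w3_pow : (w3 : SL(3, F)) ^ 3 = 1 := Subtype.ext (by
  change wm F ^ 3 = 1
  ext i j
  fin_cases i <;> fin_cases j <;> simp [wm, pow_succ, Matrix.mul_apply, Fin.sum_univ_three])

theorem w3_cen : (w3 : SL(3, F)) ∉ center SL(3, F) := fun h => by
  obtain ⟨r, -, e⟩ := Matrix.SpecialLinearGroup.mem_center_iff.1 h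
  have e' : scalar (Fin 3) r = wm F := e
  simpa [wm] using congrFun (congrFun e' 1) 0

theorem w3_comm (a : Fˣ) : Commute (w3 : SL(3, F)) (dg (a, a)) := Subtype.ext (by
  change wm F * dm (a, a) = dm (a, a) * wm F
  ext i j
  fin_cases i <;> fin_cases j <;> simp [wm, dm, Matrix.mul_apply, Fin.sum_univ_three])

end FL2

open FL2 in
theorem fl2S : FL2S.{u} := by
  intro G _ _ h F _ _ ⟨e⟩
  obtain ⟨h9, h27, ho⟩ := base h e
  have c := CL.SLn.card_PSL_mul (ι := Fin 2) (F := F)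
  rw [CL.SLn.card_SL_two, Fintype.card_fin] at c
  have d2 : Nat.gcd 2 (Fintype.card F - 1) ∣ 2 := Nat.gcd_dvd_left _ _
  have q1 : 1 < Fintype.card F := Fintype.one_lt_card
  have k9 := c ▸ h9.mul_left (Nat.gcd 2 (Fintype.card F - 1))
  by_cases h3 : 3 ∣ Fintype.card F
  · obtain ⟨n, n1, hn⟩ := pow3 h3
    have k1 : Nat.Coprime 9 (Fintype.card F ^ 2 - 1) := Nat.Coprime.pow_left 2
      ((Nat.Prime.coprime_iff_not_dvd Nat.prime_three).2 fun k => by
        have := (Nat.dvd_sub_iff_right (Nat.one_le_pow _ _ (by omega)) (h3.trans (dvd_pow_self _ two_ne_zero))).1 k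
        omega)
    have k2 : 2 ≤ n := (Nat.pow_dvd_pow_iff_le_right (by norm_num : 1 < 3)).1 (hn ▸ k1.dvd_of_dvd_mul_right k9)
    have k3 : ¬ 3 ≤ n := fun k => h27 (Nat.Coprime.dvd_of_dvd_mul_left (Nat.Coprime.coprime_dvd_right d2 (by norm_num))
      (c ▸ (hn ▸ pow_dvd_pow 3 k : 3 ^ 3 ∣ Fintype.card F).mul_right _))
    obtain ⟨e'⟩ := Cfsg.Agent.S0254.result (F := F) (by rw [hn, show n = 2 by omega]; rfl)
    exact ⟨e.trans e'⟩
  · exfalso
    have k1 : Nat.Coprime 9 (Fintype.card F) := Nat.Coprime.pow_left 2 ((Nat.Prime.coprime_iff_not_dvd Nat.prime_three).2 h3)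
    have k2 := k1.dvd_of_dvd_mul_left k9
    rw [← one_pow 2, Nat.sq_sub_sq] at k2
    obtain ⟨t, ht⟩ : ∃ t : Matrix.SpecialLinearGroup (Fin 2) F, 9 ∣ orderOf t := by
      by_cases k : 3 ∣ Fintype.card F + 1
      · obtain ⟨t, ht⟩ := CL.SL2.exists_sl_orderOf_add_one (F := F)
        exact ⟨t, ht ▸ Nat.Coprime.dvd_of_dvd_mul_right (Nat.Coprime.pow_left 2
          ((Nat.Prime.coprime_iff_not_dvd Nat.prime_three).2 (by omega))) k2⟩
      · obtain ⟨t, ht⟩ := CL.SL2.exists_sl_orderOf_sub_one (F := F)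
        exact ⟨t, ht ▸ Nat.Coprime.dvd_of_dvd_mul_left (Nat.Coprime.pow_left 2
          ((Nat.Prime.coprime_iff_not_dvd Nat.prime_three).2 k)) k2⟩
    have k3 : t ^ orderOf (t : Matrix.ProjectiveSpecialLinearGroup (Fin 2) F) ∈ center _ :=
      (QuotientGroup.eq_one_iff _).1 (by rw [QuotientGroup.mk_pow, pow_orderOf_eq_one])
    have k4 : orderOf (t ^ orderOf (t : Matrix.ProjectiveSpecialLinearGroup (Fin 2) F)) ∣ 2 :=
      (Subgroup.orderOf_dvd_natCard _ k3).trans (by rw [CL.SLn.card_center_SL, Fintype.card_fin]; exact d2)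
    rw [orderOf_dvd_iff_pow_eq_one, ← pow_mul, ← orderOf_dvd_iff_pow_eq_one] at k4
    have k5 := Nat.Coprime.dvd_of_dvd_mul_right (by norm_num) (ht.trans k4)
    rcases ho _ ((by norm_num : 3 ∣ 9).trans k5) with e1 | e1 <;> rw [e1] at k5 <;> omega

open FL2 in
theorem fl3S : FL3S.{u} := by
  intro G _ _ h F _ _ ⟨e⟩
  obtain ⟨h9, h27, ho⟩ := base h e
  have c := CL.SLn.card_PSL_mul (ι := Fin 3) (F := F)
  rw [CL.SLn.card_SL_three, Fintype.card_fin] at c
  have q1 : 1 < Fintype.card F := Fintype.one_lt_card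
  obtain ⟨a, ha⟩ := IsCyclic.exists_ofOrder_eq_natCard (α := Fˣ)
  rw [CL.SLn.card_units] at ha
  let π := QuotientGroup.mk' (center (Matrix.SpecialLinearGroup (Fin 3) F))
  have cen : ∀ (x : Fˣ × Fˣ) (k : ℕ), π (dg x) ^ k = 1 → x.1 ^ k = (x.1 ^ k * x.2 ^ k)⁻¹ := fun x k hk =>
    dg_cen (x := x ^ k) ((QuotientGroup.eq_one_iff _).1 (by rwa [← map_pow, ← map_pow] at hk))
  by_cases h1 : 3 ∣ Fintype.card F - 1
  · have k1 := cen (a, a⁻¹) _ (pow_orderOf_eq_one _)
    rw [inv_pow, mul_inv_cancel, inv_one, ← orderOf_dvd_iff_pow_eq_one, ha] at k1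
    rcases ho _ (h1.trans k1) with e1 | e1 <;> rw [e1] at k1 <;> have := Nat.le_of_dvd (by norm_num) k1 <;> omega
  exfalso
  rw [((Nat.Prime.coprime_iff_not_dvd Nat.prime_three).2 h1).gcd_eq_one, one_mul] at c
  by_cases h3 : 3 ∣ Fintype.card F
  · exact h27 (c ▸ (pow_dvd_pow_of_dvd h3 3).mul_right _)
  have o1 : orderOf (π w3) = 3 := orderOf_eq_prime (by rw [← map_pow, w3_pow, map_one])
    fun k => w3_cen ((QuotientGroup.eq_one_iff _).1 k)
  have o2 : orderOf (π (dg (a, a))) ∣ Fintype.card F - 1 := (orderOf_map_dvd π _).trans ((orderOf_map_dvd dg _).trans (by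
    rw [Prod.orderOf_mk, Nat.lcm_self, ha]))
  have o3 := ((w3_comm a).map π).orderOf_mul_eq_mul_orderOf_of_coprime
    (by rw [o1]; exact Nat.Coprime.coprime_dvd_right o2 ((Nat.Prime.coprime_iff_not_dvd Nat.prime_three).2 h1))
  rw [o1] at o3
  have o4 : orderOf (π (dg (a, a))) ∣ 2 := by
    rcases ho _ (Dvd.intro _ o3.symm) with e1 | e1 <;> rw [o3] at e1
    · rw [show orderOf (π (dg (a, a))) = 1 by omega]; norm_num
    · rw [show orderOf (π (dg (a, a))) = 2 by omega]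
  have k1 := cen (a, a) 2 (orderOf_dvd_iff_pow_eq_one.1 o4)
  rw [eq_inv_iff_mul_eq_one, ← pow_add, ← pow_add, ← orderOf_dvd_iff_pow_eq_one, ha] at k1
  have k2 := Nat.le_of_dvd (by norm_num) k1
  have k3 : Fintype.card F = 2 := by
    generalize Fintype.card F = q at *
    have : q ≤ 7 := by omega
    interval_cases q <;> omega
  rw [c, k3] at h9
  omega

end CL.T3
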