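/-
Project T3, step G0: a pair `(g, t)` with maximal intersection `R ⊓ R^g`.
-/
import Cfsg.Agent.T3.Defs

set_option autoImplicit false
set_option linter.unusedSectionVars false
open Cfsg Subgroup CL.Even CL.Grp

namespace CL.T3

universe u

namespace G0
variable {G : Type u} [Group G]

theorem el_cj {R : Subgroup G} (h : El R) (g : G) : El (cj g R) := by
  intro a ha
  have h1 := h _ (mem_cj.1 ha)
  calc a * a = g * (g⁻¹ * a * g * (g⁻¹ * a * g)) * g⁻¹ := by group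
    _ = 1 := by rw [h1]; group

theorem el_isP {R : Subgroup G} (h : El R) : IsPGroup 2 R :=
  isPGroup_iff_forall.2 fun x hx => ⟨1, by rw [pow_one, pow_two]; exact h x hx⟩

/-- weak closure passes to conjugates -/
theorem wc_cj {R : Subgroup G} (wc : ∀ g : G, cj g R ≤ 𝒩(R) → cj g R = R) (h g : G)
    (hg : cj g (cj h R) ≤ 𝒩(cj h R)) : cj g (cj h R) = cj h R := by
  rw [← cj_norm, le_cj_iff, ← cj_mul, ← cj_mul] at hg
  have h1 : cj h (cj (h⁻¹ * g * h) R) = cj h R := by rw [wc _ hg]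
  rw [← cj_mul] at h1
  rw [← cj_mul, ← h1]
  congr 1
  group

/-- a weakly closed subgroup is normalised by every 2-group containing it -/
theorem le_norm_of_wc [Finite G] {T S : Subgroup G} (wc : ∀ g : G, cj g T ≤ 𝒩(T) → cj g T = T)
    (hS : IsPGroup 2 S) (hTS : T ≤ S) : S ≤ 𝒩(T) := by
  by_contra hn
  have hlt : S ⊓ 𝒩(T) < S := lt_of_le_of_ne inf_le_left fun h => hn (h ▸ inf_le_right)
  have h2 := lt_inf_normalizer_of_isPGroup hS hlt
  obtain ⟨s, hs, hs'⟩ := SetLike.exists_of_lt h2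
  apply hs'
  refine ⟨hs.1, ?_⟩
  have hTU : T ≤ S ⊓ 𝒩(T) := le_inf hTS le_normalizer
  have h3 : cj s T ≤ 𝒩(T) := (cj_le_of_le hTU hs.2).trans inf_le_right
  exact cj_eq_iff_mem.1 (wc s h3)

/-- the commutator map `y ↦ [y, t]` on an elementary abelian `R` normalised by `t` -/
def cm {R : Subgroup G} (el : El R) {t : G} (ht : t ∈ 𝒩(R)) : R →* G where
  toFun y := (y : G) * t * (y : G)⁻¹ * t⁻¹
  map_one' := by simp
  map_mul' y z := by
    have h1 : t * (y : G)⁻¹ * t⁻¹ ∈ R := conj_mem ht (R.inv_mem y.2)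
    have h2 : (z : G) * (t * (z : G)⁻¹ * t⁻¹) ∈ R := R.mul_mem z.2 (conj_mem ht (R.inv_mem z.2))
    have h3 := el.comm h2 h1
    simp only [coe_mul]
    calc (y : G) * z * t * ((y : G) * z)⁻¹ * t⁻¹
        = y * ((z : G) * (t * (z : G)⁻¹ * t⁻¹) * (t * (y : G)⁻¹ * t⁻¹)) := by group
      _ = _ := by rw [h3]; group

theorem cm_apply {R : Subgroup G} (el : El R) {t : G} (ht : t ∈ 𝒩(R)) (y : R) :
    cm el ht y = (y : G) * t * (y : G)⁻¹ * t⁻¹ := rfl

theorem cm_range {R : Subgroup G} (el : El R) {t : G} (ht : t ∈ 𝒩(R)) (tt : t * t = 1) :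
    (cm el ht).range ≤ R ⊓ C1 t := by
  rintro _ ⟨y, rfl⟩
  have h1 : t * (y : G)⁻¹ * t⁻¹ ∈ R := conj_mem ht (R.inv_mem y.2)
  have h2 : (y : G) * (t * (y : G)⁻¹ * t⁻¹) ∈ R := R.mul_mem y.2 h1
  have ti : t⁻¹ = t := inv_eq_of_mul_eq_one_right tt
  have yi : (y : G)⁻¹ = y := inv_eq_of_mul_eq_one_right (el _ y.2)
  have h3 := el.comm y.2 h1
  rw [cm_apply]
  refine mem_inf.2 ⟨by simpa only [mul_assoc] using h2, mem_C1.2 ?_⟩
  rw [yi] at h3 ⊢
  calc (y : G) * t * y * t⁻¹ * t = y * t * y := by group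
    _ = (t * t) * y * t⁻¹ * y := by rw [tt, ti, one_mul]
    _ = t * (t * y * t⁻¹ * y) := by group
    _ = _ := by rw [← h3]; group

/-- the counting step -/
theorem count [Finite G] {R D : Subgroup G} (el : El R) {t : G} (ht : t ∈ 𝒩(R)) (tt : t * t = 1)
    (hD : D ≤ R ⊓ C1 t) : ∃ B : Subgroup G, B ≤ R ∧ (∀ y ∈ B, y * t * y⁻¹ * t⁻¹ ∈ D) ∧
      Nat.card R * Nat.card D ≤ Nat.card B * Nat.card (R ⊓ C1 t : Subgroup G) := by
  refine ⟨(D.comap (cm el ht)).map R.subtype, map_subtype_le _, ?_, ?_⟩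
  · rintro _ ⟨y, hy, rfl⟩
    exact hy
  · rw [card_map_of_injective R.subtype_injective, ← (D.comap (cm el ht)).card_mul_index, index_comap]
    have h1 : D.relIndex (cm el ht).range ≤ D.relIndex (R ⊓ C1 t) :=
      relIndex_le_of_le_right (cm_range el ht tt) index_ne_zero_of_finite
    have h2 : Nat.card D * D.relIndex (R ⊓ C1 t) = Nat.card (R ⊓ C1 t : Subgroup G) := by
      rw [← (D.subgroupOf (R ⊓ C1 t)).card_mul_index, Nat.card_congr (subgroupOfEquivOfLe hD).toEquiv]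
      rfl
    rw [← h2, mul_assoc, mul_comm _ (Nat.card D)]
    exact Nat.mul_le_mul_left _ (Nat.mul_le_mul_left _ h1)

end G0

open G0 in
theorem g0S : G0S.{u} := by
  intro G _ _ R M el RM wc hex MN
  obtain ⟨g, ⟨t, htg, htM, htR⟩, hmax⟩ := Set.exists_max_image {g : G | ∃ t : G, t ∈ cj g R ∧ t ∈ M ∧ t ∉ R}
    (fun g => Nat.card (R ⊓ cj g R : Subgroup G)) (Set.toFinite _) hex
  have elS : El (cj g R) := el_cj el g
  have tt : t * t = 1 := elS t htg
  have hD : R ⊓ cj g R ≤ R ⊓ C1 t := fun d hd => mem_inf.2 ⟨hd.1, mem_C1.2 (elS.comm hd.2 htg)⟩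
  obtain ⟨B, BR, hB, hc⟩ := count el (MN htM) tt hD
  set E : Subgroup G := (R ⊓ cj g R) ⊔ zpowers t with hE
  have tE : t ∈ E := mem_sup_right (mem_zpowers t)
  have ES : E ≤ cj g R := sup_le inf_le_right ((zpowers_le).2 htg)
  have SK : cj g R ≤ 𝒩(E) := by
    refine le_trans ?_ (cent_le_norm E)
    intro a ha
    exact mem_centralizer_iff.2 fun b hb => elS.comm (ES hb) ha
  have BK : B ≤ 𝒩(E) := by
    refine le_norm_of_cj_le fun y hy => ?_
    rw [hE, cj_sup]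
    refine sup_le ?_ ?_
    · rw [cj_eq_of_mem_cent]
      · exact le_sup_left
      · exact mem_centralizer_iff.2 fun b hb => el.comm hb.1 (BR hy)
    · rw [MonoidHom.map_zpowers, zpowers_le]
      have h1 : y * t * y⁻¹ * t⁻¹ * t ∈ E := E.mul_mem (mem_sup_left (hB y hy)) tE
      rw [inv_mul_cancel_right] at h1
      exact h1
  obtain ⟨S, hS, BS⟩ := exists_isSylowIn_ge ((el_isP el).to_le BR) BK
  obtain ⟨k, hk, hkS⟩ := syl_conj_le hS (el_isP elS) SK
  rw [← cj_mul] at hkS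
  have htk : t ∈ cj (k * g) R := by
    rw [cj_mul]
    refine cj_mono k ES ?_
    rw [cj_eq hk]
    exact tE
  have SN : S ≤ 𝒩(cj (k * g) R) := le_norm_of_wc (wc_cj wc (k * g)) hS.isPGroup hkS
  refine ⟨k * g, t, B, htk, htM, htR, BR, BS.trans SN, le_trans (Nat.mul_le_mul_left _ ?_) hc⟩
  exact (card_le_of_le (inf_le_inf_right _ BR)).trans (hmax (k * g) ⟨t, htk, htM, htR⟩)

end CL.T3
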