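/-
Project T3 (S3253): the neighbour graph on the four subgroups of order 3 of `P`.
-/
import Cfsg.Agent.T3.Defs2

set_option autoImplicit false
set_option linter.unusedSectionVars false
open Cfsg Subgroup CL.Even CL.Grp

namespace CL.T3

universe u

namespace Gr
variable {G : Type u} [Group G] [Finite G]

theorem zp3 {p z : G} (hp : orderOf p = 3) (hz : z ∈ zpowers p) : z = 1 ∨ z = p ∨ z = p⁻¹ := by
  classical
  rw [mem_zpowers_iff_mem_range_orderOf, hp] at hz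
  simp only [Finset.mem_image, Finset.mem_range] at hz
  obtain ⟨k, hk, rfl⟩ := hz
  have h3 : p ^ 3 = 1 := hp ▸ pow_orderOf_eq_one p
  interval_cases k
  · left; simp
  · right; left; simp
  · right; right
    rw [eq_inv_iff_mul_eq_one, ← pow_succ, h3]

theorem Vz {p z : G} (hp : orderOf p = 3) (hz : z ∈ zpowers p) (h1 : z ≠ 1) : V z = V p ∧ zpowers z = zpowers p := by
  rcases zp3 hp hz with h | rfl | rfl
  · exact absurd h h1
  · exact ⟨rfl, rfl⟩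
  · exact ⟨V_inv p, zpowers_inv⟩

theorem ne1 {p z : G} (hz : z ∉ zpowers p) : z ≠ 1 := fun h => hz (h ▸ one_mem _)

theorem Vself (L : Loc G) {x : G} (hx : orderOf x = 3) : V x ≤ 𝒞(V x) := by
  have hE : El (V x) := fun a ha => ((L.mem x hx a).1 ha).2
  intro a ha
  rw [mem_centralizer_iff]
  intro b hb
  exact hE.comm hb ha

theorem csym {A C : Subgroup G} (h : A ≤ 𝒞(C)) : C ≤ 𝒞(A) := le_centralizer_iff.1 h

theorem mem_zp_conj {g x z : G} : g * z * g⁻¹ ∈ zpowers (g * x * g⁻¹) ↔ z ∈ zpowers x := by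
  constructor
  · rintro ⟨k, hk⟩
    refine ⟨k, ?_⟩
    simp only [conj_zpow] at hk
    have := mul_right_cancel hk
    exact mul_left_cancel this
  · rintro ⟨k, rfl⟩
    exact ⟨k, by simp only [conj_zpow]⟩

variable (B : Bs G)

theorem nsym {x y : G} (hx1 : x ≠ 1) (hy : y ∈ B.P) (h : y ∉ zpowers x) : x ∉ zpowers y := fun h' =>
  h ((Vz (B.o3 y hy (ne1 h)) h' hx1).2 ▸ mem_zpowers y)

theorem nb_conj {x y : G} (h : B.Nb x y) : B.Nb (B.f * x * B.f⁻¹) (B.f * y * B.f⁻¹) := by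
  obtain ⟨h1, h2, h3, h4⟩ := h
  refine ⟨conj_mem B.fN h1, fun h => h2 (mem_zp_conj.1 h), ?_, ?_⟩
  · rw [V_conj]; exact fun h => h3 (cj_eq_bot.1 h)
  · rw [V_conj, V_conj, ← cj_cent]; exact cj_mono _ h4

theorem nb_of {x y z : G} (_hx : x ∈ B.P) (_hx1 : x ≠ 1) (h : B.Nb x y) (hz : z ∈ zpowers y) (hzx : z ∉ zpowers x) :
    B.Nb x z := by
  obtain ⟨h1, h2, h3, h4⟩ := h
  have := Vz (B.o3 y h1 (ne1 h2)) hz (ne1 hzx)
  exact ⟨zpowers_le.2 h1 hz, hzx, this.1 ▸ h3, this.1 ▸ h4⟩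

/-- four pairwise different vertices cover `P` -/
theorem cover {x y w z : G} (hx : x ∈ B.P) (hx1 : x ≠ 1) (hy : y ∈ B.P) (hw : w ∈ B.P) (hz : z ∈ B.P)
    (yx : y ∉ zpowers x) (wx : w ∉ zpowers x) (zx : z ∉ zpowers x) (wy : w ∉ zpowers y) (zy : z ∉ zpowers y)
    (zw : z ∉ zpowers w) {r : G} (hr : r ∈ B.P) :
    r ∈ zpowers x ∨ r ∈ zpowers y ∨ r ∈ zpowers w ∨ r ∈ zpowers z := by
  have a1 : x * y ≠ 1 := fun h => yx (by rw [← inv_eq_of_mul_eq_one_right h]; exact inv_mem (mem_zpowers x))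
  have a2 : x * y⁻¹ ≠ 1 := fun h => yx (by rw [← mul_inv_eq_one.1 h]; exact mem_zpowers x)
  have o1 := B.o3 _ (mul_mem hx hy) a1
  have o2 := B.o3 _ (mul_mem hx (inv_mem hy)) a2
  have hw' := ((B.four x hx hx1 y hy yx w hw).resolve_left wx).resolve_left wy
  have hz' := ((B.four x hx hx1 y hy yx z hz).resolve_left zx).resolve_left zy
  rcases B.four x hx hx1 y hy yx r hr with h | h | h
  · exact Or.inl h
  · exact Or.inr (Or.inl h)
  right; right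
  rcases hw' with hw' | hw' <;> rcases hz' with hz' | hz'
  · exact absurd ((Vz o1 hw' (ne1 wx)).2 ▸ hz') zw
  · rw [(Vz o1 hw' (ne1 wx)).2, (Vz o2 hz' (ne1 zx)).2]; exact h
  · rw [(Vz o2 hw' (ne1 wx)).2, (Vz o1 hz' (ne1 zx)).2]; exact h.symm
  · exact absurd ((Vz o2 hw' (ne1 wx)).2 ▸ hz') zw

/-- all other vertices are neighbours -/
def Full (x : G) : Prop := x ∈ B.P ∧ x ≠ 1 ∧ V x ≠ ⊥ ∧ ∀ z ∈ B.P, z ∉ zpowers x → B.Nb x z

theorem conj_ne {g x : G} (h : x ≠ 1) : g * x * g⁻¹ ≠ 1 := fun h' => h (by simpa using h')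

theorem full_conj {x : G} (h : Full B x) : Full B (B.f * x * B.f⁻¹) := by
  obtain ⟨h1, h2, h3, h4⟩ := h
  refine ⟨conj_mem B.fN h1, conj_ne h2, ?_, fun z hz hzx => ?_⟩
  · rw [V_conj]; exact fun h => h3 (cj_eq_bot.1 h)
  · have e : z = B.f * (B.f⁻¹ * z * B.f) * B.f⁻¹ := by group
    rw [e] at hzx ⊢
    exact nb_conj B (h4 _ (conj_mem' B.fN hz) fun h => hzx (mem_zp_conj.2 h))

theorem full_all {x : G} (h : Full B x) {z : G} (hz : z ∈ B.P) (hz1 : z ≠ 1) : V z ≠ ⊥ ∧ V z ≤ 𝒞(V x) := by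
  obtain ⟨h1, h2, h3, h4⟩ := h
  by_cases hzx : z ∈ zpowers x
  · rw [(Vz (B.o3 x h1 h2) hzx hz1).1]
    exact ⟨h3, Vself B.loc (B.o3 x h1 h2)⟩
  · exact ⟨(h4 z hz hzx).2.2.1, (h4 z hz hzx).2.2.2⟩

theorem case1 {x : G} (h : Full B x) : Nonempty (CC G) ∨ Nonempty (CD G) := by
  have hy := full_conj B h
  obtain ⟨y, hyd⟩ : ∃ y, y = B.f * x * B.f⁻¹ := ⟨_, rfl⟩
  rw [← hyd] at hy
  have yx : y ∉ zpowers x := hyd ▸ B.fmov x h.1 h.2.1
  by_cases huw : V (x * y⁻¹) ≤ 𝒞(V (x * y))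
  · right
    have a1 : x * y ≠ 1 := fun h => yx (by rw [← inv_eq_of_mul_eq_one_right h]; exact inv_mem (mem_zpowers x))
    have a2 : x * y⁻¹ ≠ 1 := fun h => yx (by rw [← mul_inv_eq_one.1 h]; exact mem_zpowers x)
    have o1 := B.o3 _ (mul_mem h.1 hy.1) a1
    have o2 := B.o3 _ (mul_mem h.1 (inv_mem hy.1)) a2
    have ox := B.o3 _ h.1 h.2.1
    have oy := B.o3 _ hy.1 hy.2.1
    refine ⟨{ toBs := B, nt := fun z hz hz1 => (full_all B h hz hz1).1, cm4 := fun z hz hz1 w hw hw1 => ?_ }⟩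
    rcases B.four x h.1 h.2.1 y hy.1 yx z hz with a | a | a
    · rw [(Vz ox a hz1).1]; exact (full_all B h hw hw1).2
    · rw [(Vz oy a hz1).1]; exact (full_all B hy hw hw1).2
    rcases B.four x h.1 h.2.1 y hy.1 yx w hw with b | b | b
    · rw [(Vz ox b hw1).1]; exact csym (full_all B h hz hz1).2
    · rw [(Vz oy b hw1).1]; exact csym (full_all B hy hz hz1).2
    rcases a with a | a <;> rcases b with b | b
    · rw [(Vz o1 a hz1).1, (Vz o1 b hw1).1]; exact Vself B.loc o1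
    · rw [(Vz o1 a hz1).1, (Vz o2 b hw1).1]; exact huw
    · rw [(Vz o2 a hz1).1, (Vz o1 b hw1).1]; exact csym huw
    · rw [(Vz o2 a hz1).1, (Vz o2 b hw1).1]; exact Vself B.loc o2
  · left
    exact ⟨{ toBs := B, x := x, y := y, hx := h.1, x1 := h.2.1, yf := hyd,
             nt := fun z hz hz1 => (full_all B h hz hz1).1, cx := fun z hz hz1 => (full_all B h hz hz1).2,
             cy := fun z hz hz1 => (full_all B hy hz hz1).2, uw := huw }⟩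

theorem two_nb {x y w : G} (hx : x ∈ B.P) (hx1 : x ≠ 1) (hV : V x ≠ ⊥) (hn : ¬ Full B x) (hy : B.Nb x y)
    (hw : B.Nb x w) (wy : w ∉ zpowers y) (z : G) (hz : B.Nb x z) : z ∈ zpowers y ∨ z ∈ zpowers w := by
  by_contra hc
  rw [not_or] at hc
  refine hn ⟨hx, hx1, hV, fun r hr hrx => ?_⟩
  rcases cover B hx hx1 hy.1 hw.1 hz.1 hy.2.1 hw.2.1 hz.2.1 wy hc.1 hc.2 hr with h | h | h | h
  · exact absurd h hrx
  · exact nb_of B hx hx1 hy h hrx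
  · exact nb_of B hx hx1 hw h hrx
  · exact nb_of B hx hx1 hz h hrx

theorem deg_le (hD : DegS.{u}) {x : G} (hx : x ∈ B.P) (hx1 : x ≠ 1) (hV : V x ≠ ⊥) (hn : ¬ Full B x) :
    Nat.card 𝒞(V x) ≤ 192 := by
  obtain ⟨d0, d1, d2⟩ := hD G B x hx hx1 hV
  by_cases h0 : ∀ y, ¬ B.Nb x y
  · rw [d0 h0]; norm_num
  push Not at h0
  obtain ⟨y, hy⟩ := h0
  by_cases h1 : ∀ z, B.Nb x z → z ∈ zpowers y
  · rw [d1 y hy h1]; norm_num
  push Not at h1
  obtain ⟨w, hw, wy⟩ := h1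
  rw [d2 y w hy hw wy (two_nb B hx hx1 hV hn hy hw wy)]

/-- the vertices other than `m` are non-trivial and pairwise adjacent -/
def Cl (m : G) : Prop := ∀ a ∈ B.P, a ∉ zpowers m → ∀ b ∈ B.P, b ∉ zpowers m → V a ≠ ⊥ ∧ V b ≤ 𝒞(V a)

theorem cl_conj {m : G} (h : Cl B m) : Cl B (B.f * m * B.f⁻¹) := by
  intro a ha ham b hb hbm
  have ea : a = B.f * (B.f⁻¹ * a * B.f) * B.f⁻¹ := by group
  have eb : b = B.f * (B.f⁻¹ * b * B.f) * B.f⁻¹ := by group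
  rw [ea] at ham ⊢
  rw [eb] at hbm
  obtain ⟨h1, h2⟩ := h _ (conj_mem' B.fN ha) (fun h => ham (mem_zp_conj.2 h)) _ (conj_mem' B.fN hb)
    (fun h => hbm (mem_zp_conj.2 h))
  refine ⟨?_, ?_⟩
  · rw [V_conj]; exact fun h => h1 (cj_eq_bot.1 h)
  · rw [eb, V_conj, V_conj, ← cj_cent]; exact cj_mono _ h2

theorem cl_full {m : G} (hm : m ∈ B.P) (hm1 : m ≠ 1) (h : Cl B m) : ∃ s, Full B s := by
  have h' := cl_conj B h
  obtain ⟨n, hnd⟩ : ∃ n, n = B.f * m * B.f⁻¹ := ⟨_, rfl⟩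
  rw [← hnd] at h'
  have nm : n ∉ zpowers m := hnd ▸ B.fmov m hm hm1
  have hn : n ∈ B.P := hnd ▸ conj_mem B.fN hm
  have mn : m ∉ zpowers n := nsym B hm1 hn nm
  have s1 : m * n ∉ zpowers m := fun h => nm ((mul_mem_cancel_left (mem_zpowers m)).1 h)
  have s2 : m * n ∉ zpowers n := fun h => mn ((mul_mem_cancel_right (mem_zpowers n)).1 h)
  have hs := mul_mem hm hn
  refine ⟨m * n, hs, ne1 s1, (h _ hs s1 _ hs s1).1, fun z hz hzs => ?_⟩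
  by_cases hzm : z ∈ zpowers m
  · have zn : z ∉ zpowers n := fun hzn => by
      have e1 := (Vz (B.o3 m hm hm1) hzm (ne1 hzs)).2
      have e2 := (Vz (B.o3 n hn (ne1 nm)) hzn (ne1 hzs)).2
      exact nm (e1 ▸ e2 ▸ mem_zpowers n)
    exact ⟨hz, hzs, (h' _ hz zn _ hz zn).1, (h' _ hs s2 _ hz zn).2⟩
  · exact ⟨hz, hzs, (h _ hz hzm _ hz hzm).1, (h _ hs s1 _ hz hzm).2⟩

theorem case2 (hD : DegS.{u}) (hn : ∀ s, ¬ Full B s) {x y w : G} (hx : x ∈ B.P) (hx1 : x ≠ 1) (hV : V x ≠ ⊥)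
    (hy : B.Nb x y) (hw : B.Nb x w) (wy : w ∉ zpowers y) : Nonempty (CB G) := by
  refine ⟨{ toBs := B, x := x, y := y, w := w, hx := hx, x1 := hx1, hy := hy.1, hw := hw.1, yx := hy.2.1,
            wx := hw.2.1, wy := wy, Vx := hV, Vy := hy.2.2.1, Vw := hw.2.2.1, xy := hy.2.2.2, xw := hw.2.2.2,
            yw := fun hyw => ?_,
            c192 := (hD G B x hx hx1 hV).2.2 y w hy hw wy (two_nb B hx hx1 hV (hn x) hy hw wy),
            mx := fun z hz hz1 hzV => deg_le B hD hz hz1 hzV (hn z) }⟩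
  obtain ⟨m, hm, mx, hmn⟩ : ∃ m ∈ B.P, m ∉ zpowers x ∧ ¬ B.Nb x m := by
    by_contra hc
    push Not at hc
    exact hn x ⟨hx, hx1, hV, hc⟩
  have my : m ∉ zpowers y := fun h => hmn (nb_of B hx hx1 hy h mx)
  have mw : m ∉ zpowers w := fun h => hmn (nb_of B hx hx1 hw h mx)
  have ox := B.o3 x hx hx1
  have oy := B.o3 y hy.1 (ne1 hy.2.1)
  have ow := B.o3 w hw.1 (ne1 hw.2.1)
  have key : ∀ a ∈ B.P, a ∉ zpowers m → V a = V x ∨ V a = V y ∨ V a = V w := fun a ha ham => by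
    rcases cover B hx hx1 hy.1 hw.1 hm hy.2.1 hw.2.1 mx wy my mw ha with h | h | h | h
    · exact Or.inl (Vz ox h (ne1 ham)).1
    · exact Or.inr (Or.inl (Vz oy h (ne1 ham)).1)
    · exact Or.inr (Or.inr (Vz ow h (ne1 ham)).1)
    · exact absurd h ham
  obtain ⟨s, hs⟩ := cl_full B hm (ne1 mx) fun a ha ham b hb hbm => by
    rcases key a ha ham with e | e | e <;> rcases key b hb hbm with e' | e' | e' <;> rw [e, e']
    · exact ⟨hV, Vself B.loc ox⟩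
    · exact ⟨hV, hy.2.2.2⟩
    · exact ⟨hV, hw.2.2.2⟩
    · exact ⟨hy.2.2.1, csym hy.2.2.2⟩
    · exact ⟨hy.2.2.1, Vself B.loc oy⟩
    · exact ⟨hy.2.2.1, hyw⟩
    · exact ⟨hw.2.2.1, csym hw.2.2.2⟩
    · exact ⟨hw.2.2.1, csym hyw⟩
    · exact ⟨hw.2.2.1, Vself B.loc ow⟩
  exact hn s hs

theorem into {s : G} (hs : orderOf s = 3) (hV : V s ≠ ⊥) :
    ∃ x ∈ B.P, x ≠ 1 ∧ V x ≠ ⊥ ∧ Nat.card 𝒞(V x) = Nat.card 𝒞(V s) := by
  obtain ⟨g, hg⟩ := B.cj3 s hs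
  refine ⟨_, hg, conj_ne fun h => by rw [h, orderOf_one] at hs; omega, ?_, ?_⟩
  · rw [V_conj]; exact fun h => hV (cj_eq_bot.1 h)
  · rw [V_conj, ← cj_cent, card_cj]

end Gr

open Gr in
theorem grS (hD : DegS.{u}) : GrS.{u} := by
  intro G _ _ B hs
  by_cases h1 : ∃ x, Full B x
  · obtain ⟨x, hx⟩ := h1
    exact Or.inr (Or.inr (Or.inr (case1 B hx)))
  push Not at h1
  by_cases h2 : ∃ x ∈ B.P, x ≠ 1 ∧ V x ≠ ⊥ ∧ ∃ y w, B.Nb x y ∧ B.Nb x w ∧ w ∉ zpowers y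
  · obtain ⟨x, hx, hx1, hV, y, w, hy, hw, wy⟩ := h2
    exact Or.inr (Or.inr (Or.inl (case2 B hD h1 hx hx1 hV hy hw wy)))
  push Not at h2
  by_cases h3 : ∃ x ∈ B.P, x ≠ 1 ∧ V x ≠ ⊥ ∧ ∀ y, ¬ B.Nb x y
  · obtain ⟨x, hx, hx1, hV, h⟩ := h3
    exact Or.inl ⟨x, hx, hx1, hV, (hD G B x hx hx1 hV).1 h⟩
  push Not at h3
  obtain ⟨s, hs, hV⟩ := hs
  obtain ⟨x, hx, hx1, hxV, -⟩ := into B hs hV
  obtain ⟨y, hy⟩ := h3 x hx hx1 hxV
  refine Or.inr (Or.inl ⟨{ toBs := B, x := x, y := y, hx := hx, x1 := hx1, hy := hy.1, yx := hy.2.1, Vx := hxV,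
                           Vy := hy.2.2.1, xy := hy.2.2.2, c48 := fun z hz hzV => ?_ }⟩)
  obtain ⟨a, ha, ha1, haV, e⟩ := into B hz hzV
  obtain ⟨b, hb⟩ := h3 a ha ha1 haV
  rw [← e]
  exact (hD G B a ha ha1 haV).2.1 b hb fun c hc => h2 a ha ha1 haV b c hb hc

end CL.T3
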