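/-
Project T3 (S3253): local consequences of the hypothesis (job T3-Loc, helper27).
-/
import Cfsg.Agent.T3.Defs

set_option autoImplicit false
set_option linter.unusedSectionVars false
open Cfsg Subgroup CL.Even CL.Grp

namespace CL.T3

universe u

namespace Locx

abbrev Z3 := Multiplicative (ZMod 3)
abbrev A4 := ↥(alternatingGroup (Fin 4))

/-- the abstract shape of a centraliser -/
structure Ab (H : Type*) [Group H] : Prop where
  cl : ∀ y z : H, y * y = 1 → z * z = 1 → y * z * (y * z) = 1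
  six : ∀ y : H, y ^ 6 = 1
  card : Nat.card H = 9 * Nat.card {y : H // y * y = 1}
  inv : Nat.card {y : H // y * y = 1} = 1 ∨ Nat.card {y : H // y * y = 1} = 4
  thr : ∀ x y w : H, (∀ h, h * x = x * h) → x ≠ 1 → y ^ 3 = 1 → y ∉ zpowers x → w * y = y * w → w ^ 3 = 1

theorem Ab.congr {H H' : Type*} [Group H] [Group H'] (e : H ≃* H') (h : Ab H') : Ab H := by
  have c : Nat.card {y : H // y * y = 1} = Nat.card {y : H' // y * y = 1} :=
    Nat.card_congr (e.toEquiv.subtypeEquiv fun y => by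
      change _ ↔ e y * e y = 1
      rw [← map_mul, map_eq_one_iff e e.injective])
  refine ⟨fun y z hy hz => e.injective ?_, fun y => e.injective ?_, by rw [c, ← h.card, Nat.card_congr e.toEquiv],
    by rw [c]; exact h.inv, fun x y w hx x1 hy hyx hw => e.injective ?_⟩
  · simpa using h.cl (e y) (e z) (by rw [← map_mul, hy, map_one]) (by rw [← map_mul, hz, map_one])
  · simpa using h.six (e y)
  · rw [map_pow, map_one]
    refine h.thr (e x) (e y) (e w) (fun k => ?_) (by simpa using x1) (by rw [← map_pow, hy, map_one]) ?_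
      (by rw [← map_mul, hw, map_mul])
    · obtain ⟨k, rfl⟩ := e.surjective k
      rw [← map_mul, hx, map_mul]
    · rintro ⟨n, hn⟩
      exact hyx ⟨n, e.injective (by simpa using hn)⟩

theorem ab9 {H : Type*} [Group H] (hc : Nat.card H = 9) (h3 : ∀ g : H, g ^ 3 = 1) : Ab H := by
  have k : ∀ y : H, y * y = 1 → y = 1 := fun y hy => by
    have := h3 y
    rwa [pow_succ, sq, hy, one_mul] at this
  have c : Nat.card {y : H // y * y = 1} = 1 :=
    Nat.card_eq_one_iff_exists.2 ⟨⟨1, mul_one 1⟩, fun y => Subtype.ext (k _ y.2)⟩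
  refine ⟨fun y z hy hz => by simp [k y hy, k z hz], fun y => ?_, by rw [c, hc], Or.inl c, fun _ _ w _ _ _ _ _ => h3 w⟩
  rw [show 6 = 3 * 2 from rfl, pow_mul, h3, one_pow]

theorem z1 : ∀ x y : Z3, x ≠ 1 → y = 1 ∨ y = x ∨ y = x * x := by decide
theorem z2 : ∀ x : Z3, x ^ 3 = 1 := by decide
theorem a1 : ∀ a : A4, (∀ h, h * a = a * h) → a = 1 := by decide +kernel
theorem a2 : ∀ b w : A4, b ≠ 1 → b ^ 3 = 1 → w * b = b * w → w ^ 3 = 1 := by decide +kernel
theorem a3 : ∀ y z : A4, y * y = 1 → z * z = 1 → y * z * (y * z) = 1 := by decide +kernel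
theorem z3 : ∀ y z : Z3, y * y = 1 → z * z = 1 → y * z * (y * z) = 1 := by decide
theorem a4 : ∀ y : Z3 × A4, y ^ 6 = 1 := by decide +kernel
theorem c1 : Nat.card {y : Z3 × A4 // y * y = 1} = 4 := by rw [Nat.card_eq_fintype_card]; decide +kernel
theorem c2 : Nat.card (Z3 × A4) = 36 := by rw [Nat.card_eq_fintype_card]; decide +kernel

theorem ab33 : Ab (Z3 × Z3) :=
  ab9 (by rw [Nat.card_eq_fintype_card]; decide) fun g => Prod.ext (z2 g.1) (z2 g.2)

theorem ab36 : Ab (Z3 × A4) where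
  cl y z hy hz := Prod.ext (z3 _ _ (congrArg Prod.fst hy) (congrArg Prod.fst hz))
    (a3 _ _ (congrArg Prod.snd hy) (congrArg Prod.snd hz))
  six := a4
  card := by rw [c1, c2]
  inv := Or.inr c1
  thr x y w hx x1 hy hyx hw := by
    have x2 : x.2 = 1 := a1 _ fun h => congrArg Prod.snd (hx (1, h))
    refine Prod.ext (z2 _) (a2 y.2 w.2 (fun y2 => hyx ?_) (congrArg Prod.snd hy) (congrArg Prod.snd hw))
    rcases z1 x.1 y.1 (fun h => x1 (Prod.ext h x2)) with h | h | h
    · rw [show y = 1 from Prod.ext h y2]; exact one_mem _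
    · rw [show y = x from Prod.ext h (y2.trans x2.symm)]; exact mem_zpowers _
    · rw [show y = x * x from Prod.ext h (by simp [y2, x2])]; exact mul_mem (mem_zpowers _) (mem_zpowers _)

variable {G : Type u} [Group G] [Finite G] {x : G}

theorem Ab.mem (h : Ab (C1 x)) (y : G) : y ∈ V x ↔ y * x = x * y ∧ y * y = 1 := by
  let W : Subgroup G :=
    { carrier := {y | y * x = x * y ∧ y * y = 1}
      one_mem' := ⟨by simp, mul_one 1⟩
      mul_mem' := fun {a b} ha hb => ⟨mem_C1.1 (mul_mem (mem_C1.2 ha.1) (mem_C1.2 hb.1)),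
        congrArg Subtype.val (h.cl ⟨a, mem_C1.2 ha.1⟩ ⟨b, mem_C1.2 hb.1⟩ (Subtype.ext ha.2) (Subtype.ext hb.2))⟩
      inv_mem' := fun {a} ha => by rwa [inv_eq_of_mul_eq_one_right ha.2] }
  exact SetLike.ext_iff.1 (closure_eq W) y

theorem Ab.cardV (h : Ab (C1 x)) : Nat.card (V x) = Nat.card {y : C1 x // y * y = 1} :=
  Nat.card_congr
    { toFun := fun v => ⟨⟨v.1, V_le_C1 x v.2⟩, Subtype.ext ((h.mem _).1 v.2).2⟩
      invFun := fun y => ⟨y.1.1, (h.mem _).2 ⟨mem_C1.1 y.1.2, congrArg Subtype.val y.2⟩⟩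
      left_inv := fun _ => rfl
      right_inv := fun _ => rfl }

theorem Ab.dvd (h : Ab (C1 x)) : Nat.card (C1 x) ∣ 36 := by
  rw [h.card]
  rcases h.inv with e | e <;> rw [e] <;> decide

theorem Ab.six' (h : Ab (C1 x)) {y : G} (hy : y ∈ C1 x) : y ^ 6 = 1 := congrArg Subtype.val (h.six ⟨y, hy⟩)

theorem Ab.thr' (h : Ab (C1 x)) (hx : orderOf x = 3) {y w : G} (hy : y ∈ C1 x) (h3 : y ^ 3 = 1) (hn : y ∉ zpowers x)
    (hw : w ∈ C1 x) (e : w * y = y * w) : w ^ 3 = 1 :=
  congrArg Subtype.val (h.thr ⟨x, mem_C1.2 rfl⟩ ⟨y, hy⟩ ⟨w, hw⟩ (fun k => Subtype.ext (mem_C1.1 k.2))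
    (fun e => by
      rw [show x = 1 from congrArg Subtype.val e, orderOf_one] at hx
      omega) (Subtype.ext h3) (fun ⟨n, e⟩ => hn ⟨n, by simpa using congrArg Subtype.val e⟩) (Subtype.ext e))

theorem Ab.ex9 (h : Ab (C1 x)) (hx : orderOf x = 3) {A : Subgroup G} (hA : A ≤ C1 x) (h9 : 9 ∣ Nat.card A) :
    ∃ y ∈ A, y ∉ zpowers x ∧ y ^ 3 = 1 := by
  haveI : Fact (Nat.Prime 3) := ⟨Nat.prime_three⟩
  obtain ⟨K, hK⟩ := Sylow.exists_subgroup_card_pow_prime (G := A) 3 (n := 2) h9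
  have hn : ¬ K.map A.subtype ≤ zpowers x := fun hle => by
    have := card_le_of_le hle
    rw [card_map_of_injective A.subtype_injective, hK, Nat.card_zpowers, hx] at this
    omega
  obtain ⟨_, ⟨y, hy, rfl⟩, hyx⟩ := SetLike.not_le_iff_exists.1 hn
  refine ⟨y, y.2, hyx, ?_⟩
  have h1 : (y : G) ^ 9 = 1 := by
    have := pow_card_eq_one' (x := (⟨y, hy⟩ : K))
    rw [hK] at this
    exact congrArg (fun z : K => (z : G)) this
  exact pow_gcd_eq_one.2 ⟨h1, h.six' (hA y.2)⟩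

theorem Ab.small (h : Ab (C1 x)) {B : Subgroup G} (hB : B ≤ C1 x) (h3 : ∀ w ∈ B, w ^ 3 = 1) : Nat.card B ≤ 9 := by
  haveI : Fact (Nat.Prime 3) := ⟨Nat.prime_three⟩
  obtain ⟨k, hk⟩ := IsPGroup.iff_card.1 (isPGroup_iff_forall (p := 3).2 fun w hw => ⟨1, by rw [pow_one, h3 w hw]⟩)
  have hd := (card_dvd_of_le hB).trans h.dvd
  rw [hk] at hd ⊢
  by_contra hn
  have h1 : 3 ≤ k := by
    by_contra h2
    exact hn (Nat.pow_le_pow_right (n := 3) (by omega) (show k ≤ 2 by omega))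
  exact absurd ((pow_dvd_pow 3 h1).trans hd) (by decide)

theorem ord3 {y : G} (h3 : y ^ 3 = 1) (hn : y ∉ zpowers x) : orderOf y = 3 :=
  haveI : Fact (Nat.Prime 3) := ⟨Nat.prime_three⟩
  orderOf_eq_prime h3 fun e => hn (e ▸ one_mem _)

theorem ex3 {A : Subgroup G} (h : 3 ∣ Nat.card A) : ∃ x ∈ A, orderOf x = 3 := by
  haveI : Fact (Nat.Prime 3) := ⟨Nat.prime_three⟩
  obtain ⟨x, hx⟩ := exists_prime_orderOf_dvd_card' 3 h
  exact ⟨x, x.2, by rw [orderOf_coe, hx]⟩

theorem loc_of (h : ∀ x : G, orderOf x = 3 → Ab (C1 x)) (ex : ∃ s : G, orderOf s = 3) : Loc G where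
  ex := ex
  mem x hx := (h x hx).mem
  two x hx y k hy hk := ((h x hx).mem y).2 ⟨hy, by
    have h1 := orderOf_dvd_of_pow_eq_one ((h x hx).six' (mem_C1.2 hy))
    have h2 := Nat.Coprime.coprime_dvd_left (orderOf_dvd_of_pow_eq_one hk)
      (Nat.Coprime.pow_left k (show Nat.Coprime 2 3 by decide))
    rw [← sq]
    exact orderOf_dvd_iff_pow_eq_one.1 (h2.dvd_of_dvd_mul_right (k := orderOf y) (m := 2) h1)⟩
  cV x hx hne := by
    rw [(h x hx).cardV]
    exact (h x hx).inv.resolve_left fun e => hne (card_eq_one.1 ((h x hx).cardV.trans e))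
  cC x hx := by rw [(h x hx).cardV, (h x hx).card]
  ex3 x hx := by
    obtain ⟨y, hy, h1, h2⟩ := (h x hx).ex9 hx le_rfl ⟨_, (h x hx).card⟩
    exact ⟨y, ord3 h2 h1, (mem_C1.1 hy).symm, h1⟩
  cP x y hx hy hc hn := by
    have h3 : y ^ 3 = 1 := by rw [← hy, pow_orderOf_eq_one]
    refine (eq_of_le_of_card_ge (sup_le (zpowers_le.2 (mem_inf.2 ⟨mem_C1.2 rfl, mem_C1.2 hc⟩))
      (zpowers_le.2 (mem_inf.2 ⟨mem_C1.2 hc.symm, mem_C1.2 rfl⟩))) ?_).symm
    refine ((h x hx).small inf_le_left fun w hw => (h x hx).thr' hx (mem_C1.2 hc.symm) h3 hn hw.1 (mem_C1.1 hw.2)).trans ?_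
    have h1 := card_sup_mul_card_inf (H := zpowers x) (K := zpowers y) (zpowers_le.2 (cent_le_norm _ (by
      rintro _ ⟨n, rfl⟩; exact (Commute.zpow_left hc.symm n).eq)))
    have h2 := card_dvd_of_le (inf_le_right (a := zpowers x) (b := zpowers y))
    rw [Nat.card_zpowers, hy] at h2
    rw [Nat.card_zpowers, Nat.card_zpowers, hx, hy] at h1
    rcases (Nat.dvd_prime Nat.prime_three).1 h2 with e | e
    · rw [e] at h1; omega
    · exact absurd ((eq_of_le_of_card_ge (inf_le_right (a := zpowers x) (b := zpowers y))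
        (by rw [e, Nat.card_zpowers, hy])).ge (mem_zpowers y)).1 hn
  not27 h27 := by
    haveI : Fact (Nat.Prime 3) := ⟨Nat.prime_three⟩
    obtain ⟨S, hS⟩ := Sylow.exists_subgroup_card_pow_prime (G := G) 3 (n := 3) h27
    have hP : IsPGroup 3 S := IsPGroup.of_card hS
    haveI : Nontrivial S := Finite.one_lt_card_iff_nontrivial.1 (by rw [hS]; decide)
    haveI := hP.center_nontrivial
    obtain ⟨k, hk0, hk⟩ := (hP.to_subgroup (center S)).nontrivial_iff_card.1 inferInstance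
    obtain ⟨x, hx, h3⟩ := ex3 (A := center S) (by rw [hk]; exact dvd_pow_self 3 hk0.ne')
    have h1 : S ≤ C1 (x : G) := fun s hs => mem_C1.2 (congrArg Subtype.val (mem_center_iff.1 hx ⟨s, hs⟩))
    have := (card_dvd_of_le h1).trans (h x (by rw [orderOf_coe, h3])).dvd
    rw [hS] at this
    exact absurd this (by decide)
  inv9 t ht h9 := by
    haveI : Fact (Nat.Prime 3) := ⟨Nat.prime_three⟩
    obtain ⟨K, hK⟩ := Sylow.exists_subgroup_card_pow_prime (G := C1 t) 3 (n := 2) h9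
    have hS : Nat.card (K.map (C1 t).subtype) = 3 ^ 2 := by rw [card_map_of_injective (C1 t).subtype_injective, hK]
    have hle : K.map (C1 t).subtype ≤ C1 t := map_subtype_le K
    generalize K.map (C1 t).subtype = S at hS hle
    obtain ⟨x, hx, h3⟩ := ex3 (A := S) (by rw [hS]; decide)
    have h1 : S ≤ C1 x := fun s hs =>
      mem_C1.2 (congrArg Subtype.val ((IsPGroup.isMulCommutative_of_card_eq_prime_sq hS).is_comm.comm ⟨s, hs⟩ ⟨x, hx⟩))
    obtain ⟨y, hy, h4, h5⟩ := (h x h3).ex9 h3 h1 (by rw [hS]; decide)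
    have := orderOf_dvd_of_pow_eq_one ((h x h3).thr' h3 (h1 hy) h5 h4 (mem_C1.2 (mem_C1.1 (hle hx)).symm)
      (mem_C1.1 (hle hy)).symm)
    rw [ht] at this
    exact absurd this (by decide)
  ord g hg := by
    obtain ⟨x, ⟨n, rfl⟩, h3⟩ := ex3 (A := zpowers g) (by rwa [Nat.card_zpowers])
    have h1 := orderOf_dvd_of_pow_eq_one ((h _ h3).six' (mem_C1.2 (Commute.self_zpow g n).eq))
    have h2 := Nat.le_of_dvd (by decide) h1
    generalize orderOf g = m at hg h1 h2
    interval_cases m <;> omega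
  ab A hA h3 := by
    obtain ⟨x, hx, h3'⟩ := ex3 h3
    have cm : ∀ a ∈ A, ∀ b ∈ A, a * b = b * a := fun a ha b hb =>
      congrArg Subtype.val (hA.is_comm.comm (⟨a, ha⟩ : A) ⟨b, hb⟩)
    have h1 : A ≤ C1 x := fun a ha => mem_C1.2 (cm a ha x hx)
    by_cases h9 : 9 ∣ Nat.card A
    · obtain ⟨y, hy, h4, h5⟩ := (h x h3').ex9 h3' h1 h9
      exact ((h x h3').small h1 fun w hw => (h x h3').thr' h3' (h1 hy) h5 h4 (h1 hw) (cm w hw y hy)).trans (by decide)
    · have h4 := (card_dvd_of_le h1).trans (h x h3').dvd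
      have h5 := Nat.le_of_dvd (by decide) h4
      generalize Nat.card A = m at h9 h4 h5
      interval_cases m <;> omega

end Locx

open Locx in
theorem locS : LocS.{u} := fun G _ _ =>
  ⟨fun h => loc_of fun x hx => (h x hx).elim (fun ⟨e⟩ => ab33.congr e) fun ⟨e⟩ => ab36.congr e,
    fun h => loc_of fun x hx => ab9 (h x hx).1 fun g => Subtype.ext ((h x hx).2 g g.2), fun h hV y hy => by
      have hc : Nat.card (C1 y) = 9 := by rw [h.cC y hy, hV y hy, card_bot]
      refine ⟨hc, fun g hg => orderOf_dvd_iff_pow_eq_one.1 ?_⟩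
      have h1 := orderOf_dvd_natCard (⟨g, hg⟩ : C1 y)
      rw [hc, ← orderOf_coe] at h1
      have h2 := h.ord g
      have h3 := Nat.le_of_dvd (by decide) h1
      change orderOf g ∣ 9 at h1
      change orderOf g ≤ 9 at h3
      generalize orderOf g = m at h1 h2 h3
      interval_cases m <;> omega⟩

end CL.T3
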