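/-
Project T3 (S3253), step Q8: no involution commuting with a regular action of a group of order 8 with one involution
acts freely together with its product with the central involution.
-/
import Cfsg.Agent.T3.Defs
import Cfsg.Agent.Grp.PGroupCyc

set_option autoImplicit false
set_option linter.unusedSectionVars false
open Cfsg Subgroup CL.Even CL.Grp

namespace CL.T3

universe u

namespace Q8x

section
variable {Γ : Type} [Group Γ] [Fintype Γ] [DecidableEq Γ]

/-- the unit of the group algebra -/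
def de (g : Γ) : ZMod 2 := if g = 1 then 1 else 0

/-- membership in `(1 + i) Rad` -/
def InS (τ : Γ → ZMod 2) (i : Γ) (k : Γ → ZMod 2) : Prop := (∀ g, k (i * g) = k g) ∧ ∑ g, τ g * k g = 0

instance (τ : Γ → ZMod 2) (i : Γ) : DecidablePred (InS τ i) := fun _ => instDecidableAnd

/-- the finite check -/
def Tab (τ : Γ → ZMod 2) (i : Γ) : Prop := (∀ g, i * g = g * i) ∧ (Finset.univ.filter (InS τ i)).card ≤ 8 ∧
  ∀ n : Γ → ZMod 2, (∀ k, ∑ g, n g * n (g⁻¹ * k) = de k) →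
    (∀ h, InS τ i fun g => n (h⁻¹ * g) - de (h⁻¹ * g)) ∨ ∀ h, InS τ i fun g => n (i⁻¹ * (h⁻¹ * g)) - de (h⁻¹ * g)

def sS (τ : Γ → ZMod 2) (i : Γ) : AddSubgroup (Γ → ZMod 2) where
  carrier := {k | InS τ i k}
  zero_mem' := ⟨fun _ => rfl, by simp⟩
  add_mem' := fun h k => ⟨fun g => by simp [h.1 g, k.1 g], by simp [mul_add, Finset.sum_add_distrib, h.2, k.2]⟩
  neg_mem' := fun h => ⟨fun g => by simp [h.1 g], by simpa using h.2⟩

variable {V : Type u} [AddCommGroup V] [Module (ZMod 2) V] [Finite V]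

theorem core (hΓ : Fintype.card Γ = 8) (hV : Nat.card V = 256) (ρ : Γ → V →+ V) (ρ1 : ∀ v, ρ 1 v = v)
    (ρm : ∀ g h v, ρ (g * h) v = ρ g (ρ h v)) (a : V) (gen : ∀ K : AddSubgroup V, (∀ g, ρ g a ∈ K) → ∀ v, v ∈ K)
    (J : V →+ V) (JJ : J (J a) = a) (Jρ : ∀ g v, J (ρ g v) = ρ g (J v)) {τ : Γ → ZMod 2} {i : Γ} (T : Tab τ i)
    (h1 : Nat.card {v // J v = v} = 16) (h2 : Nat.card {v // ρ i (J v) = v} = 16) : False := by
  let β : (Γ → ZMod 2) →+ V := AddMonoidHom.mk' (fun m => ∑ g, m g • ρ g a) fun m k => by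
    simp [add_smul, Finset.sum_add_distrib]
  have hβ : ∀ m, β m = ∑ g, m g • ρ g a := fun _ => rfl
  have tr : ∀ h m, ρ h (β m) = β fun g => m (h⁻¹ * g) := fun h m => by
    rw [hβ, hβ, map_sum, ← Equiv.sum_comp (Equiv.mulLeft h) fun g => m (h⁻¹ * g) • ρ g a]
    simp [ZMod.map_smul, ρm]
  have b1 : β de = a := by simp [hβ, de, ρ1]
  have sur : Function.Surjective β := fun v => gen β.range (fun g => ⟨_, (tr g de).symm.trans (by rw [b1])⟩) v
  have inj : Function.Injective β := ((Nat.bijective_iff_surjective_and_card β).2 ⟨sur, by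
    rw [hV, Nat.card_fun, Nat.card_zmod, Nat.card_eq_fintype_card, hΓ]; rfl⟩).1
  obtain ⟨n, hn⟩ := sur (J a)
  have nn : (∑ g, n g • fun k => n (g⁻¹ * k)) = de := inj (by
    rw [b1, ← JJ, ← hn, hβ n, map_sum, map_sum]
    refine Finset.sum_congr rfl fun g _ => ?_
    rw [ZMod.map_smul, ZMod.map_smul, Jρ, ← hn, tr])
  have rk : ∀ (Θ : V →+ V) (θ : Γ → ZMod 2), (∀ g v, Θ (ρ g v) = ρ g (Θ v)) → Θ a = β θ →
      (∀ h, InS τ i fun g => θ (h⁻¹ * g) - de (h⁻¹ * g)) → Nat.card {v // Θ v = v} ≠ 16 := fun Θ θ k1 k2 k3 k4 => by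
    have k5 : (Θ - AddMonoidHom.id V).range ≤ (sS τ i).map β := by
      rintro _ ⟨v, rfl⟩
      refine gen (((sS τ i).map β).comap _) (fun g => ⟨fun x => θ (g⁻¹ * x) - de (g⁻¹ * x), k3 g, ?_⟩) v
      rw [AddMonoidHom.sub_apply, k1, k2, AddMonoidHom.id_apply, ← b1, tr, tr, ← map_sub]
      rfl
    have k6 : Nat.card (sS τ i) ≤ 8 := by
      change Nat.card {k // InS τ i k} ≤ 8
      rw [Nat.card_eq_fintype_card, Fintype.card_subtype]
      exact T.2.1
    have k7 := (AddSubgroup.card_le_of_le k5).trans ((Nat.card_image_le (Set.toFinite _)).trans k6)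
    have k8 := (Θ - AddMonoidHom.id V).ker.index_mul_card
    have k9 : Nat.card (Θ - AddMonoidHom.id V).ker = 16 :=
      k4 ▸ Nat.card_congr (Equiv.subtypeEquivRight fun v => sub_eq_zero)
    rw [AddSubgroup.index_ker, k9, hV] at k8
    omega
  rcases T.2.2 n (fun k => by simpa using congrFun nn k) with h | h
  · exact rk J n Jρ hn.symm h h1
  · exact rk ((ρ i).comp J) (fun g => n (i⁻¹ * g)) (fun g v => by simp [Jρ, ← ρm, T.1 g])
      (by rw [AddMonoidHom.comp_apply, ← hn, tr]) h h2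

end

theorem tabZ : Tab (fun g : Multiplicative (ZMod 8) => if g.toAdd.val < 4 then 1 else 0) (Multiplicative.ofAdd 4) := by
  unfold Tab; decide +kernel

theorem tabQ : Tab (fun g : QuaternionGroup 2 => if g = .a 0 ∨ g = .a 1 ∨ g = .xa 0 ∨ g = .xa 1 then 1 else 0)
    (.a 2) := by
  unfold Tab; decide +kernel

theorem invZ : ∀ g : Multiplicative (ZMod 8), g * g = 1 → g = 1 ∨ g = Multiplicative.ofAdd 4 := by decide

theorem invQ : ∀ g : QuaternionGroup 2, g * g = 1 → g = 1 ∨ g = .a 2 := by decide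

variable {G : Type u} [Group G] [Finite G]

/-- conjugation on `R` -/
def cA (R : Subgroup G) {x : G} (hx : x ∈ 𝒩(R)) : Additive R →+ Additive R :=
  AddMonoidHom.mk' (fun r => Additive.ofMul ⟨x * (r.toMul : R) * x⁻¹, conj_mem hx r.toMul.2⟩) fun r s =>
    congrArg Additive.ofMul (Subtype.ext (by simp [mul_assoc]))

theorem cA_eq {R : Subgroup G} {x : G} (hx : x ∈ 𝒩(R)) {r s : Additive R} :
    cA R hx r = s ↔ x * (r.toMul : R) * x⁻¹ = (s.toMul : R) :=
  ⟨fun h => h ▸ rfl, fun h => congrArg Additive.ofMul (Subtype.ext h)⟩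

theorem cA_coe {R : Subgroup G} {x : G} (hx : x ∈ 𝒩(R)) (r : Additive R) :
    (((cA R hx r).toMul : R) : G) = x * (r.toMul : R) * x⁻¹ := rfl

theorem card_fix {R : Subgroup G} {x : G} (hx : x ∈ 𝒩(R)) :
    Nat.card {v // cA R hx v = v} = Nat.card (R ⊓ C1 x : Subgroup G) :=
  Nat.card_congr ⟨fun v => ⟨(v.1.toMul : R), v.1.toMul.2, mem_C1.2 (mul_inv_eq_iff_eq_mul.1 ((cA_eq hx).1 v.2)).symm⟩,
    fun y => ⟨Additive.ofMul ⟨y.1, y.2.1⟩, (cA_eq hx).2 (mul_inv_eq_iff_eq_mul.2 (mem_C1.1 y.2.2).symm)⟩,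
    fun _ => rfl, fun _ => rfl⟩

theorem main {Γ : Type} [Group Γ] [Fintype Γ] [DecidableEq Γ] {R E : Subgroup G} {i j a : G} (e : Γ ≃* E) {i' : Γ}
    {τ : Γ → ZMod 2} (T : Tab τ i') (hinv : ∀ g : Γ, g * g = 1 → g = 1 ∨ g = i') (hR : El R) (cR : Nat.card R = 256)
    (cE : Nat.card E = 8) (hE : E ≤ 𝒩(R)) (hi : i ∈ E) (oi : orderOf i = 2) (ha : a ∈ R)
    (gen : ∀ K : Subgroup G, (∀ e ∈ E, e * a * e⁻¹ ∈ K) → R ≤ K) (hj : j ∈ 𝒩(R)) (jj : j * j ∈ 𝒞(R))
    (je : ∀ e ∈ E, j * e * j⁻¹ * e⁻¹ ∈ 𝒞(R)) (c1 : Nat.card (R ⊓ C1 j : Subgroup G) = 16)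
    (c2 : Nat.card (R ⊓ C1 (i * j) : Subgroup G) = 16) : False := by
  let _ : AddCommGroup (Additive R) := { (inferInstance : AddGroup (Additive R)) with
    add_comm := fun r s => congrArg Additive.ofMul (Subtype.ext (hR.comm r.toMul.2 s.toMul.2)) }
  let _ : Module (ZMod 2) (Additive R) := AddCommGroup.zmodModule fun r => by
    rw [two_nsmul]; exact congrArg Additive.ofMul (Subtype.ext (hR _ r.toMul.2))
  have ei : (e i' : G) = i := by
    rcases hinv (e.symm ⟨i, hi⟩) (by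
      rw [← map_mul, map_eq_one_iff _ e.symm.injective, Subtype.ext_iff, coe_mul, ← pow_two, ← oi]
      exact pow_orderOf_eq_one i) with h | h
    · rw [map_eq_one_iff _ e.symm.injective, Subtype.ext_iff] at h
      rw [show i = 1 from h, orderOf_one] at oi
      omega
    · rw [← h, e.apply_symm_apply]
  refine core (V := Additive R) (by rw [← Nat.card_eq_fintype_card, Nat.card_congr e.toEquiv, cE]) cR
    (fun g => cA R (hE (e g).2)) (fun v => (cA_eq _).2 (by simp)) (fun g h v => (cA_eq _).2 (by simp [cA_coe, mul_assoc]))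
    (Additive.ofMul ⟨a, ha⟩) (fun K hK v => ?_) (cA R hj) ((cA_eq _).2 ?_) (fun g v => (cA_eq _).2 ?_) T
    ((card_fix hj).trans c1) ?_
  · obtain ⟨w, hw, ew⟩ := gen ((AddSubgroup.toSubgroup' K).map R.subtype) (fun x hx =>
      ⟨_, hK (e.symm ⟨x, hx⟩), (cA_coe (hE (e (e.symm ⟨x, hx⟩)).2) (Additive.ofMul ⟨a, ha⟩)).trans (by simp)⟩) v.toMul.2
    rwa [show w = v.toMul from Subtype.ext ew] at hw
  · have := conj_eq_of_mem jj ha
    simpa [cA_coe, mul_assoc] using this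
  · have := conj_eq_of_mem (je _ (e g).2) (conj_mem (hE (e g).2) (conj_mem hj v.toMul.2))
    simpa [cA_coe, mul_assoc] using this
  · rw [← c2, ← card_fix (mul_mem (hE hi) hj)]
    exact Nat.card_congr (Equiv.subtypeEquivRight fun v => by simp [cA_eq, cA_coe, ei, mul_assoc])

end Q8x

open Q8x in
theorem q8S : Q8S.{u} := by
  intro G _ _ R E i j a hR cR cE hE hi oi hu ha gen hj jj je c1 c2
  have h2 : ∀ H : Subgroup E, Nat.card H = 2 → H = zpowers ⟨i, hi⟩ := fun H hH => by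
    refine eq_of_le_of_card_ge (fun x hx => ?_) (by rw [hH, Nat.card_zpowers, ← orderOf_coe, oi])
    have h1 : x ^ 2 = 1 := congrArg Subtype.val (hH ▸ pow_card_eq_one' (x := (⟨x, hx⟩ : H)))
    rcases hu x x.2 (by rw [← pow_two]; exact congrArg Subtype.val h1) with h | h
    · exact (show x = 1 from Subtype.ext h) ▸ one_mem _
    · exact (show x = ⟨i, hi⟩ from Subtype.ext h) ▸ mem_zpowers _
  rcases isCyclic_or_nonempty_quaternion_of_unique (p := 2) (IsPGroup.of_card (n := 3) cE)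
    (fun H K hH hK => (h2 H hH).trans (h2 K hK).symm) with h | ⟨-, k, ⟨e⟩⟩
  · exact main (mulEquivOfCyclicCardEq (by rw [cE, Nat.card_eq_fintype_card]; rfl)) tabZ invZ hR cR cE hE hi oi ha gen
      hj jj je c1 c2
  · have hc := Nat.card_congr e.toEquiv
    rw [cE, Nat.card_eq_fintype_card, QuaternionGroup.card, pow_succ] at hc
    obtain rfl : k = 0 := Nat.pow_eq_one.1 (show 2 ^ k = 1 by omega) |>.resolve_left (by decide)
    exact main e.symm tabQ invQ hR cR cE hE hi oi ha gen hj jj je c1 c2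

end CL.T3
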